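import Mathlib

/-!
# helper25: recognition of the alternating group of degree 4
-/

set_option autoImplicit false

namespace Cfsg.Agent.H25

/-- A group of order 12 containing commuting involutions `u`, `v` and an element `x` with
`x ^ 3 = 1`, `x u x⁻¹ = v`, `x v x⁻¹ = u v` is isomorphic to `A₄`. -/
theorem a4_of_four_three {H : Type*} [Group H] [Finite H] (hcard : Nat.card H = 12)
    (u v x : H) (hu : u ^ 2 = 1) (hune : u ≠ 1)
    (hx : x * u * x⁻¹ = v) (hxv : x * v * x⁻¹ = u * v) (hx3 : x ^ 3 = 1) :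
    Nonempty (H ≃* alternatingGroup (Fin 4)) := by
  have hx1 : x ≠ 1 := by
    rintro rfl
    simp only [one_mul, inv_one, mul_one] at hx hxv
    apply hune
    rw [hx]
    have h1 : v * 1 = v * v := by
      rw [mul_one]; nth_rewrite 1 [hxv]; rw [hx]
    exact (mul_left_cancel h1).symm
  have hox : orderOf x = 3 := orderOf_eq_prime hx3 hx1
  obtain ⟨L, hL⟩ : ∃ L : Subgroup H, L = Subgroup.zpowers x := ⟨_, rfl⟩
  have hLcard : Nat.card L = 3 := by rw [hL, Nat.card_zpowers, hox]
  have hLidx : L.index = 4 := by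
    have := L.card_mul_index
    rw [hLcard, hcard] at this
    omega
  -- `u` does not normalize `L`
  have hux : u * x * u⁻¹ ∉ L := by
    intro hmem
    -- the commutator `u * x * u⁻¹ * x⁻¹` lies in `L` and is an involution-like element
    have h1 : u * x * u⁻¹ * x⁻¹ ∈ L := L.mul_mem hmem (L.inv_mem (hL ▸ Subgroup.mem_zpowers x))
    have h2 : u * x * u⁻¹ * x⁻¹ = u * v := by
      have : x * u⁻¹ * x⁻¹ = v⁻¹ := by rw [← hx]; group
      have hv2 : v ^ 2 = 1 := by rw [← hx, conj_pow, hu]; group
      have hvinv : v⁻¹ = v := by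
        apply inv_eq_of_mul_eq_one_right; rw [← pow_two]; exact hv2
      calc u * x * u⁻¹ * x⁻¹ = u * (x * u⁻¹ * x⁻¹) := by group
        _ = u * v := by rw [this, hvinv]
    rw [h2] at h1
    -- `u * v = x * v * x⁻¹` has order dividing 2 and lies in a group of order 3
    have hv2 : v ^ 2 = 1 := by rw [← hx, conj_pow, hu]; group
    have h3 : (u * v) ^ 2 = 1 := by rw [← hxv, conj_pow, hv2]; group
    have h4 : (u * v) ^ 3 = 1 := by
      have h5 : (⟨u * v, h1⟩ : L) ^ Nat.card L = 1 := pow_card_eq_one'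
      rw [hLcard] at h5
      have := congrArg Subtype.val h5
      simpa using this
    have h6 : u * v = 1 := by
      have : (u * v) ^ 3 = (u * v) ^ 2 * (u * v) := pow_succ _ 2
      rw [h4, h3, one_mul] at this
      exact this.symm
    -- then `x * v * x⁻¹ = 1`, so `v = 1`, so `u = 1`
    rw [h6] at hxv
    have hv1 : v = 1 := by
      have : v = x⁻¹ * (x * v * x⁻¹) * x := by group
      rw [this, hxv]; group
    rw [hv1, mul_one] at h6
    exact hune h6
  have hcore : L.normalCore = ⊥ := by
    by_contra hne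
    have hle : L.normalCore ≤ L := L.normalCore_le
    have hdvd : Nat.card L.normalCore ∣ 3 := hLcard ▸ Subgroup.card_dvd_of_le hle
    rcases (Nat.dvd_prime Nat.prime_three).mp hdvd with h | h
    · exact hne (Subgroup.card_eq_one.mp h)
    · have heq : L.normalCore = L := Subgroup.eq_of_le_of_card_ge hle (by rw [h, hLcard])
      have hn : L.Normal := heq ▸ L.normalCore_normal
      exact hux (hn.conj_mem x (hL ▸ Subgroup.mem_zpowers x) u)
  have hρinj : Function.Injective (MulAction.toPermHom H (H ⧸ L)) := by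
    rw [← MonoidHom.ker_eq_bot_iff, ← Subgroup.normalCore_eq_ker, hcore]
  have hc4 : Nat.card (H ⧸ L) = 4 := hLidx
  obtain ⟨ε⟩ : Nonempty ((H ⧸ L) ≃ Fin 4) := ⟨Finite.equivFinOfCardEq hc4⟩
  obtain ⟨ψ, hψ⟩ : ∃ ψ : H →* Equiv.Perm (Fin 4),
      ψ = (ε.permCongrHom).toMonoidHom.comp (MulAction.toPermHom H (H ⧸ L)) := ⟨_, rfl⟩
  have hψinj : Function.Injective ψ := by
    rw [hψ]
    exact (ε.permCongrHom).injective.comp hρinj
  have hrc : Nat.card ψ.range = 12 := by
    rw [← Nat.card_congr (MonoidHom.ofInjective hψinj).toEquiv, hcard]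
  have hidx : ψ.range.index = 2 := by
    have h1 := ψ.range.card_mul_index
    rw [hrc, Nat.card_perm, Nat.card_eq_fintype_card, Fintype.card_fin] at h1
    have : Nat.factorial 4 = 24 := by decide
    omega
  have hrange : ψ.range = alternatingGroup (Fin 4) :=
    Equiv.Perm.eq_alternatingGroup_of_index_eq_two hidx
  exact ⟨(MonoidHom.ofInjective hψinj).trans (MulEquiv.subgroupCongr hrange)⟩

end Cfsg.Agent.H25
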