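import Mathlib
import Cfsg.Agent.H11.DihedralSub
import Cfsg.Agent.H25.Lift
import Cfsg.Agent.H25.NormFour

/-!
# helper25: subgroups of dihedral 2-groups are cyclic or dihedral; four-subgroups
-/

set_option autoImplicit false

namespace Cfsg.Agent.H25

/-- an element outside the rotation subgroup inverts the rotations -/
theorem rot_conj_inv {X : Type*} [Group X] {m : ℕ} {S : Subgroup X} {e : S ≃* DihedralGroup m}
    {s c : X} (hs : s ∈ S) (hs' : s ∉ H11.rot S e) (hc : c ∈ H11.rot S e) :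
    s * c * s⁻¹ = c⁻¹ := by
  obtain ⟨i, hi⟩ := H11.exists_sr_of_not_mem_rot hs hs'
  obtain ⟨hcS, j, hj⟩ := H11.mem_rot.mp hc
  have h1 : (⟨s, hs⟩ : S) * ⟨c, hcS⟩ * (⟨s, hs⟩ : S)⁻¹ = (⟨c, hcS⟩ : S)⁻¹ := by
    apply e.injective
    rw [map_mul, map_mul, map_inv, map_inv, hi, hj]
    have hinv : (DihedralGroup.sr i)⁻¹ = DihedralGroup.sr i := rfl
    have hinvr : (DihedralGroup.r j)⁻¹ = DihedralGroup.r (-j) := rfl
    rw [hinv, hinvr, DihedralGroup.sr_mul_r, DihedralGroup.sr_mul_sr]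
    congr 1; ring
  have h2 := congrArg Subtype.val h1
  simpa using h2

/-- A subgroup of a dihedral 2-group is cyclic or dihedral. -/
theorem dihedral_subgroup {X : Type*} [Group X] [Finite X] {n : ℕ} (P T : Subgroup X)
    (hP : IsPGroup 2 P) (e : P ≃* DihedralGroup (2 ^ n)) (hT : T ≤ P) :
    IsCyclic T ∨ ∃ k : ℕ, 1 ≤ k ∧ Nonempty (T ≃* DihedralGroup (2 ^ k)) := by
  have hRc : IsCyclic (H11.rot P e) := H11.rot_isCyclic P e
  by_cases hTR : T ≤ H11.rot P e
  · left
    exact isCyclic_of_injective (Subgroup.inclusion hTR) (Subgroup.inclusion_injective hTR)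
  · obtain ⟨s, hsT, hsR⟩ := SetLike.not_le_iff_exists.mp hTR
    obtain ⟨c, hc⟩ : ∃ c : X, Subgroup.zpowers c = T ⊓ H11.rot P e := by
      have hle : T ⊓ H11.rot P e ≤ H11.rot P e := inf_le_right
      have : IsCyclic ↥(T ⊓ H11.rot P e) :=
        isCyclic_of_injective (Subgroup.inclusion hle) (Subgroup.inclusion_injective hle)
      exact (Subgroup.isCyclic_iff_exists_zpowers_eq_top _).mp this
    have hcmem : c ∈ T ⊓ H11.rot P e := hc ▸ Subgroup.mem_zpowers c
    have hcT : c ∈ T := hcmem.1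
    have hcR : c ∈ H11.rot P e := hcmem.2
    obtain ⟨k, hk⟩ : ∃ k : ℕ, orderOf c = 2 ^ k := by
      obtain ⟨j, hj⟩ := hP ⟨c, hT hcT⟩
      have h1 : c ^ 2 ^ j = 1 := by
        have := congrArg Subtype.val hj
        simpa using this
      obtain ⟨k, -, hk⟩ := (Nat.dvd_prime_pow Nat.prime_two).mp (orderOf_dvd_of_pow_eq_one h1)
      exact ⟨k, hk⟩
    have hs2 : s * s = 1 := by
      have := H11.orderOf_eq_two_of_not_mem_rot (hT hsT) hsR
      rw [← pow_two, ← this]; exact pow_orderOf_eq_one s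
    have hinv : s * c * s⁻¹ = c⁻¹ := rot_conj_inv (hT hsT) hsR hcR
    have hcard : Nat.card T = 2 * 2 ^ k := by
      rw [H11.card_eq_two_mul_of_mul_mem T (T ⊓ H11.rot P e) inf_le_left ?_ s hsT
        (fun hh => hsR hh.2), ← hc, Nat.card_zpowers, hk]
      intro x hx y hy hx' hy'
      refine ⟨T.mul_mem hx hy, ?_⟩
      exact H11.mul_mem_rot_of_not_mem (hT hx) (hT hy) (fun hh => hx' ⟨hx, hh⟩)
        (fun hh => hy' ⟨hy, hh⟩)
    rcases Nat.eq_zero_or_pos k with h0 | h0
    · left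
      rw [h0, pow_zero, mul_one] at hcard
      have : Fact (Nat.Prime 2) := ⟨Nat.prime_two⟩
      exact isCyclic_of_prime_card (p := 2) hcard
    · right
      have : NeZero (2 ^ k) := ⟨by positivity⟩
      refine ⟨k, h0, nonempty_dihedral_equiv (2 ^ k) T c s ?_ hs2 hinv ?_ ?_ hcT hsT hcard⟩
      · rw [← hk]; exact pow_orderOf_eq_one c
      · intro i hi
        have := orderOf_dvd_iff_zpow_eq_one.mpr hi
        rwa [hk] at this
      · intro i hi
        apply hsR
        have h1 : s = (c ^ i)⁻¹ := eq_inv_of_mul_eq_one_left hi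
        rw [h1]
        exact Subgroup.inv_mem _ (Subgroup.zpow_mem _ hcR i)

/-- A dihedral 2-group of order at least 4 contains a four-group. -/
theorem exists_four_of_dihedral {X : Type*} [Group X] [Finite X] {k : ℕ} (hk : 1 ≤ k)
    (S : Subgroup X) (e : S ≃* DihedralGroup (2 ^ k)) :
    ∃ K : Subgroup X, K ≤ S ∧ Nat.card K = 4 ∧ ∀ a ∈ K, a ^ 2 = 1 := by
  have : NeZero (2 ^ k) := ⟨by positivity⟩
  obtain ⟨j, rfl⟩ : ∃ j, k = j + 1 := ⟨k - 1, by omega⟩
  -- the central involution and a reflection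
  obtain ⟨m, hm⟩ : ∃ m : ZMod (2 ^ (j + 1)), m = ((2 ^ j : ℕ) : ZMod (2 ^ (j + 1))) := ⟨_, rfl⟩
  have hmm : m + m = 0 := by
    rw [hm, ← Nat.cast_add, ← two_mul, ← pow_succ']
    exact ZMod.natCast_self _
  have hm0 : m ≠ 0 := by
    rw [hm, Ne, ZMod.natCast_eq_zero_iff]
    intro hdvd
    have h1 := Nat.le_of_dvd (by positivity) hdvd
    have h2 : 2 ^ j < 2 ^ (j + 1) := Nat.pow_lt_pow_right (by norm_num) (by omega)
    omega
  obtain ⟨z, hz⟩ : ∃ z : S, z = e.symm (DihedralGroup.r m) := ⟨_, rfl⟩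
  obtain ⟨t, ht⟩ : ∃ t : S, t = e.symm (DihedralGroup.sr 0) := ⟨_, rfl⟩
  have hzz : z * z = 1 := by
    apply e.injective
    rw [map_mul, hz, e.apply_symm_apply, DihedralGroup.r_mul_r, hmm, map_one]; rfl
  have hz1 : z ≠ 1 := by
    intro h
    have h1 : e z = 1 := by rw [h, map_one]
    rw [hz, e.apply_symm_apply, DihedralGroup.one_def] at h1
    exact hm0 (DihedralGroup.r.inj h1)
  have htt : t * t = 1 := by
    apply e.injective
    rw [map_mul, ht, e.apply_symm_apply, DihedralGroup.sr_mul_sr, sub_self, map_one]; rfl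
  have htz : t * z = z * t := by
    apply e.injective
    rw [map_mul, map_mul, ht, hz, e.apply_symm_apply, e.apply_symm_apply, DihedralGroup.sr_mul_r,
      DihedralGroup.r_mul_sr]
    congr 1
    rw [zero_add, zero_sub]
    exact (neg_eq_of_add_eq_zero_left hmm).symm
  have htne : ∀ i : ℤ, t ≠ z ^ i := by
    intro i h
    have h1 : e t = e (z ^ i) := by rw [h]
    rw [ht, map_zpow, hz, e.apply_symm_apply, e.apply_symm_apply, DihedralGroup.r_zpow] at h1
    cases h1
  -- in the ambient group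
  have hzz' : (z : X) * (z : X) = 1 := by
    have := congrArg Subtype.val hzz
    simpa using this
  have htt' : (t : X) * (t : X) = 1 := by
    have := congrArg Subtype.val htt
    simpa using this
  have htz' : (t : X) * (z : X) = (z : X) * (t : X) := by
    have := congrArg Subtype.val htz
    simpa using this
  have hz1' : (z : X) ≠ 1 := fun h => hz1 (Subtype.ext h)
  have hcomm : ∀ v ∈ Subgroup.zpowers (z : X), (t : X) * v = v * (t : X) := by
    intro v hv
    obtain ⟨i, rfl⟩ := Subgroup.mem_zpowers_iff.mp hv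
    have hc : Commute (t : X) (z : X) := htz'
    exact (hc.zpow_right i).eq
  have htV : (t : X) ∉ Subgroup.zpowers (z : X) := by
    intro hv
    obtain ⟨i, hi⟩ := Subgroup.mem_zpowers_iff.mp hv
    apply htne i
    apply Subtype.ext
    rw [← hi]; simp
  have hoz : orderOf (z : X) = 2 := by
    have : Fact (Nat.Prime 2) := ⟨Nat.prime_two⟩
    exact orderOf_eq_prime (by rw [pow_two]; exact hzz') hz1'
  refine ⟨dbl (Subgroup.zpowers (z : X)) (t : X) htt' hcomm, ?_, ?_, ?_⟩
  · intro x hx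
    have hVS : Subgroup.zpowers (z : X) ≤ S := (Subgroup.zpowers_le).mpr z.2
    rcases mem_dbl.mp hx with h | h
    · exact hVS h
    · have h1 : x = (x * (t : X)) * (t : X)⁻¹ := by group
      rw [h1]; exact S.mul_mem (hVS h) (S.inv_mem t.2)
  · rw [card_dbl htV, Nat.card_zpowers, hoz]
  · intro a ha
    rw [pow_two]
    apply sq_dbl _ ha
    intro v hv
    obtain ⟨i, rfl⟩ := Subgroup.mem_zpowers_iff.mp hv
    rw [← (Commute.refl (z : X)).mul_zpow i, hzz', one_zpow]

end Cfsg.Agent.H25
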