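import Mathlib
import Cfsg.Agent.H11.DihedralFusion
import Cfsg.Agent.H3.PGroup
import Cfsg.Prelude.Def_Transfer

/-!
# The trichotomy for dihedral Sylow 2-subgroups (helper25)

Tools on top of helper11's dihedral fusion library.
-/

set_option autoImplicit false

namespace Cfsg.Agent.H25

open Cfsg.Agent.H11

/-- Lifting a normal `2`-complement from a normal subgroup of `2`-power index. -/
theorem hasN2C_of_normal_pow_index {Y : Type*} [Group Y] [Finite Y] (Y₁ : Subgroup Y) [Y₁.Normal]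
    (j : ℕ) (hi : Y₁.index = 2 ^ j) (h : HasN2C Y₁) : HasN2C Y := by
  obtain ⟨K₁, hK₁n, hK₁o, k, hk⟩ := h
  refine ⟨K₁.map Y₁.subtype, ⟨?_⟩, ?_, k + j, ?_⟩
  · intro n hn g
    obtain ⟨n₁, hn₁, rfl⟩ := Subgroup.mem_map.mp hn
    have hmem : g * (n₁ : Y) * g⁻¹ ∈ Y₁ := Subgroup.Normal.conj_mem inferInstance _ n₁.2 g
    refine Subgroup.mem_map.mpr ⟨⟨_, hmem⟩, ?_, rfl⟩
    apply mem_of_odd_orderOf K₁ hk
    have h1 : orderOf (⟨g * (n₁ : Y) * g⁻¹, hmem⟩ : Y₁) = orderOf n₁ := by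
      rw [← Subgroup.orderOf_coe, ← Subgroup.orderOf_coe n₁]
      exact orderOf_conj_eq _ _
    rw [h1]
    have h2 : orderOf n₁ ∣ Nat.card K₁ := by
      have := orderOf_dvd_natCard (⟨n₁, hn₁⟩ : K₁)
      rwa [← Subgroup.orderOf_coe] at this
    exact Odd.of_dvd_nat hK₁o h2
  · rw [Subgroup.card_map_of_injective Y₁.subtype_injective]
    exact hK₁o
  · rw [Subgroup.index_map_subtype, hk, hi, pow_add]

/-- If a normal subgroup `N` of `2`-power index meets a Sylow `2`-subgroup inside a cyclic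
subgroup, the group has a normal `2`-complement. -/
theorem hasN2C_of_inf_le_cyclic {G : Type*} [Group G] [Finite G] (P : Sylow 2 G) (C : Subgroup G)
    (hC : IsCyclic C) (N : Subgroup G) [hN : N.Normal] (j : ℕ) (hidx : N.index = 2 ^ j)
    (hle : (P : Subgroup G) ⊓ N ≤ C) : HasN2C G := by
  have : Fact (Nat.Prime 2) := ⟨Nat.prime_two⟩
  apply hasN2C_of_normal_pow_index N j hidx
  obtain ⟨Q⟩ : Nonempty (Sylow 2 N) := inferInstance
  apply hasN2C_of_isCyclic_sylow Q
  have hQ' : IsPGroup 2 ((Q : Subgroup N).map N.subtype) := Q.2.map _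
  obtain ⟨h, -, hh⟩ := exists_conj_le_of_le_of_sylow P (H := ⊤) le_top le_top hQ'
  have hmemC : ∀ q : (Q : Subgroup N), h⁻¹ * ((q : N) : G) * h ∈ C := by
    intro q
    apply hle
    refine ⟨mem_cj.mp (hh (Subgroup.mem_map_of_mem _ q.2)), ?_⟩
    have := hN.conj_mem _ (q : N).2 h⁻¹
    simpa using this
  let f : (Q : Subgroup N) →* C :=
    { toFun := fun q => ⟨h⁻¹ * ((q : N) : G) * h, hmemC q⟩
      map_one' := by
        apply Subtype.ext
        simp
      map_mul' := by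
        intro a b
        apply Subtype.ext
        simp only [Subgroup.coe_mul]
        group }
  refine isCyclic_of_injective f ?_
  intro a b hab
  have h1 : h⁻¹ * ((a : N) : G) * h = h⁻¹ * ((b : N) : G) * h := congrArg Subtype.val hab
  have h2 : ((a : N) : G) = ((b : N) : G) := by
    have := mul_right_cancel h1
    exact mul_left_cancel this
  exact Subtype.ext (Subtype.ext h2)

/-- A Sylow `2`-subgroup supplements every normal subgroup of `2`-power index. -/
theorem sylow_sup_eq_top {G : Type*} [Group G] [Finite G] (P : Sylow 2 G) (N : Subgroup G)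
    (j : ℕ) (hidx : N.index = 2 ^ j) : (P : Subgroup G) ⊔ N = ⊤ := by
  have : Fact (Nat.Prime 2) := ⟨Nat.prime_two⟩
  rw [← Subgroup.index_eq_one]
  have h1 : ((P : Subgroup G) ⊔ N).index ∣ 2 ^ j := hidx ▸ Subgroup.index_dvd_of_le le_sup_right
  have h2 : ((P : Subgroup G) ⊔ N).index ∣ (P : Subgroup G).index :=
    Subgroup.index_dvd_of_le le_sup_left
  obtain ⟨i, -, hi⟩ := (Nat.dvd_prime_pow Nat.prime_two).mp h1
  rcases Nat.eq_zero_or_pos i with rfl | hpos
  · rw [hi, pow_zero]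
  · exfalso
    apply P.not_dvd_index
    refine dvd_trans ?_ h2
    rw [hi]
    exact dvd_pow_self 2 hpos.ne'

/-- `HasN2C` gives a normal `2`-complement in the sense of the Prelude. -/
theorem hasNormalPComplement_of_hasN2C {G : Type*} [Group G] [Finite G] (P : Sylow 2 G)
    (h : HasN2C G) : Cfsg.HasNormalPComplement 2 G := by
  have : Fact (Nat.Prime 2) := ⟨Nat.prime_two⟩
  obtain ⟨K, hKn, hKo, k, hk⟩ := h
  refine ⟨P, K, hKn, ?_⟩
  obtain ⟨a, ha⟩ := P.2.exists_card_eq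
  have hcop : (Nat.card K).Coprime (Nat.card (P : Subgroup G)) := by
    rw [ha]
    apply Nat.Coprime.pow_right
    exact (Nat.coprime_two_right).mpr hKo
  apply Subgroup.isComplement'_of_coprime _ hcop
  have hsup := sylow_sup_eq_top P K k hk
  have hinf : K ⊓ (P : Subgroup G) = ⊥ := Subgroup.inf_eq_bot_of_coprime hcop
  have h1 := Subgroup.card_mul_index K
  have h2 : K.relIndex (P : Subgroup G) = K.index := by
    have := Subgroup.relIndex_sup_right (P : Subgroup G) K
    rw [hsup, Subgroup.relIndex_top_right] at this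
    exact this.symm
  have h3 := Cfsg.Agent.H3.relIndex_mul_card_inf K (P : Subgroup G)
  rw [hinf, Subgroup.card_bot, mul_one, h2] at h3
  rw [← h1, h3]

/-- With a normal `2`-complement, `G`-conjugate elements of a Sylow `2`-subgroup `P` are
`P`-conjugate. -/
theorem conj_in_sylow_of_hasN2C {G : Type*} [Group G] [Finite G] (P : Sylow 2 G)
    (h : HasN2C G) (u v : G) (hu : u ∈ (P : Subgroup G)) (hv : v ∈ (P : Subgroup G)) (g : G)
    (hg : g * u * g⁻¹ = v) : ∃ p ∈ (P : Subgroup G), p * u * p⁻¹ = v := by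
  have : Fact (Nat.Prime 2) := ⟨Nat.prime_two⟩
  obtain ⟨K, hKn, hKo, k, hk⟩ := h
  obtain ⟨a, ha⟩ := P.2.exists_card_eq
  have hcop : (Nat.card K).Coprime (Nat.card (P : Subgroup G)) := by
    rw [ha]
    apply Nat.Coprime.pow_right
    exact (Nat.coprime_two_right).mpr hKo
  have hinf : K ⊓ (P : Subgroup G) = ⊥ := Subgroup.inf_eq_bot_of_coprime hcop
  have hsup : K ⊔ (P : Subgroup G) = ⊤ := by rw [sup_comm]; exact sylow_sup_eq_top P K k hk
  have hgm : g ∈ K ⊔ (P : Subgroup G) := hsup ▸ Subgroup.mem_top g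
  obtain ⟨c, hc, p, hp, rfl⟩ := Subgroup.mem_sup_of_normal_left.mp hgm
  refine ⟨p, hp, ?_⟩
  set u' := p * u * p⁻¹ with hu'
  have hu'P : u' ∈ (P : Subgroup G) :=
    Subgroup.mul_mem _ (Subgroup.mul_mem _ hp hu) (Subgroup.inv_mem _ hp)
  have hv' : v = c * u' * c⁻¹ := by rw [← hg, hu']; group
  have h1 : u'⁻¹ * v ∈ K := by
    have e : u'⁻¹ * v = (u'⁻¹ * c * u'⁻¹⁻¹) * c⁻¹ := by rw [hv']; group
    rw [e]
    exact K.mul_mem (hKn.conj_mem c hc u'⁻¹) (K.inv_mem hc)
  have h2 : u'⁻¹ * v ∈ (P : Subgroup G) := Subgroup.mul_mem _ (Subgroup.inv_mem _ hu'P) hv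
  have h3 : u'⁻¹ * v ∈ K ⊓ (P : Subgroup G) := ⟨h1, h2⟩
  rw [hinf, Subgroup.mem_bot] at h3
  exact (inv_mul_eq_one.mp h3)

end Cfsg.Agent.H25
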