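import Mathlib
import Cfsg.Agent.H25.DihTri

/-!
# The trichotomy for dihedral Sylow 2-subgroups (helper25), main theorem
-/

set_option autoImplicit false

namespace Cfsg.Agent.H25

open Cfsg.Agent.H11

theorem sr_conj (N : ℕ) [NeZero N] (i : ZMod N) :
    ∃ d : DihedralGroup N, d * DihedralGroup.sr i * d⁻¹ = DihedralGroup.sr 0 ∨
      d * DihedralGroup.sr i * d⁻¹ = DihedralGroup.sr 1 := by
  obtain ⟨j, b, hb, rfl⟩ : ∃ j b : ZMod N, (b = 0 ∨ b = 1) ∧ i = j + j + b := by
    refine ⟨((i.val / 2 : ℕ) : ZMod N), ((i.val % 2 : ℕ) : ZMod N), ?_, ?_⟩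
    · rcases Nat.mod_two_eq_zero_or_one i.val with h | h
      · left; rw [h]; simp
      · right; rw [h]; simp
    · conv_lhs => rw [← ZMod.natCast_zmod_val i, ← Nat.div_add_mod i.val 2]
      push_cast; ring
  refine ⟨DihedralGroup.r j, ?_⟩
  have hinv : (DihedralGroup.r j)⁻¹ = DihedralGroup.r (-j) := rfl
  have hconj : DihedralGroup.r j * DihedralGroup.sr (j + j + b) * (DihedralGroup.r j)⁻¹ =
      DihedralGroup.sr b := by
    rw [hinv, DihedralGroup.r_mul_sr, DihedralGroup.sr_mul_r]
    congr 1; ring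
  rcases hb with rfl | rfl
  · left; exact hconj
  · right; exact hconj

theorem sr_zero_not_conj_sr_one (N : ℕ) (hN : 2 ∣ N) (d : DihedralGroup N) :
    d * DihedralGroup.sr 0 * d⁻¹ ≠ DihedralGroup.sr 1 := by
  have key : ∀ j : ZMod N, j + j ≠ 1 := by
    intro j hj
    have h1 := congrArg (ZMod.castHom hN (ZMod 2)) hj
    rw [map_add, map_one] at h1
    have h2 : ∀ t : ZMod 2, t + t ≠ 1 := by decide
    exact h2 _ h1
  rcases d with j | j
  · have hinv : (DihedralGroup.r j)⁻¹ = DihedralGroup.r (-j) := rfl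
    rw [hinv, DihedralGroup.r_mul_sr, DihedralGroup.sr_mul_r]
    intro h
    have h' : (0 : ZMod N) - j + -j = 1 := DihedralGroup.sr.inj h
    apply key (-j)
    rw [← h']; ring
  · have hinv : (DihedralGroup.sr j)⁻¹ = DihedralGroup.sr j := rfl
    rw [hinv, DihedralGroup.sr_mul_sr, DihedralGroup.r_mul_sr]
    intro h
    have h' : j - (0 - j) = 1 := DihedralGroup.sr.inj h
    apply key j
    rw [← h']; ring

theorem r_not_conj_sr (N : ℕ) (d : DihedralGroup N) (k i : ZMod N) :
    d * DihedralGroup.r k * d⁻¹ ≠ DihedralGroup.sr i := by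
  rcases d with j | j
  · have hinv : (DihedralGroup.r j)⁻¹ = DihedralGroup.r (-j) := rfl
    rw [hinv, DihedralGroup.r_mul_r, DihedralGroup.r_mul_r]
    intro h; cases h
  · have hinv : (DihedralGroup.sr j)⁻¹ = DihedralGroup.sr j := rfl
    rw [hinv, DihedralGroup.sr_mul_r, DihedralGroup.sr_mul_sr]
    intro h; cases h

theorem dihedral_trichotomy {G : Type*} [Group G] [Finite G] (P : Sylow 2 G) (N : ℕ) [NeZero N]
    (hN2 : 2 ∣ N) (hN : 2 ≤ N) (e : (P : Subgroup G) ≃* DihedralGroup N) :
    (Nat.card {C : ConjClasses G // ∃ g : G, ConjClasses.mk g = C ∧ orderOf g = 2} = 1 ∧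
        ∀ N' : Subgroup G, N'.Normal → N'.index ≠ 2) ∨
      (Nat.card {C : ConjClasses G // ∃ g : G, ConjClasses.mk g = C ∧ orderOf g = 2} = 2 ∧
        (∃ N' : Subgroup G, N'.Normal ∧ N'.index = 2) ∧
          ∀ N' : Subgroup G, N'.Normal → N'.index ≠ 4) ∨
      (Nat.card {C : ConjClasses G // ∃ g : G, ConjClasses.mk g = C ∧ orderOf g = 2} = 3 ∧
        Cfsg.HasNormalPComplement 2 G) := by
  classical
  have : Fact (Nat.Prime 2) := ⟨Nat.prime_two⟩
  set R : Subgroup G := rot (P : Subgroup G) e with hR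
  have hRc : IsCyclic R := rot_isCyclic _ e
  have hRle : R ≤ (P : Subgroup G) := rot_le _ e
  have hRrel : R.relIndex (P : Subgroup G) = 2 := rot_relIndex _ e
  have hPcard : Nat.card (P : Subgroup G) = 2 * N := by
    rw [Nat.card_congr e.toEquiv, DihedralGroup.nat_card]
  have hRcard : Nat.card R = N := by
    have := Cfsg.Agent.H3.relIndex_mul_card_of_le hRle
    rw [hRrel, hPcard] at this; omega
  set y : G := ((e.symm (DihedralGroup.sr 0) : (P : Subgroup G)) : G) with hy
  set w : G := ((e.symm (DihedralGroup.sr 1) : (P : Subgroup G)) : G) with hw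
  have hyP : y ∈ (P : Subgroup G) := (e.symm (DihedralGroup.sr 0)).2
  have hwP : w ∈ (P : Subgroup G) := (e.symm (DihedralGroup.sr 1)).2
  have hyR : y ∉ R := symm_sr_not_mem_rot _ e 0
  have hwR : w ∉ R := symm_sr_not_mem_rot _ e 1
  have hy2 : orderOf y = 2 := orderOf_eq_two_of_not_mem_rot hyP hyR
  have hw2 : orderOf w = 2 := orderOf_eq_two_of_not_mem_rot hwP hwR
  obtain ⟨z0, hz0⟩ := exists_prime_orderOf_dvd_card' (G := R) 2 (by rw [hRcard]; exact hN2)
  set z : G := (z0 : G) with hz
  have hzR : z ∈ R := z0.2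
  have hz2 : orderOf z = 2 := by rw [hz, Subgroup.orderOf_coe]; exact hz0
  have hzP : z ∈ (P : Subgroup G) := hRle hzR
  have hF2 : ∀ u ∈ R, orderOf u = 2 → u = z := by
    intro u hu hu2
    have := involution_unique_of_isCyclic (C := R) (a := ⟨u, hu⟩) (b := z0)
      (by rw [Subgroup.orderOf_mk]; exact hu2) hz0
    exact congrArg Subtype.val this
  have hF1 : ∀ u ∈ (P : Subgroup G), u ∉ R →
      ∃ p ∈ (P : Subgroup G), p * u * p⁻¹ = y ∨ p * u * p⁻¹ = w := by
    intro u hu huR
    obtain ⟨i, hi⟩ := exists_sr_of_not_mem_rot hu huR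
    obtain ⟨d, hd⟩ := sr_conj N i
    refine ⟨(e.symm d : (P : Subgroup G)), (e.symm d).2, ?_⟩
    have key : ∀ t : DihedralGroup N, d * DihedralGroup.sr i * d⁻¹ = t →
        ((e.symm d : (P : Subgroup G)) : G) * u * ((e.symm d : (P : Subgroup G)) : G)⁻¹ =
          ((e.symm t : (P : Subgroup G)) : G) := by
      intro t ht
      have h1 : e.symm d * ⟨u, hu⟩ * (e.symm d)⁻¹ = e.symm t := by
        apply e.injective
        rw [map_mul, map_mul, map_inv, MulEquiv.apply_symm_apply, MulEquiv.apply_symm_apply,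
          hi, ht]
      have := congrArg Subtype.val h1
      simpa using this
    rcases hd with hd | hd
    · exact Or.inl (key _ hd)
    · exact Or.inr (key _ hd)
  have hF3 : ∀ g : G, orderOf g = 2 → IsConj g z ∨ IsConj g y ∨ IsConj g w := by
    intro g hg
    obtain ⟨c, hc⟩ := exists_conj_mem_sylow_of_involution P g hg
    have ho : orderOf (c * g * c⁻¹) = 2 := by rw [orderOf_conj_eq]; exact hg
    by_cases hcR : c * g * c⁻¹ ∈ R
    · left
      rw [isConj_iff]
      exact ⟨c, hF2 _ hcR ho⟩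
    · obtain ⟨p, hp, h | h⟩ := hF1 _ hc hcR
      · right; left
        rw [isConj_iff]
        exact ⟨p * c, by rw [← h]; group⟩
      · right; right
        rw [isConj_iff]
        exact ⟨p * c, by rw [← h]; group⟩
  set S : Set (ConjClasses G) := {C | ∃ g : G, ConjClasses.mk g = C ∧ orderOf g = 2} with hS
  have hcount : Nat.card {C : ConjClasses G // ∃ g : G, ConjClasses.mk g = C ∧ orderOf g = 2}
      = S.ncard := Nat.card_coe_set_eq S
  have hSeq : S = {ConjClasses.mk z, ConjClasses.mk y, ConjClasses.mk w} := by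
    ext C
    simp only [hS, Set.mem_ofPred_eq, Set.mem_insert_iff, Set.mem_singleton_iff]
    constructor
    · rintro ⟨g, rfl, hg⟩
      rcases hF3 g hg with h | h | h
      · left; exact ConjClasses.mk_eq_mk_iff_isConj.mpr h
      · right; left; exact ConjClasses.mk_eq_mk_iff_isConj.mpr h
      · right; right; exact ConjClasses.mk_eq_mk_iff_isConj.mpr h
    · rintro (rfl | rfl | rfl)
      · exact ⟨z, rfl, hz2⟩
      · exact ⟨y, rfl, hy2⟩
      · exact ⟨w, rfl, hw2⟩
  -- non-conjugacy under a normal 2-complement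
  have hnc : HasN2C G → ¬ IsConj z y ∧ ¬ IsConj z w ∧ ¬ IsConj y w := by
    intro h
    obtain ⟨hzmem, k, hk⟩ := mem_rot.mp hzR
    refine ⟨?_, ?_, ?_⟩
    · intro hc
      obtain ⟨g, hg⟩ := isConj_iff.mp hc
      obtain ⟨p, hp, hpe⟩ := conj_in_sylow_of_hasN2C P h z y hzP hyP g hg
      have h1 : (⟨p, hp⟩ : (P : Subgroup G)) * ⟨z, hzmem⟩ * (⟨p, hp⟩ : (P : Subgroup G))⁻¹ =
          e.symm (DihedralGroup.sr 0) := Subtype.ext (by simpa using hpe)
      have h2 := congrArg e h1
      rw [map_mul, map_mul, map_inv, hk, MulEquiv.apply_symm_apply] at h2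
      exact r_not_conj_sr N _ _ _ h2
    · intro hc
      obtain ⟨g, hg⟩ := isConj_iff.mp hc
      obtain ⟨p, hp, hpe⟩ := conj_in_sylow_of_hasN2C P h z w hzP hwP g hg
      have h1 : (⟨p, hp⟩ : (P : Subgroup G)) * ⟨z, hzmem⟩ * (⟨p, hp⟩ : (P : Subgroup G))⁻¹ =
          e.symm (DihedralGroup.sr 1) := Subtype.ext (by simpa using hpe)
      have h2 := congrArg e h1
      rw [map_mul, map_mul, map_inv, hk, MulEquiv.apply_symm_apply] at h2
      exact r_not_conj_sr N _ _ _ h2
    · intro hc
      obtain ⟨g, hg⟩ := isConj_iff.mp hc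
      obtain ⟨p, hp, hpe⟩ := conj_in_sylow_of_hasN2C P h y w hyP hwP g hg
      have h1 : (⟨p, hp⟩ : (P : Subgroup G)) * e.symm (DihedralGroup.sr 0) *
          (⟨p, hp⟩ : (P : Subgroup G))⁻¹ = e.symm (DihedralGroup.sr 1) :=
        Subtype.ext (by simpa using hpe)
      have h2 := congrArg e h1
      rw [map_mul, map_mul, map_inv, MulEquiv.apply_symm_apply, MulEquiv.apply_symm_apply] at h2
      exact sr_zero_not_conj_sr_one N hN2 _ h2
  -- a normal subgroup of index 4 forces a normal 2-complement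
  have hno4 : ∀ N' : Subgroup G, N'.Normal → N'.index = 4 → HasN2C G := by
    intro N' hN'n hN'4
    apply hasN2C_of_inf_le_cyclic P R hRc N' 2 (by rw [hN'4]; norm_num)
    intro x hx
    by_contra hxR
    obtain ⟨hxP, hxN⟩ := hx
    set ρ : G := ((e.symm (DihedralGroup.r 1) : (P : Subgroup G)) : G) with hρ
    have hρP : ρ ∈ (P : Subgroup G) := (e.symm (DihedralGroup.r 1)).2
    have hρR : ρ ∈ R := mem_rot.mpr ⟨hρP, 1, by simp [hρ]⟩
    obtain ⟨i, hi⟩ := exists_sr_of_not_mem_rot hxP hxR
    have hq : ρ * x * ρ⁻¹ * x⁻¹ = ρ ^ 2 := by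
      have h1 : e.symm (DihedralGroup.r 1) * ⟨x, hxP⟩ * (e.symm (DihedralGroup.r 1))⁻¹ *
          (⟨x, hxP⟩ : (P : Subgroup G))⁻¹ = (e.symm (DihedralGroup.r 1)) ^ 2 := by
        apply e.injective
        rw [map_mul, map_mul, map_mul, map_inv, map_inv, map_pow, MulEquiv.apply_symm_apply, hi]
        have hinv1 : (DihedralGroup.r (1 : ZMod N))⁻¹ = DihedralGroup.r (-1) := rfl
        have hinv2 : (DihedralGroup.sr i)⁻¹ = DihedralGroup.sr i := rfl
        rw [hinv1, hinv2, DihedralGroup.r_mul_sr, DihedralGroup.sr_mul_r,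
          DihedralGroup.sr_mul_sr, pow_two, DihedralGroup.r_mul_r]
        congr 1; ring
      have := congrArg Subtype.val h1
      simpa using this
    have hqN : ρ ^ 2 ∈ N' := by
      rw [← hq]
      exact N'.mul_mem (hN'n.conj_mem x hxN ρ) (N'.inv_mem hxN)
    set T : Subgroup G := N' ⊓ (P : Subgroup G) with hT
    have hsup := sylow_sup_eq_top P N' 2 (by rw [hN'4]; norm_num)
    have h1 : N'.relIndex (P : Subgroup G) = 4 := by
      have := Subgroup.relIndex_sup_right (P : Subgroup G) N'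
      rw [hsup, Subgroup.relIndex_top_right, hN'4] at this
      exact this.symm
    have h2 := Cfsg.Agent.H3.relIndex_mul_card_inf N' (P : Subgroup G)
    rw [h1, hPcard, ← hT] at h2
    have h3 := Cfsg.Agent.H3.relIndex_mul_card_inf R T
    have hTpos : 0 < Nat.card T := Nat.card_pos
    have h4 : R.relIndex T ≠ 1 := by
      intro h
      rw [Subgroup.relIndex_eq_one] at h
      exact hxR (h ⟨hxN, hxP⟩)
    have h5 : R.relIndex T ≠ 0 := by
      intro h; rw [h, zero_mul] at h3; omega
    have h6 : 2 ≤ R.relIndex T := by omega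
    have h7 : Nat.card (Subgroup.zpowers (ρ ^ 2)) ≤ Nat.card (R ⊓ T : Subgroup G) := by
      apply Subgroup.card_le_of_le
      rw [Subgroup.zpowers_le]
      exact ⟨R.pow_mem hρR 2, hqN, (P : Subgroup G).pow_mem hρP 2⟩
    have h8 : Nat.card (Subgroup.zpowers (ρ ^ 2)) * 2 = N := by
      rw [Nat.card_zpowers, orderOf_pow, hρ, Subgroup.orderOf_coe, MulEquiv.orderOf_eq,
        DihedralGroup.orderOf_r_one]
      have : Nat.gcd N 2 = 2 := Nat.gcd_eq_right hN2
      rw [this]; exact Nat.div_mul_cancel hN2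
    have h9 := Nat.mul_le_mul h6 h7
    rw [h3] at h9
    omega
  have hex2 : ¬ (IsConj z y ∧ IsConj z w) → ∃ N' : Subgroup G, N'.Normal ∧ N'.index = 2 := by
    intro hnot
    by_contra hcon
    apply hnot
    have hA : ∀ H : Subgroup G, H.index ≠ 2 := fun H hH =>
      hcon ⟨H, Subgroup.normal_of_index_eq_two hH, hH⟩
    exact ⟨all_involutions_conj_of_no_index_two P e hA z y hz2 hy2,
      all_involutions_conj_of_no_index_two P e hA z w hz2 hw2⟩
  rw [hcount, hSeq]
  by_cases hzy : IsConj z y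
  · have hcy : ConjClasses.mk y = ConjClasses.mk z :=
      (ConjClasses.mk_eq_mk_iff_isConj.mpr hzy).symm
    by_cases hzw : IsConj z w
    · left
      have hcw : ConjClasses.mk w = ConjClasses.mk z :=
        (ConjClasses.mk_eq_mk_iff_isConj.mpr hzw).symm
      refine ⟨?_, ?_⟩
      · rw [hcy, hcw]; simp
      · have hC : ∀ a b : G, orderOf a = 2 → orderOf b = 2 → IsConj a b := by
          have hto : ∀ a : G, orderOf a = 2 → IsConj a z := by
            intro a ha
            rcases hF3 a ha with h | h | h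
            · exact h
            · exact h.trans hzy.symm
            · exact h.trans hzw.symm
          intro a b ha hb
          exact (hto a ha).trans (hto b hb).symm
        intro N' _
        exact no_index_two_of_all_involutions_conj P hN e hC N'
    · right; left
      have hne : ConjClasses.mk z ≠ ConjClasses.mk w := fun h =>
        hzw (ConjClasses.mk_eq_mk_iff_isConj.mp h)
      refine ⟨?_, hex2 (fun h => hzw h.2), ?_⟩
      · rw [hcy, Set.insert_eq_of_mem (Set.mem_insert _ _), Set.ncard_pair hne]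
      · intro N' hn h4
        exact (hnc (hno4 N' hn h4)).1 hzy
  · have hne1 : ConjClasses.mk z ≠ ConjClasses.mk y := fun h =>
      hzy (ConjClasses.mk_eq_mk_iff_isConj.mp h)
    by_cases hzw : IsConj z w
    · right; left
      have hcw : ConjClasses.mk w = ConjClasses.mk z :=
        (ConjClasses.mk_eq_mk_iff_isConj.mpr hzw).symm
      refine ⟨?_, hex2 (fun h => hzy h.1), ?_⟩
      · rw [hcw, Set.insert_eq_of_mem (Set.mem_insert_of_mem _ (Set.mem_singleton _)),
          Set.ncard_pair hne1.symm]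
      · intro N' hn h4
        exact (hnc (hno4 N' hn h4)).2.1 hzw
    · have hne2 : ConjClasses.mk z ≠ ConjClasses.mk w := fun h =>
        hzw (ConjClasses.mk_eq_mk_iff_isConj.mp h)
      by_cases hyw : IsConj y w
      · right; left
        have hcw : ConjClasses.mk w = ConjClasses.mk y :=
          (ConjClasses.mk_eq_mk_iff_isConj.mpr hyw).symm
        refine ⟨?_, hex2 (fun h => hzy h.1), ?_⟩
        · rw [hcw, Set.insert_eq_of_mem (a := ConjClasses.mk y) (Set.mem_singleton _),
            Set.ncard_pair hne1]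
        · intro N' hn h4
          exact (hnc (hno4 N' hn h4)).2.2 hyw
      · right; right
        have hne3 : ConjClasses.mk y ≠ ConjClasses.mk w := fun h =>
          hyw (ConjClasses.mk_eq_mk_iff_isConj.mp h)
        refine ⟨Set.ncard_eq_three.mpr ⟨_, _, _, hne1, hne2, hne3, rfl⟩, ?_⟩
        have hM : ∀ u ∈ (P : Subgroup G), u ∉ R → orderOf u = 2 → ¬ IsConj z u →
            ∃ M : Subgroup G, M.Normal ∧ M.index = 2 ∧ u ∉ M := by
          intro u huP huR hu2 hzu
          rcases Cfsg.Agent.S0111.result P R hRle hRrel u hu2 huP huR with h | ⟨g, hg⟩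
          · exact h
          · exfalso; apply hzu
            have := hF2 _ hg (by rw [orderOf_conj_eq]; exact hu2)
            rw [isConj_comm, isConj_iff]; exact ⟨g, this⟩
        obtain ⟨M1, hM1n, hM1i, hyM1⟩ := hM y hyP hyR hy2 hzy
        obtain ⟨M2, hM2n, hM2i, hwM2⟩ := hM w hwP hwR hw2 hzw
        have hN2C : HasN2C G := by
          have hidx : ∃ j, (M1 ⊓ M2).index = 2 ^ j := by
            have h1 := Subgroup.relIndex_mul_index (inf_le_left : M1 ⊓ M2 ≤ M1)
            rw [Subgroup.inf_relIndex_left, hM1i] at h1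
            have h2 : M2.relIndex M1 ∣ 2 := hM2i ▸ Subgroup.relIndex_dvd_index_of_normal M2 M1
            rcases (Nat.dvd_prime Nat.prime_two).mp h2 with h | h
            · exact ⟨1, by rw [← h1, h]; norm_num⟩
            · exact ⟨2, by rw [← h1, h]; norm_num⟩
          obtain ⟨j, hj⟩ := hidx
          have hMn : (M1 ⊓ M2).Normal := Subgroup.normal_inf_normal M1 M2
          apply hasN2C_of_inf_le_cyclic P R hRc (M1 ⊓ M2) j hj
          rintro x ⟨hxP, hxM1, hxM2⟩
          by_contra hxR
          obtain ⟨p, hp, h | h⟩ := hF1 x hxP hxR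
          · exact hyM1 (h ▸ hM1n.conj_mem x hxM1 p)
          · exact hwM2 (h ▸ hM2n.conj_mem x hxM2 p)
        exact hasNormalPComplement_of_hasN2C P hN2C

end Cfsg.Agent.H25
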