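import Mathlib
import Cfsg.Statements.S4020
import Cfsg.Agent.S0016

set_option autoImplicit false
open Cfsg

namespace Cfsg.Agent.H25.EqOrd

/-- The hypothesis of S4020 for a single prime. -/
def HD (p : ℕ) (G : Type*) [Group G] : Prop :=
  ∀ H K : Subgroup G, IsPGroup p H → IsPGroup p K → Nat.card H = Nat.card K →
    ∃ g : G, K = H.map (MulAut.conj g).toMonoidHom

section basic
variable {G : Type*} [Group G] {p : ℕ}

theorem HD.exists_conj (h : HD p G) {H K : Subgroup G} (hH : IsPGroup p H) (hK : IsPGroup p K)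
    (hc : Nat.card H = Nat.card K) :
    ∃ g : G, ∀ k : G, k ∈ K ↔ ∃ x ∈ H, k = g * x * g⁻¹ := by
  obtain ⟨g, hg⟩ := h H K hH hK hc
  refine ⟨g, fun k => ?_⟩
  rw [hg, Subgroup.mem_map]
  constructor
  · rintro ⟨x, hx, rfl⟩
    exact ⟨x, hx, by simp [MulAut.conj_apply]⟩
  · rintro ⟨x, hx, rfl⟩
    exact ⟨x, hx, by simp [MulAut.conj_apply]⟩

theorem HD.comm (h : HD p G) {H K : Subgroup G} (hH : IsPGroup p H) (hK : IsPGroup p K)
    (hc : Nat.card H = Nat.card K) (hab : ∀ a ∈ H, ∀ b ∈ H, a * b = b * a) :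
    ∀ a ∈ K, ∀ b ∈ K, a * b = b * a := by
  obtain ⟨g, hg⟩ := h.exists_conj hH hK hc
  intro a ha b hb
  obtain ⟨x, hx, rfl⟩ := (hg a).1 ha
  obtain ⟨y, hy, rfl⟩ := (hg b).1 hb
  have := hab x hx y hy
  calc g * x * g⁻¹ * (g * y * g⁻¹) = g * (x * y) * g⁻¹ := by group
    _ = g * (y * x) * g⁻¹ := by rw [this]
    _ = g * y * g⁻¹ * (g * x * g⁻¹) := by group

theorem HD.exp (h : HD p G) {H K : Subgroup G} (hH : IsPGroup p H) (hK : IsPGroup p K)
    (hc : Nat.card H = Nat.card K) (m : ℕ) (hab : ∀ a ∈ H, a ^ m = 1) :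
    ∀ a ∈ K, a ^ m = 1 := by
  obtain ⟨g, hg⟩ := h.exists_conj hH hK hc
  intro a ha
  obtain ⟨x, hx, rfl⟩ := (hg a).1 ha
  rw [conj_pow, hab x hx]; group

theorem HD.le_normal (h : HD p G) {H K : Subgroup G} (hH : IsPGroup p H) (hK : IsPGroup p K)
    (hc : Nat.card H = Nat.card K) (N : Subgroup G) [hN : N.Normal] (hHN : H ≤ N) : K ≤ N := by
  obtain ⟨g, hg⟩ := h.exists_conj hH hK hc
  intro a ha
  obtain ⟨x, hx, rfl⟩ := (hg a).1 ha
  exact hN.conj_mem x (hHN hx) g

/-- normal form in the closure of two commuting elements -/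
theorem closure_pair_comm (u v : G) (huv : u * v = v * u) :
    ∀ w ∈ Subgroup.closure ({u, v} : Set G), ∃ i j : ℤ, w = u ^ i * v ^ j := by
  have hc : Commute u v := huv
  intro w hw
  induction hw using Subgroup.closure_induction with
  | mem x hx =>
    rcases hx with rfl | rfl
    · exact ⟨1, 0, by simp⟩
    · exact ⟨0, 1, by simp⟩
  | one => exact ⟨0, 0, by simp⟩
  | mul x y _ _ hx hy =>
    obtain ⟨i, j, rfl⟩ := hx
    obtain ⟨i', j', rfl⟩ := hy
    refine ⟨i + i', j + j', ?_⟩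
    have h1 : Commute (v ^ j) (u ^ i') := (hc.zpow_zpow i' j).symm
    calc u ^ i * v ^ j * (u ^ i' * v ^ j') = u ^ i * (v ^ j * u ^ i') * v ^ j' := by group
      _ = u ^ i * (u ^ i' * v ^ j) * v ^ j' := by rw [h1.eq]
      _ = u ^ (i + i') * v ^ (j + j') := by rw [zpow_add, zpow_add]; group
  | inv x _ hx =>
    obtain ⟨i, j, rfl⟩ := hx
    refine ⟨-i, -j, ?_⟩
    have h1 : Commute (u ^ i) (v ^ j) := hc.zpow_zpow i j
    rw [mul_inv_rev, zpow_neg, zpow_neg, ← mul_inv_rev, ← mul_inv_rev, h1.eq]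

theorem closure_pair_comm_pow (u v : G) (huv : u * v = v * u) (m : ℕ) (hu : u ^ m = 1)
    (hv : v ^ m = 1) : ∀ w ∈ Subgroup.closure ({u, v} : Set G), w ^ m = 1 := by
  intro w hw
  obtain ⟨i, j, rfl⟩ := closure_pair_comm u v huv w hw
  have hc : Commute (u ^ i) (v ^ j) := (show Commute u v from huv).zpow_zpow i j
  rw [hc.mul_pow, ← zpow_natCast, ← zpow_natCast, ← zpow_mul, ← zpow_mul, mul_comm i, mul_comm j,
    zpow_mul, zpow_mul, zpow_natCast, zpow_natCast, hu, hv]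
  simp

theorem closure_pair_comm_comm (u v : G) (huv : u * v = v * u) :
    ∀ a ∈ Subgroup.closure ({u, v} : Set G), ∀ b ∈ Subgroup.closure ({u, v} : Set G),
      a * b = b * a := by
  intro a ha b hb
  obtain ⟨i, j, rfl⟩ := closure_pair_comm u v huv a ha
  obtain ⟨i', j', rfl⟩ := closure_pair_comm u v huv b hb
  have hc : Commute u v := huv
  have h1 : Commute (u ^ i * v ^ j) (u ^ i' * v ^ j') := by
    apply Commute.mul_left
    · exact Commute.mul_right (Commute.zpow_zpow (Commute.refl u) i i') (hc.zpow_zpow i j')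
    · exact Commute.mul_right (hc.symm.zpow_zpow j i') (Commute.zpow_zpow (Commute.refl v) j j')
  exact h1.eq

theorem card_closure_pair_le [Finite G] (u v : G) (huv : u * v = v * u) (m : ℕ) (hm : 0 < m)
    (hu : u ^ m = 1) (hv : v ^ m = 1) :
    Nat.card (Subgroup.closure ({u, v} : Set G)) ≤ m ^ 2 := by
  classical
  have : NeZero m := ⟨hm.ne'⟩
  let f : Fin m × Fin m → G := fun ij => u ^ (ij.1 : ℕ) * v ^ (ij.2 : ℕ)
  have hsub : ((Subgroup.closure ({u, v} : Set G) : Subgroup G) : Set G) ⊆ Set.range f := by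
    intro w hw
    obtain ⟨i, j, rfl⟩ := closure_pair_comm u v huv w hw
    refine ⟨(⟨(i % (m : ℤ)).toNat, ?_⟩, ⟨(j % (m : ℤ)).toNat, ?_⟩), ?_⟩
    · have h0 := Int.emod_nonneg i (by exact_mod_cast hm.ne' : (m : ℤ) ≠ 0)
      have h1 := Int.emod_lt_of_pos i (by exact_mod_cast hm : (0 : ℤ) < m)
      omega
    · have h0 := Int.emod_nonneg j (by exact_mod_cast hm.ne' : (m : ℤ) ≠ 0)
      have h1 := Int.emod_lt_of_pos j (by exact_mod_cast hm : (0 : ℤ) < m)
      omega
    · show u ^ ((i % (m : ℤ)).toNat) * v ^ ((j % (m : ℤ)).toNat) = u ^ i * v ^ j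
      have h0 := Int.emod_nonneg i (by exact_mod_cast hm.ne' : (m : ℤ) ≠ 0)
      have h0' := Int.emod_nonneg j (by exact_mod_cast hm.ne' : (m : ℤ) ≠ 0)
      rw [zpow_eq_zpow_emod' i hu, zpow_eq_zpow_emod' j hv, ← zpow_natCast, ← zpow_natCast,
        Int.toNat_of_nonneg h0, Int.toNat_of_nonneg h0']
  calc Nat.card (Subgroup.closure ({u, v} : Set G))
      = Set.ncard ((Subgroup.closure ({u, v} : Set G) : Subgroup G) : Set G) := by
        rw [← Nat.card_coe_set_eq]; rfl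
    _ ≤ Set.ncard (Set.range f) := Set.ncard_le_ncard hsub (Set.toFinite _)
    _ ≤ Nat.card (Fin m × Fin m) := by
        rw [← Nat.card_coe_set_eq]
        exact Nat.card_le_card_of_surjective (Set.rangeFactorization f) Set.rangeFactorization_surjective
    _ = m ^ 2 := by simp [Nat.card_prod, sq]

theorem card_lt_of_lt {H K : Subgroup G} [Finite K] (h : H < K) : Nat.card H < Nat.card K := by
  refine lt_of_le_of_ne (Subgroup.card_le_of_le h.le) fun he => ?_
  exact h.ne (Subgroup.eq_of_le_of_card_ge h.le he.ge)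

end basic

end Cfsg.Agent.H25.EqOrd
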