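import Cfsg.Agent.H25.EqOrdA

set_option autoImplicit false
open Cfsg

namespace Cfsg.Agent.H25.EqOrd

theorem weak_tri {G : Type*} [Group G] [Finite G] (p : ℕ) [hp : Fact p.Prime]
    (hQ : ∀ n : ℕ, 2 ≤ n → ∃ H K : Subgroup (QuaternionGroup (2 ^ n)), Nat.card H = Nat.card K ∧
      (∀ a ∈ H, ∀ b ∈ H, a * b = b * a) ∧ ¬ (∀ a ∈ K, ∀ b ∈ K, a * b = b * a))
    (hD : HD p G) (P : Sylow p G) :
    IsCyclic P ∨ Cfsg.IsElementaryAbelian p (P : Subgroup G) ∨
      Nonempty ((P : Subgroup G) ≃* QuaternionGroup 2) ∨
      (p ≠ 2 ∧ (∃ a ∈ (P : Subgroup G), ∃ b ∈ (P : Subgroup G), a * b ≠ b * a) ∧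
        ∀ g ∈ (P : Subgroup G), g ^ p = 1) := by
  classical
  have hPp : IsPGroup p (P : Subgroup G) := P.isPGroup'
  have key : ∀ H K : Subgroup (P : Subgroup G), Nat.card H = Nat.card K →
      ((∀ a ∈ H, ∀ b ∈ H, a * b = b * a) → ∀ a ∈ K, ∀ b ∈ K, a * b = b * a) ∧
      (∀ m : ℕ, (∀ a ∈ H, a ^ m = 1) → ∀ a ∈ K, a ^ m = 1) := by
    intro H K hc
    have hH : IsPGroup p (H.map (P : Subgroup G).subtype) :=
      hPp.to_le (Subgroup.map_subtype_le H)
    have hK : IsPGroup p (K.map (P : Subgroup G).subtype) :=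
      hPp.to_le (Subgroup.map_subtype_le K)
    have hc' : Nat.card (H.map (P : Subgroup G).subtype)
        = Nat.card (K.map (P : Subgroup G).subtype) := by
      rw [Subgroup.card_subtype, Subgroup.card_subtype, hc]
    constructor
    · intro hab a ha b hb
      have := hD.comm hH hK hc' (by
        rintro _ ⟨x, hx, rfl⟩ _ ⟨y, hy, rfl⟩
        have := hab x hx y hy
        exact congrArg Subtype.val this) (a : G) ⟨a, ha, rfl⟩ (b : G) ⟨b, hb, rfl⟩
      exact Subtype.ext this
    · intro m hm a ha
      have := hD.exp hH hK hc' m (by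
        rintro _ ⟨x, hx, rfl⟩
        have := hm x hx
        exact congrArg Subtype.val this) (a : G) ⟨a, ha, rfl⟩
      exact Subtype.ext (by simpa using this)
  by_cases huniq : ∀ H K : Subgroup (P : Subgroup G), Nat.card H = p → Nat.card K = p → H = K
  · rcases Cfsg.Agent.S0016.result p hPp huniq with hc | ⟨hp2, n, ⟨e⟩⟩
    · exact Or.inl hc
    · rcases n with _ | _ | n
      · left
        have : IsCyclic (QuaternionGroup (2 ^ 0)) := QuaternionGroup.quaternionGroup_one_isCyclic
        exact isCyclic_of_surjective e.symm e.symm.surjective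
      · right; right; left; exact ⟨e⟩
      · exfalso
        obtain ⟨H, K, hc, hH, hK⟩ := hQ (n + 2) (by omega)
        have hc' : Nat.card (H.map e.symm.toMonoidHom) = Nat.card (K.map e.symm.toMonoidHom) := by
          rw [Subgroup.card_map_of_injective e.symm.injective,
            Subgroup.card_map_of_injective e.symm.injective, hc]
        have h1 := (key _ _ hc').1 (by
          rintro _ ⟨x, hx, rfl⟩ _ ⟨y, hy, rfl⟩
          show e.symm x * e.symm y = e.symm y * e.symm x
          rw [← map_mul, ← map_mul, hH x hx y hy])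
        apply hK
        intro a ha b hb
        have := h1 (e.symm a) ⟨a, ha, rfl⟩ (e.symm b) ⟨b, hb, rfl⟩
        rw [← map_mul, ← map_mul] at this
        exact e.symm.injective this
  · push Not at huniq
    obtain ⟨H, K, hH, hK, hne⟩ := huniq
    have hp1 : 1 < p := hp.out.one_lt
    have hnt : Nontrivial (P : Subgroup G) := by
      have h1 : 1 < Nat.card (P : Subgroup G) := by
        calc 1 < p := hp1
          _ = Nat.card H := hH.symm
          _ ≤ Nat.card (P : Subgroup G) := Nat.card_le_card_of_injective _ (Subgroup.subtype_injective H)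
      exact Finite.one_lt_card_iff_nontrivial.mp h1
    have hcn : Nontrivial (Subgroup.center (P : Subgroup G)) := hPp.center_nontrivial
    have hcp : IsPGroup p (Subgroup.center (P : Subgroup G)) := hPp.to_subgroup _
    obtain ⟨z, hz⟩ : ∃ z : Subgroup.center (P : Subgroup G), orderOf z = p := by
      have hdvd : p ∣ Nat.card (Subgroup.center (P : Subgroup G)) := by
        obtain ⟨k, hk⟩ := IsPGroup.iff_card.mp hcp
        have h1 : 1 < Nat.card (Subgroup.center (P : Subgroup G)) := Finite.one_lt_card
        rw [hk] at h1 ⊢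
        rcases k with _ | k
        · simp at h1
        · exact dvd_pow_self p (by omega)
      exact exists_prime_orderOf_dvd_card' p hdvd
    set z₀ : (P : Subgroup G) := (z : (P : Subgroup G)) with hz₀
    have hz₀o : orderOf z₀ = p := by rw [hz₀, Subgroup.orderOf_coe, hz]
    have hz₀c : ∀ g : (P : Subgroup G), z₀ * g = g * z₀ :=
      fun g => (Subgroup.mem_center_iff.mp z.2 g).symm
    obtain ⟨H', hH', hH'ne⟩ : ∃ H' : Subgroup (P : Subgroup G),
        Nat.card H' = p ∧ H' ≠ Subgroup.zpowers z₀ := by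
      by_cases h : H = Subgroup.zpowers z₀
      · exact ⟨K, hK, fun hK' => hne (h.trans hK'.symm)⟩
      · exact ⟨H, hH, h⟩
    obtain ⟨x, hxH, hx1⟩ : ∃ x ∈ H', x ≠ 1 := by
      have : Nontrivial H' := Finite.one_lt_card_iff_nontrivial.mp (by rw [hH']; exact hp1)
      obtain ⟨x, hx⟩ := exists_ne (1 : H')
      exact ⟨x, x.2, fun h => hx (Subtype.ext h)⟩
    have hxo : orderOf x = p := by
      have h1 : orderOf x ∣ p := by
        have := orderOf_dvd_natCard (⟨x, hxH⟩ : H')
        rw [hH', Subgroup.orderOf_mk] at this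
        exact this
      rcases (Nat.dvd_prime hp.out).mp h1 with h | h
      · exact absurd (orderOf_eq_one_iff.mp h) hx1
      · exact h
    have hzx : Subgroup.zpowers x = H' := by
      apply Subgroup.eq_of_le_of_card_ge ((Subgroup.zpowers_le).mpr hxH)
      rw [Nat.card_zpowers, hxo, hH']
    have hxz : x ∉ Subgroup.zpowers z₀ := by
      intro hx
      apply hH'ne
      rw [← hzx]
      apply Subgroup.eq_of_le_of_card_ge ((Subgroup.zpowers_le).mpr hx)
      rw [Nat.card_zpowers, Nat.card_zpowers, hxo, hz₀o]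
    set E₀ := Subgroup.closure ({z₀, x} : Set (P : Subgroup G)) with hE₀
    have hz₀p : z₀ ^ p = 1 := by have h := pow_orderOf_eq_one z₀; rwa [hz₀o] at h
    have hxp : x ^ p = 1 := by have h := pow_orderOf_eq_one x; rwa [hxo] at h
    have hE₀exp : ∀ w ∈ E₀, w ^ p = 1 := closure_pair_comm_pow z₀ x (hz₀c x) p hz₀p hxp
    have hE₀card : Nat.card E₀ = p ^ 2 := by
      have hle : Nat.card E₀ ≤ p ^ 2 := card_closure_pair_le z₀ x (hz₀c x) p hp.out.pos hz₀p hxp
      obtain ⟨k, hk⟩ := IsPGroup.iff_card.mp (hPp.to_subgroup E₀)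
      have hlt : p < Nat.card E₀ := by
        have h1 : Subgroup.zpowers z₀ < E₀ := by
          refine lt_of_le_of_ne ((Subgroup.zpowers_le).mpr (Subgroup.subset_closure (by simp))) ?_
          intro h
          exact hxz (h ▸ Subgroup.subset_closure (by simp))
        have := card_lt_of_lt h1
        rwa [Nat.card_zpowers, hz₀o] at this
      rw [hk] at hle hlt ⊢
      have hk2 : k ≤ 2 := by
        by_contra h
        push Not at h
        have : p ^ 3 ≤ p ^ k := Nat.pow_le_pow_right hp.out.pos h
        have : p ^ 2 < p ^ 3 := Nat.pow_lt_pow_right hp1 (by norm_num)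
        omega
      have hk1 : 2 ≤ k := by
        by_contra h
        push Not at h
        have : p ^ k ≤ p ^ 1 := Nat.pow_le_pow_right hp.out.pos (by omega)
        simp at this
        omega
      have : k = 2 := le_antisymm hk2 hk1
      rw [this]
    have hexp : ∀ g : (P : Subgroup G), g ^ p = 1 := by
      by_contra hcon
      push Not at hcon
      obtain ⟨g, hg⟩ := hcon
      obtain ⟨k, hk⟩ := (IsPGroup.iff_orderOf.mp hPp) g
      have hk2 : 2 ≤ k := by
        by_contra h
        push Not at h
        apply hg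
        have : orderOf g ∣ p := by
          rw [hk]
          calc p ^ k ∣ p ^ 1 := Nat.pow_dvd_pow p (by omega)
            _ = p := pow_one p
        exact orderOf_dvd_iff_pow_eq_one.mp this
      set g' := g ^ (p ^ (k - 2)) with hg'
      have hg'o : orderOf g' = p ^ 2 := by
        rw [hg', orderOf_pow' g (by positivity), hk]
        have h1 : Nat.gcd (p ^ k) (p ^ (k - 2)) = p ^ (k - 2) :=
          Nat.gcd_eq_right (Nat.pow_dvd_pow p (by omega))
        rw [h1]
        have h2 : p ^ k = p ^ 2 * p ^ (k - 2) := by rw [← pow_add]; congr 1; omega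
        rw [h2, Nat.mul_div_cancel _ (by positivity)]
      have h3 := (key E₀ (Subgroup.zpowers g') (by rw [hE₀card, Nat.card_zpowers, hg'o])).2 p
        hE₀exp g' (Subgroup.mem_zpowers g')
      have h4 : p ^ 2 ∣ p := by rw [← hg'o]; exact orderOf_dvd_of_pow_eq_one h3
      have h5 : p ^ 2 ≤ p := Nat.le_of_dvd hp.out.pos h4
      nlinarith
    by_cases hab : ∀ a b : (P : Subgroup G), a * b = b * a
    · right; left
      refine ⟨⟨⟨fun a b => hab a b⟩⟩, fun a ha => ?_⟩
      have := hexp ⟨a, ha⟩
      exact congrArg Subtype.val this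
    · right; right; right
      push Not at hab
      obtain ⟨a, b, hab⟩ := hab
      refine ⟨?_, ⟨a, a.2, b, b.2, fun h => hab (Subtype.ext h)⟩, fun g hg => ?_⟩
      · intro h2
        apply hab
        have ha : a ^ 2 = 1 := (congrArg (fun n => a ^ n) h2).symm.trans (hexp a)
        have hb : b ^ 2 = 1 := (congrArg (fun n => b ^ n) h2).symm.trans (hexp b)
        have hab2 : (a * b) ^ 2 = 1 := (congrArg (fun n => (a * b) ^ n) h2).symm.trans (hexp (a * b))
        have e1 : a⁻¹ = a := by rw [inv_eq_iff_mul_eq_one, ← sq, ha]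
        have e2 : b⁻¹ = b := by rw [inv_eq_iff_mul_eq_one, ← sq, hb]
        have e3 : (a * b)⁻¹ = a * b := by rw [inv_eq_iff_mul_eq_one, ← sq, hab2]
        rw [mul_inv_rev, e1, e2] at e3
        exact e3.symm
      · have := hexp ⟨g, hg⟩
        exact congrArg Subtype.val this

end Cfsg.Agent.H25.EqOrd
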