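import Cfsg.Agent.H25.EqOrdA

set_option autoImplicit false
open Cfsg

namespace Cfsg.Agent.H25.EqOrd

section abstractQ
variable {Q : Type*} [Group Q]

theorem comm_closure (S : Set Q) (h : ∀ a ∈ S, ∀ b ∈ S, a * b = b * a) :
    ∀ a ∈ Subgroup.closure S, ∀ b ∈ Subgroup.closure S, a * b = b * a := by
  have h1 : Subgroup.closure S ≤ Subgroup.centralizer S := by
    rw [Subgroup.closure_le]
    intro a ha
    exact Subgroup.mem_centralizer_iff.mpr (fun b hb => h b hb a ha)
  have h2 : Subgroup.closure S ≤ Subgroup.centralizer (Subgroup.closure S : Set Q) := by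
    rw [Subgroup.closure_le]
    intro a ha
    refine Subgroup.mem_centralizer_iff.mpr (fun b hb => ?_)
    have := Subgroup.mem_centralizer_iff.mp (h1 hb) a ha
    exact this.symm
  intro a ha b hb
  exact (Subgroup.mem_centralizer_iff.mp (h2 ha) b hb).symm

theorem comm_of_card_pow_le [Finite Q] (p : ℕ) [hp : Fact p.Prime] (k : ℕ)
    (hk : Nat.card Q = p ^ k) (hk2 : k ≤ 2) : ∀ a b : Q, a * b = b * a := by
  rcases k with _ | _ | k
  · have : Subsingleton Q := (Nat.card_eq_one_iff_unique.mp (by simpa using hk)).1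
    intro a b; rw [Subsingleton.elim a 1, Subsingleton.elim b 1]
  · have hc : IsCyclic Q := isCyclic_of_prime_card (p := p) (by simpa using hk)
    intro a b
    obtain ⟨g, hg⟩ := hc.exists_generator
    obtain ⟨i, rfl⟩ := Subgroup.mem_zpowers_iff.mp (hg a)
    obtain ⟨j, rfl⟩ := Subgroup.mem_zpowers_iff.mp (hg b)
    exact (Commute.zpow_zpow (Commute.refl g) i j).eq
  · have : k = 0 := by omega
    subst this
    exact IsPGroup.commutative_of_card_eq_prime_sq (p := p) (by simpa using hk)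

/-- structure of a nonabelian `p`-group of exponent `p` all of whose subgroups of equal order
are simultaneously abelian or not: the centre has order `p` and the class is 2. -/
theorem struct_of_nonab [Finite Q] (p : ℕ) [hp : Fact p.Prime] (hQ : IsPGroup p Q)
    (hexp : ∀ g : Q, g ^ p = 1) (hnab : ∃ a b : Q, a * b ≠ b * a)
    (hLB : ∀ u v c : Q, u ^ p = 1 → v ^ p = 1 → c ^ p = 1 → u * c = c * u → v * c = c * v →
      u * v = c * v * u → Nat.card (Subgroup.closure ({u, v} : Set Q)) ≤ p ^ 3)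
    (key : ∀ H K : Subgroup Q, Nat.card H = Nat.card K →
      (∀ a ∈ H, ∀ b ∈ H, a * b = b * a) → ∀ a ∈ K, ∀ b ∈ K, a * b = b * a) :
    Nat.card (Subgroup.center Q) = p ∧ ∀ g h : Q, g * h * g⁻¹ * h⁻¹ ∈ Subgroup.center Q := by
  classical
  have hp1 : 1 < p := hp.out.one_lt
  obtain ⟨a₁, b₁, hab₁⟩ := hnab
  have hnt : Nontrivial Q := ⟨⟨a₁ * b₁, b₁ * a₁, hab₁⟩⟩
  set Z := Subgroup.center Q with hZ
  have ha₁Z : a₁ ∉ Z := by
    intro h
    exact hab₁ ((Subgroup.mem_center_iff.mp h b₁).symm)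
  have hntq : Nontrivial (Q ⧸ Z) := by
    refine ⟨⟨(a₁ : Q ⧸ Z), 1, ?_⟩⟩
    intro h
    exact ha₁Z ((QuotientGroup.eq_one_iff a₁).mp h)
  have hcq : Nontrivial (Subgroup.center (Q ⧸ Z)) := (hQ.to_quotient Z).center_nontrivial
  obtain ⟨⟨xb, hxb⟩, hxne⟩ := exists_ne (1 : Subgroup.center (Q ⧸ Z))
  obtain ⟨x, rfl⟩ := QuotientGroup.mk_surjective xb
  have hxZ : x ∉ Z := by
    intro h
    apply hxne
    apply Subtype.ext
    exact (QuotientGroup.eq_one_iff x).mpr h
  have hxc : ∀ g : Q, g * x * g⁻¹ * x⁻¹ ∈ Z := by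
    intro g
    rw [← QuotientGroup.eq_one_iff]
    have h1 := Subgroup.mem_center_iff.mp hxb (g : Q ⧸ Z)
    simp only [QuotientGroup.mk_mul, QuotientGroup.mk_inv]
    rw [h1]; group
  -- a noncommuting partner
  obtain ⟨a₀, ha₀⟩ : ∃ a₀ : Q, a₀ * x ≠ x * a₀ := by
    by_contra hcon
    push Not at hcon
    exact hxZ (Subgroup.mem_center_iff.mpr hcon)
  set c := a₀ * x * a₀⁻¹ * x⁻¹ with hc
  have hcZ : c ∈ Z := hxc a₀
  have hcc : ∀ g : Q, g * c = c * g := Subgroup.mem_center_iff.mp hcZ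
  have hax : a₀ * x = c * x * a₀ := by rw [hc]; group
  set U := Subgroup.closure ({a₀, x} : Set Q) with hU
  have hUle : Nat.card U ≤ p ^ 3 :=
    hLB a₀ x c (hexp _) (hexp _) (hexp _) (hcc a₀) (hcc x) hax
  have hUnab : ¬ (∀ a ∈ U, ∀ b ∈ U, a * b = b * a) := fun h =>
    ha₀ (h a₀ (Subgroup.subset_closure (by simp)) x (Subgroup.subset_closure (by simp)))
  have hno3 : ∀ A : Subgroup Q, Nat.card A = p ^ 3 → ¬ (∀ a ∈ A, ∀ b ∈ A, a * b = b * a) := by
    intro A hA hAc
    obtain ⟨k, hk⟩ := IsPGroup.iff_card.mp (hQ.to_subgroup U)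
    have hk3 : k ≤ 3 := by
      rw [hk] at hUle
      exact (Nat.pow_le_pow_iff_right hp1).mp hUle
    by_cases hk2 : k ≤ 2
    · apply hUnab
      intro a ha b hb
      have := comm_of_card_pow_le p k hk hk2 (⟨a, ha⟩ : U) ⟨b, hb⟩
      exact congrArg Subtype.val this
    · have hk' : k = 3 := by omega
      rw [hk'] at hk
      exact hUnab (key A U (hA.trans hk.symm) hAc)
  have hab2 : ∀ A : Subgroup Q, (∀ a ∈ A, ∀ b ∈ A, a * b = b * a) →
      ∀ k : ℕ, Nat.card A = p ^ k → k ≤ 2 := by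
    intro A hAc k hk
    by_contra hcon
    push Not at hcon
    have hdvd : p ^ 3 ∣ Nat.card A := by rw [hk]; exact Nat.pow_dvd_pow p (by omega)
    obtain ⟨K, hK⟩ := Sylow.exists_subgroup_card_pow_prime p hdvd
    apply hno3 (K.map A.subtype) (by rw [Subgroup.card_subtype, hK])
    rintro _ ⟨a, -, rfl⟩ _ ⟨b, -, rfl⟩
    exact hAc a a.2 b b.2
  have hZnt : Nontrivial Z := hQ.center_nontrivial
  obtain ⟨j, hj⟩ := IsPGroup.iff_card.mp (hQ.to_subgroup Z)
  have hj1 : 1 ≤ j := by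
    by_contra hcon
    have hj0 : j = 0 := by omega
    rw [hj0, pow_zero] at hj
    have := Finite.one_lt_card (α := Z)
    omega
  set E := Subgroup.closure ((Z : Set Q) ∪ {x}) with hE
  have hEc : ∀ a ∈ E, ∀ b ∈ E, a * b = b * a := by
    apply comm_closure
    rintro a (ha | ha) b (hb | hb)
    · exact Subgroup.mem_center_iff.mp hb a
    · exact (Subgroup.mem_center_iff.mp ha b).symm
    · exact Subgroup.mem_center_iff.mp hb a
    · rw [Set.mem_singleton_iff.mp ha, Set.mem_singleton_iff.mp hb]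
  have hZE : Z < E := by
    refine lt_of_le_of_ne ?_ ?_
    · intro z hz; exact Subgroup.subset_closure (Or.inl hz)
    · intro h
      apply hxZ
      rw [h]; exact Subgroup.subset_closure (Or.inr rfl)
  obtain ⟨m, hm⟩ := IsPGroup.iff_card.mp (hQ.to_subgroup E)
  have hm2 : m ≤ 2 := hab2 E hEc m hm
  have hjm : j < m := by
    have := card_lt_of_lt hZE
    rw [hj, hm] at this
    exact (Nat.pow_lt_pow_iff_right hp1).mp this
  have hj' : j = 1 := by omega
  have hm' : m = 2 := by omega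
  rw [hj', pow_one] at hj
  rw [hm'] at hm
  have hcent : ∀ g : Q, g * x = x * g → g ∈ E := by
    intro g hg
    set F := Subgroup.closure (insert g ((Z : Set Q) ∪ {x})) with hF
    have hgen : ∀ a ∈ insert g ((Z : Set Q) ∪ {x}), a ∈ Z ∨ a = x ∨ a = g := by
      rintro a (ha | ha | ha)
      · right; right; exact ha
      · left; exact ha
      · right; left; exact ha
    have hFc : ∀ a ∈ F, ∀ b ∈ F, a * b = b * a := by
      apply comm_closure
      intro a ha b hb
      rcases hgen a ha with ha | ha | ha <;> rcases hgen b hb with hb | hb | hb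
      · exact Subgroup.mem_center_iff.mp hb a
      · exact (Subgroup.mem_center_iff.mp ha _).symm
      · exact (Subgroup.mem_center_iff.mp ha _).symm
      · exact Subgroup.mem_center_iff.mp hb _
      · rw [ha, hb]
      · rw [ha, hb]; exact hg.symm
      · exact Subgroup.mem_center_iff.mp hb _
      · rw [ha, hb]; exact hg
      · rw [ha, hb]
    obtain ⟨m', hm'F⟩ := IsPGroup.iff_card.mp (hQ.to_subgroup F)
    have hm'2 : m' ≤ 2 := hab2 F hFc m' hm'F
    have hEF : E ≤ F := Subgroup.closure_mono (Set.subset_insert _ _)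
    have hEF' : E = F := by
      apply Subgroup.eq_of_le_of_card_ge hEF
      rw [hm, hm'F]
      exact Nat.pow_le_pow_right hp.out.pos hm'2
    rw [hEF']
    exact Subgroup.subset_closure (Set.mem_insert _ _)
  let φ : Q →* Q := MonoidHom.mk' (fun g => g * x * g⁻¹ * x⁻¹) (by
    intro g h
    have h1 := Subgroup.mem_center_iff.mp (hxc h)
    show g * h * x * (g * h)⁻¹ * x⁻¹ = g * x * g⁻¹ * x⁻¹ * (h * x * h⁻¹ * x⁻¹)
    calc g * h * x * (g * h)⁻¹ * x⁻¹ = g * (h * x * h⁻¹ * x⁻¹) * x * g⁻¹ * x⁻¹ := by group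
      _ = (h * x * h⁻¹ * x⁻¹) * g * x * g⁻¹ * x⁻¹ := by rw [h1 g]
      _ = ((h * x * h⁻¹ * x⁻¹) * (g * x * g⁻¹ * x⁻¹)) := by group
      _ = g * x * g⁻¹ * x⁻¹ * (h * x * h⁻¹ * x⁻¹) := (h1 _).symm)
  have hker : φ.ker ≤ E := by
    intro g hg
    apply hcent
    have h1 : g * x * g⁻¹ * x⁻¹ = 1 := MonoidHom.mem_ker.mp hg
    calc g * x = (g * x * g⁻¹ * x⁻¹) * x * g := by group
      _ = x * g := by rw [h1, one_mul]
  have hrange : φ.range ≤ Z := by
    rintro _ ⟨g, rfl⟩
    exact hxc g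
  have hQcard : Nat.card Q ≤ p ^ 3 := by
    have h1 := Subgroup.card_mul_index φ.ker
    rw [Subgroup.index_ker] at h1
    have h2 : Nat.card φ.ker ≤ p ^ 2 := hm ▸ Subgroup.card_le_of_le hker
    have h3 : Nat.card φ.range ≤ p := hj ▸ Subgroup.card_le_of_le hrange
    calc Nat.card Q = Nat.card φ.ker * Nat.card φ.range := h1.symm
      _ ≤ p ^ 2 * p := Nat.mul_le_mul h2 h3
      _ = p ^ 3 := by ring
  refine ⟨hj, ?_⟩
  have hquot : Nat.card (Q ⧸ Z) * p ≤ p ^ 3 := by
    have := Subgroup.card_eq_card_quotient_mul_card_subgroup Z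
    rw [hj] at this
    rw [← this]; exact hQcard
  obtain ⟨i, hi⟩ := IsPGroup.iff_card.mp (hQ.to_quotient Z)
  have hi2 : i ≤ 2 := by
    rw [hi] at hquot
    have h3 : p ^ (i + 1) ≤ p ^ 3 := by rw [pow_succ]; exact hquot
    have := (Nat.pow_le_pow_iff_right hp1).mp h3
    omega
  intro g h
  rw [← QuotientGroup.eq_one_iff]
  have := comm_of_card_pow_le p i hi hi2 (g : Q ⧸ Z) (h : Q ⧸ Z)
  simp only [QuotientGroup.mk_mul, QuotientGroup.mk_inv]
  rw [this]; group

end abstractQ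

end Cfsg.Agent.H25.EqOrd
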