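import Cfsg.Agent.H25.EqOrdC

set_option autoImplicit false
open Cfsg

namespace Cfsg.Agent.H25.EqOrd

section glevel
variable {G : Type*} [Group G]

theorem HD.key {p : ℕ} (hD : HD p G) (P : Subgroup G) (hPp : IsPGroup p P)
    (H K : Subgroup P) (hc : Nat.card H = Nat.card K)
    (hab : ∀ a ∈ H, ∀ b ∈ H, a * b = b * a) : ∀ a ∈ K, ∀ b ∈ K, a * b = b * a := by
  have hH : IsPGroup p (H.map P.subtype) := hPp.to_le (Subgroup.map_subtype_le H)
  have hK : IsPGroup p (K.map P.subtype) := hPp.to_le (Subgroup.map_subtype_le K)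
  have hc' : Nat.card (H.map P.subtype) = Nat.card (K.map P.subtype) := by
    rw [Subgroup.card_subtype, Subgroup.card_subtype, hc]
  intro a ha b hb
  have := hD.comm hH hK hc' (by
    rintro _ ⟨x, hx, rfl⟩ _ ⟨y, hy, rfl⟩
    have := hab x hx y hy
    exact congrArg Subtype.val this) (a : G) ⟨a, ha, rfl⟩ (b : G) ⟨b, hb, rfl⟩
  exact Subtype.ext this

/-- structure of a nonabelian Sylow subgroup of exponent `p` under `HD`, in terms of `G`. -/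
theorem sylow_struct [Finite G] (p : ℕ) [hp : Fact p.Prime] (hD : HD p G)
    (P : Subgroup G) (hPp : IsPGroup p P)
    (hLB : ∀ u v c : P, u ^ p = 1 → v ^ p = 1 → c ^ p = 1 → u * c = c * u → v * c = c * v →
      u * v = c * v * u → Nat.card (Subgroup.closure ({u, v} : Set P)) ≤ p ^ 3)
    (hnab : ∃ a ∈ P, ∃ b ∈ P, a * b ≠ b * a) (hexp : ∀ g ∈ P, g ^ p = 1) :
    ∃ d ∈ P, d ≠ 1 ∧ (∀ k ∈ P, d * k = k * d) ∧
      (∀ z ∈ P, (∀ k ∈ P, z * k = k * z) → z ∈ Subgroup.zpowers d) ∧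
      (∀ g ∈ P, ∀ h ∈ P, ∀ k ∈ P, (g * h * g⁻¹ * h⁻¹) * k = k * (g * h * g⁻¹ * h⁻¹)) := by
  classical
  obtain ⟨hZcard, hcl⟩ := struct_of_nonab (Q := P) p hPp
    (fun g => Subtype.ext (by simpa using hexp g g.2))
    (by
      obtain ⟨a, ha, b, hb, hab⟩ := hnab
      exact ⟨⟨a, ha⟩, ⟨b, hb⟩, fun h => hab (congrArg Subtype.val h)⟩)
    hLB (fun H K hc hH => hD.key P hPp H K hc hH)
  have hZnt : Nontrivial (Subgroup.center P) :=
    Finite.one_lt_card_iff_nontrivial.mp (by rw [hZcard]; exact hp.out.one_lt)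
  obtain ⟨d', hd'⟩ := exists_ne (1 : Subgroup.center P)
  have htop : Subgroup.zpowers d' = ⊤ := zpowers_eq_top_of_prime_card hZcard hd'
  refine ⟨((d' : P) : G), (d' : P).2, ?_, ?_, ?_, ?_⟩
  · intro h
    apply hd'
    apply Subtype.ext
    apply Subtype.ext
    exact h
  · intro k hk
    have := (Subgroup.mem_center_iff.mp d'.2 ⟨k, hk⟩)
    exact (congrArg Subtype.val this).symm
  · intro z hz hzc
    have hzZ : (⟨z, hz⟩ : P) ∈ Subgroup.center P := by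
      rw [Subgroup.mem_center_iff]
      intro g
      exact Subtype.ext (hzc g g.2).symm
    have hmem : (⟨⟨z, hz⟩, hzZ⟩ : Subgroup.center P) ∈ Subgroup.zpowers d' := by
      rw [htop]; exact Subgroup.mem_top _
    obtain ⟨i, hi⟩ := Subgroup.mem_zpowers_iff.mp hmem
    refine Subgroup.mem_zpowers_iff.mpr ⟨i, ?_⟩
    have h1 := congrArg (fun w : Subgroup.center P => ((w : P) : G)) hi
    simpa using h1
  · intro g hg h hh k hk
    have h1 := hcl ⟨g, hg⟩ ⟨h, hh⟩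
    have h2 := Subgroup.mem_center_iff.mp h1 ⟨k, hk⟩
    exact (congrArg Subtype.val h2).symm

/-- a conjugate of `P` containing `x` and `d` in which `x` is central, pulled back to `P`. -/
theorem exists_conj_center [Finite G] (p : ℕ) [hp : Fact p.Prime] (hD : HD p G)
    (P : Subgroup G) (hPp : IsPGroup p P)
    (hPcard : Nat.card P = p ^ (Nat.card G).factorization p)
    (hexp : ∀ g ∈ P, g ^ p = 1)
    (d x : G) (hd : d ∈ P) (hx : x ∈ P) (hd1 : d ≠ 1) (hx1 : x ≠ 1)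
    (hdc : ∀ k ∈ P, d * k = k * d) :
    ∃ t x₁ d₁ : G, x₁ ∈ P ∧ d₁ ∈ P ∧ x = t * x₁ * t⁻¹ ∧ d = t * d₁ * t⁻¹ ∧
      ∀ k ∈ P, x₁ * k = k * x₁ := by
  classical
  have hdp : d ^ p = 1 := hexp d hd
  have hxp : x ^ p = 1 := hexp x hx
  have hdo : orderOf d = p := orderOf_eq_prime hdp hd1
  have hxo : orderOf x = p := orderOf_eq_prime hxp hx1
  have h1 : IsPGroup p (Subgroup.zpowers d) := hPp.to_le ((Subgroup.zpowers_le).mpr hd)
  have h2 : IsPGroup p (Subgroup.zpowers x) := hPp.to_le ((Subgroup.zpowers_le).mpr hx)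
  obtain ⟨g, hg⟩ := hD.exists_conj h1 h2 (by rw [Nat.card_zpowers, Nat.card_zpowers, hdo, hxo])
  obtain ⟨y, hy, hxy⟩ := (hg x).1 (Subgroup.mem_zpowers x)
  have hyc : ∀ k ∈ P, y * k = k * y := by
    obtain ⟨i, rfl⟩ := Subgroup.mem_zpowers_iff.mp hy
    intro k hk
    exact ((show Commute d k from hdc k hk).zpow_left i).eq
  set C := Subgroup.centralizer ({x} : Set G) with hC
  have hP'C : P.map (MulAut.conj g).toMonoidHom ≤ C := by
    rintro _ ⟨h, hh, rfl⟩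
    rw [hC, Subgroup.mem_centralizer_iff]
    intro z hz
    rw [Set.mem_singleton_iff.mp hz]
    show x * (g * h * g⁻¹) = g * h * g⁻¹ * x
    have h3 := hyc h hh
    calc x * (g * h * g⁻¹) = g * y * g⁻¹ * (g * h * g⁻¹) := by rw [← hxy]
      _ = g * (y * h) * g⁻¹ := by group
      _ = g * (h * y) * g⁻¹ := by rw [h3]
      _ = g * h * g⁻¹ * (g * y * g⁻¹) := by group
      _ = g * h * g⁻¹ * x := by rw [← hxy]
  have hcardP' : Nat.card (P.map (MulAut.conj g).toMonoidHom) = Nat.card P :=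
    Subgroup.card_map_of_injective (MulAut.conj g).injective
  have hdvdC : p ^ (Nat.card G).factorization p ∣ Nat.card C := by
    rw [← hPcard, ← hcardP']; exact Subgroup.card_dvd_of_le hP'C
  set E' := Subgroup.closure ({d, x} : Set G) with hE'
  have hE'P : E' ≤ P := (Subgroup.closure_le _).mpr (by
    rintro z (hz | hz)
    · rw [hz]; exact hd
    · rw [Set.mem_singleton_iff.mp hz]; exact hx)
  have hE'C : E' ≤ C := (Subgroup.closure_le _).mpr (by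
    rintro z (hz | hz)
    · rw [hz]
      exact Subgroup.mem_centralizer_iff.mpr (fun h hh => by
        rw [Set.mem_singleton_iff.mp hh]; exact (hdc x hx).symm)
    · rw [Set.mem_singleton_iff.mp hz]
      exact Subgroup.mem_centralizer_iff.mpr (fun h hh => by rw [Set.mem_singleton_iff.mp hh]))
  have hE'p : IsPGroup p (E'.subgroupOf C) := (hPp.to_le hE'P).comap_subtype
  obtain ⟨S, hS⟩ := hE'p.exists_le_sylow
  set P'' := (S : Subgroup C).map C.subtype with hP''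
  have hP''p : IsPGroup p P'' := S.isPGroup'.map C.subtype
  have hP''card : Nat.card P'' = Nat.card P := by
    rw [hP'', Subgroup.card_subtype, S.card_eq_multiplicity, hPcard]
    congr 1
    apply le_antisymm
    · have hCG : Nat.card C ∣ Nat.card G := Subgroup.card_subgroup_dvd_card C
      exact (Nat.factorization_le_iff_dvd (Nat.card_pos.ne') (Nat.card_pos.ne')).mpr hCG p
    · exact (hp.out.pow_dvd_iff_le_factorization Nat.card_pos.ne').mp hdvdC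
  obtain ⟨t, ht⟩ := hD.exists_conj hPp hP''p hP''card.symm
  have hxP'' : x ∈ P'' := by
    have hxE : x ∈ E' := Subgroup.subset_closure (by simp)
    exact ⟨⟨x, hE'C hxE⟩, hS (Subgroup.mem_subgroupOf.mpr hxE), rfl⟩
  have hdP'' : d ∈ P'' := by
    have hdE : d ∈ E' := Subgroup.subset_closure (by simp)
    exact ⟨⟨d, hE'C hdE⟩, hS (Subgroup.mem_subgroupOf.mpr hdE), rfl⟩
  obtain ⟨x₁, hx₁P, hx₁⟩ := (ht x).1 hxP''
  obtain ⟨d₁, hd₁P, hd₁⟩ := (ht d).1 hdP''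
  refine ⟨t, x₁, d₁, hx₁P, hd₁P, hx₁, hd₁, ?_⟩
  intro k hk
  have hk'' : t * k * t⁻¹ ∈ P'' := (ht _).2 ⟨k, hk, rfl⟩
  obtain ⟨⟨w, hw⟩, -, hwk⟩ := hk''
  have hwx : x * w = w * x := Subgroup.mem_centralizer_iff.mp hw x rfl
  have hwk' : w = t * k * t⁻¹ := hwk
  have h5 : t * (x₁ * k) * t⁻¹ = t * (k * x₁) * t⁻¹ := by
    calc t * (x₁ * k) * t⁻¹ = t * x₁ * t⁻¹ * (t * k * t⁻¹) := by group
      _ = x * w := by rw [← hx₁, ← hwk']
      _ = w * x := hwx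
      _ = t * k * t⁻¹ * (t * x₁ * t⁻¹) := by rw [← hx₁, ← hwk']
      _ = t * (k * x₁) * t⁻¹ := by group
  exact mul_left_cancel (mul_right_cancel h5)

theorem comm_pow_gen (a₀ y c : G) (hc : c = a₀ * y * a₀⁻¹ * y⁻¹) (hca : c * a₀ = a₀ * c)
    (n : ℕ) : a₀ ^ n * y * (a₀ ^ n)⁻¹ * y⁻¹ = c ^ n := by
  induction n with
  | zero => simp
  | succ n ih =>
    have h1 : a₀ * c ^ n = c ^ n * a₀ := ((show Commute c a₀ from hca).pow_left n).eq.symm
    calc a₀ ^ (n + 1) * y * (a₀ ^ (n + 1))⁻¹ * y⁻¹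
        = a₀ * (a₀ ^ n * y * (a₀ ^ n)⁻¹ * y⁻¹) * y * a₀⁻¹ * y⁻¹ := by
          rw [pow_succ']; group
      _ = a₀ * c ^ n * y * a₀⁻¹ * y⁻¹ := by rw [ih]
      _ = c ^ n * (a₀ * y * a₀⁻¹ * y⁻¹) := by rw [h1]; group
      _ = c ^ (n + 1) := by rw [← hc, pow_succ]

theorem exists_comm_eq [Finite G] (p : ℕ) [hp : Fact p.Prime] (P : Subgroup G)
    (hexp : ∀ g ∈ P, g ^ p = 1)
    (hcl : ∀ g ∈ P, ∀ h ∈ P, ∀ k ∈ P, (g * h * g⁻¹ * h⁻¹) * k = k * (g * h * g⁻¹ * h⁻¹))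
    (d : G) (hd1 : d ≠ 1) (hdp : d ^ p = 1)
    (hcen : ∀ z ∈ P, (∀ k ∈ P, z * k = k * z) → z ∈ Subgroup.zpowers d)
    (y : G) (hy : y ∈ P) (hync : ¬ ∀ k ∈ P, y * k = k * y) (e : G)
    (he : e ∈ Subgroup.zpowers d) :
    ∃ a ∈ P, a * y * a⁻¹ * y⁻¹ = e := by
  push Not at hync
  obtain ⟨a₀, ha₀P, ha₀⟩ := hync
  set c := a₀ * y * a₀⁻¹ * y⁻¹ with hc
  have hcP : c ∈ P := P.mul_mem (P.mul_mem (P.mul_mem ha₀P hy) (P.inv_mem ha₀P)) (P.inv_mem hy)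
  have hcc : ∀ k ∈ P, c * k = k * c := hcl a₀ ha₀P y hy
  have hay : a₀ * y = c * y * a₀ := by rw [hc]; group
  have hc1 : c ≠ 1 := by
    intro h
    apply ha₀
    rw [hay, h, one_mul]
  have hcd : c ∈ Subgroup.zpowers d := hcen c hcP hcc
  have hcp : c ^ p = 1 := hexp c hcP
  have hzeq : Subgroup.zpowers c = Subgroup.zpowers d := by
    apply Subgroup.eq_of_le_of_card_ge ((Subgroup.zpowers_le).mpr hcd)
    rw [Nat.card_zpowers, Nat.card_zpowers, orderOf_eq_prime hcp hc1, orderOf_eq_prime hdp hd1]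
  rw [← hzeq] at he
  obtain ⟨n, hn⟩ := (Submonoid.mem_powers_iff _ _).mp (mem_powers_iff_mem_zpowers.mpr he)
  refine ⟨a₀ ^ n, P.pow_mem ha₀P n, ?_⟩
  rw [comm_pow_gen a₀ y c hc (hcc a₀ ha₀P) n]; exact hn

/-- the `SL₂`-type relation. -/
theorem exists_rel [Finite G] (p : ℕ) [hp : Fact p.Prime] (hD : HD p G)
    (P : Subgroup G) (hPp : IsPGroup p P)
    (hPcard : Nat.card P = p ^ (Nat.card G).factorization p)
    (hLB : ∀ u v c : P, u ^ p = 1 → v ^ p = 1 → c ^ p = 1 → u * c = c * u → v * c = c * v →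
      u * v = c * v * u → Nat.card (Subgroup.closure ({u, v} : Set P)) ≤ p ^ 3)
    (hnab : ∃ a ∈ P, ∃ b ∈ P, a * b ≠ b * a) (hexp : ∀ g ∈ P, g ^ p = 1) :
    ∃ a b d : G, a ^ p = 1 ∧ b ^ p = 1 ∧ d ^ p = 1 ∧ d ≠ 1 ∧
      (a * b * a) ^ 2 * d * ((a * b * a) ^ 2)⁻¹ = d⁻¹ := by
  obtain ⟨d, hdP, hd1, hdc, hcen, hcl⟩ := sylow_struct p hD P hPp hLB hnab hexp
  have hdp := hexp d hdP
  obtain ⟨x, hxP, hxnc⟩ : ∃ x ∈ P, ¬ ∀ k ∈ P, x * k = k * x := by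
    obtain ⟨a, ha, b, hb, hab⟩ := hnab
    exact ⟨a, ha, fun h => hab (h b hb)⟩
  have hx1 : x ≠ 1 := by
    rintro rfl
    exact hxnc (fun k _ => by simp)
  obtain ⟨t, x₁, d₁, hx₁P, hd₁P, hx₁, hd₁, hx₁c⟩ :=
    exists_conj_center p hD P hPp hPcard hexp d x hdP hxP hd1 hx1 hdc
  have hx₁1 : x₁ ≠ 1 := by
    intro h
    apply hx1; rw [hx₁, h]; group
  have hx₁p := hexp x₁ hx₁P
  have hx₁d : x₁ ∈ Subgroup.zpowers d := hcen x₁ hx₁P hx₁c
  have hzeq : Subgroup.zpowers x₁ = Subgroup.zpowers d := by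
    apply Subgroup.eq_of_le_of_card_ge ((Subgroup.zpowers_le).mpr hx₁d)
    rw [Nat.card_zpowers, Nat.card_zpowers, orderOf_eq_prime hx₁p hx₁1, orderOf_eq_prime hdp hd1]
  have hd₁nc : ¬ ∀ k ∈ P, d₁ * k = k * d₁ := by
    intro h
    have h1 : d₁ ∈ Subgroup.zpowers x₁ := by rw [hzeq]; exact hcen d₁ hd₁P h
    obtain ⟨m, hm⟩ := Subgroup.mem_zpowers_iff.mp h1
    have h2 : d = x ^ m := by
      rw [hd₁, ← hm, hx₁, conj_zpow]
    have h3 : Subgroup.zpowers d = Subgroup.zpowers x := by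
      apply Subgroup.eq_of_le_of_card_ge
        ((Subgroup.zpowers_le).mpr (h2 ▸ Subgroup.zpow_mem_zpowers x m))
      rw [Nat.card_zpowers, Nat.card_zpowers, orderOf_eq_prime (hexp x hxP) hx1,
        orderOf_eq_prime hdp hd1]
    have h4 : x ∈ Subgroup.zpowers d := h3 ▸ Subgroup.mem_zpowers x
    obtain ⟨i, hi⟩ := Subgroup.mem_zpowers_iff.mp h4
    apply hxnc
    intro k hk
    rw [← hi]
    exact ((show Commute d k from hdc k hk).zpow_left i).eq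
  obtain ⟨a, haP, ha⟩ := exists_comm_eq p P hexp hcl d hd1 hdp hcen x hxP hxnc d⁻¹
    (Subgroup.inv_mem _ (Subgroup.mem_zpowers d))
  obtain ⟨b₁, hb₁P, hb₁⟩ := exists_comm_eq p P hexp hcl d hd1 hdp hcen d₁ hd₁P hd₁nc x₁ hx₁d
  refine ⟨a, t * b₁ * t⁻¹, d, hexp a haP, ?_, hdp, hd1, ?_⟩
  · rw [conj_pow, hexp b₁ hb₁P]; group
  · have R1 : a * d * a⁻¹ = d := by rw [← hdc a haP]; group
    have R2 : a * x * a⁻¹ = d⁻¹ * x := by rw [← ha]; group
    have R3 : (t * b₁ * t⁻¹) * d * (t * b₁ * t⁻¹)⁻¹ = x * d := by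
      have h6 : (t * b₁ * t⁻¹) * d * (t * b₁ * t⁻¹)⁻¹ * d⁻¹ = x := by
        calc (t * b₁ * t⁻¹) * d * (t * b₁ * t⁻¹)⁻¹ * d⁻¹
            = (t * b₁ * t⁻¹) * (t * d₁ * t⁻¹) * (t * b₁ * t⁻¹)⁻¹ * (t * d₁ * t⁻¹)⁻¹ := by
              rw [← hd₁]
          _ = t * (b₁ * d₁ * b₁⁻¹ * d₁⁻¹) * t⁻¹ := by group
          _ = t * x₁ * t⁻¹ := by rw [hb₁]
          _ = x := hx₁.symm
      calc (t * b₁ * t⁻¹) * d * (t * b₁ * t⁻¹)⁻¹
          = ((t * b₁ * t⁻¹) * d * (t * b₁ * t⁻¹)⁻¹ * d⁻¹) * d := by group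
        _ = x * d := by rw [h6]
    have R4 : (t * b₁ * t⁻¹) * x * (t * b₁ * t⁻¹)⁻¹ = x := by
      have h7 := hx₁c b₁ hb₁P
      calc (t * b₁ * t⁻¹) * x * (t * b₁ * t⁻¹)⁻¹
          = (t * b₁ * t⁻¹) * (t * x₁ * t⁻¹) * (t * b₁ * t⁻¹)⁻¹ := by rw [← hx₁]
        _ = t * (b₁ * x₁) * b₁⁻¹ * t⁻¹ := by group
        _ = t * (x₁ * b₁) * b₁⁻¹ * t⁻¹ := by rw [h7]
        _ = t * x₁ * t⁻¹ := by group
        _ = x := hx₁.symm
    have R5 : d * x = x * d := hdc x hxP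
    generalize t * b₁ * t⁻¹ = b at R3 R4 ⊢
    have hnd : (a * b * a) * d * (a * b * a)⁻¹ = x := by
      calc (a * b * a) * d * (a * b * a)⁻¹ = a * (b * (a * d * a⁻¹) * b⁻¹) * a⁻¹ := by group
        _ = a * (b * d * b⁻¹) * a⁻¹ := by rw [R1]
        _ = a * (x * d) * a⁻¹ := by rw [R3]
        _ = (a * x * a⁻¹) * (a * d * a⁻¹) := by group
        _ = d⁻¹ * x * d := by rw [R1, R2]
        _ = d⁻¹ * (x * d) := by group
        _ = d⁻¹ * (d * x) := by rw [R5]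
        _ = x := by group
    have hnx : (a * b * a) * x * (a * b * a)⁻¹ = d⁻¹ := by
      calc (a * b * a) * x * (a * b * a)⁻¹ = a * (b * (a * x * a⁻¹) * b⁻¹) * a⁻¹ := by group
        _ = a * (b * (d⁻¹ * x) * b⁻¹) * a⁻¹ := by rw [R2]
        _ = a * ((b * d * b⁻¹)⁻¹ * (b * x * b⁻¹)) * a⁻¹ := by group
        _ = a * ((x * d)⁻¹ * x) * a⁻¹ := by rw [R3, R4]
        _ = (a * d * a⁻¹)⁻¹ := by group
        _ = d⁻¹ := by rw [R1]
    generalize a * b * a = n at hnd hnx ⊢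
    calc n ^ 2 * d * (n ^ 2)⁻¹ = n * (n * d * n⁻¹) * n⁻¹ := by rw [sq]; group
      _ = n * x * n⁻¹ := by rw [hnd]
      _ = d⁻¹ := hnx

end glevel

end Cfsg.Agent.H25.EqOrd
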