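import Mathlib
import Cfsg.Agent.H25.Q8Aut

/-!
# helper25: a normal self-centralizing `Q₈` with an element of order three acting on it

`Q8Set Q a b g`: `Q = ⟨a, b⟩` is quaternion of order 8, self-centralizing, and `g` of order three
permutes `a → b → a b` cyclically.
-/

set_option autoImplicit false

namespace Cfsg.Agent.H25

open QuaternionGroup

structure Q8Set {X : Type*} [Group X] (Q : Subgroup X) (a b g : X) : Prop where
  aQ : a ∈ Q
  bQ : b ∈ Q
  a4 : a ^ 4 = 1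
  a2 : a ^ 2 ≠ 1
  b2 : b ^ 2 = a ^ 2
  ab2 : (a * b) ^ 2 = a ^ 2
  ga : g * a * g⁻¹ = b
  gb : g * b * g⁻¹ = a * b
  g3 : g ^ 3 = 1
  g1 : g ≠ 1
  card : Nat.card Q = 8
  cent : Subgroup.centralizer (Q : Set X) ≤ Q

theorem q8_fixed_sigma : ∀ p : QuaternionGroup 2, H39.q8SigmaFun p = p → p = 1 ∨ p = a 2 := by
  decide

theorem q8_anti : ∀ p q : QuaternionGroup 2, p ^ 2 = a 2 → q ^ 2 = a 2 → q ≠ p → q ≠ p⁻¹ →
    p * q * p⁻¹ = q⁻¹ := by decide

theorem q8_sq_cases : ∀ p : QuaternionGroup 2, p = 1 ∨ p = a 2 ∨ p ^ 2 = a 2 := by decide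

theorem q8_elems : ∀ p : QuaternionGroup 2, p = 1 ∨ p = a 2 ∨
    (p = a 1 ∨ p = (a 1)⁻¹) ∨ (p = xa 0 ∨ p = (xa 0)⁻¹) ∨
    (p = a 1 * xa 0 ∨ p = (a 1 * xa 0)⁻¹) := by decide

namespace Q8Set

variable {X : Type*} [Group X] {Q : Subgroup X} {a b g : X}

theorem ab (h : Q8Set Q a b g) : a * b = b * a⁻¹ := H39.q8_rel h.a4 h.b2 h.ab2

/-- the isomorphism `Q₈ → Q` -/
noncomputable def θ (h : Q8Set Q a b g) : QuaternionGroup 2 →* X :=
  H39.q8Lift a b h.a4 h.b2 h.ab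

theorem θ_inj (h : Q8Set Q a b g) : Function.Injective h.θ :=
  H39.q8Lift_injective a b h.a4 h.b2 h.ab h.a2

theorem θ_a (h : Q8Set Q a b g) : h.θ (QuaternionGroup.a 1) = a :=
  H39.q8Lift_a_one a b h.a4 h.b2 h.ab

theorem θ_b (h : Q8Set Q a b g) : h.θ (xa 0) = b := by
  unfold θ
  rw [H39.q8Lift_xa]
  have e3 : (0 : ZMod (2 * 2)).val = 0 := rfl
  rw [e3, pow_zero, mul_one]

theorem θ_z (h : Q8Set Q a b g) : h.θ (QuaternionGroup.a 2) = a ^ 2 := rfl

theorem θ_range [Finite X] (h : Q8Set Q a b g) : h.θ.range = Q := by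
  apply Subgroup.eq_of_le_of_card_ge
  · exact H39.q8Lift_range_le h.a4 h.b2 h.ab h.aQ h.bQ
  · rw [h.card]
    unfold θ
    rw [H39.q8Lift_card_range h.a4 h.b2 h.ab h.a2]

theorem θ_mem [Finite X] (h : Q8Set Q a b g) (p : QuaternionGroup 2) : h.θ p ∈ Q := by
  have h1 : h.θ p ∈ h.θ.range := ⟨p, rfl⟩
  exact h.θ_range.le h1

theorem exists_θ [Finite X] (h : Q8Set Q a b g) {q : X} (hq : q ∈ Q) : ∃ p, h.θ p = q := by
  rw [← h.θ_range] at hq; exact hq

/-- conjugation by `g` corresponds to `q8Sigma` -/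
theorem θ_sigma (h : Q8Set Q a b g) (p : QuaternionGroup 2) :
    h.θ (H39.q8Sigma p) = g * h.θ p * g⁻¹ := by
  have h4 : a⁻¹ = a ^ 3 := by
    apply inv_eq_of_mul_eq_one_right
    rw [← pow_succ']; exact h.a4
  have : h.θ.comp H39.q8Sigma.toMonoidHom = (MulAut.conj g).toMonoidHom.comp h.θ := by
    apply H39.q8_hom_ext
    · change h.θ (H39.q8SigmaFun (QuaternionGroup.a 1)) = g * h.θ (QuaternionGroup.a 1) * g⁻¹
      have e1 : H39.q8SigmaFun (QuaternionGroup.a 1) = xa 0 := rfl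
      rw [e1, h.θ_a, h.θ_b, h.ga]
    · change h.θ (H39.q8SigmaFun (xa 0)) = g * h.θ (xa 0) * g⁻¹
      have e1 : H39.q8SigmaFun (xa 0) = xa 3 := rfl
      have e2 : (3 : ZMod (2 * 2)).val = 3 := rfl
      rw [e1, h.θ_b]
      unfold θ
      rw [H39.q8Lift_xa, e2, h.gb, h.ab, h4]
  exact DFunLike.congr_fun this p

theorem pow8 [Finite X] (h : Q8Set Q a b g) {t : X} (ht : t ∈ Q) : t ^ 8 = 1 := by
  have h1 : (⟨t, ht⟩ : Q) ^ Nat.card Q = 1 := pow_card_eq_one'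
  rw [h.card] at h1
  have h2 := congrArg Subtype.val h1
  simpa using h2

/-- an element commuting with `a` and `b` centralizes `Q` -/
theorem cent_of_comm [Finite X] (h : Q8Set Q a b g) {k : X} (hka : Commute k a)
    (hkb : Commute k b) : k ∈ Subgroup.centralizer (Q : Set X) := by
  rw [Subgroup.mem_centralizer_iff]
  intro q hq
  obtain ⟨x, rfl⟩ := h.exists_θ hq
  rcases x with i | i
  · unfold θ
    rw [H39.q8Lift_a]
    exact ((hka.pow_right _).eq).symm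
  · unfold θ
    rw [H39.q8Lift_xa]
    exact ((hkb.mul_right (hka.pow_right _)).eq).symm

/-- elements of the centralizer of `Q` are `1` or `a ^ 2` -/
theorem cent_cases [Finite X] (h : Q8Set Q a b g) {k : X}
    (hk : k ∈ Subgroup.centralizer (Q : Set X)) : k = 1 ∨ k = a ^ 2 := by
  obtain ⟨x, rfl⟩ := h.exists_θ (h.cent hk)
  rw [Subgroup.mem_centralizer_iff] at hk
  have hxa : x * QuaternionGroup.a 1 = QuaternionGroup.a 1 * x := by
    apply h.θ_inj
    rw [map_mul, map_mul, h.θ_a]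
    exact (hk a h.aQ).symm
  have hxb : x * xa 0 = xa 0 * x := by
    apply h.θ_inj
    rw [map_mul, map_mul, h.θ_b]
    exact (hk b h.bQ).symm
  rcases q8_central x hxa hxb with e | e
  · left; rw [e, map_one]
  · right; rw [e, h.θ_z]

/-- `a ^ 2` is central in `X` -/
theorem z_central [Finite X] [hQn : Q.Normal] (h : Q8Set Q a b g) (x : X) :
    x * a ^ 2 * x⁻¹ = a ^ 2 := by
  have hzQ : a ^ 2 ∈ Q := Q.pow_mem h.aQ 2
  obtain ⟨p, hp⟩ := h.exists_θ (hQn.conj_mem _ hzQ x)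
  have hsq : (x * a ^ 2 * x⁻¹) ^ 2 = 1 := by
    rw [conj_pow, ← pow_mul, h.a4]; group
  have hne : x * a ^ 2 * x⁻¹ ≠ 1 := by
    intro e
    apply h.a2
    have : a ^ 2 = x⁻¹ * (x * a ^ 2 * x⁻¹) * x := by group
    rw [this, e]; group
  rcases q8_sq_cases p with e | e | e
  · exfalso; apply hne; rw [← hp, e, map_one]
  · rw [← hp, e, h.θ_z]
  · exfalso
    rw [← hp, ← map_pow, e, h.θ_z] at hsq
    exact h.a2 hsq

end Q8Set

end Cfsg.Agent.H25
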