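import Mathlib
import Cfsg.Agent.H25.Q8Set
import Cfsg.Agent.S3742

/-!
# helper25: the action of a group on a normal self-centralizing `Q₈`

For `Q8Set Q a b g` with `Q` normal in `X`: the action homomorphism `Ψ : X → Aut(Q₈)`,
its kernel (the centre, of order two), the bound `|X| ≤ 48`, and surjectivity when `|X| = 48`.
-/

set_option autoImplicit false

namespace Cfsg.Agent.H25

open QuaternionGroup

/-- existence of the `Q8Set` data -/
theorem exists_q8set {X : Type*} [Group X] [Finite X] (Q : Subgroup X) [hQn : Q.Normal]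
    (hQ8 : Nat.card Q = 8) {c z : X} (hI : H39.QIface Q c z)
    (hC : Subgroup.centralizer (Q : Set X) ≤ Q) {g : X} (hgo : (orderOf g).Coprime 2)
    (hgC : g ∉ Subgroup.centralizer (Q : Set X)) : ∃ a b : X, Q8Set Q a b g := by
  have hpow8 : ∀ t ∈ Q, t ^ 8 = 1 := by
    intro t ht
    have h1 : (⟨t, ht⟩ : Q) ^ Nat.card Q = 1 := pow_card_eq_one'
    rw [hQ8] at h1
    have h2 := congrArg Subtype.val h1
    simpa using h2
  have hT2 : ∀ t ∈ Q, ∃ k : ℕ, t ^ 2 ^ k = 1 := fun t ht => ⟨3, hpow8 t ht⟩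
  have hgN : g ∈ Subgroup.normalizer (Q : Set X) := by
    rw [Subgroup.normalizer_eq_top]; exact Subgroup.mem_top g
  obtain ⟨a, b, haQ, hbQ, ha4, ha2, hb, hab2, hga, hgb⟩ :=
    H39.quat_reduction_mem hI hT2 (le_refl Q) hgN hgo hgC
  have hab : a * b = b * a⁻¹ := H39.q8_rel ha4 hb hab2
  obtain ⟨θ, hθdef⟩ : ∃ θ : QuaternionGroup 2 →* X, θ = H39.q8Lift a b ha4 hb hab := ⟨_, rfl⟩
  have hrange : θ.range = Q := by
    apply Subgroup.eq_of_le_of_card_ge
    · rw [hθdef]; exact H39.q8Lift_range_le ha4 hb hab haQ hbQ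
    · rw [hQ8, hθdef, H39.q8Lift_card_range ha4 hb hab ha2]
  -- an element commuting with `a` and `b` centralizes `Q`
  have hcent : ∀ k : X, Commute k a → Commute k b → k ∈ Subgroup.centralizer (Q : Set X) := by
    intro k hka hkb
    rw [Subgroup.mem_centralizer_iff]
    intro q hq
    rw [SetLike.mem_coe, ← hrange] at hq
    obtain ⟨x, rfl⟩ := hq
    rcases x with i | i
    · rw [hθdef, H39.q8Lift_a]
      exact ((hka.pow_right _).eq).symm
    · rw [hθdef, H39.q8Lift_xa]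
      exact ((hkb.mul_right (hka.pow_right _)).eq).symm
  have hbab : b * (a * b) = a := by
    rw [hab, ← mul_assoc, ← sq, hb, sq, mul_assoc, mul_inv_cancel, mul_one]
  have h3a : g ^ 3 * a * (g ^ 3)⁻¹ = a := by
    calc g ^ 3 * a * (g ^ 3)⁻¹ = g * (g * (g * a * g⁻¹) * g⁻¹) * g⁻¹ := by
          rw [pow_succ, pow_succ, pow_one]; group
      _ = g * (a * b) * g⁻¹ := by rw [hga, hgb]
      _ = (g * a * g⁻¹) * (g * b * g⁻¹) := by group
      _ = a := by rw [hga, hgb, hbab]
  have h3b : g ^ 3 * b * (g ^ 3)⁻¹ = b := by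
    calc g ^ 3 * b * (g ^ 3)⁻¹ = g * (g ^ 3 * (g⁻¹ * b * g) * (g ^ 3)⁻¹) * g⁻¹ := by
          rw [pow_succ, pow_succ, pow_one]; group
      _ = g * (g ^ 3 * a * (g ^ 3)⁻¹) * g⁻¹ := by
          rw [← hga]; group
      _ = b := by rw [h3a, hga]
  have hg3 : g ^ 3 = 1 := by
    have hc3 : g ^ 3 ∈ Subgroup.centralizer (Q : Set X) := by
      apply hcent
      · unfold Commute SemiconjBy
        calc g ^ 3 * a = (g ^ 3 * a * (g ^ 3)⁻¹) * g ^ 3 := by group
          _ = a * g ^ 3 := by rw [h3a]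
      · unfold Commute SemiconjBy
        calc g ^ 3 * b = (g ^ 3 * b * (g ^ 3)⁻¹) * g ^ 3 := by group
          _ = b * g ^ 3 := by rw [h3b]
    have h8 := hpow8 _ (hC hc3)
    have d1 : orderOf (g ^ 3) ∣ 2 ^ 3 := orderOf_dvd_of_pow_eq_one h8
    have d2 : orderOf (g ^ 3) ∣ orderOf g := orderOf_pow_dvd 3
    have := Nat.Coprime.eq_one_of_dvd (Nat.Coprime.coprime_dvd_left d2 (hgo.pow_right 3)) d1
    exact orderOf_eq_one_iff.mp this
  have hg1 : g ≠ 1 := by
    rintro rfl
    exact hgC (Subgroup.one_mem _)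
  exact ⟨a, b, ⟨haQ, hbQ, ha4, ha2, hb, hab2, hga, hgb, hg3, hg1, hQ8, hC⟩⟩

namespace Q8Set

variable {X : Type*} [Group X] [Finite X] {Q : Subgroup X} [hQn : Q.Normal] {a b g : X}

/-- the isomorphism `Q₈ ≃* Q` -/
noncomputable def e (h : Q8Set Q a b g) : QuaternionGroup 2 ≃* Q :=
  (MonoidHom.ofInjective h.θ_inj).trans (MulEquiv.subgroupCongr h.θ_range)

theorem e_coe (h : Q8Set Q a b g) (p : QuaternionGroup 2) : ((h.e p : Q) : X) = h.θ p := rfl

/-- the action of `X` on `Q₈` -/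
noncomputable def Ψ (h : Q8Set Q a b g) : X →* MulAut (QuaternionGroup 2) :=
  (MulAut.congr h.e.symm).toMonoidHom.comp (MulAut.conjNormal (H := Q))

theorem θ_Ψ (h : Q8Set Q a b g) (x : X) (p : QuaternionGroup 2) :
    h.θ (h.Ψ x p) = x * h.θ p * x⁻¹ := by
  have h1 : h.Ψ x p = h.e.symm (MulAut.conjNormal x (h.e p)) := rfl
  rw [h1, ← e_coe, MulEquiv.apply_symm_apply, MulAut.conjNormal_apply, e_coe]

theorem z_sq (h : Q8Set Q a b g) : (a ^ 2) ^ 2 = 1 := by
  rw [← pow_mul]; exact h.a4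

theorem z_mem_center (h : Q8Set Q a b g) : a ^ 2 ∈ Subgroup.center X := by
  rw [Subgroup.mem_center_iff]
  intro x
  have h1 := h.z_central x
  calc x * a ^ 2 = (x * a ^ 2 * x⁻¹) * x := by group
    _ = a ^ 2 * x := by rw [h1]

theorem center_eq (h : Q8Set Q a b g) : Subgroup.center X = Subgroup.zpowers (a ^ 2) := by
  apply le_antisymm
  · intro k hk
    have hk' : k ∈ Subgroup.centralizer (Q : Set X) := by
      rw [Subgroup.mem_centralizer_iff]
      intro q _
      exact (Subgroup.mem_center_iff.mp hk q)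
    rcases h.cent_cases hk' with e | e
    · rw [e]; exact Subgroup.one_mem _
    · rw [e]; exact Subgroup.mem_zpowers _
  · rw [Subgroup.zpowers_le]
    exact h.z_mem_center

theorem card_center (h : Q8Set Q a b g) : Nat.card (Subgroup.center X) = 2 := by
  rw [h.center_eq, Nat.card_zpowers]
  exact orderOf_eq_prime h.z_sq h.a2

theorem Ψ_ker (h : Q8Set Q a b g) : h.Ψ.ker = Subgroup.center X := by
  apply le_antisymm
  · intro k hk
    rw [MonoidHom.mem_ker] at hk
    have hkc : k ∈ Subgroup.centralizer (Q : Set X) := by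
      rw [Subgroup.mem_centralizer_iff]
      intro q hq
      obtain ⟨p, rfl⟩ := h.exists_θ hq
      have h1 := h.θ_Ψ k p
      rw [hk, MulAut.one_apply] at h1
      calc h.θ p * k = (k * h.θ p * k⁻¹) * k := by rw [← h1]
        _ = k * h.θ p := by group
    rcases h.cent_cases hkc with e | e
    · rw [e]; exact Subgroup.one_mem _
    · rw [e]; exact h.z_mem_center
  · intro k hk
    rw [MonoidHom.mem_ker]
    ext p
    apply h.θ_inj
    rw [h.θ_Ψ, MulAut.one_apply]
    have h1 := Subgroup.mem_center_iff.mp hk (h.θ p)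
    calc k * h.θ p * k⁻¹ = (h.θ p * k) * k⁻¹ := by rw [h1]
      _ = h.θ p := by group

theorem card_aut_q8 : Nat.card (MulAut (QuaternionGroup 2)) = 24 := by
  obtain ⟨e⟩ := Cfsg.Agent.S3742.result
  rw [Nat.card_congr e.toEquiv, Nat.card_perm, Nat.card_fin]
  rfl

theorem card_eq (h : Q8Set Q a b g) : Nat.card X = 2 * Nat.card h.Ψ.range := by
  have h1 := Subgroup.card_mul_index h.Ψ.ker
  rw [Subgroup.index_ker, h.Ψ_ker, h.card_center] at h1
  exact h1.symm

theorem card_le (h : Q8Set Q a b g) : Nat.card X ≤ 48 := by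
  have h1 := h.card_eq
  have h2 : Nat.card h.Ψ.range ≤ 24 := by
    rw [← card_aut_q8]
    exact Subgroup.card_le_card_group _
  omega

theorem Ψ_surj (h : Q8Set Q a b g) (hc : Nat.card X = 48) : Function.Surjective h.Ψ := by
  rw [← MonoidHom.range_eq_top]
  apply Subgroup.eq_top_of_le_card
  have h1 := h.card_eq
  rw [card_aut_q8]
  omega

theorem quot_center (h : Q8Set Q a b g) (hc : Nat.card X = 48) :
    Nonempty (X ⧸ Subgroup.center X ≃* Equiv.Perm (Fin 4)) := by
  obtain ⟨e⟩ := Cfsg.Agent.S3742.result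
  exact ⟨((QuotientGroup.quotientMulEquivOfEq h.Ψ_ker.symm).trans
    (QuotientGroup.quotientKerEquivOfSurjective h.Ψ (h.Ψ_surj hc))).trans e⟩

/-- `24 ∣ |X|` -/
theorem dvd_card (h : Q8Set Q a b g) : 24 ∣ Nat.card X := by
  have h1 : 8 ∣ Nat.card X := h.card ▸ Subgroup.card_subgroup_dvd_card Q
  have h2 : 3 ∣ Nat.card X := by
    have : orderOf g = 3 := orderOf_eq_prime h.g3 h.g1
    rw [← this]
    exact orderOf_dvd_natCard g
  have h3 : Nat.Coprime 8 3 := by norm_num
  exact h3.mul_dvd_of_dvd_of_dvd h1 h2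

end Q8Set

end Cfsg.Agent.H25
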