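import Mathlib
import Cfsg.Agent.H25.Q8Full
import Cfsg.Agent.H25.Lift

/-!
# helper25: the model `Q₈ ⋊ S₃` of `GL(2,3)` and its recognition
-/

set_option autoImplicit false

namespace Cfsg.Agent.H25

open QuaternionGroup

/-- the involutory automorphism `a ↦ a⁻¹`, `b ↦ (a b)⁻¹` of `Q₈` -/
def q8TauFun : QuaternionGroup 2 → QuaternionGroup 2
  | QuaternionGroup.a i => a (-i)
  | QuaternionGroup.xa i => xa (1 - i)

theorem q8TauFun_mul :
    ∀ x y : QuaternionGroup 2, q8TauFun (x * y) = q8TauFun x * q8TauFun y := by decide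

theorem q8TauFun_sq : ∀ x : QuaternionGroup 2, q8TauFun (q8TauFun x) = x := by decide

/-- the involutory automorphism `a ↦ a⁻¹`, `b ↦ (a b)⁻¹` of `Q₈` -/
def q8Tau : MulAut (QuaternionGroup 2) where
  toFun := q8TauFun
  invFun := q8TauFun
  left_inv := q8TauFun_sq
  right_inv := q8TauFun_sq
  map_mul' := q8TauFun_mul

theorem q8Tau_apply (x : QuaternionGroup 2) : q8Tau x = q8TauFun x := rfl

theorem q8Tau_sq : q8Tau * q8Tau = 1 := by
  ext x
  exact q8TauFun_sq x

theorem q8Tau_sigma_fun : ∀ x : QuaternionGroup 2,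
    q8TauFun (H39.q8SigmaFun (q8TauFun (H39.q8SigmaFun x))) = x := by decide

theorem q8Tau_conj : q8Tau * H39.q8Sigma * q8Tau⁻¹ = H39.q8Sigma⁻¹ := by
  have h1 : q8Tau * H39.q8Sigma * (q8Tau * H39.q8Sigma) = 1 := by
    ext x
    exact q8Tau_sigma_fun x
  have h2 : q8Tau⁻¹ = q8Tau := inv_eq_of_mul_eq_one_right q8Tau_sq
  rw [h2]
  apply eq_inv_of_mul_eq_one_left
  rw [← h1]
  group

/-- the action of `D₃ = S₃` on `Q₈` -/
noncomputable def q8Phi : DihedralGroup 3 →* MulAut (QuaternionGroup 2) :=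
  dihLift 3 H39.q8Sigma q8Tau H39.q8Sigma_cube q8Tau_sq q8Tau_conj

theorem q8Phi_r (i : ZMod 3) : q8Phi (DihedralGroup.r i) = H39.q8Sigma ^ i.val := by
  change zp 3 H39.q8Sigma i = _
  conv_lhs => rw [← ZMod.natCast_zmod_val i]
  exact zp_natCast H39.q8Sigma_cube _

theorem q8Phi_sr (i : ZMod 3) : q8Phi (DihedralGroup.sr i) = q8Tau * H39.q8Sigma ^ i.val := by
  change q8Tau * zp 3 H39.q8Sigma i = _
  conv_lhs => rw [← ZMod.natCast_zmod_val i]
  rw [zp_natCast H39.q8Sigma_cube _]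

theorem q8_not_inner1 : ∀ q : QuaternionGroup 2,
    ¬ (∀ p, H39.q8SigmaFun p = q * p * q⁻¹) := by decide

theorem q8_not_inner2 : ∀ q : QuaternionGroup 2,
    ¬ (∀ p, H39.q8SigmaFun (H39.q8SigmaFun p) = q * p * q⁻¹) := by decide

theorem q8_not_inner3 : ∀ q : QuaternionGroup 2,
    ¬ (∀ p, q8TauFun p = q * p * q⁻¹) := by decide

theorem q8_not_inner4 : ∀ q : QuaternionGroup 2,
    ¬ (∀ p, q8TauFun (H39.q8SigmaFun p) = q * p * q⁻¹) := by decide

theorem q8_not_inner5 : ∀ q : QuaternionGroup 2,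
    ¬ (∀ p, q8TauFun (H39.q8SigmaFun (H39.q8SigmaFun p)) = q * p * q⁻¹) := by decide

/-- only the identity of `D₃` acts as an inner automorphism -/
theorem q8Phi_inner (d : DihedralGroup 3) (q : QuaternionGroup 2)
    (h : ∀ p, q8Phi d p = q * p * q⁻¹) : d = 1 := by
  rcases d with i | i
  · rw [q8Phi_r] at h
    have hi : i.val < 3 := ZMod.val_lt i
    have h0 : i.val = 0 → DihedralGroup.r i = 1 := by
      intro h0
      rw [(ZMod.val_eq_zero i).mp h0]; rfl
    interval_cases hv : i.val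
    · exact h0 rfl
    · exfalso
      apply q8_not_inner1 q
      intro p
      rw [← h p, pow_one]; rfl
    · exfalso
      apply q8_not_inner2 q
      intro p
      rw [← h p, pow_two]; rfl
  · exfalso
    rw [q8Phi_sr] at h
    have hi : i.val < 3 := ZMod.val_lt i
    interval_cases hv : i.val
    · apply q8_not_inner3 q
      intro p
      rw [← h p, pow_zero, mul_one]; rfl
    · apply q8_not_inner4 q
      intro p
      rw [← h p, pow_one]; rfl
    · apply q8_not_inner5 q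
      intro p
      rw [← h p, pow_two]; rfl

/-- the model group `Q₈ ⋊ S₃` of order 48 -/
abbrev M48 : Type := QuaternionGroup 2 ⋊[q8Phi] DihedralGroup 3

theorem card_M48 : Nat.card M48 = 48 := by
  rw [SemidirectProduct.card, Nat.card_eq_fintype_card, QuaternionGroup.card,
    Nat.card_eq_fintype_card, DihedralGroup.card]

/-- recognition of the model group -/
theorem model_equiv {Y : Type*} [Group Y] [Finite Y] (hc : Nat.card Y = 48) {a b g t : Y}
    (ha4 : a ^ 4 = 1) (ha2 : a ^ 2 ≠ 1) (hb : b ^ 2 = a ^ 2) (hab2 : (a * b) ^ 2 = a ^ 2)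
    (hga : g * a * g⁻¹ = b) (hgb : g * b * g⁻¹ = a * b) (hg3 : g ^ 3 = 1)
    (hta : t * a * t⁻¹ = a⁻¹) (htb : t * b * t⁻¹ = (a * b)⁻¹) (ht2 : t * t = 1)
    (htg : t * g * t⁻¹ = g⁻¹) : Nonempty (M48 ≃* Y) := by
  have h4 : a⁻¹ = a ^ 3 := by
    apply inv_eq_of_mul_eq_one_right
    rw [← pow_succ']; exact ha4
  have hab : a * b = b * a⁻¹ := H39.q8_rel ha4 hb hab2
  obtain ⟨θ, hθdef⟩ : ∃ θ : QuaternionGroup 2 →* Y, θ = H39.q8Lift a b ha4 hb hab := ⟨_, rfl⟩
  have hθinj : Function.Injective θ := hθdef ▸ H39.q8Lift_injective a b ha4 hb hab ha2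
  have hθa : θ (QuaternionGroup.a 1) = a := by rw [hθdef]; exact H39.q8Lift_a_one a b ha4 hb hab
  have hθb : θ (xa 0) = b := by
    rw [hθdef, H39.q8Lift_xa]
    have e3 : (0 : ZMod (2 * 2)).val = 0 := rfl
    rw [e3, pow_zero, mul_one]
  have hθσ : ∀ x, θ (H39.q8Sigma x) = g * θ x * g⁻¹ := by
    have : θ.comp H39.q8Sigma.toMonoidHom = (MulAut.conj g).toMonoidHom.comp θ := by
      apply H39.q8_hom_ext
      · change θ (H39.q8SigmaFun (QuaternionGroup.a 1)) = g * θ (QuaternionGroup.a 1) * g⁻¹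
        have e1 : H39.q8SigmaFun (QuaternionGroup.a 1) = xa 0 := rfl
        rw [e1, hθa, hθb, hga]
      · change θ (H39.q8SigmaFun (xa 0)) = g * θ (xa 0) * g⁻¹
        have e1 : H39.q8SigmaFun (xa 0) = xa 3 := rfl
        have e2 : (3 : ZMod (2 * 2)).val = 3 := rfl
        rw [e1, hθb, hθdef, H39.q8Lift_xa, e2, hgb, hab, h4]
    intro x
    exact DFunLike.congr_fun this x
  have hba : (a * b)⁻¹ = b * a := by
    apply inv_eq_of_mul_eq_one_right
    calc a * b * (b * a) = a * b ^ 2 * a := by rw [pow_two]; group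
      _ = a ^ 4 := by rw [hb]; group
      _ = 1 := ha4
  have hθτ : ∀ x, θ (q8Tau x) = t * θ x * t⁻¹ := by
    have : θ.comp q8Tau.toMonoidHom = (MulAut.conj t).toMonoidHom.comp θ := by
      apply H39.q8_hom_ext
      · change θ (q8TauFun (QuaternionGroup.a 1)) = t * θ (QuaternionGroup.a 1) * t⁻¹
        have e1 : q8TauFun (QuaternionGroup.a 1) = QuaternionGroup.a 3 := rfl
        have e2 : (3 : ZMod (2 * 2)).val = 3 := rfl
        rw [e1, hθa, hta, hθdef, H39.q8Lift_a, e2, h4]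
      · change θ (q8TauFun (xa 0)) = t * θ (xa 0) * t⁻¹
        have e1 : q8TauFun (xa 0) = xa 1 := rfl
        have e2 : (1 : ZMod (2 * 2)).val = 1 := rfl
        rw [e1, hθb, htb, hθdef, H39.q8Lift_xa, e2, pow_one, hba]
    intro x
    exact DFunLike.congr_fun this x
  obtain ⟨δ, hδdef⟩ : ∃ δ : DihedralGroup 3 →* Y, δ = dihLift 3 g t hg3 ht2 htg := ⟨_, rfl⟩
  have hcompat : ∀ d p, θ (q8Phi d p) = δ d * θ p * (δ d)⁻¹ := by
    intro d p
    rcases d with i | i
    · have e1 : q8Phi (DihedralGroup.r i) = H39.q8Sigma ^ (ZMod.cast i : ℤ) := rfl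
      have e2 : δ (DihedralGroup.r i) = g ^ (ZMod.cast i : ℤ) := by rw [hδdef]; rfl
      rw [e1, e2]
      exact H39.intertwine_zpow θ H39.q8Sigma g hθσ _ p
    · have e1 : q8Phi (DihedralGroup.sr i) = q8Tau * H39.q8Sigma ^ (ZMod.cast i : ℤ) := rfl
      have e2 : δ (DihedralGroup.sr i) = t * g ^ (ZMod.cast i : ℤ) := by rw [hδdef]; rfl
      rw [e1, e2, MulAut.mul_apply, hθτ, H39.intertwine_zpow θ H39.q8Sigma g hθσ _ p]
      group
  obtain ⟨π, hπ⟩ : ∃ π : M48 →* Y, ∀ γ : M48, π γ = θ γ.left * δ γ.right :=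
    ⟨SemidirectProduct.lift θ δ (by
      intro d
      refine MonoidHom.ext fun x => ?_
      simp only [MonoidHom.comp_apply, MulEquiv.coe_toMonoidHom, MulAut.conj_apply]
      exact hcompat d x), fun γ => rfl⟩
  have hinj : Function.Injective π := by
    rw [injective_iff_map_eq_one]
    intro γ hγ
    rw [hπ] at hγ
    have h1 : δ γ.right = θ (γ.left)⁻¹ := by
      rw [map_inv]
      exact eq_inv_of_mul_eq_one_right hγ
    have h2 : γ.right = 1 := by
      apply q8Phi_inner γ.right (γ.left)⁻¹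
      intro p
      apply hθinj
      rw [hcompat, h1, map_mul, map_mul, map_inv, map_inv, map_inv]
    have h3 : γ.left = 1 := by
      apply hθinj
      rw [h2, map_one, mul_one] at hγ
      rw [hγ, map_one]
    exact SemidirectProduct.ext h3 h2
  have hbij : Function.Bijective π :=
    (Nat.bijective_iff_injective_and_card π).mpr ⟨hinj, by rw [card_M48, hc]⟩
  exact ⟨MulEquiv.ofBijective π hbij⟩

end Cfsg.Agent.H25
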