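import Mathlib
import Cfsg.Agent.H25.Q8Tau

/-!
# helper25: `GL(2,3)` is the model group `Q₈ ⋊ S₃`
-/

set_option autoImplicit false

namespace Cfsg.Agent.H25

/-- generators of `GL(2,3)` -/
def glA : GL (Fin 2) (ZMod 3) := ⟨!![0, -1; 1, 0], !![0, 1; -1, 0], by decide, by decide⟩

def glB : GL (Fin 2) (ZMod 3) := ⟨!![1, 1; 1, -1], !![-1, -1; -1, 1], by decide, by decide⟩

def glG : GL (Fin 2) (ZMod 3) := ⟨!![1, 1; 0, 1], !![1, -1; 0, 1], by decide, by decide⟩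

def glT : GL (Fin 2) (ZMod 3) := ⟨!![1, 0; 0, -1], !![1, 0; 0, -1], by decide, by decide⟩

theorem card_gl23 : Nat.card (GL (Fin 2) (ZMod 3)) = 48 := by
  rw [Matrix.card_GL_field]
  simp [Fin.prod_univ_two, ZMod.card]

theorem gl_a4 : glA ^ 4 = 1 := by decide
theorem gl_a2 : glA ^ 2 ≠ 1 := by decide
theorem gl_b2 : glB ^ 2 = glA ^ 2 := by decide
theorem gl_ab2 : (glA * glB) ^ 2 = glA ^ 2 := by decide
theorem gl_ga : glG * glA * glG⁻¹ = glB := by decide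
theorem gl_gb : glG * glB * glG⁻¹ = glA * glB := by decide
theorem gl_g3 : glG ^ 3 = 1 := by decide
theorem gl_ta : glT * glA * glT⁻¹ = glA⁻¹ := by decide
theorem gl_tb : glT * glB * glT⁻¹ = (glA * glB)⁻¹ := by decide
theorem gl_t2 : glT * glT = 1 := by decide
theorem gl_tg : glT * glG * glT⁻¹ = glG⁻¹ := by decide

theorem model_gl23 : Nonempty (M48 ≃* GL (Fin 2) (ZMod 3)) :=
  model_equiv card_gl23 gl_a4 gl_a2 gl_b2 gl_ab2 gl_ga gl_gb gl_g3 gl_ta gl_tb gl_t2 gl_tg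

end Cfsg.Agent.H25
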