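import Mathlib
import Cfsg.Agent.H74.MCDefs
import Cfsg.Agent.H82.Extra

set_option autoImplicit false

/-! S4756 team project (helper74), piece S4756-ABEL: every irreducible character of a
commutative finite group is linear. -/

namespace Cfsg.Agent.H25.MC

open Cfsg Cfsg.Agent.H74.MC
open scoped commutatorElement

universe u

theorem abel : StAbel.{u} := by
  intro G _ _ hcomm χ
  classical
  let _ := Cfsg.Agent.H4.fintypeIrr G
  have hsum := Cfsg.Agent.H82.index_add_sum_nonlinear (G := G)
  have hbot : commutator G = ⊥ := by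
    rw [eq_bot_iff, commutator_def, Subgroup.commutator_le]
    intro g₁ _ g₂ _
    rw [Subgroup.mem_bot, commutatorElement_eq_one_iff_commute]
    exact hcomm.is_comm.comm g₁ g₂
  rw [hbot, Subgroup.index_bot] at hsum
  have hz : ∑ χ ∈ Finset.univ.filter (fun χ : Cfsg.IrrCharacter G => ¬ Cfsg.charDegree χ.1 = 1),
      Cfsg.charDegree χ.1 ^ 2 = 0 := by
    omega
  by_contra hne
  have hmem : χ ∈ Finset.univ.filter (fun χ : Cfsg.IrrCharacter G => ¬ Cfsg.charDegree χ.1 = 1) :=
    Finset.mem_filter.2 ⟨Finset.mem_univ χ, hne⟩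
  have h0 := (Finset.sum_eq_zero_iff.1 hz) χ hmem
  have hpos := Cfsg.Agent.H82.charDegree_pos χ
  have h1 : Cfsg.charDegree χ.1 = 0 := by
    rcases Nat.eq_zero_or_pos (Cfsg.charDegree χ.1) with h | h
    · exact h
    · have := pow_pos h 2
      omega
  omega

example : Cfsg.Agent.H74.MC.StAbel.{u} := abel

end Cfsg.Agent.H25.MC
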