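import Mathlib
import Cfsg.Agent.H74.MCDefs
import Cfsg.Agent.H82.Extra

set_option autoImplicit false

/-! S4756 team project (helper74), piece S4756-BIG: if the degree of a nonlinear irreducible
character is divisible by the full `r`-part of `|G|` for every prime `r ≠ p`, then
`|G| < (|G|_p)²`. -/

namespace Cfsg.Agent.H25.MC

open Cfsg Cfsg.Agent.H74.MC

universe u

theorem big : StBig.{u} := by
  intro G _ _ χ hne p hp hdiv
  classical
  let _ := Cfsg.Agent.H4.fintypeIrr G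
  have hsum := Cfsg.Agent.H82.index_add_sum_nonlinear (G := G)
  have hNpos : 0 < Nat.card G := Nat.card_pos
  have hnpos := Cfsg.Agent.H82.charDegree_pos χ
  obtain ⟨n, hn⟩ : ∃ n : ℕ, n = Cfsg.charDegree χ.1 := ⟨_, rfl⟩
  obtain ⟨N, hN⟩ : ∃ N : ℕ, N = Nat.card G := ⟨_, rfl⟩
  rw [← hn] at hnpos
  rw [← hN] at hNpos hsum
  have hdiv' : ∀ r : ℕ, r.Prime → r ≠ p → r ^ N.factorization r ∣ n := by
    intro r hr hrp
    rw [hN, hn]
    exact hdiv r hr hrp
  rw [← hN]
  -- `n ^ 2 + 1 ≤ N`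
  have hmem : χ ∈ Finset.univ.filter (fun χ : Cfsg.IrrCharacter G => ¬ Cfsg.charDegree χ.1 = 1) :=
    Finset.mem_filter.2 ⟨Finset.mem_univ χ, hne⟩
  have hle : n ^ 2 ≤ ∑ χ ∈ Finset.univ.filter
      (fun χ : Cfsg.IrrCharacter G => ¬ Cfsg.charDegree χ.1 = 1), Cfsg.charDegree χ.1 ^ 2 := by
    rw [hn]
    exact Finset.single_le_sum (f := fun χ : Cfsg.IrrCharacter G => Cfsg.charDegree χ.1 ^ 2)
      (fun _ _ => Nat.zero_le _) hmem
  have hidx : 0 < (commutator G).index := Nat.pos_of_ne_zero Subgroup.index_ne_zero_of_finite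
  have hn2 : n ^ 2 + 1 ≤ N := by omega
  -- `m := N / p ^ v` divides `n`
  have hNne : N ≠ 0 := hNpos.ne'
  have hmne : N / p ^ N.factorization p ≠ 0 := (Nat.ordCompl_pos p hNne).ne'
  have hmdvd : N / p ^ N.factorization p ∣ n := by
    rw [← Nat.factorization_le_iff_dvd hmne hnpos.ne']
    intro r
    rw [Nat.factorization_ordCompl]
    by_cases hr : r.Prime
    · by_cases hrp : r = p
      · rw [hrp, Finsupp.erase_same]
        exact Nat.zero_le _
      · rw [Finsupp.erase_ne hrp]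
        exact (Nat.Prime.pow_dvd_iff_le_factorization hr hnpos.ne').1 (hdiv' r hr hrp)
    · by_cases hrp : r = p
      · rw [hrp, Finsupp.erase_same]
        exact Nat.zero_le _
      · rw [Finsupp.erase_ne hrp, Nat.factorization_eq_zero_of_not_prime _ hr]
        exact Nat.zero_le _
  have hmle : N / p ^ N.factorization p ≤ n := Nat.le_of_dvd hnpos hmdvd
  have hprod : p ^ N.factorization p * (N / p ^ N.factorization p) = N :=
    Nat.ordProj_mul_ordCompl_eq_self N p
  obtain ⟨m, hm⟩ : ∃ m : ℕ, m = N / p ^ N.factorization p := ⟨_, rfl⟩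
  obtain ⟨P, hP⟩ : ∃ P : ℕ, P = p ^ N.factorization p := ⟨_, rfl⟩
  rw [← hm] at hmle hprod hmne
  rw [← hP] at hprod ⊢
  have hmpos : 0 < m := Nat.pos_of_ne_zero hmne
  have h1 : m * m ≤ n ^ 2 := by
    rw [pow_two]
    exact Nat.mul_le_mul hmle hmle
  have h2 : m * m < P * m := by
    rw [hprod]
    omega
  have h3 : m < P := Nat.lt_of_mul_lt_mul_right h2
  calc N = P * m := hprod.symm
    _ < P * P := Nat.mul_lt_mul_of_pos_left h3 (by omega)
    _ = P ^ 2 := (pow_two P).symm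

example : Cfsg.Agent.H74.MC.StBig.{u} := big

end Cfsg.Agent.H25.MC
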