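import Mathlib
import Cfsg.Agent.H74.MCDefs

set_option autoImplicit false

/-! S4756 team project (helper74), piece S4756-CONJ: in the local setup, for `a ∈ A`, `a ≠ 1`
and `d ∈ G'` there is `u ∈ P` with `u a u⁻¹ = a d` (the class of `a` is the coset `a G'`). -/

namespace Cfsg.Agent.H25.MC

open Cfsg Cfsg.Agent.H74.MC
open scoped commutatorElement Pointwise

universe u

theorem conj : StConj.{u} := by
  intro G _ _ p _ P A hS a haA ha1 d hd
  classical
  have haP : a ∉ P := by
    intro h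
    have h' : a ∈ A ⊓ P := ⟨haA, h⟩
    rw [hS.inf, Subgroup.mem_bot] at h'
    exact ha1 h'
  have hc := hS.cent a haP
  obtain ⟨K, hK⟩ : ∃ K : Subgroup G, K = Subgroup.centralizer ({a} : Set G) := ⟨_, rfl⟩
  rw [← hK] at hc
  have hmemK : ∀ g, g ∈ K ↔ g * a = a * g := by
    intro g
    rw [hK, Subgroup.mem_centralizer_iff]
    constructor
    · intro h
      exact (h a (Set.mem_singleton a)).symm
    · intro h x hx
      rw [Set.mem_singleton_iff] at hx
      rw [hx]
      exact h.symm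
  have hmemD : ∀ g : G, a⁻¹ * g * a * g⁻¹ ∈ commutator G := by
    intro g
    have e : a⁻¹ * g * a * g⁻¹ = ⁅a⁻¹, g⁆ := by
      rw [commutatorElement_def, inv_inv]
    rw [e, commutator_def]
    exact Subgroup.commutator_mem_commutator (Subgroup.mem_top _) (Subgroup.mem_top _)
  have hwd : ∀ g h : G, g⁻¹ * h ∈ K → a⁻¹ * g * a * g⁻¹ = a⁻¹ * h * a * h⁻¹ := by
    intro g h hgh
    have h1 := (hmemK _).1 hgh
    have h2 : h * a * h⁻¹ = g * a * g⁻¹ := by
      have e : g⁻¹ * h * a * h⁻¹ * g = a := by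
        rw [h1]
        group
      calc h * a * h⁻¹ = g * (g⁻¹ * h * a * h⁻¹ * g) * g⁻¹ := by group
        _ = g * a * g⁻¹ := by rw [e]
    calc a⁻¹ * g * a * g⁻¹ = a⁻¹ * (g * a * g⁻¹) := by group
      _ = a⁻¹ * (h * a * h⁻¹) := by rw [h2]
      _ = a⁻¹ * h * a * h⁻¹ := by group
  let F : G ⧸ K → ↥(commutator G) := fun q =>
    Quotient.liftOn' q (fun g => (⟨a⁻¹ * g * a * g⁻¹, hmemD g⟩ : ↥(commutator G)))
      (by
        intro g h hgh
        rw [QuotientGroup.leftRel_apply] at hgh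
        exact Subtype.ext (hwd g h hgh))
  have hF : ∀ g : G, F (QuotientGroup.mk g) = ⟨a⁻¹ * g * a * g⁻¹, hmemD g⟩ := fun g => rfl
  have hinj : Function.Injective F := by
    intro q1 q2
    refine Quotient.inductionOn₂' q1 q2 ?_
    intro g h hFe
    have h3 : a⁻¹ * g * a * g⁻¹ = a⁻¹ * h * a * h⁻¹ := congrArg Subtype.val hFe
    apply Quotient.sound'
    rw [QuotientGroup.leftRel_apply, hmemK]
    have h4 : g * a * g⁻¹ = h * a * h⁻¹ := by
      have e := congrArg (fun z => a * z) h3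
      simpa [mul_assoc] using e
    calc g⁻¹ * h * a = g⁻¹ * (h * a * h⁻¹) * h := by group
      _ = g⁻¹ * (g * a * g⁻¹) * h := by rw [h4]
      _ = a * (g⁻¹ * h) := by group
  have hcard : Nat.card ↥(commutator G) ≤ Nat.card (G ⧸ K) := by
    have h5 := Subgroup.card_mul_index K
    have hKpos : 0 < Nat.card K := Nat.card_pos
    have h6 : K.index = Nat.card ↥(commutator G) := by
      apply Nat.eq_of_mul_eq_mul_left hKpos
      rw [h5, hc]
    exact le_of_eq h6.symm
  have hbij := Function.Injective.bijective_of_nat_card_le hinj hcard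
  obtain ⟨q, hq⟩ := hbij.2 ⟨d, hd⟩
  obtain ⟨g, rfl⟩ := QuotientGroup.mk_surjective q
  have h7 : a⁻¹ * g * a * g⁻¹ = d := by
    have e := congrArg Subtype.val hq
    rw [hF] at e
    exact e
  have hg : g ∈ P ⊔ A := by
    rw [sup_comm, hS.sup]
    exact Subgroup.mem_top g
  have hn := hS.normal
  have hg' : g ∈ (P : Set G) * (A : Set G) := by
    rw [← Subgroup.normal_mul]
    exact hg
  obtain ⟨u, hu, b, hb, rfl⟩ := Set.mem_mul.1 hg'
  refine ⟨u, hu, ?_⟩
  have hba : b * a = a * b := hS.abel b hb a haA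
  have e1 : u * b * a * (u * b)⁻¹ = u * a * u⁻¹ := by
    have e : b * a * b⁻¹ = a := by
      rw [hba]
      group
    calc u * b * a * (u * b)⁻¹ = u * (b * a * b⁻¹) * u⁻¹ := by group
      _ = u * a * u⁻¹ := by rw [e]
  rw [← e1, ← h7]
  group

example : Cfsg.Agent.H74.MC.StConj.{u} := conj

end Cfsg.Agent.H25.MC
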