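import Mathlib
import Cfsg.Agent.H74.MCDefs

set_option autoImplicit false

/-! S4756 team project (helper74), piece S4756-DEQ: in the local setup with `A ≠ ⊥`,
`⁅A, P⁆ = G'`. -/

namespace Cfsg.Agent.H25.MC

open Cfsg Cfsg.Agent.H74.MC
open scoped commutatorElement Pointwise

universe u

theorem dEq (hC : StConj.{u}) : StDEq.{u} := by
  intro G _ _ p _ P A hS hA
  apply le_antisymm
  · rw [commutator_def]
    exact Subgroup.commutator_mono le_top le_top
  · intro d hd
    obtain ⟨⟨a, haA⟩, ha⟩ := (Subgroup.ne_bot_iff_exists_ne_one).1 hA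
    have ha1 : a ≠ 1 := by
      intro h
      apply ha
      exact Subtype.ext h
    obtain ⟨u, hu, hconj⟩ := hC G p P A hS a haA ha1 d hd
    have e : d = ⁅a⁻¹, u⁆ := by
      rw [commutatorElement_def, inv_inv]
      have e1 : a⁻¹ * u * a * u⁻¹ = a⁻¹ * (u * a * u⁻¹) := by group
      rw [e1, hconj]
      group
    rw [e]
    exact Subgroup.commutator_mem_commutator (A.inv_mem haA) hu

example (hC : StConj.{u}) : Cfsg.Agent.H74.MC.StDEq.{u} := dEq hC

end Cfsg.Agent.H25.MC
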