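import Mathlib
import Cfsg.Agent.H74.MCDefs

set_option autoImplicit false

/-! S4756 team project (helper74), piece S4756-FPF: in the local setup, `A` acts
fixed-point-freely on `G'`. -/

namespace Cfsg.Agent.H25.MC

open Cfsg Cfsg.Agent.H74.MC

universe u

theorem fpf (hC : StConj.{u}) : StFpf.{u} := by
  intro G _ _ p _ P A hS a haA ha1 d hd hcomm
  obtain ⟨u, hu, hconj⟩ := hC G p P A hS a haA ha1 d hd
  have h1 : (a * d) ^ orderOf a = 1 := by
    rw [← hconj, conj_pow, pow_orderOf_eq_one]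
    group
  have hcm : Commute a d := hcomm
  rw [hcm.mul_pow, pow_orderOf_eq_one, one_mul] at h1
  have hdvd : orderOf d ∣ orderOf a := orderOf_dvd_of_pow_eq_one h1
  have hA : orderOf a ∣ Nat.card ↥A := by
    have h := orderOf_dvd_natCard (⟨a, haA⟩ : ↥A)
    rwa [Subgroup.orderOf_mk] at h
  have hdP : d ∈ P := hS.comm_le hd
  obtain ⟨k, hk⟩ := (IsPGroup.iff_orderOf.1 hS.pgroup) ⟨d, hdP⟩
  rw [Subgroup.orderOf_mk] at hk
  have hdvd2 : p ^ k ∣ Nat.card ↥A := by
    rw [← hk]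
    exact hdvd.trans hA
  have hcop : Nat.Coprime (p ^ k) (Nat.card ↥A) := (Nat.Coprime.pow_right k hS.coprime).symm
  have h1' : p ^ k = 1 := Nat.Coprime.eq_one_of_dvd hcop hdvd2
  rw [h1'] at hk
  exact orderOf_eq_one_iff.1 hk

example (hC : StConj.{u}) : Cfsg.Agent.H74.MC.StFpf.{u} := fpf hC

end Cfsg.Agent.H25.MC
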