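import Mathlib
import Cfsg.Agent.H43.MCDefs

/-!
# S3905 team project (helper43), piece S3905-NCOND (helper25)

Normalizer condition, quotient-free statement.
-/

set_option autoImplicit false

namespace Cfsg.Agent.H25.MC

open Cfsg.Agent.H43.MC

universe u

/-- S3905-NCOND. -/
theorem ncond : StNCond.{u} := by
  intro G _ _ p hp A S T hAS hST hne hnorm hpow
  have hfact : Fact p.Prime := ⟨hp⟩
  have hA'n : (A.subgroupOf T).Normal := by
    constructor
    intro a ha t
    rw [Subgroup.mem_subgroupOf] at ha ⊢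
    have h1 := hnorm t t.2 a ha
    simpa using h1
  have hQ : IsPGroup p (↥T ⧸ A.subgroupOf T) := by
    intro q
    induction q using QuotientGroup.induction_on with
    | H t =>
      obtain ⟨k, hk⟩ := hpow t t.2
      refine ⟨k, ?_⟩
      rw [← QuotientGroup.mk_pow, QuotientGroup.eq_one_iff, Subgroup.mem_subgroupOf]
      simpa using hk
  have hnil : Group.IsNilpotent (↥T ⧸ A.subgroupOf T) := hQ.isNilpotent
  have hNC := Group.normalizerCondition_of_isNilpotent (G := ↥T ⧸ A.subgroupOf T)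
  obtain ⟨Sb, hSb⟩ : ∃ Sb : Subgroup (↥T ⧸ A.subgroupOf T),
      Sb = (S.subgroupOf T).map (QuotientGroup.mk' (A.subgroupOf T)) := ⟨_, rfl⟩
  have hmem : ∀ t : T, (QuotientGroup.mk' (A.subgroupOf T) t) ∈ Sb ↔ (t : G) ∈ S := by
    intro t
    rw [hSb, Subgroup.mem_map]
    constructor
    · rintro ⟨s, hs, hst⟩
      rw [QuotientGroup.mk'_eq_mk'] at hst
      obtain ⟨z, hz, rfl⟩ := hst
      rw [Subgroup.mem_subgroupOf] at hs hz
      exact S.mul_mem hs (hAS hz)
    · intro ht
      exact ⟨t, Subgroup.mem_subgroupOf.mpr ht, rfl⟩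
  have hlt : Sb < ⊤ := by
    rw [lt_top_iff_ne_top]
    intro htop
    apply hne
    apply le_antisymm hST
    intro t ht
    have h1 : (QuotientGroup.mk' (A.subgroupOf T) ⟨t, ht⟩) ∈ Sb := by
      rw [htop]
      exact Subgroup.mem_top _
    exact (hmem ⟨t, ht⟩).mp h1
  have h1 := hNC Sb hlt
  obtain ⟨nb, hnb1, hnb2⟩ := SetLike.exists_of_lt h1
  obtain ⟨n, rfl⟩ := QuotientGroup.mk'_surjective (A.subgroupOf T) nb
  refine ⟨n, n.2, fun hn => hnb2 ((hmem n).mpr hn), ?_⟩
  intro s hs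
  have h2 := (Subgroup.mem_normalizer_iff.mp hnb1
    (QuotientGroup.mk' (A.subgroupOf T) ⟨s, hST hs⟩)).mp ((hmem ⟨s, hST hs⟩).mpr hs)
  rw [← map_inv, ← map_mul, ← map_mul] at h2
  exact (hmem _).mp h2

example : StNCond.{u} := ncond

end Cfsg.Agent.H25.MC
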