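import Mathlib
import Cfsg.Agent.H43.MCDefs

/-!
# S3905 team project (helper43), pieces S3905-SPLIT and S3905-PRIM (helper25)
-/

set_option autoImplicit false

namespace Cfsg.Agent.H25.MC

open Cfsg.Agent.H43.MC

universe u

/-- S3905-SPLIT: `g = g_p * g_{p'}` with both factors powers of `g`. -/
theorem split : StSplit.{u} := by
  intro G _ _ p hp g
  have hn0 : orderOf g ≠ 0 := (orderOf_pos g).ne'
  obtain ⟨k, m, hm, hn⟩ := Nat.exists_eq_pow_mul_and_not_dvd hn0 p hp.ne_one
  have hco : (p ^ k).Coprime m := Nat.Coprime.pow_left k ((Nat.Prime.coprime_iff_not_dvd hp).mpr hm)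
  obtain ⟨a, ha1, ha2⟩ := Nat.chineseRemainder hco 1 0
  obtain ⟨b, hb1, hb2⟩ := Nat.chineseRemainder hco 0 1
  refine ⟨a, b, ?_, ?_, ?_⟩
  · have h1 : a + b ≡ 1 [MOD p ^ k] := by
      have := Nat.ModEq.add ha1 hb1
      simpa using this
    have h2 : a + b ≡ 1 [MOD m] := by
      have := Nat.ModEq.add ha2 hb2
      simpa using this
    have h3 : a + b ≡ 1 [MOD orderOf g] := by
      rw [hn]
      exact (Nat.modEq_and_modEq_iff_modEq_mul hco).mp ⟨h1, h2⟩
    rw [← pow_add]
    conv_lhs => rw [← pow_one g]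
    exact (pow_eq_pow_iff_modEq.mpr h3).symm
  · have hma : m ∣ a := (Nat.modEq_zero_iff_dvd).mp ha2
    obtain ⟨c, hc⟩ := hma
    have h1 : (g ^ a) ^ (p ^ k) = 1 := by
      rw [← pow_mul, hc, mul_comm m c, mul_assoc, mul_comm m (p ^ k), ← hn, mul_comm, pow_mul,
        pow_orderOf_eq_one, one_pow]
    have h2 : orderOf (g ^ a) ∣ p ^ k := orderOf_dvd_of_pow_eq_one h1
    obtain ⟨j, -, hj⟩ := (Nat.dvd_prime_pow hp).mp h2
    exact ⟨j, hj⟩
  · have hpb : p ^ k ∣ b := (Nat.modEq_zero_iff_dvd).mp hb1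
    obtain ⟨c, hc⟩ := hpb
    have h1 : (g ^ b) ^ m = 1 := by
      rw [← pow_mul, hc, mul_comm (p ^ k) c, mul_assoc, ← hn, mul_comm, pow_mul,
        pow_orderOf_eq_one, one_pow]
    have h2 : orderOf (g ^ b) ∣ m := orderOf_dvd_of_pow_eq_one h1
    exact Nat.Coprime.coprime_dvd_left h2 ((Nat.Prime.coprime_iff_not_dvd hp).mpr hm).symm

example : StSplit.{u} := split

/-- S3905-PRIM: an element outside a subgroup has a power of prime power order outside it. -/
theorem prim : StPrim.{u} := by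
  intro G _ _ K g hg
  induction' h : orderOf g using Nat.strong_induction_on with n ih generalizing g
  have hg1 : g ≠ 1 := by
    intro h1
    rw [h1] at hg
    exact hg K.one_mem
  have hn1 : n ≠ 1 := by
    intro h1
    rw [h1] at h
    exact hg1 (orderOf_eq_one_iff.mp h)
  obtain ⟨p, hp, hpn⟩ := Nat.exists_prime_and_dvd hn1
  obtain ⟨a, b, hab, ⟨k, hk⟩, hcop⟩ := split G p hp g
  by_cases hga : g ^ a ∈ K
  · have hgb : g ^ b ∉ K := by
      intro hgb
      apply hg
      rw [hab]
      exact K.mul_mem hga hgb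
    have hlt : orderOf (g ^ b) < n := by
      have hd : orderOf (g ^ b) ∣ n := by
        rw [← h]
        exact orderOf_pow_dvd b
      have hne : orderOf (g ^ b) ≠ n := by
        intro he
        rw [he] at hcop
        exact (Nat.Prime.coprime_iff_not_dvd hp).mp hcop.symm hpn
      have hnpos : 0 < n := by
        rw [← h]
        exact orderOf_pos g
      exact lt_of_le_of_ne (Nat.le_of_dvd hnpos hd) hne
    obtain ⟨r, m', k', hr, hm', hk'⟩ := ih _ hlt (g ^ b) hgb rfl
    refine ⟨r, b * m', k', hr, ?_, ?_⟩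
    · rw [pow_mul]
      exact hm'
    · rw [pow_mul]
      exact hk'
  · exact ⟨p, a, k, hp, hga, hk⟩

example : StPrim.{u} := prim

end Cfsg.Agent.H25.MC
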