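import Mathlib

/-!
Generic counting tools for the order-type problem: the number `F X d` of solutions of
`x ^ d = 1`, its behaviour on products, powers, fibre products and unit groups, and the
passage from equal `F` to equal numbers of elements of each order.
-/

set_option autoImplicit false

namespace Cfsg.Agent.H25.OT

open scoped commutatorElement

/-- Number of solutions of `x ^ d = 1`. -/
noncomputable def F (X : Type) [Monoid X] (d : ℕ) : ℕ := Nat.card {x : X // x ^ d = 1}

theorem F_eq_card (X : Type) [Monoid X] [Fintype X] [DecidableEq X] (d : ℕ) :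
    F X d = (Finset.univ.filter fun x : X => x ^ d = 1).card := by
  unfold F
  rw [Nat.card_eq_fintype_card, Fintype.card_subtype]

theorem F_prod (A B : Type) [Monoid A] [Monoid B] (d : ℕ) :
    F (A × B) d = F A d * F B d := by
  unfold F
  rw [← Nat.card_prod]
  refine Nat.card_congr ?_
  exact
    { toFun := fun p => (⟨p.1.1, congrArg Prod.fst p.2⟩, ⟨p.1.2, congrArg Prod.snd p.2⟩)
      invFun := fun q => ⟨(q.1.1, q.2.1), Prod.ext q.1.2 q.2.2⟩
      left_inv := fun _ => rfl
      right_inv := fun _ => rfl }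

theorem F_pi (k : ℕ) (A : Type) [Monoid A] (d : ℕ) :
    F (Fin k → A) d = F A d ^ k := by
  unfold F
  have h : Nat.card (Fin k → {a : A // a ^ d = 1}) = Nat.card {a : A // a ^ d = 1} ^ k := by
    rw [Nat.card_fun, Nat.card_fin]
  rw [← h]
  refine Nat.card_congr ?_
  exact
    { toFun := fun f i => ⟨f.1 i, congrFun f.2 i⟩
      invFun := fun g => ⟨fun i => (g i).1, funext fun i => (g i).2⟩
      left_inv := fun _ => rfl
      right_inv := fun _ => rfl }

theorem F_units (M : Type) [Monoid M] (d : ℕ) (hd : d ≠ 0) : F Mˣ d = F M d := by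
  unfold F
  refine Nat.card_congr ?_
  exact
    { toFun := fun g => ⟨g.1.val, by rw [← Units.val_pow_eq_pow_val, g.2, Units.val_one]⟩
      invFun := fun x => ⟨Units.ofPowEqOne x.1 d x.2 hd, Units.ext (by
        rw [Units.val_pow_eq_pow_val, Units.val_ofPowEqOne, x.2, Units.val_one])⟩
      left_inv := fun g => Subtype.ext (Units.ext rfl)
      right_inv := fun x => rfl }

/-- A grading: a map to `ZMod 2` turning products into sums. -/
structure Grd (A : Type) [Group A] where
  f : A → ZMod 2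
  map_mul : ∀ x y, f (x * y) = f x + f y

namespace Grd

variable {A B : Type} [Group A] [Group B]

theorem map_one (α : Grd A) : α.f 1 = 0 := by
  have h := α.map_mul 1 1
  rw [mul_one] at h
  exact left_eq_add.mp h

theorem map_inv (α : Grd A) (x : A) : α.f x⁻¹ = α.f x := by
  have h := α.map_mul x⁻¹ x
  rw [inv_mul_cancel, α.map_one] at h
  have h2 : α.f x⁻¹ = - α.f x := eq_neg_of_add_eq_zero_left h.symm
  rw [h2]
  exact ZMod.neg_eq_self_mod_two _

/-- The fibre product of two graded groups. -/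
def fib (α : Grd A) (β : Grd B) : Subgroup (A × B) where
  carrier := {p | α.f p.1 = β.f p.2}
  mul_mem' := by
    intro p q hp hq
    show α.f (p.1 * q.1) = β.f (p.2 * q.2)
    rw [α.map_mul, β.map_mul, show α.f p.1 = β.f p.2 from hp, show α.f q.1 = β.f q.2 from hq]
  one_mem' := by
    show α.f 1 = β.f 1
    rw [α.map_one, β.map_one]
  inv_mem' := by
    intro p hp
    show α.f p.1⁻¹ = β.f p.2⁻¹
    rw [α.map_inv, β.map_inv]
    exact hp

/-- Number of solutions of `x ^ d = 1` of a given degree. -/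
noncomputable def Fq (α : Grd A) (q : ZMod 2) (d : ℕ) : ℕ :=
  Nat.card {x : A // α.f x = q ∧ x ^ d = 1}

theorem Fq_eq_card [Fintype A] [DecidableEq A] (α : Grd A) (q : ZMod 2) (d : ℕ) :
    Fq α q d = (Finset.univ.filter fun x : A => α.f x = q ∧ x ^ d = 1).card := by
  unfold Fq
  rw [Nat.card_eq_fintype_card, Fintype.card_subtype]

theorem F_fib [Finite A] [Finite B] (α : Grd A) (β : Grd B) (d : ℕ) :
    F (fib α β) d = Fq α 0 d * Fq β 0 d + Fq α 1 d * Fq β 1 d := by
  have e : {p : fib α β // p ^ d = 1} ≃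
      Σ q : ZMod 2, {x : A // α.f x = q ∧ x ^ d = 1} × {y : B // β.f y = q ∧ y ^ d = 1} :=
    { toFun := fun p => ⟨α.f p.1.1.1,
        ⟨p.1.1.1, rfl, congrArg (fun z : fib α β => z.1.1) p.2⟩,
        ⟨p.1.1.2, (p.1.2 : α.f p.1.1.1 = β.f p.1.1.2).symm,
          congrArg (fun z : fib α β => z.1.2) p.2⟩⟩
      invFun := fun s => ⟨⟨(s.2.1.1, s.2.2.1),
        (show α.f s.2.1.1 = β.f s.2.2.1 by rw [s.2.1.2.1, s.2.2.2.1])⟩,
        Subtype.ext (Prod.ext s.2.1.2.2 s.2.2.2.2)⟩
      left_inv := fun p => Subtype.ext (Subtype.ext rfl)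
      right_inv := fun s => by
        obtain ⟨q, ⟨x, hx, hx'⟩, ⟨y, hy, hy'⟩⟩ := s
        subst hx
        rfl }
  unfold F
  rw [Nat.card_congr e, Nat.card_sigma]
  have h2 : ∀ g : ZMod 2 → ℕ, ∑ q : ZMod 2, g q = g 0 + g 1 := fun g => Fin.sum_univ_two g
  rw [h2, Nat.card_prod, Nat.card_prod]
  rfl

end Grd

/-- Exponent dividing `84`. -/
class E84 (X : Type) [Monoid X] : Prop where
  pow84 : ∀ x : X, x ^ 84 = 1

instance E84.prod (A B : Type) [Monoid A] [Monoid B] [E84 A] [E84 B] : E84 (A × B) :=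
  ⟨fun x => Prod.ext (E84.pow84 x.1) (E84.pow84 x.2)⟩

instance E84.pi (ι A : Type) [Monoid A] [E84 A] : E84 (ι → A) :=
  ⟨fun x => funext fun i => E84.pow84 (x i)⟩

instance E84.subgroup (A : Type) [Group A] [E84 A] (S : Subgroup A) : E84 S :=
  ⟨fun x => Subtype.ext (E84.pow84 x.1)⟩

theorem F_gcd (X : Type) [Monoid X] [E84 X] (d : ℕ) : F X d = F X (Nat.gcd d 84) := by
  unfold F
  refine Nat.card_congr (Equiv.subtypeEquivRight fun x => ?_)
  constructor
  · intro h
    exact pow_gcd_eq_one.mpr ⟨h, E84.pow84 x⟩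
  · intro h
    obtain ⟨c, hc⟩ := Nat.gcd_dvd_left d 84
    rw [hc, pow_mul, h, one_pow]

theorem sum_card_orderOf (X : Type) [Group X] [Finite X] (n : ℕ) (hn : n ≠ 0) :
    ∑ m ∈ Nat.divisors n, Nat.card {x : X // orderOf x = m} = F X n := by
  classical
  have := Fintype.ofFinite X
  have h := sum_card_orderOf_eq_card_pow_eq_one (G := X) hn
  rw [F_eq_card, ← h]
  refine Finset.sum_congr rfl fun m _ => ?_
  rw [Nat.card_eq_fintype_card, Fintype.card_subtype]

theorem card_orderOf_eq_of_F {G H : Type} [Group G] [Group H] [Finite G] [Finite H]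
    (h : ∀ d, d ≠ 0 → F G d = F H d) (n : ℕ) :
    Nat.card {g : G // orderOf g = n} = Nat.card {x : H // orderOf x = n} := by
  induction n using Nat.strong_induction_on with
  | _ n ih =>
    rcases Nat.eq_zero_or_pos n with rfl | hn
    · have e1 : IsEmpty {g : G // orderOf g = 0} := ⟨fun g => (orderOf_pos g.1).ne' g.2⟩
      have e2 : IsEmpty {x : H // orderOf x = 0} := ⟨fun g => (orderOf_pos g.1).ne' g.2⟩
      rw [Nat.card_of_isEmpty, Nat.card_of_isEmpty]
    · have hG := sum_card_orderOf G n hn.ne'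
      have hH := sum_card_orderOf H n hn.ne'
      rw [← Nat.cons_self_properDivisors hn.ne', Finset.sum_cons] at hG hH
      have hs : ∑ m ∈ n.properDivisors, Nat.card {g : G // orderOf g = m}
          = ∑ m ∈ n.properDivisors, Nat.card {x : H // orderOf x = m} :=
        Finset.sum_congr rfl fun m hm => ih m (Nat.mem_properDivisors.mp hm).2
      have := h n hn.ne'
      omega

instance isSolvable_pi (ι A : Type) [Group A] [hA : Group.IsSolvable A] :
    Group.IsSolvable (ι → A) := by
  obtain ⟨n, hn⟩ := hA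
  have key : ∀ k, derivedSeries (ι → A) k ≤
      Subgroup.pi Set.univ (fun _ => derivedSeries A k) := by
    intro k
    induction k with
    | zero =>
      intro x _
      rw [Subgroup.mem_pi]
      intro i _
      exact Subgroup.mem_top _
    | succ k ih =>
      rw [derivedSeries_succ]
      refine (Subgroup.commutator_mono ih ih).trans ?_
      exact Subgroup.commutator_pi_pi_le _ _
  refine ⟨⟨n, ?_⟩⟩
  rw [eq_bot_iff]
  intro x hx
  have h1 := key n hx
  rw [Subgroup.mem_pi] at h1
  rw [Subgroup.mem_bot]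
  funext i
  have hi := h1 i (Set.mem_univ i)
  rw [hn] at hi
  exact Subgroup.mem_bot.mp hi

theorem not_solvable_of_comm_closed {X : Type} [Group X] (T : Set X)
    (hT : ∀ x ∈ T, ∃ y ∈ T, ∃ z ∈ T, x = ⁅y, z⁆) (x : X) (hx : x ∈ T) (hx1 : x ≠ 1) :
    ¬ Group.IsSolvable X := by
  intro hs
  obtain ⟨n, hn⟩ := hs
  have key : ∀ k, T ⊆ derivedSeries X k := by
    intro k
    induction k with
    | zero =>
      intro y _
      exact Subgroup.mem_top y
    | succ k ih =>
      intro y hy
      obtain ⟨a, ha, b, hb, rfl⟩ := hT y hy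
      rw [derivedSeries_succ]
      exact Subgroup.commutator_mem_commutator (ih ha) (ih hb)
  have h1 : x ∈ derivedSeries X n := key n hx
  rw [hn, Subgroup.mem_bot] at h1
  exact hx1 h1

section Pw

variable {X : Type} [Monoid X]

/-- Square. -/
def p2 (x : X) : X := x * x

/-- Third power. -/
def p3 (x : X) : X := p2 x * x

/-- Fourth power. -/
def p4 (x : X) : X := p2 (p2 x)

/-- Sixth power. -/
def p6 (x : X) : X := p2 (p3 x)

/-- Seventh power. -/
def p7 (x : X) : X := p6 x * x

/-- Twelfth power. -/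
def p12 (x : X) : X := p2 (p6 x)

/-- Fourteenth power. -/
def p14 (x : X) : X := p2 (p7 x)

/-- Power `21`. -/
def p21 (x : X) : X := p14 x * p7 x

/-- Power `28`. -/
def p28 (x : X) : X := p2 (p14 x)

/-- Power `42`. -/
def p42 (x : X) : X := p2 (p21 x)

/-- Power `84`. -/
def p84 (x : X) : X := p2 (p42 x)

/-- Powers, with short multiplication chains for the divisors of `84`. -/
def pw (d : ℕ) (x : X) : X :=
  if d = 1 then x else if d = 2 then p2 x else if d = 3 then p3 x else if d = 4 then p4 x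
  else if d = 6 then p6 x else if d = 7 then p7 x else if d = 12 then p12 x
  else if d = 14 then p14 x else if d = 21 then p21 x else if d = 28 then p28 x
  else if d = 42 then p42 x else if d = 84 then p84 x else x ^ d

theorem p2_eq (x : X) : p2 x = x ^ 2 := (sq x).symm

theorem p3_eq (x : X) : p3 x = x ^ 3 := by
  unfold p3
  rw [p2_eq, ← pow_succ]

theorem p4_eq (x : X) : p4 x = x ^ 4 := by
  unfold p4
  rw [p2_eq, p2_eq, ← pow_mul]

theorem p6_eq (x : X) : p6 x = x ^ 6 := by
  unfold p6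
  rw [p2_eq, p3_eq, ← pow_mul]

theorem p7_eq (x : X) : p7 x = x ^ 7 := by
  unfold p7
  rw [p6_eq, ← pow_succ]

theorem p12_eq (x : X) : p12 x = x ^ 12 := by
  unfold p12
  rw [p2_eq, p6_eq, ← pow_mul]

theorem p14_eq (x : X) : p14 x = x ^ 14 := by
  unfold p14
  rw [p2_eq, p7_eq, ← pow_mul]

theorem p21_eq (x : X) : p21 x = x ^ 21 := by
  unfold p21
  rw [p14_eq, p7_eq, ← pow_add]

theorem p28_eq (x : X) : p28 x = x ^ 28 := by
  unfold p28
  rw [p2_eq, p14_eq, ← pow_mul]

theorem p42_eq (x : X) : p42 x = x ^ 42 := by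
  unfold p42
  rw [p2_eq, p21_eq, ← pow_mul]

theorem p84_eq (x : X) : p84 x = x ^ 84 := by
  unfold p84
  rw [p2_eq, p42_eq, ← pow_mul]

theorem pw_eq (d : ℕ) (x : X) : pw d x = x ^ d := by
  unfold pw
  by_cases h1 : d = 1
  · subst h1
    rw [if_pos rfl, pow_one]
  rw [if_neg h1]
  by_cases h2 : d = 2
  · subst h2
    rw [if_pos rfl]
    exact p2_eq x
  rw [if_neg h2]
  by_cases h3 : d = 3
  · subst h3
    rw [if_pos rfl]
    exact p3_eq x
  rw [if_neg h3]
  by_cases h4 : d = 4
  · subst h4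
    rw [if_pos rfl]
    exact p4_eq x
  rw [if_neg h4]
  by_cases h6 : d = 6
  · subst h6
    rw [if_pos rfl]
    exact p6_eq x
  rw [if_neg h6]
  by_cases h7 : d = 7
  · subst h7
    rw [if_pos rfl]
    exact p7_eq x
  rw [if_neg h7]
  by_cases h12 : d = 12
  · subst h12
    rw [if_pos rfl]
    exact p12_eq x
  rw [if_neg h12]
  by_cases h14 : d = 14
  · subst h14
    rw [if_pos rfl]
    exact p14_eq x
  rw [if_neg h14]
  by_cases h21 : d = 21
  · subst h21
    rw [if_pos rfl]
    exact p21_eq x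
  rw [if_neg h21]
  by_cases h28 : d = 28
  · subst h28
    rw [if_pos rfl]
    exact p28_eq x
  rw [if_neg h28]
  by_cases h42 : d = 42
  · subst h42
    rw [if_pos rfl]
    exact p42_eq x
  rw [if_neg h42]
  by_cases h84 : d = 84
  · subst h84
    rw [if_pos rfl]
    exact p84_eq x
  rw [if_neg h84]

theorem F_eq_card_pw (X : Type) [Monoid X] [Fintype X] [DecidableEq X] (d : ℕ) :
    F X d = (Finset.univ.filter fun x : X => pw d x = 1).card := by
  rw [F_eq_card]
  simp only [pw_eq]

theorem e84_of_pw (h : ∀ x : X, pw 84 x = 1) : E84 X :=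
  ⟨fun x => (pw_eq 84 x).symm.trans (h x)⟩

end Pw

theorem Grd.Fq_eq_card_pw {A : Type} [Group A] [Fintype A] [DecidableEq A] (α : Grd A)
    (q : ZMod 2) (d : ℕ) :
    Grd.Fq α q d = (Finset.univ.filter fun x : A => α.f x = q ∧ pw d x = 1).card := by
  rw [Grd.Fq_eq_card]
  simp only [pw_eq]

/-- The divisors of `84`. -/
def divs : List ℕ := [1, 2, 3, 4, 6, 7, 12, 14, 21, 28, 42, 84]

/-- Table lookup. -/
def tab : List ℕ → List ℕ → ℕ → ℕ
  | k :: ks, v :: vs, e => if e = k then v else tab ks vs e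
  | _, _, _ => 0

theorem gcd_mem_divs (d : ℕ) : Nat.gcd d 84 ∈ divs := by
  have h1 : Nat.gcd d 84 ∈ Nat.divisors 84 :=
    Nat.mem_divisors.mpr ⟨Nat.gcd_dvd_right d 84, by norm_num⟩
  have h2 : ∀ e ∈ Nat.divisors 84, e ∈ divs := by decide
  exact h2 _ h1

theorem ne_zero_of_mem_divs : ∀ e ∈ divs, e ≠ 0 := by decide

end Cfsg.Agent.H25.OT
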