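import Cfsg.Agent.H25.OT1

/-!
The metacyclic groups `ZMod n ⋊ ZMod m`.
-/

set_option autoImplicit false

namespace Cfsg.Agent.H25.OT

/-- The metacyclic group `ZMod n ⋊ ZMod m`, the generator of `ZMod m` acting as multiplication
by `u`. -/
structure Meta (n m : ℕ) (u : ZMod n) where
  a : ZMod n
  b : ZMod m
deriving DecidableEq

namespace Meta

variable {n m : ℕ} {u : ZMod n}

instance instFintype [NeZero n] [NeZero m] : Fintype (Meta n m u) :=
  Fintype.ofEquiv (ZMod n × ZMod m)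
    ⟨fun p => ⟨p.1, p.2⟩, fun x => (x.a, x.b), fun _ => rfl, fun _ => rfl⟩

theorem pow_val_add [NeZero m] (hu : u ^ m = 1) (x y : ZMod m) :
    u ^ (x + y).val = u ^ x.val * u ^ y.val := by
  rw [ZMod.val_add, ← pow_add, ← pow_eq_pow_mod _ hu]

instance instGroup [NeZero m] [hu : Fact (u ^ m = 1)] : Group (Meta n m u) where
  mul x y := ⟨x.a + u ^ x.b.val * y.a, x.b + y.b⟩
  one := ⟨0, 0⟩
  inv x := ⟨-(u ^ (-x.b).val * x.a), -x.b⟩
  mul_assoc x y z := by
    show (⟨(x.a + u ^ x.b.val * y.a) + u ^ (x.b + y.b).val * z.a, (x.b + y.b) + z.b⟩ : Meta n m u)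
      = ⟨x.a + u ^ x.b.val * (y.a + u ^ y.b.val * z.a), x.b + (y.b + z.b)⟩
    rw [pow_val_add hu.out]
    congr 1
    · ring
    · ring
  one_mul x := by
    show (⟨0 + u ^ (0 : ZMod m).val * x.a, 0 + x.b⟩ : Meta n m u) = x
    simp
  mul_one x := by
    show (⟨x.a + u ^ x.b.val * 0, x.b + 0⟩ : Meta n m u) = x
    simp
  inv_mul_cancel x := by
    show (⟨-(u ^ (-x.b).val * x.a) + u ^ (-x.b).val * x.a, -x.b + x.b⟩ : Meta n m u) = ⟨0, 0⟩
    simp

theorem mul_a [NeZero m] [Fact (u ^ m = 1)] (x y : Meta n m u) :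
    (x * y).a = x.a + u ^ x.b.val * y.a := rfl

theorem mul_b [NeZero m] [Fact (u ^ m = 1)] (x y : Meta n m u) :
    (x * y).b = x.b + y.b := rfl

theorem one_a [NeZero m] [Fact (u ^ m = 1)] : (1 : Meta n m u).a = 0 := rfl

theorem one_b [NeZero m] [Fact (u ^ m = 1)] : (1 : Meta n m u).b = 0 := rfl

instance instIsSolvable [NeZero m] [Fact (u ^ m = 1)] : Group.IsSolvable (Meta n m u) := by
  let g : Meta n m u →* Multiplicative (ZMod m) :=
    MonoidHom.mk' (fun x => Multiplicative.ofAdd x.b) (fun _ _ => rfl)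
  let f : Multiplicative (ZMod n) →* Meta n m u :=
    MonoidHom.mk' (fun a => ⟨Multiplicative.toAdd a, 0⟩) (fun x y => by
      show (⟨Multiplicative.toAdd (x * y), 0⟩ : Meta n m u) =
        ⟨Multiplicative.toAdd x + u ^ (0 : ZMod m).val * Multiplicative.toAdd y, 0 + 0⟩
      simp)
  refine Group.isSolvable_of_ker_le_range f g (fun x hx => ⟨Multiplicative.ofAdd x.a, ?_⟩)
  have hb : x.b = 0 := hx
  show (⟨x.a, 0⟩ : Meta n m u) = x
  rw [← hb]

/-- The degree read off the second coordinate. -/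
def gB (x : Meta n m u) : ZMod 2 := (x.b.val : ZMod 2)

/-- The degree read off the first coordinate. -/
def gA (x : Meta n m u) : ZMod 2 := (x.a.val : ZMod 2)

end Meta

end Cfsg.Agent.H25.OT
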