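import Cfsg.Agent.H25.OT2

/-!
The concrete metacyclic groups used for the order-type pair, with their tables of
numbers of solutions of `x ^ d = 1`.
-/

set_option autoImplicit false
set_option maxRecDepth 1000000

namespace Cfsg.Agent.H25.OT

instance factC7 : Fact ((1 : ZMod 7) ^ 1 = 1) := ⟨by decide⟩

instance factD4 : Fact ((3 : ZMod 4) ^ 2 = 1) := ⟨by decide⟩

instance factD7 : Fact ((6 : ZMod 7) ^ 2 = 1) := ⟨by decide⟩

instance factDic7 : Fact ((6 : ZMod 7) ^ 4 = 1) := ⟨by decide⟩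

instance factM712 : Fact ((3 : ZMod 7) ^ 12 = 1) := ⟨by decide⟩

instance factC2 : Fact ((1 : ZMod 1) ^ 2 = 1) := ⟨by decide⟩

instance factC3 : Fact ((1 : ZMod 1) ^ 3 = 1) := ⟨by decide⟩

instance factC4 : Fact ((1 : ZMod 1) ^ 4 = 1) := ⟨by decide⟩

instance factM73 : Fact ((2 : ZMod 7) ^ 3 = 1) := ⟨by decide⟩

instance factD28 : Fact ((27 : ZMod 28) ^ 2 = 1) := ⟨by decide⟩

instance factD3 : Fact ((2 : ZMod 3) ^ 2 = 1) := ⟨by decide⟩

instance factM286 : Fact ((3 : ZMod 28) ^ 6 = 1) := ⟨by decide⟩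

instance factM76 : Fact ((3 : ZMod 7) ^ 6 = 1) := ⟨by decide⟩


/-- The group `ZMod 7 ⋊ ZMod 1` with multiplier `1`. -/
abbrev C7 : Type := Meta 7 1 (1 : ZMod 7)

/-- The group `ZMod 4 ⋊ ZMod 2` with multiplier `3`. -/
abbrev D4 : Type := Meta 4 2 (3 : ZMod 4)

/-- The group `ZMod 7 ⋊ ZMod 2` with multiplier `6`. -/
abbrev D7 : Type := Meta 7 2 (6 : ZMod 7)

/-- The group `ZMod 7 ⋊ ZMod 4` with multiplier `6`. -/
abbrev Dic7 : Type := Meta 7 4 (6 : ZMod 7)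

/-- The group `ZMod 7 ⋊ ZMod 12` with multiplier `3`. -/
abbrev M712 : Type := Meta 7 12 (3 : ZMod 7)

/-- The group `ZMod 1 ⋊ ZMod 2` with multiplier `1`. -/
abbrev C2 : Type := Meta 1 2 (1 : ZMod 1)

/-- The group `ZMod 1 ⋊ ZMod 3` with multiplier `1`. -/
abbrev C3 : Type := Meta 1 3 (1 : ZMod 1)

/-- The group `ZMod 1 ⋊ ZMod 4` with multiplier `1`. -/
abbrev C4 : Type := Meta 1 4 (1 : ZMod 1)

/-- The group `ZMod 7 ⋊ ZMod 3` with multiplier `2`. -/
abbrev M73 : Type := Meta 7 3 (2 : ZMod 7)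

/-- The group `ZMod 28 ⋊ ZMod 2` with multiplier `27`. -/
abbrev D28 : Type := Meta 28 2 (27 : ZMod 28)

/-- The group `ZMod 3 ⋊ ZMod 2` with multiplier `2`. -/
abbrev D3 : Type := Meta 3 2 (2 : ZMod 3)

/-- The group `ZMod 28 ⋊ ZMod 6` with multiplier `3`. -/
abbrev M286 : Type := Meta 28 6 (3 : ZMod 28)

/-- The group `ZMod 7 ⋊ ZMod 6` with multiplier `3`. -/
abbrev M76 : Type := Meta 7 6 (3 : ZMod 7)

instance e84C7 : E84 C7 := e84_of_pw (by decide +kernel)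

instance e84D4 : E84 D4 := e84_of_pw (by decide +kernel)

instance e84D7 : E84 D7 := e84_of_pw (by decide +kernel)

instance e84Dic7 : E84 Dic7 := e84_of_pw (by decide +kernel)

instance e84M712 : E84 M712 := e84_of_pw (by decide +kernel)

instance e84C2 : E84 C2 := e84_of_pw (by decide +kernel)

instance e84C3 : E84 C3 := e84_of_pw (by decide +kernel)

instance e84C4 : E84 C4 := e84_of_pw (by decide +kernel)

instance e84M73 : E84 M73 := e84_of_pw (by decide +kernel)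

instance e84D28 : E84 D28 := e84_of_pw (by decide +kernel)

instance e84D3 : E84 D3 := e84_of_pw (by decide +kernel)

instance e84M286 : E84 M286 := e84_of_pw (by decide +kernel)

instance e84M76 : E84 M76 := e84_of_pw (by decide +kernel)

/-- Table for `C7`. -/
def tC7 (e : ℕ) : ℕ := tab divs [1, 1, 1, 1, 1, 7, 1, 7, 7, 7, 7, 7] e

theorem tblC7 : ∀ e ∈ divs, F C7 e = tC7 e := by
  have h : ∀ e ∈ divs, (Finset.univ.filter fun x : C7 => pw e x = 1).card = tC7 e := by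
    decide +kernel
  intro e he
  rw [F_eq_card_pw]
  exact h e he

/-- Table for `D4`. -/
def tD4 (e : ℕ) : ℕ := tab divs [1, 6, 1, 8, 6, 1, 8, 6, 1, 8, 6, 8] e

theorem tblD4 : ∀ e ∈ divs, F D4 e = tD4 e := by
  have h : ∀ e ∈ divs, (Finset.univ.filter fun x : D4 => pw e x = 1).card = tD4 e := by
    decide +kernel
  intro e he
  rw [F_eq_card_pw]
  exact h e he

/-- Table for `D7`. -/
def tD7 (e : ℕ) : ℕ := tab divs [1, 8, 1, 8, 8, 7, 8, 14, 7, 14, 14, 14] e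

theorem tblD7 : ∀ e ∈ divs, F D7 e = tD7 e := by
  have h : ∀ e ∈ divs, (Finset.univ.filter fun x : D7 => pw e x = 1).card = tD7 e := by
    decide +kernel
  intro e he
  rw [F_eq_card_pw]
  exact h e he

/-- Table for `Dic7`. -/
def tDic7 (e : ℕ) : ℕ := tab divs [1, 2, 1, 16, 2, 7, 16, 14, 7, 28, 14, 28] e

theorem tblDic7 : ∀ e ∈ divs, F Dic7 e = tDic7 e := by
  have h : ∀ e ∈ divs, (Finset.univ.filter fun x : Dic7 => pw e x = 1).card = tDic7 e := by
    decide +kernel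
  intro e he
  rw [F_eq_card_pw]
  exact h e he

/-- Table for `M712`. -/
def tM712 (e : ℕ) : ℕ := tab divs [1, 2, 15, 16, 30, 7, 72, 14, 21, 28, 42, 84] e

theorem tblM712 : ∀ e ∈ divs, F M712 e = tM712 e := by
  have h : ∀ e ∈ divs, (Finset.univ.filter fun x : M712 => pw e x = 1).card = tM712 e := by
    decide +kernel
  intro e he
  rw [F_eq_card_pw]
  exact h e he

/-- Table for `C2`. -/
def tC2 (e : ℕ) : ℕ := tab divs [1, 2, 1, 2, 2, 1, 2, 2, 1, 2, 2, 2] e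

theorem tblC2 : ∀ e ∈ divs, F C2 e = tC2 e := by
  have h : ∀ e ∈ divs, (Finset.univ.filter fun x : C2 => pw e x = 1).card = tC2 e := by
    decide +kernel
  intro e he
  rw [F_eq_card_pw]
  exact h e he

/-- Table for `C3`. -/
def tC3 (e : ℕ) : ℕ := tab divs [1, 1, 3, 1, 3, 1, 3, 1, 3, 1, 3, 3] e

theorem tblC3 : ∀ e ∈ divs, F C3 e = tC3 e := by
  have h : ∀ e ∈ divs, (Finset.univ.filter fun x : C3 => pw e x = 1).card = tC3 e := by
    decide +kernel
  intro e he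
  rw [F_eq_card_pw]
  exact h e he

/-- Table for `C4`. -/
def tC4 (e : ℕ) : ℕ := tab divs [1, 2, 1, 4, 2, 1, 4, 2, 1, 4, 2, 4] e

theorem tblC4 : ∀ e ∈ divs, F C4 e = tC4 e := by
  have h : ∀ e ∈ divs, (Finset.univ.filter fun x : C4 => pw e x = 1).card = tC4 e := by
    decide +kernel
  intro e he
  rw [F_eq_card_pw]
  exact h e he

/-- Table for `M73`. -/
def tM73 (e : ℕ) : ℕ := tab divs [1, 1, 15, 1, 15, 7, 15, 7, 21, 7, 21, 21] e

theorem tblM73 : ∀ e ∈ divs, F M73 e = tM73 e := by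
  have h : ∀ e ∈ divs, (Finset.univ.filter fun x : M73 => pw e x = 1).card = tM73 e := by
    decide +kernel
  intro e he
  rw [F_eq_card_pw]
  exact h e he

/-- Table for `D28`. -/
def tD28 (e : ℕ) : ℕ := tab divs [1, 30, 1, 32, 30, 7, 32, 42, 7, 56, 42, 56] e

theorem tblD28 : ∀ e ∈ divs, F D28 e = tD28 e := by
  have h : ∀ e ∈ divs, (Finset.univ.filter fun x : D28 => pw e x = 1).card = tD28 e := by
    decide +kernel
  intro e he
  rw [F_eq_card_pw]
  exact h e he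

/-- The `b`-grading of `D3`. -/
def grD3b : Grd D3 := ⟨Meta.gB, by decide +kernel⟩

/-- Table for `D3`, grading `b`, degree `0`. -/
def tD3b0 (e : ℕ) : ℕ := tab divs [1, 1, 3, 1, 3, 1, 3, 1, 3, 1, 3, 3] e

theorem tblD3b0 : ∀ e ∈ divs, Grd.Fq grD3b 0 e = tD3b0 e := by
  have h : ∀ e ∈ divs, (Finset.univ.filter fun x : D3 => grD3b.f x = 0 ∧ pw e x = 1).card = tD3b0 e := by
    decide +kernel
  intro e he
  rw [Grd.Fq_eq_card_pw]
  exact h e he

/-- Table for `D3`, grading `b`, degree `1`. -/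
def tD3b1 (e : ℕ) : ℕ := tab divs [0, 3, 0, 3, 3, 0, 3, 3, 0, 3, 3, 3] e

theorem tblD3b1 : ∀ e ∈ divs, Grd.Fq grD3b 1 e = tD3b1 e := by
  have h : ∀ e ∈ divs, (Finset.univ.filter fun x : D3 => grD3b.f x = 1 ∧ pw e x = 1).card = tD3b1 e := by
    decide +kernel
  intro e he
  rw [Grd.Fq_eq_card_pw]
  exact h e he

/-- The `a`-grading of `D4`. -/
def grD4a : Grd D4 := ⟨Meta.gA, by decide +kernel⟩

/-- Table for `D4`, grading `a`, degree `0`. -/
def tD4a0 (e : ℕ) : ℕ := tab divs [1, 4, 1, 4, 4, 1, 4, 4, 1, 4, 4, 4] e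

theorem tblD4a0 : ∀ e ∈ divs, Grd.Fq grD4a 0 e = tD4a0 e := by
  have h : ∀ e ∈ divs, (Finset.univ.filter fun x : D4 => grD4a.f x = 0 ∧ pw e x = 1).card = tD4a0 e := by
    decide +kernel
  intro e he
  rw [Grd.Fq_eq_card_pw]
  exact h e he

/-- Table for `D4`, grading `a`, degree `1`. -/
def tD4a1 (e : ℕ) : ℕ := tab divs [0, 2, 0, 4, 2, 0, 4, 2, 0, 4, 2, 4] e

theorem tblD4a1 : ∀ e ∈ divs, Grd.Fq grD4a 1 e = tD4a1 e := by
  have h : ∀ e ∈ divs, (Finset.univ.filter fun x : D4 => grD4a.f x = 1 ∧ pw e x = 1).card = tD4a1 e := by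
    decide +kernel
  intro e he
  rw [Grd.Fq_eq_card_pw]
  exact h e he

/-- The `b`-grading of `D4`. -/
def grD4b : Grd D4 := ⟨Meta.gB, by decide +kernel⟩

/-- Table for `D4`, grading `b`, degree `0`. -/
def tD4b0 (e : ℕ) : ℕ := tab divs [1, 2, 1, 4, 2, 1, 4, 2, 1, 4, 2, 4] e

theorem tblD4b0 : ∀ e ∈ divs, Grd.Fq grD4b 0 e = tD4b0 e := by
  have h : ∀ e ∈ divs, (Finset.univ.filter fun x : D4 => grD4b.f x = 0 ∧ pw e x = 1).card = tD4b0 e := by
    decide +kernel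
  intro e he
  rw [Grd.Fq_eq_card_pw]
  exact h e he

/-- Table for `D4`, grading `b`, degree `1`. -/
def tD4b1 (e : ℕ) : ℕ := tab divs [0, 4, 0, 4, 4, 0, 4, 4, 0, 4, 4, 4] e

theorem tblD4b1 : ∀ e ∈ divs, Grd.Fq grD4b 1 e = tD4b1 e := by
  have h : ∀ e ∈ divs, (Finset.univ.filter fun x : D4 => grD4b.f x = 1 ∧ pw e x = 1).card = tD4b1 e := by
    decide +kernel
  intro e he
  rw [Grd.Fq_eq_card_pw]
  exact h e he

/-- The `b`-grading of `D7`. -/
def grD7b : Grd D7 := ⟨Meta.gB, by decide +kernel⟩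

/-- Table for `D7`, grading `b`, degree `0`. -/
def tD7b0 (e : ℕ) : ℕ := tab divs [1, 1, 1, 1, 1, 7, 1, 7, 7, 7, 7, 7] e

theorem tblD7b0 : ∀ e ∈ divs, Grd.Fq grD7b 0 e = tD7b0 e := by
  have h : ∀ e ∈ divs, (Finset.univ.filter fun x : D7 => grD7b.f x = 0 ∧ pw e x = 1).card = tD7b0 e := by
    decide +kernel
  intro e he
  rw [Grd.Fq_eq_card_pw]
  exact h e he

/-- Table for `D7`, grading `b`, degree `1`. -/
def tD7b1 (e : ℕ) : ℕ := tab divs [0, 7, 0, 7, 7, 0, 7, 7, 0, 7, 7, 7] e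

theorem tblD7b1 : ∀ e ∈ divs, Grd.Fq grD7b 1 e = tD7b1 e := by
  have h : ∀ e ∈ divs, (Finset.univ.filter fun x : D7 => grD7b.f x = 1 ∧ pw e x = 1).card = tD7b1 e := by
    decide +kernel
  intro e he
  rw [Grd.Fq_eq_card_pw]
  exact h e he

/-- The `a`-grading of `M286`. -/
def grM286a : Grd M286 := ⟨Meta.gA, by decide +kernel⟩

/-- Table for `M286`, grading `a`, degree `0`. -/
def tM286a0 (e : ℕ) : ℕ := tab divs [1, 16, 15, 16, 72, 7, 72, 28, 21, 28, 84, 84] e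

theorem tblM286a0 : ∀ e ∈ divs, Grd.Fq grM286a 0 e = tM286a0 e := by
  have h : ∀ e ∈ divs, (Finset.univ.filter fun x : M286 => grM286a.f x = 0 ∧ pw e x = 1).card = tM286a0 e := by
    decide +kernel
  intro e he
  rw [Grd.Fq_eq_card_pw]
  exact h e he

/-- Table for `M286`, grading `a`, degree `1`. -/
def tM286a1 (e : ℕ) : ℕ := tab divs [0, 14, 0, 16, 42, 0, 72, 14, 0, 28, 42, 84] e

theorem tblM286a1 : ∀ e ∈ divs, Grd.Fq grM286a 1 e = tM286a1 e := by
  have h : ∀ e ∈ divs, (Finset.univ.filter fun x : M286 => grM286a.f x = 1 ∧ pw e x = 1).card = tM286a1 e := by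
    decide +kernel
  intro e he
  rw [Grd.Fq_eq_card_pw]
  exact h e he

/-- The `b`-grading of `M76`. -/
def grM76b : Grd M76 := ⟨Meta.gB, by decide +kernel⟩

/-- Table for `M76`, grading `b`, degree `0`. -/
def tM76b0 (e : ℕ) : ℕ := tab divs [1, 1, 15, 1, 15, 7, 15, 7, 21, 7, 21, 21] e

theorem tblM76b0 : ∀ e ∈ divs, Grd.Fq grM76b 0 e = tM76b0 e := by
  have h : ∀ e ∈ divs, (Finset.univ.filter fun x : M76 => grM76b.f x = 0 ∧ pw e x = 1).card = tM76b0 e := by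
    decide +kernel
  intro e he
  rw [Grd.Fq_eq_card_pw]
  exact h e he

/-- Table for `M76`, grading `b`, degree `1`. -/
def tM76b1 (e : ℕ) : ℕ := tab divs [0, 7, 0, 7, 21, 0, 21, 7, 0, 7, 21, 21] e

theorem tblM76b1 : ∀ e ∈ divs, Grd.Fq grM76b 1 e = tM76b1 e := by
  have h : ∀ e ∈ divs, (Finset.univ.filter fun x : M76 => grM76b.f x = 1 ∧ pw e x = 1).card = tM76b1 e := by
    decide +kernel
  intro e he
  rw [Grd.Fq_eq_card_pw]
  exact h e he

/-- The `b`-grading of `M712`. -/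
def grM712b : Grd M712 := ⟨Meta.gB, by decide +kernel⟩

/-- Table for `M712`, grading `b`, degree `0`. -/
def tM712b0 (e : ℕ) : ℕ := tab divs [1, 2, 15, 2, 30, 7, 30, 14, 21, 14, 42, 42] e

theorem tblM712b0 : ∀ e ∈ divs, Grd.Fq grM712b 0 e = tM712b0 e := by
  have h : ∀ e ∈ divs, (Finset.univ.filter fun x : M712 => grM712b.f x = 0 ∧ pw e x = 1).card = tM712b0 e := by
    decide +kernel
  intro e he
  rw [Grd.Fq_eq_card_pw]
  exact h e he

/-- Table for `M712`, grading `b`, degree `1`. -/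
def tM712b1 (e : ℕ) : ℕ := tab divs [0, 0, 0, 14, 0, 0, 42, 0, 0, 14, 0, 42] e

theorem tblM712b1 : ∀ e ∈ divs, Grd.Fq grM712b 1 e = tM712b1 e := by
  have h : ∀ e ∈ divs, (Finset.univ.filter fun x : M712 => grM712b.f x = 1 ∧ pw e x = 1).card = tM712b1 e := by
    decide +kernel
  intro e he
  rw [Grd.Fq_eq_card_pw]
  exact h e he

end Cfsg.Agent.H25.OT
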