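import Cfsg.Agent.H25.OT3

/-!
The group of semilinear affine maps of the field with eight elements, as the semidirect
product of the additive group of the field (the numbers below `8` under bitwise exclusive or)
with the metacyclic group of order `21`.
-/

set_option autoImplicit false
set_option maxRecDepth 1000000

namespace Cfsg.Agent.H25.OT

/-- Multiplication by the generator on the field with eight elements. -/
def mulA (x : Fin 8) : Fin 8 :=
  ⟨([0, 2, 4, 6, 3, 1, 7, 5] : List ℕ).getD x.val 0 % 8, Nat.mod_lt _ (by norm_num)⟩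

/-- Squaring on the field with eight elements. -/
def frob (x : Fin 8) : Fin 8 :=
  ⟨([0, 1, 4, 5, 6, 7, 2, 3] : List ℕ).getD x.val 0 % 8, Nat.mod_lt _ (by norm_num)⟩

/-- The action of the group of order `21` on the field. -/
def rho (g : M73) (x : Fin 8) : Fin 8 := (mulA^[g.a.val]) ((frob^[g.b.val]) x)

theorem xor8_assoc : ∀ x y z : Fin 8, (x ^^^ y) ^^^ z = x ^^^ (y ^^^ z) := by decide +kernel

theorem xor8_comm : ∀ x y : Fin 8, x ^^^ y = y ^^^ x := by decide +kernel

theorem xor8_self : ∀ x : Fin 8, x ^^^ x = 0 := by decide +kernel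

theorem zero_xor8 : ∀ x : Fin 8, 0 ^^^ x = x := by decide +kernel

theorem xor8_zero : ∀ x : Fin 8, x ^^^ 0 = x := by decide +kernel

theorem rho_xor : ∀ (g : M73) (x y : Fin 8), rho g (x ^^^ y) = rho g x ^^^ rho g y := by
  decide +kernel

theorem rho_mul : ∀ (g h : M73) (x : Fin 8), rho (g * h) x = rho g (rho h x) := by
  decide +kernel

theorem rho_one : ∀ x : Fin 8, rho 1 x = x := by decide +kernel

theorem rho_zero : ∀ g : M73, rho g 0 = 0 := by decide +kernel

/-- The semilinear affine group of the field with eight elements. -/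
structure AG where
  t : Fin 8
  g : M73
deriving DecidableEq

namespace AG

instance instFintype : Fintype AG :=
  Fintype.ofEquiv (Fin 8 × M73)
    ⟨fun p => ⟨p.1, p.2⟩, fun x => (x.t, x.g), fun _ => rfl, fun _ => rfl⟩

instance instGroup : Group AG where
  mul x y := ⟨x.t ^^^ rho x.g y.t, x.g * y.g⟩
  one := ⟨0, 1⟩
  inv x := ⟨rho x.g⁻¹ x.t, x.g⁻¹⟩
  mul_assoc x y z := by
    show (⟨(x.t ^^^ rho x.g y.t) ^^^ rho (x.g * y.g) z.t, x.g * y.g * z.g⟩ : AG)
      = ⟨x.t ^^^ rho x.g (y.t ^^^ rho y.g z.t), x.g * (y.g * z.g)⟩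
    rw [rho_mul, rho_xor, xor8_assoc, mul_assoc]
  one_mul x := by
    show (⟨0 ^^^ rho 1 x.t, 1 * x.g⟩ : AG) = x
    rw [rho_one, zero_xor8, one_mul]
  mul_one x := by
    show (⟨x.t ^^^ rho x.g 0, x.g * 1⟩ : AG) = x
    rw [rho_zero, xor8_zero, mul_one]
  inv_mul_cancel x := by
    show (⟨rho x.g⁻¹ x.t ^^^ rho x.g⁻¹ x.t, x.g⁻¹ * x.g⟩ : AG) = ⟨0, 1⟩
    rw [xor8_self, inv_mul_cancel]

theorem mul_t (x y : AG) : (x * y).t = x.t ^^^ rho x.g y.t := rfl

theorem mul_g (x y : AG) : (x * y).g = x.g * y.g := rfl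

instance instIsSolvable : Group.IsSolvable AG := by
  let π : AG →* M73 := MonoidHom.mk' (fun x => x.g) (fun _ _ => rfl)
  have hk : Group.IsSolvable π.ker := by
    refine Group.isSolvable_of_comm ?_
    intro x y
    have hx : x.1.g = 1 := x.2
    have hy : y.1.g = 1 := y.2
    refine Subtype.ext ?_
    show (⟨x.1.t ^^^ rho x.1.g y.1.t, x.1.g * y.1.g⟩ : AG)
      = ⟨y.1.t ^^^ rho y.1.g x.1.t, y.1.g * x.1.g⟩
    rw [hx, hy, rho_one, rho_one, xor8_comm]
  exact Group.isSolvable_of_ker_le_range π.ker.subtype π (by simp)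

instance e84 : E84 AG := e84_of_pw (by decide +kernel)

end AG

/-- Table for `AG`. -/
def tAG (e : ℕ) : ℕ := tab divs [1, 8, 57, 8, 120, 49, 120, 56, 105, 56, 168, 168] e

theorem tblAG : ∀ e ∈ divs, F AG e = tAG e := by
  have h : ∀ e ∈ divs, (Finset.univ.filter fun x : AG => pw e x = 1).card = tAG e := by
    decide +kernel
  intro e he
  rw [F_eq_card_pw]
  exact h e he

end Cfsg.Agent.H25.OT
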