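import Cfsg.Agent.H25.OT1

/-!
The monoid of `3 × 3` matrices over the field with two elements and its group of units,
which is not solvable.
-/

set_option autoImplicit false
set_option maxRecDepth 1000000

namespace Cfsg.Agent.H25.OT

open scoped commutatorElement

/-- A `3 × 3` matrix over the field with two elements. -/
@[ext] structure M3 where
  a11 : Bool
  a12 : Bool
  a13 : Bool
  a21 : Bool
  a22 : Bool
  a23 : Bool
  a31 : Bool
  a32 : Bool
  a33 : Bool
deriving DecidableEq

namespace M3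

instance instFintype : Fintype M3 :=
  Fintype.ofEquiv ((Bool × Bool × Bool) × (Bool × Bool × Bool) × (Bool × Bool × Bool))
    ⟨fun p => ⟨p.1.1, p.1.2.1, p.1.2.2, p.2.1.1, p.2.1.2.1, p.2.1.2.2, p.2.2.1, p.2.2.2.1,
        p.2.2.2.2⟩,
      fun x => ((x.a11, x.a12, x.a13), (x.a21, x.a22, x.a23), (x.a31, x.a32, x.a33)),
      fun _ => rfl, fun _ => rfl⟩

/-- The matrix product. -/
def mul' (x y : M3) : M3 :=
  ⟨((x.a11 && y.a11) ^^ (x.a12 && y.a21)) ^^ (x.a13 && y.a31),
   ((x.a11 && y.a12) ^^ (x.a12 && y.a22)) ^^ (x.a13 && y.a32),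
   ((x.a11 && y.a13) ^^ (x.a12 && y.a23)) ^^ (x.a13 && y.a33),
   ((x.a21 && y.a11) ^^ (x.a22 && y.a21)) ^^ (x.a23 && y.a31),
   ((x.a21 && y.a12) ^^ (x.a22 && y.a22)) ^^ (x.a23 && y.a32),
   ((x.a21 && y.a13) ^^ (x.a22 && y.a23)) ^^ (x.a23 && y.a33),
   ((x.a31 && y.a11) ^^ (x.a32 && y.a21)) ^^ (x.a33 && y.a31),
   ((x.a31 && y.a12) ^^ (x.a32 && y.a22)) ^^ (x.a33 && y.a32),
   ((x.a31 && y.a13) ^^ (x.a32 && y.a23)) ^^ (x.a33 && y.a33)⟩

theorem mul'_eq (x y : M3) : mul' x y =
    ⟨x.a11 * y.a11 + x.a12 * y.a21 + x.a13 * y.a31,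
     x.a11 * y.a12 + x.a12 * y.a22 + x.a13 * y.a32,
     x.a11 * y.a13 + x.a12 * y.a23 + x.a13 * y.a33,
     x.a21 * y.a11 + x.a22 * y.a21 + x.a23 * y.a31,
     x.a21 * y.a12 + x.a22 * y.a22 + x.a23 * y.a32,
     x.a21 * y.a13 + x.a22 * y.a23 + x.a23 * y.a33,
     x.a31 * y.a11 + x.a32 * y.a21 + x.a33 * y.a31,
     x.a31 * y.a12 + x.a32 * y.a22 + x.a33 * y.a32,
     x.a31 * y.a13 + x.a32 * y.a23 + x.a33 * y.a33⟩ := rfl

/-- The identity matrix. -/
def one' : M3 := ⟨true, false, false, false, true, false, false, false, true⟩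

theorem one'_eq : one' = ⟨1, 0, 0, 0, 1, 0, 0, 0, 1⟩ := rfl

instance instMonoid : Monoid M3 where
  mul := mul'
  one := one'
  mul_assoc x y z := by
    show mul' (mul' x y) z = mul' x (mul' y z)
    simp only [mul'_eq]
    ext <;> dsimp only <;> ring
  one_mul x := by
    show mul' one' x = x
    rw [mul'_eq, one'_eq]
    ext <;> dsimp only <;> ring
  mul_one x := by
    show mul' x one' = x
    rw [mul'_eq, one'_eq]
    ext <;> dsimp only <;> ring

/-- The determinant. -/
def det (x : M3) : Bool :=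
  ((x.a11 && ((x.a22 && x.a33) ^^ (x.a23 && x.a32))) ^^
    (x.a12 && ((x.a21 && x.a33) ^^ (x.a23 && x.a31)))) ^^
    (x.a13 && ((x.a21 && x.a32) ^^ (x.a22 && x.a31)))

theorem det_eq (x : M3) : det x =
    x.a11 * (x.a22 * x.a33 - x.a23 * x.a32) - x.a12 * (x.a21 * x.a33 - x.a23 * x.a31)
      + x.a13 * (x.a21 * x.a32 - x.a22 * x.a31) := rfl

theorem det_mul (x y : M3) : det (x * y) = (det x && det y) := by
  show det (mul' x y) = det x * det y
  rw [det_eq, det_eq, det_eq, mul'_eq]
  dsimp only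
  ring

theorem det_one : det (1 : M3) = true := by decide

theorem and_eq_true_left : ∀ a b : Bool, (a && b) = true → a = true := by decide

theorem det_unit (g : M3ˣ) : det g.val = true := by
  have h : (det g.val && det g.inv) = true := by
    rw [← det_mul, g.val_inv, det_one]
  exact and_eq_true_left _ _ h

theorem det_of_pow (x : M3) (e : ℕ) (he : e ≠ 0) (h : x ^ e = 1) : det x = true := by
  obtain ⟨k, rfl⟩ := Nat.exists_eq_succ_of_ne_zero he
  rw [pow_succ'] at h
  have h2 := congrArg det h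
  rw [det_mul, det_one] at h2
  exact and_eq_true_left _ _ h2

theorem pow84 : ∀ x : M3, det x = true → pw 84 x = 1 := by decide +kernel

instance e84 : E84 M3ˣ :=
  ⟨fun g => Units.ext (by
    rw [Units.val_pow_eq_pow_val, Units.val_one, ← pw_eq]
    exact pow84 _ (det_unit g))⟩

end M3

/-- Table for the units of `M3`. -/
def tM3 (e : ℕ) : ℕ := tab divs [1, 22, 57, 64, 78, 49, 120, 70, 105, 112, 126, 168] e

theorem tblM3 : ∀ e ∈ divs, F M3ˣ e = tM3 e := by
  have h : ∀ e ∈ divs,
      (Finset.univ.filter fun x : M3 => M3.det x = true ∧ pw e x = 1).card = tM3 e := by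
    decide +kernel
  intro e he
  have hne := ne_zero_of_mem_divs e he
  rw [F_units _ _ hne, F_eq_card_pw, ← h e he]
  congr 1
  refine Finset.filter_congr fun x _ => ?_
  constructor
  · intro hx
    refine ⟨M3.det_of_pow x e hne ?_, hx⟩
    rw [← pw_eq]
    exact hx
  · intro hx
    exact hx.2

/-- An element of the unit group. -/
def u0 : M3ˣ := ⟨⟨false, true, true, true, false, true, false, false, true⟩,
  ⟨false, true, true, true, false, true, false, false, true⟩, by decide, by decide⟩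

/-- An element of the unit group. -/
def u1 : M3ˣ := ⟨⟨true, true, true, false, false, true, true, false, true⟩,
  ⟨false, true, true, true, false, true, false, true, false⟩, by decide, by decide⟩

/-- An element of the unit group. -/
def u2 : M3ˣ := ⟨⟨true, false, false, true, false, true, true, true, false⟩,
  ⟨true, false, false, true, false, true, true, true, false⟩, by decide, by decide⟩

/-- An element of the unit group. -/
def u3 : M3ˣ := ⟨⟨false, false, true, true, false, false, false, true, false⟩,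
  ⟨false, true, false, false, false, true, true, false, false⟩, by decide, by decide⟩

/-- An element of the unit group. -/
def u4 : M3ˣ := ⟨⟨true, false, false, false, false, true, false, true, false⟩,
  ⟨true, false, false, false, false, true, false, true, false⟩, by decide, by decide⟩

theorem u0_eq : u0 = ⁅u2, u3⁆ := Units.ext (by decide +kernel)

theorem u1_eq : u1 = ⁅u0, u1⁆ := Units.ext (by decide +kernel)

theorem u2_eq : u2 = ⁅u0, u4⁆ := Units.ext (by decide +kernel)

theorem u3_eq : u3 = ⁅u4, u3⁆ := Units.ext (by decide +kernel)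

theorem u4_eq : u4 = ⁅u1, u2⁆ := Units.ext (by decide +kernel)

theorem u0_ne : u0 ≠ 1 := fun h => absurd (congrArg Units.val h) (by decide +kernel)

theorem M3.not_solvable : ¬ Group.IsSolvable M3ˣ := by
  refine not_solvable_of_comm_closed ({u0, u1, u2, u3, u4} : Set M3ˣ) ?_ u0 (Or.inl rfl) u0_ne
  rintro x (rfl | rfl | rfl | rfl | rfl)
  · exact ⟨u2, Or.inr (Or.inr (Or.inl rfl)), u3, Or.inr (Or.inr (Or.inr (Or.inl rfl))), u0_eq⟩
  · exact ⟨u0, Or.inl rfl, u1, Or.inr (Or.inl rfl), u1_eq⟩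
  · exact ⟨u0, Or.inl rfl, u4, Or.inr (Or.inr (Or.inr (Or.inr (rfl)))), u2_eq⟩
  · exact ⟨u4, Or.inr (Or.inr (Or.inr (Or.inr (rfl)))), u3, Or.inr (Or.inr (Or.inr (Or.inl rfl))), u3_eq⟩
  · exact ⟨u1, Or.inr (Or.inl rfl), u2, Or.inr (Or.inr (Or.inl rfl)), u4_eq⟩

end Cfsg.Agent.H25.OT
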