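import Cfsg.Agent.H25.OT4
import Cfsg.Agent.H25.OT5

/-!
The two groups with the same numbers of elements of each order, one solvable and the other not.
-/

set_option autoImplicit false
set_option maxRecDepth 1000000
set_option synthInstance.maxSize 4096

namespace Cfsg.Agent.H25.OT

/-- Fibre product of `D3` and `D4`. -/
abbrev P1 : Subgroup (D3 × D4) := Grd.fib grD3b grD4a

/-- Fibre product of `D7` and `D7`. -/
abbrev P2 : Subgroup (D7 × D7) := Grd.fib grD7b grD7b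

/-- Fibre product of `D7` and `M76`. -/
abbrev P3 : Subgroup (D7 × M76) := Grd.fib grD7b grM76b

/-- Fibre product of `D7` and `M712`. -/
abbrev P4 : Subgroup (D7 × M712) := Grd.fib grD7b grM712b

/-- Fibre product of `D4` and `M286`. -/
abbrev P5 : Subgroup (D4 × M286) := Grd.fib grD4b grM286a

/-- The solvable group. -/
abbrev GG : Type :=
  (Fin 2 → C7) × (Fin 10 → D4) × (Fin 3 → D7) × Dic7 × (Fin 6 → M712) × (Fin 6 → AG) ×
    (Fin 6 → P1) × (Fin 4 → P2) × (Fin 6 → P5)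

/-- The group that is not solvable. -/
abbrev HH : Type :=
  (Fin 6 → M3ˣ) × (Fin 41 → C2) × (Fin 6 → C3) × (Fin 11 → C4) × (Fin 8 → M73) ×
    (Fin 10 → D28) × (Fin 2 → P3) × (Fin 2 → P4)

/-- The value of `F GG`. -/
def gval (e : ℕ) : ℕ :=
  tC7 e ^ 2 * (tD4 e ^ 10 * (tD7 e ^ 3 * (tDic7 e * (tM712 e ^ 6 * (tAG e ^ 6 *
    ((tD3b0 e * tD4a0 e + tD3b1 e * tD4a1 e) ^ 6 *
      ((tD7b0 e * tD7b0 e + tD7b1 e * tD7b1 e) ^ 4 *
        (tD4b0 e * tM286a0 e + tD4b1 e * tM286a1 e) ^ 6)))))))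

/-- The value of `F HH`. -/
def hval (e : ℕ) : ℕ :=
  tM3 e ^ 6 * (tC2 e ^ 41 * (tC3 e ^ 6 * (tC4 e ^ 11 * (tM73 e ^ 8 * (tD28 e ^ 10 *
    ((tD7b0 e * tM76b0 e + tD7b1 e * tM76b1 e) ^ 2 *
      (tD7b0 e * tM712b0 e + tD7b1 e * tM712b1 e) ^ 2))))))

theorem gval_eq_hval : ∀ e ∈ divs, gval e = hval e := by decide +kernel

theorem F_GG (e : ℕ) (he : e ∈ divs) : F GG e = gval e := by
  simp only [F_prod, F_pi, Grd.F_fib]
  rw [tblC7 e he, tblD4 e he, tblD7 e he, tblDic7 e he, tblM712 e he, tblAG e he,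
    tblD3b0 e he, tblD3b1 e he, tblD4a0 e he, tblD4a1 e he, tblD7b0 e he, tblD7b1 e he,
    tblD4b0 e he, tblD4b1 e he, tblM286a0 e he, tblM286a1 e he]
  rfl

theorem F_HH (e : ℕ) (he : e ∈ divs) : F HH e = hval e := by
  simp only [F_prod, F_pi, Grd.F_fib]
  rw [tblM3 e he, tblC2 e he, tblC3 e he, tblC4 e he, tblM73 e he, tblD28 e he,
    tblD7b0 e he, tblD7b1 e he, tblM76b0 e he, tblM76b1 e he, tblM712b0 e he, tblM712b1 e he]
  rfl

theorem F_GG_HH (d : ℕ) : F GG d = F HH d := by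
  rw [F_gcd GG d, F_gcd HH d]
  have he := gcd_mem_divs d
  rw [F_GG _ he, F_HH _ he]
  exact gval_eq_hval _ he

theorem GG_solvable : Group.IsSolvable GG := inferInstance

theorem HH_not_solvable : ¬ Group.IsSolvable HH := by
  intro h
  let f : HH →* M3ˣ := (Pi.evalMonoidHom (fun _ : Fin 6 => M3ˣ) 0).comp (MonoidHom.fst _ _)
  have hf : Function.Surjective f := by
    intro g
    exact ⟨(fun _ => g, 1), rfl⟩
  exact M3.not_solvable (Group.isSolvable_of_surjective hf)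

theorem same_order_type (n : ℕ) :
    Nat.card {g : GG // orderOf g = n} = Nat.card {h : HH // orderOf h = n} :=
  card_orderOf_eq_of_F (fun d _ => F_GG_HH d) n

theorem exists_pair :
    ∃ (G : Type) (_ : Group G) (_ : Finite G) (H : Type) (_ : Group H) (_ : Finite H),
      Group.IsSolvable G ∧ ¬ Group.IsSolvable H ∧
        ∀ n : ℕ, Nat.card {g : G // orderOf g = n} = Nat.card {h : H // orderOf h = n} :=
  ⟨GG, inferInstance, inferInstance, HH, inferInstance, inferInstance, GG_solvable,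
    HH_not_solvable, same_order_type⟩

end Cfsg.Agent.H25.OT
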