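import Mathlib
import Cfsg.Agent.H25.GL23
import Cfsg.Agent.H1.PCore

/-!
# helper25: groups of order 48 with a normal self-centralizing `Q₈`

Such a group is `GL(2,3)` or the binary octahedral group.
-/

set_option autoImplicit false

namespace Cfsg.Agent.H25

open QuaternionGroup

namespace Q8Set

variable {X : Type*} [Group X] [Finite X] {Q : Subgroup X} [hQn : Q.Normal] {a b g : X}

theorem center_cases (h : Q8Set Q a b g) {k : X} (hk : k ∈ Subgroup.center X) :
    k = 1 ∨ k = a ^ 2 := by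
  apply h.cent_cases
  rw [Subgroup.mem_centralizer_iff]
  intro q _
  exact (Subgroup.mem_center_iff.mp hk q)

theorem Ψ_g (h : Q8Set Q a b g) : h.Ψ g = H39.q8Sigma := by
  ext p
  apply h.θ_inj
  rw [h.θ_Ψ, h.θ_sigma]

theorem dichotomy (h : Q8Set Q a b g) (hc : Nat.card X = 48) :
    Nonempty (X ≃* GL (Fin 2) (ZMod 3)) ∨
    (Nat.card (Subgroup.center X) = 2 ∧
      Nonempty (X ⧸ Subgroup.center X ≃* Equiv.Perm (Fin 4)) ∧
      ∀ P : Sylow 2 X, Nonempty (↥(P : Subgroup X) ≃* QuaternionGroup 4)) := by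
  have : Fact (Nat.Prime 2) := ⟨Nat.prime_two⟩
  obtain ⟨t, ht⟩ := h.Ψ_surj hc q8Tau
  have hτ : ∀ p, h.θ (q8Tau p) = t * h.θ p * t⁻¹ := by
    intro p
    rw [← ht]
    exact h.θ_Ψ t p
  have h4 : a⁻¹ = a ^ 3 := by
    apply inv_eq_of_mul_eq_one_right
    rw [← pow_succ']; exact h.a4
  have hba : (a * b)⁻¹ = b * a := by
    apply inv_eq_of_mul_eq_one_right
    calc a * b * (b * a) = a * b ^ 2 * a := by rw [pow_two]; group
      _ = a ^ 4 := by rw [h.b2]; group
      _ = 1 := h.a4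
  have hta : t * a * t⁻¹ = a⁻¹ := by
    have h1 := hτ (QuaternionGroup.a 1)
    have e1 : q8Tau (QuaternionGroup.a 1) = QuaternionGroup.a 3 := rfl
    have e2 : (3 : ZMod (2 * 2)).val = 3 := rfl
    rw [e1, h.θ_a] at h1
    rw [← h1, h4]
    unfold θ
    rw [H39.q8Lift_a, e2]
  have htb : t * b * t⁻¹ = (a * b)⁻¹ := by
    have h1 := hτ (xa 0)
    have e1 : q8Tau (xa 0) = xa 1 := rfl
    have e2 : (1 : ZMod (2 * 2)).val = 1 := rfl
    rw [e1, h.θ_b] at h1
    rw [← h1, hba]
    unfold θ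
    rw [H39.q8Lift_xa, e2, pow_one]
  have hzc : ∀ y : X, y * a ^ 2 = a ^ 2 * y := Subgroup.mem_center_iff.mp h.z_mem_center
  have hzz : a ^ 2 * a ^ 2 = 1 := by rw [← pow_add]; exact h.a4
  -- `t * t` is central
  have htt : t * t = 1 ∨ t * t = a ^ 2 := by
    apply h.center_cases
    rw [← h.Ψ_ker, MonoidHom.mem_ker, map_mul, ht, q8Tau_sq]
  -- `t` inverts `g`
  have htg : t * g * t⁻¹ = g⁻¹ := by
    have h1 : t * g * t⁻¹ * g = 1 ∨ t * g * t⁻¹ * g = a ^ 2 := by
      apply h.center_cases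
      rw [← h.Ψ_ker, MonoidHom.mem_ker, map_mul, map_mul, map_mul, map_inv, ht, h.Ψ_g,
        q8Tau_conj, inv_mul_cancel]
    rcases h1 with h1 | h1
    · exact eq_inv_of_mul_eq_one_left h1
    · exfalso
      have h2 : t * g * t⁻¹ = a ^ 2 * g⁻¹ := by
        rw [← h1]; group
      have h3 : (t * g * t⁻¹) ^ 3 = 1 := by
        rw [conj_pow, h.g3]; group
      have hcm : Commute (a ^ 2) g⁻¹ := (hzc g⁻¹).symm
      rw [h2, hcm.mul_pow, inv_pow, h.g3, inv_one, mul_one] at h3
      have h5 : (a ^ 2) ^ 3 = a ^ 2 := by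
        calc (a ^ 2) ^ 3 = a ^ 4 * a ^ 2 := by rw [← pow_mul, ← pow_add]
          _ = a ^ 2 := by rw [h.a4, one_mul]
      rw [h5] at h3
      exact h.a2 h3
  rcases htt with ht2 | ht2
  · left
    obtain ⟨e1⟩ := model_equiv hc h.a4 h.a2 h.b2 h.ab2 h.ga h.gb h.g3 hta htb ht2 htg
    obtain ⟨e2⟩ := model_gl23
    exact ⟨e1.symm.trans e2⟩
  · right
    refine ⟨h.card_center, h.quot_center hc, ?_⟩
    -- a Sylow 2-subgroup containing `t`
    have hot : orderOf t = 2 ^ 2 := by
      apply orderOf_eq_prime_pow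
      · rw [pow_one, pow_two, ht2]; exact h.a2
      · have : t ^ 2 ^ 2 = (t * t) * (t * t) := by
          rw [show (2 : ℕ) ^ 2 = 2 + 2 from rfl, pow_add, pow_two]
        rw [this, ht2, hzz]
    have htp : IsPGroup 2 (Subgroup.zpowers t) := by
      apply IsPGroup.of_card (n := 2)
      rw [Nat.card_zpowers, hot]
    obtain ⟨P₀, hP₀⟩ := htp.exists_le_sylow
    have htP : t ∈ (P₀ : Subgroup X) := hP₀ (Subgroup.mem_zpowers t)
    have hQp : IsPGroup 2 Q := IsPGroup.of_card (n := 3) (by rw [h.card]; rfl)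
    have hQP : Q ≤ P₀ := H1.normal_pgroup_le_sylow 2 Q hQp P₀
    have hbP : b ∈ (P₀ : Subgroup X) := hQP h.bQ
    have hcard : Nat.card (P₀ : Subgroup X) = 4 * 4 := by
      obtain ⟨j, hj⟩ := IsPGroup.iff_card.mp P₀.isPGroup'
      have h1 := Subgroup.card_mul_index (P₀ : Subgroup X)
      have h2 : ¬ 2 ∣ (P₀ : Subgroup X).index := P₀.not_dvd_index
      rw [hc, hj] at h1
      have hj6 : j < 6 := by
        by_contra hcon
        push Not at hcon
        have h3 : 2 ^ 6 ≤ 2 ^ j := Nat.pow_le_pow_right (by norm_num) hcon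
        have h4 : 2 ^ j ≤ 48 := Nat.le_of_dvd (by norm_num) (Dvd.intro _ h1)
        omega
      rw [hj]
      interval_cases j <;> omega
    -- the element of order eight
    have hab : a * b = b * a⁻¹ := h.ab
    have hbb : b * b = a ^ 2 := by rw [← pow_two]; exact h.b2
    have hx2 : (t * b) * (t * b) = a⁻¹ := by
      calc (t * b) * (t * b) = (t * b * t⁻¹) * (t * t) * b := by group
        _ = b * a * a ^ 2 * b := by rw [htb, hba, ht2]
        _ = b * (a * b) * a ^ 2 := by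
            rw [mul_assoc (b * a), ← hzc b]; group
        _ = b * (b * a⁻¹) * a ^ 2 := by rw [hab]
        _ = (b * b) * a⁻¹ * a ^ 2 := by group
        _ = a ^ 2 * a⁻¹ * a ^ 2 := by rw [hbb]
        _ = (a ^ 2 * a ^ 2) * a⁻¹ := by
            rw [mul_assoc, hzc a⁻¹, ← mul_assoc]
        _ = a⁻¹ := by rw [hzz, one_mul]
    have hx4 : (t * b) ^ 4 = a ^ 2 := by
      have e : (t * b) ^ 4 = ((t * b) * (t * b)) * ((t * b) * (t * b)) := by
        rw [show (4 : ℕ) = 2 + 2 from rfl, pow_add, pow_two]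
      rw [e, hx2, ← mul_inv_rev, ← pow_two]
      exact inv_eq_of_mul_eq_one_right hzz
    have hx8 : (t * b) ^ (2 * 4) = 1 := by
      rw [mul_comm, pow_mul, hx4, pow_two, hzz]
    have hox : orderOf (t * b) = 2 ^ 3 := by
      apply orderOf_eq_prime_pow
      · rw [show (2 : ℕ) ^ 2 = 4 from rfl, hx4]; exact h.a2
      · exact hx8
    have hBA : b * (t * b) * b⁻¹ = (t * b)⁻¹ := by
      apply eq_inv_of_mul_eq_one_left
      calc b * (t * b) * b⁻¹ * (t * b) = b * (t * t) * b := by group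
        _ = b * a ^ 2 * b := by rw [ht2]
        _ = a ^ 2 * (b * b) := by rw [hzc b]; group
        _ = 1 := by rw [hbb, hzz]
    have hord : ∀ c : ℤ, (t * b) ^ c = 1 → ((2 * 4 : ℕ) : ℤ) ∣ c := by
      intro c hc'
      have := orderOf_dvd_iff_zpow_eq_one.mpr hc'
      rw [hox] at this
      exact this
    have ha1 : a ≠ 1 := by
      rintro rfl
      exact h.a2 (one_pow 2)
    have hBn : ∀ c : ℤ, b * (t * b) ^ c ≠ 1 := by
      intro c hc'
      have h1 : b = ((t * b) ^ c)⁻¹ := eq_inv_of_mul_eq_one_left hc'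
      have h2' : Commute ((t * b) ^ c)⁻¹ (t * b) :=
        ((Commute.refl (t * b)).zpow_left c).inv_left
      have h2 : Commute b (t * b) := by
        rw [← h1] at h2'
        exact h2'
      have h3 : b * (t * b) * b⁻¹ = t * b := by
        rw [h2.eq]; group
      rw [hBA] at h3
      have h5 : (t * b) * (t * b) = 1 := by
        have h6 := inv_mul_cancel (t * b)
        rwa [h3] at h6
      rw [hx2] at h5
      exact ha1 (inv_eq_one.mp h5)
    obtain ⟨e₀⟩ := nonempty_quat_equiv 4 (P₀ : Subgroup X) (t * b) b hx8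
      (by rw [hbb, hx4]) hBA hord hBn (Subgroup.mul_mem _ htP hbP) hbP hcard
    intro P
    obtain ⟨y, rfl⟩ := MulAction.exists_smul_eq X P₀ P
    exact ⟨(Sylow.equivSMul P₀ y).symm.trans e₀⟩

end Q8Set

end Cfsg.Agent.H25
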