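import Mathlib
import Cfsg.Agent.H25.Q8Dich
import Cfsg.Agent.H25.NormFour
import Cfsg.Agent.H25.Tau4
import Cfsg.Agent.H25.DQ
import Cfsg.Agent.H59.UniqueOrderP
import Cfsg.Agent.H39.Quat
import Cfsg.Agent.H1.HallHigman
import Cfsg.Agent.H1.PCore

/-!
# helper25: solvable groups with `O(X) = 1` whose `O₂(X)` has no four-group
-/

set_option autoImplicit false

namespace Cfsg.Agent.H25

theorem rank_core {X : Type*} [Group X] [Finite X] (hsol : Group.IsSolvable X)
    (hO : Cfsg.pPrimeCore 2 X = ⊥)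
    (hV : ∀ V : Subgroup X, V ≤ Cfsg.pCore 2 X → (∀ v ∈ V, v ^ 2 = 1) → Nat.card V ≤ 2)
    (hN : ¬ ∃ P : Sylow 2 X, (P : Subgroup X).Normal) :
    Nonempty (X ≃* GL (Fin 2) (ZMod 3)) ∨
    (Nat.card X = 48 ∧ Nat.card (Subgroup.center X) = 2 ∧
      Nonempty (X ⧸ Subgroup.center X ≃* Equiv.Perm (Fin 4)) ∧
      ∀ P : Sylow 2 X, Nonempty (↥(P : Subgroup X) ≃* QuaternionGroup 4)) := by
  classical
  have : Fact (Nat.Prime 2) := ⟨Nat.prime_two⟩
  obtain ⟨Q, hQdef⟩ : ∃ Q : Subgroup X, Q = Cfsg.pCore 2 X := ⟨_, rfl⟩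
  have hQn : Q.Normal := hQdef ▸ H1.pCore_normal 2
  have hQ2 : IsPGroup 2 Q := hQdef ▸ H1.pCore_isPGroup 2
  have hC : Subgroup.centralizer (Q : Set X) ≤ Q := hQdef ▸ H1.centralizer_pCore_le 2 hO
  have hV' : ∀ V : Subgroup X, V ≤ Q → (∀ v ∈ V, v ^ 2 = 1) → Nat.card V ≤ 2 := by
    intro V hVQ
    exact hV V (hQdef ▸ hVQ)
  -- `X` is not a 2-group
  have hnot2 : ¬ IsPGroup 2 X := by
    intro h2
    apply hN
    obtain ⟨P⟩ : Nonempty (Sylow 2 X) := inferInstance
    have h1 : (⊤ : Subgroup X) = P := P.is_maximal' (h2.to_subgroup ⊤) le_top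
    refine ⟨P, ?_⟩
    rw [← h1]
    infer_instance
  -- an element of odd prime order
  obtain ⟨p, hp, hpdvd, hp2⟩ : ∃ p : ℕ, p.Prime ∧ p ∣ Nat.card X ∧ p ≠ 2 := by
    by_contra hcon
    push Not at hcon
    apply hnot2
    have h1 : Nat.card X = 2 ^ (Nat.card X).primeFactorsList.length :=
      Nat.eq_prime_pow_of_unique_prime_dvd Nat.card_pos.ne' (fun {d} hd hdvd => hcon d hd hdvd)
    exact IsPGroup.of_card h1
  have : Fact p.Prime := ⟨hp⟩
  obtain ⟨g, hg⟩ := exists_prime_orderOf_dvd_card' p hpdvd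
  have hgo : (orderOf g).Coprime 2 := by
    rw [hg]
    exact (Nat.coprime_primes hp Nat.prime_two).mpr hp2
  have hgC : g ∉ Subgroup.centralizer (Q : Set X) := by
    intro hgc
    obtain ⟨k, hk⟩ := hQ2 ⟨g, hC hgc⟩
    have h1 : g ^ 2 ^ k = 1 := by
      have := congrArg Subtype.val hk
      simpa using this
    have d1 : orderOf g ∣ 2 ^ k := orderOf_dvd_of_pow_eq_one h1
    have := Nat.Coprime.eq_one_of_dvd (hgo.pow_right k) d1
    rw [hg] at this
    exact hp.one_lt.ne' this
  have hA : ¬ IsPGroup 2 (MulAut Q) := by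
    intro hP
    obtain ⟨k, hk⟩ := hP (MulAut.conjNormal g)
    have h1 : (MulAut.conjNormal g : MulAut Q) ^ p = 1 := by
      rw [← map_pow, ← hg, pow_orderOf_eq_one, map_one]
    have d1 : orderOf (MulAut.conjNormal g : MulAut Q) ∣ 2 ^ k := orderOf_dvd_of_pow_eq_one hk
    have d2 : orderOf (MulAut.conjNormal g : MulAut Q) ∣ p := orderOf_dvd_of_pow_eq_one h1
    have h2 := Nat.Coprime.eq_one_of_dvd
      (Nat.Coprime.coprime_dvd_left d2 ((hg ▸ hgo).pow_right k)) d1
    have h3 : (MulAut.conjNormal g : MulAut Q) = 1 := orderOf_eq_one_iff.mp h2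
    apply hgC
    rw [Subgroup.mem_centralizer_iff]
    intro q hq
    have h4 : g * q * g⁻¹ = q := by
      have := MulAut.conjNormal_apply (H := Q) g ⟨q, hq⟩
      rw [h3] at this
      exact this.symm
    calc q * g = (g * q * g⁻¹) * g := by rw [h4]
      _ = g * q := by group
  -- `Q` is nontrivial
  have hQnt : Nontrivial Q := by
    rw [Subgroup.nontrivial_iff_ne_bot]
    intro hbot
    apply hgC
    rw [hbot, Subgroup.mem_centralizer_iff]
    intro q hq
    have : q = 1 := hq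
    rw [this, one_mul, mul_one]
  -- a central involution of `Q`
  obtain ⟨z, hzQ, hz1, hzz, hzc⟩ : ∃ z : X, z ∈ Q ∧ z ≠ 1 ∧ z * z = 1 ∧
      ∀ q ∈ Q, z * q = q * z := by
    have hcn : Nontrivial (Subgroup.center Q) := hQ2.center_nontrivial
    have hcp : IsPGroup 2 (Subgroup.center Q) := hQ2.to_subgroup _
    obtain ⟨n, hn⟩ := IsPGroup.iff_card.mp hcp
    have hn0 : n ≠ 0 := by
      rintro rfl
      have h1 : 1 < Nat.card (Subgroup.center Q) := Finite.one_lt_card
      rw [hn] at h1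
      omega
    have h2 : 2 ∣ Nat.card (Subgroup.center Q) := by
      rw [hn]; exact dvd_pow_self 2 hn0
    obtain ⟨x, hx⟩ := exists_prime_orderOf_dvd_card' 2 h2
    have hx1 : ((x : Q) : X) ≠ 1 := by
      intro h
      have h3 : x = 1 := Subtype.ext (Subtype.ext h)
      rw [h3, orderOf_one] at hx
      omega
    have hx2 : ((x : Q) : X) * ((x : Q) : X) = 1 := by
      have h3 : x ^ 2 = 1 := by rw [← hx]; exact pow_orderOf_eq_one x
      have h4 := congrArg (fun y : Subgroup.center Q => ((y : Q) : X)) h3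
      simpa [pow_two] using h4
    refine ⟨((x : Q) : X), (x : Q).2, hx1, hx2, ?_⟩
    intro q hq
    have h3 := Subgroup.mem_center_iff.mp x.2 ⟨q, hq⟩
    have h4 := congrArg Subtype.val h3
    exact h4.symm
  -- every involution of `Q` is `z`
  have hinv : ∀ t ∈ Q, t * t = 1 → t = 1 ∨ t = z := by
    intro t htQ htt
    by_contra hcon
    push Not at hcon
    obtain ⟨ht1, htz⟩ := hcon
    have hzp : ∀ v ∈ Subgroup.zpowers z, v = 1 ∨ v = z := by
      intro v hv
      obtain ⟨j, rfl⟩ := Subgroup.mem_zpowers_iff.mp hv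
      exact H59.zpow_involution hzz j
    have hcomm : ∀ v ∈ Subgroup.zpowers z, t * v = v * t := by
      intro v hv
      rcases hzp v hv with e | e
      · rw [e, one_mul, mul_one]
      · rw [e]; exact (hzc t htQ).symm
    have hVsq : ∀ v ∈ Subgroup.zpowers z, v * v = 1 := by
      intro v hv
      rcases hzp v hv with e | e
      · rw [e, one_mul]
      · rw [e]; exact hzz
    have htV : t ∉ Subgroup.zpowers z := by
      intro h
      rcases hzp t h with e | e
      · exact ht1 e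
      · exact htz e
    have hle : dbl (Subgroup.zpowers z) t htt hcomm ≤ Q := by
      intro x hx
      rcases hx with hx | hx
      · exact (Subgroup.zpowers_le.mpr hzQ) hx
      · have h1 : x * t ∈ Q := (Subgroup.zpowers_le.mpr hzQ) hx
        have h2 : x = (x * t) * t⁻¹ := by group
        rw [h2]
        exact Q.mul_mem h1 (Q.inv_mem htQ)
    have h1 := hV' _ hle (fun v hv => by rw [pow_two]; exact sq_dbl hVsq hv)
    rw [card_dbl htV, Nat.card_zpowers, orderOf_eq_prime (by rw [pow_two]; exact hzz) hz1] at h1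
    omega
  -- a unique subgroup of order two
  have hkey : ∀ H : Subgroup Q, Nat.card H = 2 → H = Subgroup.zpowers (⟨z, hzQ⟩ : Q) := by
    intro H hH
    have hne : H ≠ ⊥ := by
      intro h
      rw [h, Subgroup.card_bot] at hH
      omega
    obtain ⟨x, hxH, hx1⟩ := (Subgroup.ne_bot_iff_exists_ne_one).mp hne |>.imp
      (fun x hx => hx) |> fun ⟨x, hx⟩ => (⟨x.1, x.2, fun h => hx (Subtype.ext h)⟩ :
        ∃ x : Q, x ∈ H ∧ x ≠ 1)
    have hx2 : x ^ 2 = 1 := by
      have h1 : (⟨x, hxH⟩ : H) ^ Nat.card H = 1 := pow_card_eq_one'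
      rw [hH] at h1
      exact congrArg Subtype.val h1
    have hx2' : (x : X) * (x : X) = 1 := by
      have := congrArg Subtype.val hx2
      simpa [pow_two] using this
    have hxz : x = ⟨z, hzQ⟩ := by
      rcases hinv x x.2 hx2' with e | e
      · exact absurd (Subtype.ext e) hx1
      · exact Subtype.ext e
    symm
    apply Subgroup.eq_of_le_of_card_ge
    · rw [Subgroup.zpowers_le, ← hxz]; exact hxH
    · rw [hH, Nat.card_zpowers, ← hxz]
      exact le_of_eq (orderOf_eq_prime hx2 hx1).symm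
  have huniq : ∀ H K : Subgroup Q, Nat.card H = 2 → Nat.card K = 2 → H = K :=
    fun H K hH hK => (hkey H hH).trans (hkey K hK).symm
  have hncyc : ¬ IsCyclic Q := by
    intro hcyc
    apply hA
    obtain ⟨k, hk⟩ := IsPGroup.iff_card.mp hQ2
    exact isPGroup_mulAut_of_cyclic k hk
  obtain ⟨a₀, g₀, k, hk1, hord, hg₀, hconj, hg₀sq, hcos, hout, hinv'⟩ :=
    H59.quaternion_structure_of_unique_two hQ2 huniq hncyc
  have hidx : (Subgroup.zpowers a₀).index = 2 := by
    rw [Subgroup.index_eq_two_iff_exists_notMem_and']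
    refine ⟨g₀⁻¹, fun h => hg₀ (by simpa using Subgroup.inv_mem _ h), fun b => ?_⟩
    rcases hcos b with h | h
    · exact Or.inr h
    · exact Or.inl h
  have hcardQ : Nat.card Q = 2 ^ k * 2 := by
    have h1 := Subgroup.card_mul_index (Subgroup.zpowers a₀)
    rw [hidx, Nat.card_zpowers, hord] at h1
    exact h1.symm
  have hpow : a₀ ^ (2 ^ k) = 1 := by rw [← hord]; exact pow_orderOf_eq_one a₀
  have hk2 : k = 2 := by
    by_contra hkne
    have hcase : k = 1 ∨ 3 ≤ k := by omega
    rcases hcase with rfl | hk3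
    · -- cyclic of order four
      apply hncyc
      have h1 : orderOf g₀ = 2 ^ 2 := by
        apply orderOf_eq_prime_pow
        · rw [pow_one, pow_two, hg₀sq]
          intro h
          have h2 : orderOf a₀ ∣ 2 ^ (1 - 1) := orderOf_dvd_of_pow_eq_one h
          rw [hord] at h2
          have := Nat.le_of_dvd (by norm_num) h2
          norm_num at this
        · have e : g₀ ^ 2 ^ 2 = (g₀ * g₀) * (g₀ * g₀) := by
            rw [show (2 : ℕ) ^ 2 = 2 + 2 from rfl, pow_add, pow_two]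
          rw [e, hg₀sq, ← pow_add]
          exact hpow
      exact isCyclic_of_orderOf_eq_card g₀ (by rw [h1, hcardQ]; rfl)
    · apply hA
      apply aut_two_of_small_outside a₀ g₀ k 4 hord hg₀ hidx
      · intro h hh
        have h1 := (hout h hh).2
        have e : h ^ 4 = (h * h) * (h * h) := by
          rw [show (4 : ℕ) = 2 + 2 from rfl, pow_add, pow_two]
        rw [e, h1, ← pow_add, ← two_mul, ← pow_succ', Nat.sub_add_cancel hk1]
        exact hpow
      · intro hdvd
        have h8 : 2 ^ 3 ≤ 2 ^ k := Nat.pow_le_pow_right (by norm_num) hk3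
        have := Nat.le_of_dvd (by norm_num) hdvd
        omega
  subst hk2
  have hQ8 : Nat.card Q = 8 := by rw [hcardQ]; rfl
  have hz₀ : ∀ x : Q, x * x = a₀ ^ 2 ^ (2 - 1) → (x : X) ^ 2 = (a₀ : X) ^ 2 := by
    intro x hx
    have := congrArg Subtype.val hx
    simpa [pow_two] using this
  have hI : H39.QIface Q (a₀ : X) ((a₀ : X) ^ 2) := by
    refine ⟨?_, ?_, ?_, ?_, ?_⟩
    · intro h
      have h1 : a₀ ^ 2 = 1 := Subtype.ext (by simpa using h)
      have h2 : orderOf a₀ ∣ 2 := orderOf_dvd_of_pow_eq_one h1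
      rw [hord] at h2
      have := Nat.le_of_dvd (by norm_num) h2
      norm_num at this
    · have h1 := congrArg Subtype.val hpow
      rw [← pow_mul]
      simpa using h1
    · intro t ht ht2
      have h1 : (⟨t, ht⟩ : Q) * ⟨t, ht⟩ = 1 := Subtype.ext (by simpa [pow_two] using ht2)
      rcases hinv' _ h1 with e | e
      · left
        exact congrArg Subtype.val e
      · right
        have := congrArg Subtype.val e
        simpa using this
    · intro t ht htn
      have h1 : (⟨t, ht⟩ : Q) ∉ Subgroup.zpowers a₀ := by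
        intro h
        exact htn ((coe_mem_zpowers_iff a₀ ⟨t, ht⟩).mp h)
      exact hz₀ _ (hout _ h1).2
    · intro s hs t ht hsn htn
      have h1 : (⟨s, hs⟩ : Q) ∉ Subgroup.zpowers a₀ := by
        intro h
        exact hsn ((coe_mem_zpowers_iff a₀ ⟨s, hs⟩).mp h)
      have h2 : (⟨t, ht⟩ : Q) ∉ Subgroup.zpowers a₀ := by
        intro h
        exact htn ((coe_mem_zpowers_iff a₀ ⟨t, ht⟩).mp h)
      have h3 : g₀⁻¹ * ⟨s, hs⟩ ∈ Subgroup.zpowers a₀ := (hcos _).resolve_left h1
      have h4 : g₀⁻¹ * ⟨t, ht⟩ ∈ Subgroup.zpowers a₀ := (hcos _).resolve_left h2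
      have h5 : (⟨s, hs⟩ : Q)⁻¹ * ⟨t, ht⟩ ∈ Subgroup.zpowers a₀ := by
        have e : (⟨s, hs⟩ : Q)⁻¹ * ⟨t, ht⟩ = (g₀⁻¹ * ⟨s, hs⟩)⁻¹ * (g₀⁻¹ * ⟨t, ht⟩) := by group
        rw [e]
        exact Subgroup.mul_mem _ (Subgroup.inv_mem _ h3) h4
      exact (coe_mem_zpowers_iff a₀ _).mp h5
  obtain ⟨a, b, hS⟩ := exists_q8set Q hQ8 hI hC hgo hgC
  have hc48 : Nat.card X = 48 := by
    have h1 := hS.card_le
    obtain ⟨m, hm⟩ := hS.dvd_card
    have hpos : 0 < Nat.card X := Nat.card_pos
    have hm12 : m = 1 ∨ m = 2 := by omega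
    rcases hm12 with rfl | rfl
    · exfalso
      apply hN
      obtain ⟨P⟩ : Nonempty (Sylow 2 X) := inferInstance
      have hQP : Q ≤ P := H1.normal_pgroup_le_sylow 2 Q hQ2 P
      obtain ⟨j, hj⟩ := IsPGroup.iff_card.mp P.isPGroup'
      have hdvd : 2 ^ j ∣ 24 := by
        have := Subgroup.card_subgroup_dvd_card (P : Subgroup X)
        rw [hj, hm] at this
        exact this
      have hj3 : j ≤ 3 := by
        by_contra hcon
        push Not at hcon
        have h16 : 2 ^ 4 ∣ 2 ^ j := pow_dvd_pow 2 hcon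
        have := h16.trans hdvd
        norm_num at this
      have hPle : Nat.card (P : Subgroup X) ≤ Nat.card Q := by
        rw [hj, hQ8]
        calc 2 ^ j ≤ 2 ^ 3 := Nat.pow_le_pow_right (by norm_num) hj3
          _ = 8 := by norm_num
      have hEq : Q = P := Subgroup.eq_of_le_of_card_ge hQP hPle
      exact ⟨P, hEq ▸ hQn⟩
    · omega
  rcases hS.dichotomy hc48 with h | ⟨h1, h2, h3⟩
  · exact Or.inl h
  · exact Or.inr ⟨hc48, h1, h2, h3⟩

end Cfsg.Agent.H25
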