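import Mathlib
import Cfsg.Agent.H11.FourCore
import Cfsg.Agent.H1.HallHigman
import Cfsg.Agent.H1.PCore

/-!
# helper25: lifting a four-group of `O₂(G/O(G))` into the intersection of two Sylow subgroups
-/

set_option autoImplicit false

namespace Cfsg.Agent.H25

open Pointwise

/-- If distinct Sylow 2-subgroups of `G` meet in groups of 2-rank at most one and
`O₂(G/O(G))` contains a non-cyclic elementary abelian subgroup, then `G/O(G)` is 2-closed. -/
theorem lift_unique {G : Type*} [Group G] [Finite G]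
    (hI : ∀ S T : Sylow 2 G, S ≠ T → Cfsg.PRankLE 2 1 ↥((S : Subgroup G) ⊓ (T : Subgroup G)))
    (V : Subgroup (G ⧸ Cfsg.oddCore G)) (hV : V ≤ Cfsg.pCore 2 (G ⧸ Cfsg.oddCore G))
    (hc : 2 < Nat.card V) (hsq : ∀ v ∈ V, v ^ 2 = 1) :
    ∃ P : Sylow 2 (G ⧸ Cfsg.oddCore G), (P : Subgroup (G ⧸ Cfsg.oddCore G)).Normal := by
  classical
  have : Fact (Nat.Prime 2) := ⟨Nat.prime_two⟩
  obtain ⟨O, hOdef⟩ : ∃ O : Subgroup G, O = Cfsg.oddCore G := ⟨_, rfl⟩
  subst hOdef
  obtain ⟨π, hπdef⟩ : ∃ π : G →* G ⧸ Cfsg.oddCore G, π = QuotientGroup.mk' (Cfsg.oddCore G) :=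
    ⟨_, rfl⟩
  have hπ : Function.Surjective π := hπdef ▸ QuotientGroup.mk'_surjective _
  have hker : ∀ x : G, π x = 1 → x ∈ Cfsg.oddCore G := by
    intro x hx
    rw [hπdef] at hx
    exact (QuotientGroup.eq_one_iff x).mp hx
  have hOodd : (Nat.card (Cfsg.oddCore G)).Coprime 2 := H1.pPrimeCore_card_coprime 2
  have hSO : ∀ (S : Sylow 2 G) (x : G), x ∈ (S : Subgroup G) → x ∈ Cfsg.oddCore G → x = 1 := by
    intro S x hxS hxO
    obtain ⟨k, hk⟩ := S.isPGroup' ⟨x, hxS⟩
    have h1 : x ^ 2 ^ k = 1 := by simpa using congrArg Subtype.val hk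
    have d1 : orderOf x ∣ 2 ^ k := orderOf_dvd_of_pow_eq_one h1
    have d2 : orderOf x ∣ Nat.card (Cfsg.oddCore G) := by
      have : orderOf (⟨x, hxO⟩ : Cfsg.oddCore G) ∣ Nat.card (Cfsg.oddCore G) :=
        orderOf_dvd_natCard _
      rwa [Subgroup.orderOf_mk] at this
    have := Nat.Coprime.eq_one_of_dvd (Nat.Coprime.coprime_dvd_left d2 (hOodd.pow_right k)) d1
    exact orderOf_eq_one_iff.mp this
  have key : ∀ S T : Sylow 2 G, (T : Subgroup G).map π = (S : Subgroup G).map π := by
    intro S T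
    have hVS : V ≤ (S : Subgroup G).map π :=
      hV.trans (H1.pCore_le_sylow 2 (S.mapSurjective hπ))
    have hVT : V ≤ (T : Subgroup G).map π :=
      hV.trans (H1.pCore_le_sylow 2 (T.mapSurjective hπ))
    obtain ⟨B, hBdef⟩ : ∃ B : Subgroup G, B = (T : Subgroup G) ⊓ V.comap π := ⟨_, rfl⟩
    have hBT : B ≤ T := hBdef ▸ inf_le_left
    have hBV : ∀ x ∈ B, π x ∈ V := fun x hx => (hBdef ▸ hx : x ∈ (T : Subgroup G) ⊓ V.comap π).2
    have hBp : IsPGroup 2 B := T.isPGroup'.to_le hBT
    have hBH : B ≤ ((S : Subgroup G).map π).comap π := fun x hx => hVS (hBV x hx)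
    have hSH : (S : Subgroup G) ≤ ((S : Subgroup G).map π).comap π := Subgroup.le_comap_map _ _
    obtain ⟨h, hh, hBle⟩ := H11.exists_conj_le_of_le_of_sylow S hSH hBH hBp
    have hcoe : ((h • S : Sylow 2 G) : Subgroup G) = H11.cj h (S : Subgroup G) := rfl
    by_cases hTS : T = h • S
    · have hle : (T : Subgroup G).map π ≤ (S : Subgroup G).map π := by
        rintro _ ⟨x, hx, rfl⟩
        rw [hTS] at hx
        have hx' : x ∈ H11.cj h (S : Subgroup G) := hx
        rw [H11.mem_cj] at hx'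
        have e : π x = π h * π (h⁻¹ * x * h) * (π h)⁻¹ := by
          rw [← map_inv, ← map_mul, ← map_mul]
          congr 1
          group
        rw [e]
        exact Subgroup.mul_mem _ (Subgroup.mul_mem _ hh (Subgroup.mem_map_of_mem π hx'))
          (Subgroup.inv_mem _ hh)
      exact ((T.mapSurjective hπ).is_maximal' (S.mapSurjective hπ).isPGroup' hle).symm
    · exfalso
      have hr := hI T (h • S) hTS
      have hBle' : B ≤ (T : Subgroup G) ⊓ ((h • S : Sylow 2 G) : Subgroup G) :=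
        le_inf hBT (hcoe ▸ hBle)
      have hBsq : ∀ x ∈ B, x ^ 2 = 1 := by
        intro x hx
        apply hSO T (x ^ 2) (Subgroup.pow_mem _ (hBT hx) 2)
        apply hker
        rw [map_pow]
        exact hsq _ (hBV x hx)
      obtain ⟨A, hAdef⟩ : ∃ A : Subgroup ↥((T : Subgroup G) ⊓ ((h • S : Sylow 2 G) : Subgroup G)),
          A = B.subgroupOf _ := ⟨_, rfl⟩
      have hAsq : ∀ x ∈ A, x ^ 2 = 1 := by
        intro x hx
        rw [hAdef, Subgroup.mem_subgroupOf] at hx
        apply Subtype.ext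
        rw [Subgroup.coe_pow]
        exact hBsq _ hx
      have hAcomm : IsMulCommutative A := by
        refine ⟨⟨fun x y => ?_⟩⟩
        have hx := hAsq x.1 x.2
        have hy := hAsq y.1 y.2
        have hxy := hAsq (x.1 * y.1) (A.mul_mem x.2 y.2)
        apply Subtype.ext
        change x.1 * y.1 = y.1 * x.1
        have hxi : (x.1)⁻¹ = x.1 := inv_eq_of_mul_eq_one_right (by rw [← pow_two]; exact hx)
        have hyi : (y.1)⁻¹ = y.1 := inv_eq_of_mul_eq_one_right (by rw [← pow_two]; exact hy)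
        have h3 : (x.1 * y.1)⁻¹ = x.1 * y.1 :=
          inv_eq_of_mul_eq_one_right (by rw [← pow_two]; exact hxy)
        rw [← h3, mul_inv_rev, hxi, hyi]
      have hAcard := hr A hAcomm hAsq
      have hAB : Nat.card A = Nat.card B := by
        rw [hAdef]
        exact Nat.card_congr (Subgroup.subgroupOfEquivOfLe hBle').toEquiv
      have hch : ∀ v : V, ∃ t : G, t ∈ (T : Subgroup G) ∧ π t = v := by
        intro v
        obtain ⟨t, ht, htv⟩ := hVT v.2
        exact ⟨t, ht, htv⟩
      choose f hf using hch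
      have hfB : ∀ v : V, f v ∈ B := by
        intro v
        rw [hBdef]
        refine ⟨(hf v).1, ?_⟩
        change π (f v) ∈ V
        rw [(hf v).2]
        exact v.2
      have hinj : Function.Injective (fun v : V => (⟨f v, hfB v⟩ : B)) := by
        intro v w hvw
        have h1 : f v = f w := congrArg Subtype.val hvw
        apply Subtype.ext
        rw [← (hf v).2, ← (hf w).2, h1]
      have hle := Nat.card_le_card_of_injective _ hinj
      rw [← hAB] at hle
      omega
  obtain ⟨S⟩ : Nonempty (Sylow 2 G) := inferInstance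
  have hsub : Subsingleton (Sylow 2 (G ⧸ Cfsg.oddCore G)) := by
    constructor
    intro P₁ P₂
    obtain ⟨T₁, rfl⟩ := Sylow.mapSurjective_surjective hπ 2 P₁
    obtain ⟨T₂, rfl⟩ := Sylow.mapSurjective_surjective hπ 2 P₂
    apply Sylow.ext
    rw [Sylow.coe_mapSurjective, Sylow.coe_mapSurjective]
    exact (key S T₁).trans (key S T₂).symm
  exact ⟨S.mapSurjective hπ, Sylow.normal_of_subsingleton _⟩

end Cfsg.Agent.H25
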