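import Mathlib
import Cfsg.Agent.H13.SaDefs

/-!
# S4025-BOUND (helper25, for helper13's S4025 project)

If `N` acts on `Q ≅ (F, +)` by maps `x ↦ a * σ x`, the elements normalizing every subgroup of `Q`
form a normal subgroup `M` of index at most `n * (p ^ n - 1) / (p - 1)`.
-/

set_option autoImplicit false

namespace Cfsg.Agent.H25.Sa

open Cfsg Cfsg.Agent.H13.Sa

universe u

theorem bound (h : AutStmt) : BoundStmt.{u} := by
  intro N _ _ p _ Q _ n F _ _ hF e hsemi
  classical
  have hp : p.Prime := Fact.out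
  have hchar : CharP F p :=
    charP_of_card_eq_prime_pow (f := n) (by rw [← Nat.card_eq_fintype_card]; exact hF)
  choose a σ hσ using hsemi
  have hx : ∀ x : F, ∃ q : Q, x = e (Additive.ofMul q) :=
    fun x => ⟨Additive.toMul (e.symm x), by simp⟩
  have ha : ∀ g : N, a g ≠ 0 := by
    intro g hag
    obtain ⟨q, hq⟩ := hx 1
    have h1 := hσ g q
    rw [hag, zero_mul] at h1
    have h2 : Additive.ofMul (MulAut.conjNormal g q) = 0 := by
      apply e.injective; rw [h1, map_zero]
    have h3 : MulAut.conjNormal g q = 1 := h2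
    have h4 : q = 1 := (MulAut.conjNormal g).injective (h3.trans (map_one _).symm)
    rw [h4] at hq
    have h5 : e (Additive.ofMul (1 : Q)) = 0 := by
      rw [ofMul_one, map_zero]
    rw [h5] at hq
    exact one_ne_zero hq
  have hpow : ∀ (q : Q) (k : ℕ), e (Additive.ofMul (q ^ k)) = (k : F) * e (Additive.ofMul q) := by
    intro q k
    rw [ofMul_pow, map_nsmul, nsmul_eq_mul]
  have hexp : ∀ q : Q, q ^ p = 1 := by
    intro q
    have h1 := hpow q p
    rw [CharP.cast_eq_zero, zero_mul] at h1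
    have h2 : Additive.ofMul (q ^ p) = 0 := e.injective (by rw [h1, map_zero])
    exact h2
  -- the key computation
  have key : ∀ (g g' : N) (k k' : ℕ), ¬ p ∣ k → σ g = σ g' → a g * k = a g' * k' →
      ∀ A : Subgroup N, A ≤ Q → ∀ x ∈ A, (g'⁻¹ * g) * x * (g'⁻¹ * g)⁻¹ ∈ A := by
    intro g g' k k' hk hσeq haeq A hA x hxA
    obtain ⟨m, -, hm⟩ := Nat.exists_mul_mod_eq_one_of_coprime
      (n := k) ((Nat.Prime.coprime_iff_not_dvd hp).mpr hk).symm hp.one_lt
    have hxp : x ^ p = 1 := by
      have := hexp ⟨x, hA hxA⟩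
      exact congrArg Subtype.val this
    have hyA : x ^ m ∈ A := A.pow_mem hxA m
    have hyk : (x ^ m) ^ k = x := by
      rw [← pow_mul, mul_comm, pow_eq_pow_mod _ hxp, hm, pow_one]
    obtain ⟨q, hq⟩ : ∃ q : Q, (q : N) = x ^ m := ⟨⟨x ^ m, hA hyA⟩, rfl⟩
    have h1 : MulAut.conjNormal g (q ^ k) = MulAut.conjNormal g' (q ^ k') := by
      have h2 : Additive.ofMul (MulAut.conjNormal g (q ^ k)) =
          Additive.ofMul (MulAut.conjNormal g' (q ^ k')) := by
        apply e.injective
        rw [hσ g, hσ g', hpow, hpow, map_mul, map_mul, map_natCast, map_natCast, hσeq,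
          ← mul_assoc, ← mul_assoc, haeq]
      exact h2
    have h3 : g * (x ^ m) ^ k * g⁻¹ = g' * (x ^ m) ^ k' * g'⁻¹ := by
      have := congrArg (Subtype.val : Q → N) h1
      rw [MulAut.conjNormal_apply, MulAut.conjNormal_apply] at this
      simpa [hq] using this
    rw [hyk] at h3
    have h4 : (g'⁻¹ * g) * x * (g'⁻¹ * g)⁻¹ = g'⁻¹ * (g * x * g⁻¹) * g' := by group
    rw [h4, h3]
    have h5 : g'⁻¹ * (g' * (x ^ m) ^ k' * g'⁻¹) * g' = (x ^ m) ^ k' := by group
    rw [h5]
    exact A.pow_mem hyA k'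
  -- the subgroup `M`
  obtain ⟨M, hM⟩ : ∃ M : Subgroup N, ∀ x : N, x ∈ M ↔
      ∀ A : Subgroup N, A ≤ Q → (∀ q ∈ A, x * q * x⁻¹ ∈ A) ∧ (∀ q ∈ A, x⁻¹ * q * x ∈ A) := by
    refine ⟨{ carrier := {x | ∀ A : Subgroup N, A ≤ Q →
                (∀ q ∈ A, x * q * x⁻¹ ∈ A) ∧ (∀ q ∈ A, x⁻¹ * q * x ∈ A)}
              one_mem' := ?_
              mul_mem' := ?_
              inv_mem' := ?_ }, fun x => Iff.rfl⟩
    · intro x y hx hy A hA
      constructor
      · intro q hq
        have h1 := (hx A hA).1 _ ((hy A hA).1 q hq)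
        have e1 : x * y * q * (x * y)⁻¹ = x * (y * q * y⁻¹) * x⁻¹ := by group
        rw [e1]; exact h1
      · intro q hq
        have h1 := (hy A hA).2 _ ((hx A hA).2 q hq)
        have e1 : (x * y)⁻¹ * q * (x * y) = y⁻¹ * (x⁻¹ * q * x) * y := by group
        rw [e1]; exact h1
    · intro A hA
      constructor <;> intro q hq <;> simpa using hq
    · intro x hx A hA
      refine ⟨fun q hq => ?_, fun q hq => ?_⟩
      · have h1 := (hx A hA).2 q hq
        simpa using h1
      · have h1 := (hx A hA).1 q hq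
        simpa using h1
  have hMn : M.Normal := by
    constructor
    intro x hx g
    rw [hM] at hx ⊢
    intro A hA
    have hA' : A.map (MulAut.conj g⁻¹).toMonoidHom ≤ Q := by
      rintro y ⟨b, hb, rfl⟩
      have : g⁻¹ * b * g⁻¹⁻¹ ∈ Q := Subgroup.Normal.conj_mem inferInstance b (hA hb) g⁻¹
      simpa using this
    have hmem : ∀ q ∈ A, g⁻¹ * q * g ∈ A.map (MulAut.conj g⁻¹).toMonoidHom := by
      intro q hq
      exact ⟨q, hq, by simp⟩
    constructor
    · intro q hq
      obtain ⟨b, hb, hbe⟩ := (hx _ hA').1 _ (hmem q hq)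
      have hbe' : g⁻¹ * b * g = x * (g⁻¹ * q * g) * x⁻¹ := by simpa using hbe
      have e1 : g * x * g⁻¹ * q * (g * x * g⁻¹)⁻¹ = g * (x * (g⁻¹ * q * g) * x⁻¹) * g⁻¹ := by
        group
      rw [e1, ← hbe']
      have e2 : g * (g⁻¹ * b * g) * g⁻¹ = b := by group
      rw [e2]; exact hb
    · intro q hq
      obtain ⟨b, hb, hbe⟩ := (hx _ hA').2 _ (hmem q hq)
      have hbe' : g⁻¹ * b * g = x⁻¹ * (g⁻¹ * q * g) * x := by simpa using hbe
      have e1 : (g * x * g⁻¹)⁻¹ * q * (g * x * g⁻¹) = g * (x⁻¹ * (g⁻¹ * q * g) * x) * g⁻¹ := by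
        group
      rw [e1, ← hbe']
      have e2 : g * (g⁻¹ * b * g) * g⁻¹ = b := by group
      rw [e2]; exact hb
  refine ⟨M, hMn, ?_, ?_⟩
  · intro g hg A hA
    rw [hM] at hg
    ext y
    rw [Subgroup.mem_map]
    constructor
    · rintro ⟨q, hq, rfl⟩
      have := (hg A hA).1 q hq
      simpa using this
    · intro hy
      refine ⟨g⁻¹ * y * g, (hg A hA).2 y hy, ?_⟩
      simp only [MulEquiv.coe_toMonoidHom, MulAut.conj_apply]
      group
  · -- the index bound
    have hcast : ∀ i : Fin (p - 1), ((i.val + 1 : ℕ) : F) ≠ 0 := by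
      intro i
      have hi := i.isLt
      rw [Ne, CharP.cast_eq_zero_iff F p]
      exact Nat.not_dvd_of_pos_of_lt (by omega) (by omega)
    have hfin : Finite (F ≃+* F) :=
      Finite.of_injective (fun s : F ≃+* F => (s : F → F)) DFunLike.coe_injective
    obtain ⟨ι, hι⟩ : ∃ ι : (N ⧸ M) × Fin (p - 1) → (F ≃+* F) × Fˣ, ∀ c,
        ι c = (σ (Quotient.out c.1), Units.mk0 (a (Quotient.out c.1) * ((c.2.val + 1 : ℕ) : F))
          (mul_ne_zero (ha _) (hcast c.2))) := ⟨_, fun c => rfl⟩
    have hinj : Function.Injective ι := by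
      rintro ⟨C, i⟩ ⟨C', j⟩ hij
      rw [hι, hι, Prod.mk.injEq] at hij
      obtain ⟨h1, h2⟩ := hij
      have h2' : a (Quotient.out C) * ((i.val + 1 : ℕ) : F) =
          a (Quotient.out C') * ((j.val + 1 : ℕ) : F) := by
        have := congrArg Units.val h2
        simpa using this
      have hi := i.isLt
      have hj := j.isLt
      have hki : ¬ p ∣ i.val + 1 := Nat.not_dvd_of_pos_of_lt (by omega) (by omega)
      have hkj : ¬ p ∣ j.val + 1 := Nat.not_dvd_of_pos_of_lt (by omega) (by omega)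
      have hmem : (Quotient.out C')⁻¹ * Quotient.out C ∈ M := by
        rw [hM]
        intro A hA
        refine ⟨key _ _ _ _ hki h1 h2' A hA, ?_⟩
        intro q hq
        have h3 := key _ _ _ _ hkj h1.symm h2'.symm A hA q hq
        have e1 : ((Quotient.out C')⁻¹ * Quotient.out C)⁻¹ * q *
            ((Quotient.out C')⁻¹ * Quotient.out C) =
            (Quotient.out C)⁻¹ * Quotient.out C' * q *
              ((Quotient.out C)⁻¹ * Quotient.out C')⁻¹ := by group
        rw [e1]; exact h3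
      have hCC : C' = C := by
        rw [← QuotientGroup.out_eq' C, ← QuotientGroup.out_eq' C', QuotientGroup.eq]
        simpa using hmem
      subst hCC
      have h4 : ((i.val + 1 : ℕ) : F) = ((j.val + 1 : ℕ) : F) :=
        mul_left_cancel₀ (ha _) h2'
      rw [CharP.natCast_eq_natCast F p] at h4
      have h5 : i.val + 1 = j.val + 1 := by
        have := h4
        unfold Nat.ModEq at this
        rw [Nat.mod_eq_of_lt (by omega), Nat.mod_eq_of_lt (by omega)] at this
        exact this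
      have h6 : i = j := Fin.ext (by omega)
      rw [h6]
    have hcard := Nat.card_le_card_of_injective ι hinj
    rw [Nat.card_prod, Nat.card_prod, Nat.card_fin, Nat.card_units, hF, h p n hF] at hcard
    exact hcard

example (h : AutStmt) : BoundStmt.{u} := bound h

end Cfsg.Agent.H25.Sa
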