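import Mathlib
import Cfsg.Agent.H13.SaDefs

/-!
# S4025-EMB (helper25, for helper13's S4025 project)

If `N = Q ⋊ H` acts on `Q ≅ (F, +)` by maps `x ↦ a * σ x`, the action of `N` on the cosets of
`H` (identified with `F`) is by semi-affine maps, with kernel the normal core of `H`.
-/

set_option autoImplicit false
set_option linter.deprecated false

namespace Cfsg.Agent.H25.Sa

open Cfsg Cfsg.Agent.H13.Sa

universe u

theorem emb : EmbStmt.{u} := by
  intro N _ _ Q H _ hc F _ _ e hsemi
  classical
  have hb : Function.Bijective ((Q : Set N).restrict (Quotient.mk'' : N → N ⧸ H)) :=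
    Subgroup.isComplement_subgroup_right_iff_bijective.mp hc
  -- the bijection `F ≃ N ⧸ H`
  have hbij : Function.Bijective
      (fun x : F => (QuotientGroup.mk ((Additive.toMul (e.symm x) : Q) : N) : N ⧸ H)) := by
    constructor
    · intro x y hxy
      have h1 : (Additive.toMul (e.symm x) : Q) = Additive.toMul (e.symm y) := by
        have := hb.1 (a₁ := ⟨((Additive.toMul (e.symm x) : Q) : N), (Additive.toMul (e.symm x)).2⟩)
          (a₂ := ⟨((Additive.toMul (e.symm y) : Q) : N), (Additive.toMul (e.symm y)).2⟩) hxy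
        exact Subtype.ext (congrArg Subtype.val this)
      have h2 : e.symm x = e.symm y := Additive.toMul.injective h1
      exact e.symm.injective h2
    · intro c
      obtain ⟨⟨q, hq⟩, rfl⟩ := hb.2 c
      refine ⟨e (Additive.ofMul (⟨q, hq⟩ : Q)), ?_⟩
      simp
      rfl
  obtain ⟨β, hβ⟩ : ∃ β : F ≃ N ⧸ H, ∀ x : F,
      β x = (QuotientGroup.mk ((Additive.toMul (e.symm x) : Q) : N) : N ⧸ H) :=
    ⟨Equiv.ofBijective _ hbij, fun x => rfl⟩
  have hβ' : ∀ q : Q, β (e (Additive.ofMul q)) = (QuotientGroup.mk (q : N) : N ⧸ H) := by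
    intro q; rw [hβ]; simp
  have hx : ∀ x : F, ∃ q : Q, x = e (Additive.ofMul q) := by
    intro x
    exact ⟨Additive.toMul (e.symm x), by simp⟩
  obtain ⟨f, hf⟩ : ∃ f : N →* Equiv.Perm F, ∀ (g : N) (x : F), f g x = β.symm (g • β x) :=
    ⟨(β.symm.permCongrHom).toMonoidHom.comp (MulAction.toPermHom N (N ⧸ H)), fun g x => rfl⟩
  refine ⟨f, ?_, ?_⟩
  · rw [Subgroup.normalCore_eq_ker]
    ext g
    rw [MonoidHom.mem_ker, MonoidHom.mem_ker]
    constructor
    · intro hg
      ext c
      have h1 := congrArg (fun σ : Equiv.Perm F => σ (β.symm c)) hg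
      simp only [hf, Equiv.apply_symm_apply, Equiv.Perm.coe_one, id_eq] at h1
      have h2 := congrArg β h1
      simpa using h2
    · intro hg
      ext x
      rw [hf]
      have h1 : g • β x = β x := by
        have := congrArg (fun σ : Equiv.Perm (N ⧸ H) => σ (β x)) hg
        simpa using this
      rw [h1]; simp
  · -- translations
    have hQ : ∀ q0 : Q, f (q0 : N) ∈ semiaffineGroup F := by
      intro q0
      refine ⟨1, e (Additive.ofMul q0), RingEquiv.refl F, fun x => ?_⟩
      obtain ⟨q, rfl⟩ := hx x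
      rw [hf, Equiv.symm_apply_eq, hβ']
      have h1 : e (Additive.ofMul q0) + e (Additive.ofMul q) = e (Additive.ofMul (q0 * q)) := by
        rw [ofMul_mul, map_add]
      simp only [Units.val_one, one_mul, RingEquiv.refl_apply]
      rw [add_comm, h1, hβ']
      rfl
    have hH : ∀ h : N, h ∈ H → f h ∈ semiaffineGroup F := by
      intro h hh
      obtain ⟨a, σ, hσ⟩ := hsemi h
      have ha : a ≠ 0 := by
        rintro rfl
        obtain ⟨q, hq⟩ := hx 1
        have h1 := hσ q
        rw [zero_mul] at h1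
        have h2 : Additive.ofMul (MulAut.conjNormal h q) = 0 := by
          apply e.injective; rw [h1, map_zero]
        have h3 : MulAut.conjNormal h q = 1 := h2
        have h4 : q = 1 := by
          have := (MulAut.conjNormal h).injective (h3.trans (map_one _).symm)
          exact this
        rw [h4] at hq
        have h5 : e (Additive.ofMul (1 : Q)) = 0 := by
          rw [ofMul_one, map_zero]
        rw [h5] at hq
        exact one_ne_zero hq
      refine ⟨Units.mk0 a ha, 0, σ, fun x => ?_⟩
      obtain ⟨q, rfl⟩ := hx x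
      rw [hf, Equiv.symm_apply_eq, hβ', Units.val_mk0, add_zero, ← hσ q, hβ']
      show (QuotientGroup.mk (h * (q : N)) : N ⧸ H) = _
      rw [QuotientGroup.eq, MulAut.conjNormal_apply]
      have : (h * (q : N))⁻¹ * (h * (q : N) * h⁻¹) = h⁻¹ := by group
      rw [this]
      exact H.inv_mem hh
    intro g
    obtain ⟨⟨⟨q0, hq0⟩, ⟨h, hh⟩⟩, rfl⟩ :=
      (show Function.Bijective (fun x : ↥(Q : Set N) × ↥(H : Set N) => x.1.1 * x.2.1) from hc).2 g
    rw [map_mul]
    exact (semiaffineGroup F).mul_mem (hQ ⟨q0, hq0⟩) (hH h hh)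

example : EmbStmt.{u} := emb

end Cfsg.Agent.H25.Sa
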