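import Mathlib
import Cfsg.Agent.S4400
import Cfsg.Agent.H3.SecMeta

set_option autoImplicit false

namespace Cfsg.Agent.H25.Sec4

variable {S : Type*} [Group S]

/-- Square-form bound on elementary abelian sections. -/
def SqBound (k : ℕ) (G : Type*) [Group G] : Prop :=
  ∀ H N : Subgroup G, N ≤ H → (∀ x ∈ H, x * x ∈ N) → Nat.card H ≤ 2 ^ k * Nat.card N

theorem sqBound_of_secBound {k : ℕ} {G : Type*} [Group G] (h : H3.SecBound 2 k G) :
    SqBound k G := by
  intro H N hNH hsq
  have hcomm : ∀ x ∈ H, ∀ y ∈ H, x * y * x⁻¹ * y⁻¹ ∈ N := by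
    intro x hx y hy
    have h1 := hsq (x * y) (H.mul_mem hx hy)
    have h2 := hsq (y⁻¹ * x⁻¹ * y) (H.mul_mem (H.mul_mem (H.inv_mem hy) (H.inv_mem hx)) hy)
    have h3 := hsq y⁻¹ (H.inv_mem hy)
    have h4 := N.mul_mem (N.mul_mem h1 h2) h3
    have e : x * y * (x * y) * (y⁻¹ * x⁻¹ * y * (y⁻¹ * x⁻¹ * y)) * (y⁻¹ * y⁻¹)
        = x * y * x⁻¹ * y⁻¹ := by group
    rwa [e] at h4
  refine h H N hNH ?_ ?_ hcomm
  · intro x hx n hn
    have h1 := hcomm x hx n (hNH hn)
    have h2 := N.mul_mem h1 hn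
    have e : x * n * x⁻¹ * n⁻¹ * n = x * n * x⁻¹ := by group
    rwa [e] at h2
  · intro x hx
    rw [pow_two]; exact hsq x hx

/-- Elementwise commuting subgroups. -/
def Comm2 (A B : Subgroup S) : Prop := ∀ a ∈ A, ∀ b ∈ B, a * b = b * a

theorem Comm2.symm {A B : Subgroup S} (h : Comm2 A B) : Comm2 B A :=
  fun b hb a ha => (h a ha b hb).symm

theorem mem_sup_of_comm {A B : Subgroup S} (h : Comm2 A B) {x : S} (hx : x ∈ A ⊔ B) :
    ∃ a ∈ A, ∃ b ∈ B, a * b = x := by
  have hc : ∀ (m : A) (n : B), Commute (A.subtype m) (B.subtype n) := fun m n => h m m.2 n n.2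
  have hr := MonoidHom.noncommCoprod_range A.subtype B.subtype hc
  rw [Subgroup.range_subtype, Subgroup.range_subtype] at hr
  rw [← hr] at hx
  obtain ⟨⟨a, b⟩, rfl⟩ := hx
  exact ⟨a, a.2, b, b.2, by simp⟩

theorem card_sup_le_of_comm [Finite S] {A B : Subgroup S} (h : Comm2 A B) :
    Nat.card (A ⊔ B : Subgroup S) ≤ Nat.card A * Nat.card B := by
  have hc : ∀ (m : A) (n : B), Commute (A.subtype m) (B.subtype n) := fun m n => h m m.2 n n.2
  have hr := MonoidHom.noncommCoprod_range A.subtype B.subtype hc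
  rw [Subgroup.range_subtype, Subgroup.range_subtype] at hr
  rw [← hr, ← Nat.card_prod]
  exact Nat.card_le_card_of_surjective _ (MonoidHom.rangeRestrict_surjective _)

theorem card_sup_eq_of_comm [Finite S] {A B : Subgroup S} (h : Comm2 A B) (hd : A ⊓ B = ⊥) :
    Nat.card (A ⊔ B : Subgroup S) = Nat.card A * Nat.card B := by
  have hc : ∀ (m : A) (n : B), Commute (A.subtype m) (B.subtype n) := fun m n => h m m.2 n n.2
  have hr := MonoidHom.noncommCoprod_range A.subtype B.subtype hc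
  rw [Subgroup.range_subtype, Subgroup.range_subtype] at hr
  have hinj : Function.Injective (MonoidHom.noncommCoprod A.subtype B.subtype hc) := by
    rw [MonoidHom.noncommCoprod_injective]
    refine ⟨A.subtype_injective, B.subtype_injective, ?_⟩
    rw [Subgroup.range_subtype, Subgroup.range_subtype, disjoint_iff]; exact hd
  rw [← hr, ← Nat.card_prod]
  exact (Nat.card_congr (MonoidHom.ofInjective hinj).toEquiv).symm

/-- A non-abelian subgroup whose centre is `{1, z}`. -/
structure Nice (P : Subgroup S) (z : S) : Prop where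
  nonab : ∃ a ∈ P, ∃ b ∈ P, a * b ≠ b * a
  mem : z ∈ P
  ne_one : z ≠ 1
  comm : ∀ x ∈ P, x * z = z * x
  uniq : ∀ w ∈ P, (∀ x ∈ P, x * w = w * x) → w = 1 ∨ w = z

theorem Nice.map {P : Subgroup S} {z : S} (h : Nice P z) (φ : S ≃* S) :
    Nice (P.map φ.toMonoidHom) (φ z) := by
  refine ⟨?_, ?_, ?_, ?_, ?_⟩
  · obtain ⟨a, ha, b, hb, hab⟩ := h.nonab
    refine ⟨φ a, Subgroup.mem_map_of_mem _ ha, φ b, Subgroup.mem_map_of_mem _ hb, ?_⟩
    rw [← map_mul, ← map_mul]; exact fun e => hab (φ.injective e)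
  · exact Subgroup.mem_map_of_mem _ h.mem
  · intro e; exact h.ne_one (by simpa using e)
  · rintro _ ⟨x, hx, rfl⟩
    show φ x * φ z = φ z * φ x
    rw [← map_mul, ← map_mul, h.comm x hx]
  · rintro _ ⟨w, hw, rfl⟩ hc
    rcases h.uniq w hw (fun x hx => φ.injective (by
      have := hc (φ x) (Subgroup.mem_map_of_mem _ hx)
      simpa using this)) with e | e
    · left; rw [e]; simp
    · right; rw [e]; rfl

theorem Nice.not_comm {P : Subgroup S} {z : S} (h : Nice P z) : ¬ IsMulCommutative ↥P := by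
  intro hc
  obtain ⟨a, ha, b, hb, hab⟩ := h.nonab
  exact hab (congrArg Subtype.val (hc.is_comm.comm (⟨a, ha⟩ : P) ⟨b, hb⟩))

theorem Nice.mem_center {P : Subgroup S} {z : S} (h : Nice P z) :
    (⟨z, h.mem⟩ : P) ∈ Subgroup.center P := by
  rw [Subgroup.mem_center_iff]; intro g; exact Subtype.ext (h.comm g g.2)

theorem Nice.card_center {P : Subgroup S} {z : S} (h : Nice P z) :
    Nat.card (Subgroup.center P) = 2 := by
  rw [Nat.card_eq_two_iff' (1 : Subgroup.center P)]
  refine ⟨⟨⟨z, h.mem⟩, h.mem_center⟩, ?_, ?_⟩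
  · intro e; exact h.ne_one (congrArg (fun t : Subgroup.center P => ((t : P) : S)) e)
  · intro w hw
    have hwc := Subgroup.mem_center_iff.mp w.2
    rcases h.uniq (w : P) (w : P).2 (fun x hx => congrArg Subtype.val (hwc ⟨x, hx⟩)) with e | e
    · exact absurd (Subtype.ext (Subtype.ext e)) hw
    · exact Subtype.ext (Subtype.ext e)

theorem Nice.mem_frattini_map [Finite S] (h2 : IsPGroup 2 S) {P : Subgroup S} {z : S} (h : Nice P z) :
    z ∈ (frattini ↥P).map P.subtype :=
  ⟨⟨z, h.mem⟩, S4400.center_le_frattini (h2.to_subgroup P) h.not_comm h.card_center h.mem_center,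
    rfl⟩

theorem Nice.mul_self {P : Subgroup S} {z : S} (h : Nice P z) : z * z = 1 := by
  rcases h.uniq (z * z) (P.mul_mem h.mem h.mem) (fun x hx => by
    rw [← mul_assoc, h.comm x hx, mul_assoc, h.comm x hx, mul_assoc]) with e | e
  · exact e
  · exact absurd (by simpa using e) h.ne_one

theorem exists_nice (P : Subgroup S) (hP : ¬ IsMulCommutative ↥P)
    (hZP : Nat.card (Subgroup.center P) = 2) :
    ∃ z, Nice P z ∧ ∀ s, s ∈ Subgroup.centralizer
      (((Subgroup.center P).map P.subtype : Subgroup S) : Set S) ↔ s * z = z * s := by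
  obtain ⟨z', hz', -⟩ := (Nat.card_eq_two_iff' (1 : Subgroup.center P)).mp hZP
  have huniq := S4400.eq_one_or_eq hZP hz'
  have hzc := Subgroup.mem_center_iff.mp z'.2
  have hnice : Nice P ((z' : P) : S) := by
    refine ⟨?_, (z' : P).2, ?_, ?_, ?_⟩
    · by_contra h
      push Not at h
      exact hP ⟨⟨fun a b => Subtype.ext (h a a.2 b b.2)⟩⟩
    · intro e; exact hz' (Subtype.ext (Subtype.ext e))
    · intro x hx; exact congrArg Subtype.val (hzc ⟨x, hx⟩)
    · intro w hw hc
      have hwc : (⟨w, hw⟩ : P) ∈ Subgroup.center P := by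
        rw [Subgroup.mem_center_iff]; intro g; exact Subtype.ext (hc g g.2)
      rcases huniq ⟨⟨w, hw⟩, hwc⟩ with e | e
      · left; exact congrArg (fun t : Subgroup.center P => ((t : P) : S)) e
      · right; exact congrArg (fun t : Subgroup.center P => ((t : P) : S)) e
  refine ⟨((z' : P) : S), hnice, fun s => ?_⟩
  rw [Subgroup.mem_centralizer_iff]
  constructor
  · intro h
    exact (h _ ⟨(z' : P), z'.2, rfl⟩).symm
  · rintro h _ ⟨w, hw, rfl⟩
    rcases huniq ⟨w, hw⟩ with e | e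
    · have : w = 1 := congrArg Subtype.val e
      rw [this]; simp
    · have : w = (z' : P) := congrArg Subtype.val e
      rw [this]; exact h.symm

/-- Two nice subgroups with different central involutions that normalize each other are disjoint
and commute. -/
theorem Nice.disjoint [Finite S] (h2 : IsPGroup 2 S) {P Q : Subgroup S} {z u : S}
    (hP : Nice P z) (hQ : Nice Q u) (hne : z ≠ u)
    (hPQ : ∀ x ∈ P, ∀ y ∈ Q, x * y * x⁻¹ ∈ Q) (hQP : ∀ y ∈ Q, ∀ x ∈ P, y * x * y⁻¹ ∈ P)
    (hz : ∀ y ∈ Q, y * z = z * y) : P ⊓ Q = ⊥ ∧ Comm2 P Q := by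
  have : Fact (Nat.Prime 2) := ⟨Nat.prime_two⟩
  have hinf : P ⊓ Q = ⊥ := by
    by_contra hbot
    have hn : (Q.subgroupOf P).Normal := by
      constructor
      intro n hn g
      rw [Subgroup.mem_subgroupOf] at hn ⊢
      simpa using hPQ g g.2 n hn
    have hN : Q.subgroupOf P ≠ ⊥ := by
      intro h
      apply hbot
      rw [eq_bot_iff]
      intro g hg
      have : (⟨g, hg.1⟩ : P) ∈ Q.subgroupOf P := hg.2
      rw [h, Subgroup.mem_bot] at this
      exact congrArg Subtype.val this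
    obtain ⟨w, hwN, hwZ, hw1⟩ :=
      H38.exists_mem_center_of_normal_ne_bot (h2.to_subgroup P) (Q.subgroupOf P) hN
    have hwc := Subgroup.mem_center_iff.mp hwZ
    rcases hP.uniq (w : S) w.2 (fun x hx => congrArg Subtype.val (hwc ⟨x, hx⟩)) with e | e
    · exact hw1 (Subtype.ext e)
    · have hzQ : z ∈ Q := by rw [← e]; exact hwN
      rcases hQ.uniq z hzQ hz with e' | e'
      · exact hP.ne_one e'
      · exact hne e'
  refine ⟨hinf, ?_⟩
  intro x hx y hy
  have h1 : x * y * x⁻¹ * y⁻¹ ∈ P ⊓ Q := by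
    refine ⟨?_, Q.mul_mem (hPQ x hx y hy) (Q.inv_mem hy)⟩
    have := P.mul_mem hx (hQP y hy x⁻¹ (P.inv_mem hx))
    have e : x * (y * x⁻¹ * y⁻¹) = x * y * x⁻¹ * y⁻¹ := by group
    rwa [e] at this
  rw [hinf, Subgroup.mem_bot] at h1
  calc x * y = x * y * x⁻¹ * y⁻¹ * y * x := by group
    _ = y * x := by rw [h1, one_mul]

end Cfsg.Agent.H25.Sec4
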