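import Mathlib
import Cfsg.Agent.H25.Sec4A

set_option autoImplicit false

namespace Cfsg.Agent.H25.Sec4

variable {S : Type*} [Group S]

/-- Two disjoint commuting nice subgroups of a `2`-group of sectional rank at most four contain
every element centralizing both. -/
theorem Nice.centralizer_mem [Finite S] (h2 : IsPGroup 2 S) (hs : SqBound 4 S)
    {P Q : Subgroup S} {z u : S} (hP : Nice P z) (hQ : Nice Q u) (hinf : P ⊓ Q = ⊥)
    (hcomm : Comm2 P Q) (c₀ : S) (hcP : ∀ x ∈ P, x * c₀ = c₀ * x)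
    (hcQ : ∀ y ∈ Q, y * c₀ = c₀ * y) : c₀ ∈ P ⊔ Q := by
  have : Fact (Nat.Prime 2) := ⟨Nat.prime_two⟩
  by_contra hc
  have hcon : ¬ Subgroup.centralizer ((P ⊔ Q : Subgroup S) : Set S) ≤ P ⊔ Q := by
    intro hle
    apply hc
    apply hle
    rw [Subgroup.mem_centralizer_iff]
    intro n hn
    obtain ⟨x, hx, y, hy, rfl⟩ := mem_sup_of_comm hcomm hn
    rw [mul_assoc, hcQ y hy, ← mul_assoc, hcP x hx, mul_assoc]
  obtain ⟨c, hcC, hcN, hc2⟩ := S4400.exists_sq_mem h2 (P ⊔ Q) _ hcon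
  have hcc : ∀ n ∈ P ⊔ Q, n * c = c * n := fun n hn => Subgroup.mem_centralizer_iff.mp hcC n hn
  have hΦPle : (frattini P).map P.subtype ≤ P := by rintro _ ⟨w, _, rfl⟩; exact w.2
  have hΦQle : (frattini Q).map Q.subtype ≤ Q := by rintro _ ⟨w, _, rfl⟩; exact w.2
  have hsqP : ∀ x ∈ P, x * x ∈ (frattini P).map P.subtype := by
    intro x hx
    refine ⟨⟨x, hx⟩ ^ 2, H3.pow_mem_frattini (h2.to_subgroup P) ⟨x, hx⟩, ?_⟩
    simp [pow_two]
  have hsqQ : ∀ y ∈ Q, y * y ∈ (frattini Q).map Q.subtype := by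
    intro y hy
    refine ⟨⟨y, hy⟩ ^ 2, H3.pow_mem_frattini (h2.to_subgroup Q) ⟨y, hy⟩, ?_⟩
    simp [pow_two]
  have hZPle : ∀ x ∈ P, (∀ g ∈ P, g * x = x * g) → x ∈ (frattini P).map P.subtype := by
    intro x hx hg
    rcases hP.uniq x hx hg with e | e
    · rw [e]; exact Subgroup.one_mem _
    · rw [e]; exact hP.mem_frattini_map h2
  have hZQle : ∀ x ∈ Q, (∀ g ∈ Q, g * x = x * g) → x ∈ (frattini Q).map Q.subtype := by
    intro x hx hg
    rcases hQ.uniq x hx hg with e | e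
    · rw [e]; exact Subgroup.one_mem _
    · rw [e]; exact hQ.mem_frattini_map h2
  -- the square of `c` lies in `Φ(P)Φ(Q)`
  have hc2' : c ^ 2 ∈ (frattini P).map P.subtype ⊔ (frattini Q).map Q.subtype := by
    obtain ⟨x, hx, y, hy, hxy⟩ := mem_sup_of_comm hcomm hc2
    have hcg : ∀ g ∈ P ⊔ Q, g * (x * y) = (x * y) * g := by
      intro g hg
      rw [hxy, sq, ← mul_assoc, hcc g hg, mul_assoc, hcc g hg, mul_assoc]
    rw [← hxy]
    refine Subgroup.mul_mem_sup (hZPle x hx fun g hg => ?_) (hZQle y hy fun g hg => ?_)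
    · have h1 := hcg g (Subgroup.mem_sup_left hg)
      have h2' := hcomm g hg y hy
      apply mul_right_cancel (b := y)
      rw [mul_assoc, h1, mul_assoc, mul_assoc, h2']
    · have h1 := hcg g (Subgroup.mem_sup_right hg)
      have h2' := hcomm x hx g hg
      apply mul_left_cancel (a := x)
      rw [← mul_assoc, ← mul_assoc, h2', mul_assoc, h1]
  obtain ⟨N', hN'⟩ : ∃ N' : Subgroup S,
      N' = (frattini P).map P.subtype ⊔ (frattini Q).map Q.subtype := ⟨_, rfl⟩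
  obtain ⟨T, hTdef⟩ : ∃ T : Subgroup S, T = (P ⊔ Q) ⊔ Subgroup.zpowers c := ⟨_, rfl⟩
  have hcz : Comm2 (P ⊔ Q) (Subgroup.zpowers c) := by
    intro n hn t ht
    obtain ⟨i, rfl⟩ := Subgroup.mem_zpowers_iff.mp ht
    exact (Commute.zpow_right (hcc n hn) i)
  have hT : ∀ t ∈ T, t * t ∈ N' := by
    intro t ht
    rw [hTdef] at ht
    obtain ⟨n, hn, t', ht', rfl⟩ := mem_sup_of_comm hcz ht
    obtain ⟨i, rfl⟩ := Subgroup.mem_zpowers_iff.mp ht'
    obtain ⟨x, hx, y, hy, rfl⟩ := mem_sup_of_comm hcomm hn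
    have h1 : Commute (x * y) (c ^ i) := Commute.zpow_right (hcc _ hn) i
    rw [← pow_two, h1.mul_pow, (show Commute x y from hcomm x hx y hy).mul_pow, hN']
    refine Subgroup.mul_mem _ (Subgroup.mul_mem_sup ?_ ?_) ?_
    · rw [pow_two]; exact hsqP x hx
    · rw [pow_two]; exact hsqQ y hy
    · have h3 : (c ^ i) ^ 2 = (c ^ 2) ^ i := by
        rw [← zpow_natCast (c ^ i) 2, ← zpow_mul, mul_comm, zpow_mul, zpow_natCast]
      rw [h3]
      exact Subgroup.zpow_mem _ hc2' i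
  have hN'T : N' ≤ T := by
    rw [hN', hTdef]
    exact le_trans (sup_le_sup hΦPle hΦQle) le_sup_left
  have hb := hs T N' hN'T hT
  have hcΦ : Comm2 ((frattini P).map P.subtype) ((frattini Q).map Q.subtype) :=
    fun a ha b hb => hcomm a (hΦPle ha) b (hΦQle hb)
  have hN'c : Nat.card N' ≤ Nat.card (frattini P) * Nat.card (frattini Q) := by
    have := card_sup_le_of_comm hcΦ
    rwa [Subgroup.card_map_of_injective P.subtype_injective,
      Subgroup.card_map_of_injective Q.subtype_injective, ← hN'] at this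
  have c4P := S4400.four_mul_card_frattini_le hP.not_comm
  have c4Q := S4400.four_mul_card_frattini_le hQ.not_comm
  have hNc : Nat.card (P ⊔ Q : Subgroup S) = Nat.card P * Nat.card Q :=
    card_sup_eq_of_comm hcomm hinf
  have hlt : P ⊔ Q < T := by
    rw [hTdef]
    refine lt_of_le_of_ne le_sup_left fun h => hcN ?_
    rw [h]
    exact Subgroup.mem_sup_right (Subgroup.mem_zpowers c)
  have hT2 := S4400.two_mul_card_le hlt
  have hposP : 0 < Nat.card P := Nat.card_pos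
  have hposQ : 0 < Nat.card Q := Nat.card_pos
  have h16 : 16 * (Nat.card (frattini P) * Nat.card (frattini Q)) ≤ Nat.card P * Nat.card Q := by
    have := Nat.mul_le_mul c4P c4Q
    nlinarith
  have hpos : 0 < Nat.card P * Nat.card Q := Nat.mul_pos hposP hposQ
  rw [hNc] at hT2
  have h5 : 2 ^ 4 * Nat.card N' ≤ 16 * (Nat.card (frattini P) * Nat.card (frattini Q)) := by
    norm_num
    exact hN'c
  omega

/-- There are no three pairwise commuting nice subgroups, two of them disjoint. -/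
theorem nice_triple [Finite S] (h2 : IsPGroup 2 S) (hs : SqBound 4 S)
    {P₁ P₂ P₃ : Subgroup S} {z₁ z₂ z₃ : S} (h₁ : Nice P₁ z₁) (h₂ : Nice P₂ z₂) (h₃ : Nice P₃ z₃)
    (hinf : P₁ ⊓ P₂ = ⊥) (h12 : Comm2 P₁ P₂) (h31 : Comm2 P₃ P₁) (h32 : Comm2 P₃ P₂) :
    False := by
  obtain ⟨a, ha, b, hb, hab⟩ := h₃.nonab
  apply hab
  have hb' : b ∈ P₁ ⊔ P₂ := h₁.centralizer_mem h2 hs h₂ hinf h12 b
    (fun x hx => (h31 b hb x hx).symm) (fun y hy => (h32 b hb y hy).symm)
  obtain ⟨x, hx, y, hy, rfl⟩ := mem_sup_of_comm h12 hb'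
  rw [← mul_assoc, h31 a ha x hx, mul_assoc, h32 a ha y hy, mul_assoc]

/-- The configuration: `P` is nice with central involution `z`, `K = C(z)` normalizes `P`. -/
structure Cfg (P : Subgroup S) (z : S) (K : Subgroup S) : Prop where
  nice : Nice P z
  mem_iff : ∀ s, s ∈ K ↔ s * z = z * s
  nrm : ∀ s ∈ K, ∀ x ∈ P, s * x * s⁻¹ ∈ P

theorem Cfg.le {P K : Subgroup S} {z : S} (h : Cfg P z K) : P ≤ K :=
  fun x hx => (h.mem_iff x).mpr (h.nice.comm x hx)

theorem Cfg.map {P K : Subgroup S} {z : S} (h : Cfg P z K) (φ : S ≃* S) :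
    Cfg (P.map φ.toMonoidHom) (φ z) (K.map φ.toMonoidHom) := by
  refine ⟨h.nice.map φ, ?_, ?_⟩
  · intro s
    rw [Subgroup.mem_map_equiv, h.mem_iff]
    constructor
    · intro e
      have := congrArg φ e
      simpa using this
    · intro e
      apply φ.injective
      simpa using e
  · rintro _ ⟨s, hs, rfl⟩ _ ⟨x, hx, rfl⟩
    exact ⟨s * x * s⁻¹, h.nrm s hs x hx, by simp⟩

theorem map_conj_eq {K : Subgroup S} {g : S} (hg : g ∈ Subgroup.normalizer (K : Set S)) :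
    K.map (MulAut.conj g).toMonoidHom = K := by
  ext y
  rw [Subgroup.mem_map_equiv, MulAut.conj_symm_apply]
  rw [Subgroup.mem_normalizer_iff] at hg
  rw [hg (g⁻¹ * y * g)]
  have e : g * (g⁻¹ * y * g) * g⁻¹ = y := by group
  rw [e]

theorem Cfg.conj {P K : Subgroup S} {z : S} (h : Cfg P z K) {g : S}
    (hg : g ∈ Subgroup.normalizer (K : Set S)) :
    Cfg (P.map (MulAut.conj g).toMonoidHom) (g * z * g⁻¹) K := by
  have := h.map (MulAut.conj g)
  rwa [map_conj_eq hg, MulAut.conj_apply] at this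

theorem Cfg.pair [Finite S] (h2 : IsPGroup 2 S) {P Q K : Subgroup S} {z u : S}
    (h : Cfg P z K) (h' : Cfg Q u K) (hne : z ≠ u) : P ⊓ Q = ⊥ ∧ Comm2 P Q :=
  h.nice.disjoint h2 h'.nice hne (fun x hx y hy => h'.nrm x (h.le hx) y hy)
    (fun y hy x hx => h.nrm y (h'.le hy) x hx) (fun y hy => (h.mem_iff y).mp (h'.le hy))

theorem Cfg.conj_ne {P K : Subgroup S} {z : S} (h : Cfg P z K) {g : S} (hg : g ∉ K) :
    z ≠ g * z * g⁻¹ := by
  intro e; apply hg; rw [h.mem_iff]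
  calc g * z = g * z * g⁻¹ * g := by group
    _ = z * g := by rw [← e]

/-- Outside `K`, the normalizer of `K` is a single coset of `K`. -/
theorem Cfg.p2 [Finite S] (h2 : IsPGroup 2 S) (hs : SqBound 4 S) {P K : Subgroup S} {z : S}
    (h : Cfg P z K) {g k : S} (hg : g ∈ Subgroup.normalizer (K : Set S))
    (hk : k ∈ Subgroup.normalizer (K : Set S)) (hgK : g ∉ K) (hkK : k ∉ K) : g⁻¹ * k ∈ K := by
  have cg := h.conj hg
  have ck := h.conj hk
  have n1 := h.conj_ne hgK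
  have n2 := h.conj_ne hkK
  by_contra hcon
  have n3 : g * z * g⁻¹ ≠ k * z * k⁻¹ := by
    intro e; apply hcon; rw [h.mem_iff]
    calc g⁻¹ * k * z = g⁻¹ * (k * z * k⁻¹) * k := by group
      _ = g⁻¹ * (g * z * g⁻¹) * k := by rw [e]
      _ = z * (g⁻¹ * k) := by group
  obtain ⟨hinf, hc12⟩ := h.pair h2 cg n1
  obtain ⟨_, hc31⟩ := ck.pair h2 h n2.symm
  obtain ⟨_, hc32⟩ := ck.pair h2 cg n3.symm
  exact nice_triple h2 hs h.nice cg.nice ck.nice hinf hc12 hc31 hc32

end Cfsg.Agent.H25.Sec4
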