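import Mathlib
import Cfsg.Agent.H25.Sec4B

set_option autoImplicit false

namespace Cfsg.Agent.H25.Sec4

variable {S : Type*} [Group S]

/-- If the centralizer of the involution `u` has index at most two in `M`, and `R ≤ M` is a nice
subgroup normalized by `u` whose central involution is not central in `M`, then `u`
centralizes `R`. -/
theorem lemmaE {M R : Subgroup S} {u r₀ : S} (huM : u ∈ M) (huu : u * u = 1)
    (hp2 : ∀ g ∈ M, ∀ k ∈ M, g * u ≠ u * g → k * u ≠ u * k → (g⁻¹ * k) * u = u * (g⁻¹ * k))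
    (hRM : R ≤ M) (hR : Nice R r₀) (hnr : ∀ p ∈ R, u * p * u⁻¹ ∈ R)
    (hx : ∃ x ∈ M, x * r₀ ≠ r₀ * x) : ∀ p ∈ R, p * u = u * p := by
  intro p hp
  by_contra hpu
  obtain ⟨v, hv⟩ : ∃ v, v = p * u * p⁻¹ := ⟨_, rfl⟩
  have hpM := hRM hp
  have hvM : v ∈ M := by rw [hv]; exact M.mul_mem (M.mul_mem hpM huM) (M.inv_mem hpM)
  have hvu : v * u = u * v := by
    by_contra hvn
    have h1 := hp2 p hpM v hvM hpu hvn
    apply hpu
    have e : p⁻¹ * v = u * p⁻¹ := by rw [hv]; group
    rw [e] at h1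
    have e2 : p⁻¹ * u = u * p⁻¹ := by
      apply mul_left_cancel (a := u); rw [← mul_assoc]; exact h1
    calc p * u = p * (u * p⁻¹) * p := by group
      _ = p * (p⁻¹ * u) * p := by rw [e2]
      _ = u * p := by group
  obtain ⟨c, hc⟩ : ∃ c, c = v * u⁻¹ := ⟨_, rfl⟩
  have hcR : c ∈ R := by
    have h1 := R.mul_mem hp (hnr p⁻¹ (R.inv_mem hp))
    have e : p * (u * p⁻¹ * u⁻¹) = c := by rw [hc, hv]; group
    rwa [e] at h1
  have huinv : u⁻¹ = u := inv_eq_of_mul_eq_one_left huu
  have hcM : ∀ n ∈ M, n * c = c * n := by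
    intro n hn
    by_cases hnu : n * u = u * n
    · have hnp : (n * p) * u ≠ u * (n * p) := by
        intro e; apply hpu
        have e3 : n⁻¹ * u * n = u := by
          calc n⁻¹ * u * n = n⁻¹ * (u * n) := by group
            _ = n⁻¹ * (n * u) := by rw [hnu]
            _ = u := by group
        calc p * u = n⁻¹ * ((n * p) * u) := by group
          _ = n⁻¹ * (u * (n * p)) := by rw [e]
          _ = n⁻¹ * u * n * p := by group
          _ = u * p := by rw [e3]
      have h1 := hp2 p hpM (n * p) (M.mul_mem hn hpM) hpu hnp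
      have hnv : n * v = v * n := by
        rw [hv]
        calc n * (p * u * p⁻¹) = p * (p⁻¹ * (n * p) * u) * p⁻¹ := by group
          _ = p * (u * (p⁻¹ * (n * p))) * p⁻¹ := by rw [h1]
          _ = p * u * p⁻¹ * n := by group
      rw [hc, huinv, ← mul_assoc, hnv, mul_assoc, hnu, mul_assoc]
    · have h1 := hp2 p hpM n hn hpu hnu
      have hnuv : n * u = v * n := by
        rw [hv]
        calc n * u = p * (p⁻¹ * n * u) := by group
          _ = p * (u * (p⁻¹ * n)) := by rw [h1]
          _ = p * u * p⁻¹ * n := by group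
      have hninv : n⁻¹ * u ≠ u * n⁻¹ := by
        intro e; apply hnu
        calc n * u = n * (u * n⁻¹) * n := by group
          _ = n * (n⁻¹ * u) * n := by rw [e]
          _ = u * n := by group
      have h2 := hp2 n⁻¹ (M.inv_mem hn) p hpM hninv hpu
      rw [inv_inv] at h2
      have hnvu : n * v = u * n := by
        rw [hv]
        calc n * (p * u * p⁻¹) = (n * p * u) * p⁻¹ := by group
          _ = u * (n * p) * p⁻¹ := by rw [h2]
          _ = u * n := by group
      rw [hc, huinv, ← mul_assoc, hnvu, mul_assoc, hnuv, ← mul_assoc, ← hvu]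
  rcases hR.uniq c hcR (fun x hx => hcM x (hRM hx)) with e | e
  · apply hpu
    have hvu' : v = u := by rw [hc] at e; exact mul_inv_eq_one.mp e
    calc p * u = p * u * p⁻¹ * p := by group
      _ = u * p := by rw [← hv, hvu']
  · obtain ⟨x, hxM, hxr⟩ := hx
    exact hxr (by rw [← e]; exact hcM x hxM)

/-- Two configurations with distinct centralizers having the same proper normalizer cannot
exist. -/
theorem cfg_top [Finite S] (h2 : IsPGroup 2 S) (hs : SqBound 4 S) {P P' K K' : Subgroup S}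
    {z z' : S} (h : Cfg P z K) (h' : Cfg P' z' K') (hKK : K ≠ K')
    (hnorm : Subgroup.normalizer (K : Set S) = Subgroup.normalizer (K' : Set S))
    {x x' : S} (hx : x ∈ Subgroup.normalizer (K : Set S)) (hxK : x ∉ K)
    (hx' : x' ∈ Subgroup.normalizer (K' : Set S)) (hx'K : x' ∉ K') : False := by
  have hKM : K ≤ Subgroup.normalizer (K : Set S) := Subgroup.le_normalizer
  have hK'M : K' ≤ Subgroup.normalizer (K : Set S) := by rw [hnorm]; exact Subgroup.le_normalizer
  have hzz' : z ≠ z' := by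
    intro e; apply hKK; ext s; rw [h.mem_iff, h'.mem_iff, e]
  have hz'K' : z' ∈ K' := h'.le h'.nice.mem
  have hzK0 : z ∈ K := h.le h.nice.mem
  -- the two central involutions commute
  have hcomm : z' * z = z * z' := by
    by_contra hn
    have hz'M : z' ∈ Subgroup.normalizer (K : Set S) := hK'M hz'K'
    have hz'K : z' ∉ K := fun hm => hn ((h.mem_iff z').mp hm)
    have cz' := h.conj hz'M
    obtain ⟨hinf, -⟩ := h.pair h2 cz' (h.conj_ne hz'K)
    have key : ∀ p ∈ P, p * z' = z' * p → p = 1 := by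
      intro p hp hpz
      have hmem : p ∈ P ⊓ P.map (MulAut.conj z').toMonoidHom := by
        refine Subgroup.mem_inf.mpr ⟨hp, ?_⟩
        rw [Subgroup.mem_map_equiv, MulAut.conj_symm_apply]
        have e : z'⁻¹ * p * z' = p := by
          calc z'⁻¹ * p * z' = z'⁻¹ * (p * z') := by group
            _ = z'⁻¹ * (z' * p) := by rw [hpz]
            _ = p := by group
        rw [e]; exact hp
      rw [hinf, Subgroup.mem_bot] at hmem
      exact hmem
    obtain ⟨a, ha, b, hb, hab⟩ := h.nice.nonab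
    have ha1 : a ≠ 1 := by rintro rfl; exact hab (by simp)
    have hb1 : b ≠ 1 := by rintro rfl; exact hab (by simp)
    have haK' : a ∉ K' := fun hm => ha1 (key a ha ((h'.mem_iff a).mp hm))
    have hbK' : b ∉ K' := fun hm => hb1 (key b hb ((h'.mem_iff b).mp hm))
    have haM : a ∈ Subgroup.normalizer (K' : Set S) := by rw [← hnorm]; exact hKM (h.le ha)
    have hbM : b ∈ Subgroup.normalizer (K' : Set S) := by rw [← hnorm]; exact hKM (h.le hb)
    have h3 := h'.p2 h2 hs haM hbM haK' hbK'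
    have h4 := key (a⁻¹ * b) (P.mul_mem (P.inv_mem ha) hb) ((h'.mem_iff _).mp h3)
    have hab' : a = b := by
      have := inv_mul_eq_one.mp h4
      exact this
    apply hab; rw [hab']
  have hz'K : z' ∈ K := (h.mem_iff z').mpr hcomm
  have hzK' : z ∈ K' := (h'.mem_iff z).mpr hcomm.symm
  have hp2K : ∀ g ∈ Subgroup.normalizer (K : Set S), ∀ k ∈ Subgroup.normalizer (K : Set S),
      g * z ≠ z * g → k * z ≠ z * k → (g⁻¹ * k) * z = z * (g⁻¹ * k) :=
    fun g hg k hk hgz hkz => (h.mem_iff _).mp (h.p2 h2 hs hg hk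
      (fun e => hgz ((h.mem_iff g).mp e)) (fun e => hkz ((h.mem_iff k).mp e)))
  have hp2K' : ∀ g ∈ Subgroup.normalizer (K : Set S), ∀ k ∈ Subgroup.normalizer (K : Set S),
      g * z' ≠ z' * g → k * z' ≠ z' * k → (g⁻¹ * k) * z' = z' * (g⁻¹ * k) := by
    intro g hg k hk hgz hkz
    rw [hnorm] at hg hk
    exact (h'.mem_iff _).mp (h'.p2 h2 hs hg hk
      (fun e => hgz ((h'.mem_iff g).mp e)) (fun e => hkz ((h'.mem_iff k).mp e)))
  have hxz : x * z ≠ z * x := fun e => hxK ((h.mem_iff x).mpr e)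
  have hx'z : x' * z' ≠ z' * x' := fun e => hx'K ((h'.mem_iff x').mpr e)
  -- `P ≤ K'`
  have hPK' : ∀ p ∈ P, p * z' = z' * p :=
    lemmaE (hK'M hz'K') h'.nice.mul_self hp2K' (le_trans h.le hKM) h.nice
      (fun p hp => h.nrm z' hz'K p hp) ⟨x, hx, hxz⟩
  -- `P' ≤ K`
  have hP'K : ∀ p ∈ P', p * z = z * p :=
    lemmaE (hKM hzK0) h.nice.mul_self hp2K (le_trans h'.le hK'M) h'.nice
      (fun p hp => h'.nrm z hzK' p hp) ⟨x', by rw [hnorm]; exact hx', hx'z⟩
  have cx := h.conj hx
  -- `P^x ≤ K'`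
  have hPxK' : ∀ p ∈ P.map (MulAut.conj x).toMonoidHom, p * z' = z' * p := by
    refine lemmaE (hK'M hz'K') h'.nice.mul_self hp2K' (le_trans cx.le hKM) cx.nice
      (fun p hp => cx.nrm z' hz'K p hp) ⟨x, hx, fun e => hxz ?_⟩
    have e2 : x * z * x⁻¹ = z := by
      apply mul_left_cancel (a := x)
      rw [e]; group
    calc x * z = x * z * x⁻¹ * x := by group
      _ = z * x := by rw [e2]
  have D1 := h.nice.disjoint h2 h'.nice hzz'
    (fun p hp y hy => h'.nrm p ((h'.mem_iff p).mpr (hPK' p hp)) y hy)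
    (fun y hy p hp => h.nrm y ((h.mem_iff y).mpr (hP'K y hy)) p hp)
    (fun y hy => hP'K y hy)
  have hnx : x * z * x⁻¹ ≠ z' := by
    intro e; apply hKK; ext s; rw [cx.mem_iff, h'.mem_iff, e]
  have D2 := cx.nice.disjoint h2 h'.nice hnx
    (fun p hp y hy => h'.nrm p ((h'.mem_iff p).mpr (hPxK' p hp)) y hy)
    (fun y hy p hp => cx.nrm y ((h.mem_iff y).mpr (hP'K y hy)) p hp)
    (fun y hy => (cx.mem_iff y).mp ((h.mem_iff y).mpr (hP'K y hy)))
  have D3 := h.pair h2 cx (h.conj_ne hxK)
  exact nice_triple h2 hs h.nice cx.nice h'.nice D3.1 D3.2 D1.2.symm D2.2.symm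

/-- A relative square bound for the subgroups of `P` gives the sectional rank of `P`. -/
theorem sectional_of_rel [Finite S] {P : Subgroup S} {k : ℕ}
    (h : ∀ H N : Subgroup S, H ≤ P → N ≤ H → (∀ a ∈ H, a * a ∈ N) →
      Nat.card H ≤ 2 ^ k * Nat.card N) :
    Cfsg.SectionalPRankLE 2 k ↥P := by
  intro H N hN A hA hexp
  obtain ⟨f, hf⟩ : ∃ f : ↥H →* S, f = P.subtype.comp H.subtype := ⟨_, rfl⟩
  have hfinj : Function.Injective f := by
    rw [hf]
    exact P.subtype_injective.comp H.subtype_injective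
  have hfP : ∀ b, f b ∈ P := by
    intro b; rw [hf]; exact (b : ↥P).2
  have h1 := h ((A.comap (QuotientGroup.mk' N)).map f) (N.map f)
    (by rintro _ ⟨b, -, rfl⟩; exact hfP b)
    (by
      intro y hy
      obtain ⟨n, hn, rfl⟩ := Subgroup.mem_map.mp hy
      refine Subgroup.mem_map_of_mem f ?_
      rw [Subgroup.mem_comap]
      have : QuotientGroup.mk' N n = 1 := (QuotientGroup.eq_one_iff n).mpr hn
      rw [this]; exact A.one_mem)
    (by
      intro y hy
      obtain ⟨b, hb, rfl⟩ := Subgroup.mem_map.mp hy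
      rw [Subgroup.mem_comap] at hb
      have h3 := hexp _ hb
      rw [← map_pow, QuotientGroup.mk'_apply, QuotientGroup.eq_one_iff, pow_two] at h3
      rw [← map_mul]
      exact Subgroup.mem_map_of_mem f h3)
  rw [Subgroup.card_map_of_injective hfinj, Subgroup.card_map_of_injective hfinj,
    H3.card_comap_mk'] at h1
  have hpos : 0 < Nat.card N := Nat.card_pos
  have h4 : Nat.card N * Nat.card A ≤ Nat.card N * 2 ^ k := by
    calc Nat.card N * Nat.card A ≤ 2 ^ k * Nat.card N := h1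
      _ = Nat.card N * 2 ^ k := by ring
  exact Nat.le_of_mul_le_mul_left h4 hpos

end Cfsg.Agent.H25.Sec4
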