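import Mathlib
import Cfsg.Agent.H44.SpLDefs

/-!
# S2333 team project (helper44), piece SPL-G1 (helper25)

`yel` is additive and `yel (0, c) = t_e(c)` (characteristic 2).  The key is the explicit action
`yel (a, c) x = x + f(x, e) (a + (c + kap a) e) + f(x, a) e`.
-/

set_option autoImplicit false

namespace Cfsg.Agent.H25.SpL

open Matrix Module Cfsg.Agent.H17 Cfsg.Agent.H44.SpL

universe u

section

variable {F : Type u} [Field F] (m : ℕ)

theorem embW_add (a b : Fin m ⊕ Fin m → F) : embW m (a + b) = embW m a + embW m b := by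
  funext j
  rcases j with k | k
  · refine Fin.cases ?_ (fun i => ?_) k
    · simp [embW]
    · simp [embW]
  · refine Fin.cases ?_ (fun i => ?_) k
    · simp [embW]
    · simp [embW]

theorem embW_zero : embW m (0 : Fin m ⊕ Fin m → F) = 0 := by
  funext j
  rcases j with k | k
  · refine Fin.cases ?_ (fun i => ?_) k
    · simp [embW]
    · simp [embW]
  · refine Fin.cases ?_ (fun i => ?_) k
    · simp [embW]
    · simp [embW]

theorem embW_smul (t : F) (a : Fin m ⊕ Fin m → F) : embW m (t • a) = t • embW m a := by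
  funext j
  rcases j with k | k
  · refine Fin.cases ?_ (fun i => ?_) k
    · simp [embW]
    · simp [embW]
  · refine Fin.cases ?_ (fun i => ?_) k
    · simp [embW]
    · simp [embW]

theorem sympForm_embW_embW (a b : Fin m ⊕ Fin m → F) :
    Cfsg.sympForm (m + 1) F (embW m a) (embW m b) = Cfsg.sympForm m F a b := by
  rw [sympForm_eq_sum, sympForm_eq_sum, Fin.sum_univ_succ]
  simp [embW]

theorem sympForm_embW_e0 (a : Fin m ⊕ Fin m → F) :
    Cfsg.sympForm (m + 1) F (embW m a) (e0 F m) = 0 := by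
  classical
  rw [sympForm_eq_sum, Fin.sum_univ_succ]
  simp [embW, e0]

theorem sympForm_e0_embW (a : Fin m ⊕ Fin m → F) :
    Cfsg.sympForm (m + 1) F (e0 F m) (embW m a) = 0 := by
  rw [sympForm_swap, sympForm_embW_e0, neg_zero]

theorem kap_add (h2 : (2 : F) = 0) (a b : Fin m ⊕ Fin m → F) :
    kap m (a + b) = kap m a + kap m b + Cfsg.sympForm m F b a := by
  rw [sympForm_eq_sum]
  unfold kap
  rw [← Finset.sum_add_distrib, ← Finset.sum_add_distrib]
  apply Finset.sum_congr rfl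
  intro i _
  simp only [Pi.add_apply]
  linear_combination (b (Sum.inl i) * a (Sum.inr i)) * h2

theorem kap_zero : kap m (0 : Fin m ⊕ Fin m → F) = 0 := by
  unfold kap
  simp

/-- The action of `yel (a, c)`. -/
theorem yel_mulVec (h2 : (2 : F) = 0) (a : Fin m ⊕ Fin m → F) (c : F)
    (x : Fin (m + 1) ⊕ Fin (m + 1) → F) :
    ((yel m (a, c) : Matrix.symplecticGroup (Fin (m + 1)) F) :
        Matrix (Fin (m + 1) ⊕ Fin (m + 1)) (Fin (m + 1) ⊕ Fin (m + 1)) F) *ᵥ x =
      x + Cfsg.sympForm (m + 1) F x (e0 F m) • (embW m a + (c + kap m a) • e0 F m) +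
        Cfsg.sympForm (m + 1) F x (embW m a) • e0 F m := by
  have hEA := sympForm_e0_embW m a
  have hEE : Cfsg.sympForm (m + 1) F (e0 F m) (e0 F m) = 0 := sympForm_self _ _
  have hAA : Cfsg.sympForm (m + 1) F (embW m a) (embW m a) = 0 := sympForm_self _ _
  obtain ⟨A, hA⟩ : ∃ A, A = embW m a := ⟨_, rfl⟩
  obtain ⟨E, hE⟩ : ∃ E, E = e0 F m := ⟨_, rfl⟩
  obtain ⟨c', hc'⟩ : ∃ c' : F, c' = c + kap m a + 1 := ⟨_, rfl⟩
  have e0' : ((yel m (a, c) : Matrix.symplecticGroup (Fin (m + 1)) F) :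
        Matrix (Fin (m + 1) ⊕ Fin (m + 1)) (Fin (m + 1) ⊕ Fin (m + 1)) F) *ᵥ x =
      Cfsg.sympTransvection (m + 1) A 1 *ᵥ (Cfsg.sympTransvection (m + 1) (A + E) 1 *ᵥ
        (Cfsg.sympTransvection (m + 1) E c' *ᵥ x)) := by
    rw [hA, hE, hc', Matrix.mulVec_mulVec, Matrix.mulVec_mulVec]
    rfl
  rw [e0', ← hA, ← hE]
  rw [← hA] at hEA hAA
  rw [← hE] at hEA hEE
  obtain ⟨fe, hfe⟩ : ∃ fe : F, fe = Cfsg.sympForm (m + 1) F x E := ⟨_, rfl⟩
  obtain ⟨fa, hfa⟩ : ∃ fa : F, fa = Cfsg.sympForm (m + 1) F x A := ⟨_, rfl⟩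
  have s1 : Cfsg.sympTransvection (m + 1) E c' *ᵥ x = x + (c' * fe) • E := by
    rw [sympTransvection_mulVec, hfe]
  have f2 : Cfsg.sympForm (m + 1) F (x + (c' * fe) • E) (A + E) = fa + fe := by
    rw [sympForm_add_left, sympForm_add_right, sympForm_add_right, sympForm_smul_left,
      sympForm_smul_left, hEA, hEE, ← hfe, ← hfa]
    ring
  have s2 : Cfsg.sympTransvection (m + 1) (A + E) 1 *ᵥ (x + (c' * fe) • E) =
      x + (c' * fe) • E + (fa + fe) • (A + E) := by
    rw [sympTransvection_mulVec, f2, one_mul]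
  have f3 : Cfsg.sympForm (m + 1) F (x + (c' * fe) • E + (fa + fe) • (A + E)) A = fa := by
    rw [sympForm_add_left, sympForm_add_left, sympForm_smul_left, sympForm_smul_left,
      sympForm_add_left, hEA, hAA, ← hfa]
    ring
  have s3 : Cfsg.sympTransvection (m + 1) A 1 *ᵥ (x + (c' * fe) • E + (fa + fe) • (A + E)) =
      x + (c' * fe) • E + (fa + fe) • (A + E) + fa • A := by
    rw [sympTransvection_mulVec, f3, one_mul]
  rw [s1, s2, s3, ← hfe, ← hfa, hc']
  funext j
  simp only [Pi.add_apply, Pi.smul_apply, smul_eq_mul]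
  linear_combination (fe * E j + fa * A j) * h2

end

/-- SPL-G1. -/
theorem g1 : StG1.{u} := by
  intro F _ m h2
  constructor
  · rintro ⟨a, c⟩ ⟨a', c'⟩
    apply Subtype.ext
    apply matrix_ext_mulVec
    intro x
    rw [Submonoid.coe_mul, ← Matrix.mulVec_mulVec, yel_mulVec m h2 a' c' x, yel_mulVec m h2 a c]
    have e1 : ((a, c) + (a', c') : (Fin m ⊕ Fin m → F) × F) = (a + a', c + c') := rfl
    rw [e1, yel_mulVec m h2 (a + a') (c + c') x, embW_add, kap_add m h2, sympForm_add_right]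
    have hEA := sympForm_e0_embW (F := F) m a
    have hA'E := sympForm_embW_e0 (F := F) m a'
    have hEE : Cfsg.sympForm (m + 1) F (e0 F m) (e0 F m) = 0 := sympForm_self _ _
    have hφ := sympForm_embW_embW (F := F) m a' a
    obtain ⟨A, hA⟩ : ∃ A, A = embW m a := ⟨_, rfl⟩
    obtain ⟨A', hA'⟩ : ∃ A', A' = embW m a' := ⟨_, rfl⟩
    obtain ⟨E, hE⟩ : ∃ E, E = e0 F m := ⟨_, rfl⟩
    rw [← hA, ← hA', ← hE]
    rw [← hA, ← hE] at hEA
    rw [← hA', ← hE] at hA'E
    rw [← hE] at hEE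
    rw [← hA, ← hA'] at hφ
    obtain ⟨fe, hfe⟩ : ∃ fe : F, fe = Cfsg.sympForm (m + 1) F x E := ⟨_, rfl⟩
    obtain ⟨fa, hfa⟩ : ∃ fa : F, fa = Cfsg.sympForm (m + 1) F x A := ⟨_, rfl⟩
    obtain ⟨fa', hfa'⟩ : ∃ fa' : F, fa' = Cfsg.sympForm (m + 1) F x A' := ⟨_, rfl⟩
    rw [← hfe, ← hfa, ← hfa']
    have hyE : Cfsg.sympForm (m + 1) F (x + fe • (A' + (c' + kap m a') • E) + fa' • E) E = fe := by
      rw [sympForm_add_left, sympForm_add_left, sympForm_smul_left, sympForm_smul_left,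
        sympForm_add_left, sympForm_smul_left, hA'E, hEE, ← hfe]
      ring
    have hyA : Cfsg.sympForm (m + 1) F (x + fe • (A' + (c' + kap m a') • E) + fa' • E) A =
        fa + fe * Cfsg.sympForm m F a' a := by
      rw [sympForm_add_left, sympForm_add_left, sympForm_smul_left, sympForm_smul_left,
        sympForm_add_left, sympForm_smul_left, hEA, hφ, ← hfa]
      ring
    rw [hyE, hyA]
    funext j
    simp only [Pi.add_apply, Pi.smul_apply, smul_eq_mul]
    ring
  · intro c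
    apply Subtype.ext
    apply matrix_ext_mulVec
    intro x
    rw [yel_mulVec m h2]
    show _ = Cfsg.sympTransvection (m + 1) (e0 F m) c *ᵥ x
    rw [sympTransvection_mulVec, embW_zero, kap_zero, sympForm_zero_right]
    funext j
    simp only [Pi.add_apply, Pi.smul_apply, smul_eq_mul, Pi.zero_apply]
    ring

example : StG1.{u} := g1

end Cfsg.Agent.H25.SpL
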