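import Mathlib
import Cfsg.Agent.H44.SpLDefs

/-!
# S2333 team project (helper44), piece SPL-G4 (helper25)

A normal subgroup of `Sp(Fin (m+1))` containing the root group `t_e(·)` is everything.
-/

set_option autoImplicit false

namespace Cfsg.Agent.H25.SpL

open Matrix Module Cfsg.Agent.H17 Cfsg.Agent.H44.SpL

universe u

section

variable {F : Type u} [Field F]

/-- Conjugating a transvection. -/
theorem conj_spTransv (n : ℕ) (A : Matrix.symplecticGroup (Fin n) F) (v : Fin n ⊕ Fin n → F)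
    (c : F) :
    A * spTransv n v c * A⁻¹ =
      spTransv n ((A : Matrix (Fin n ⊕ Fin n) (Fin n ⊕ Fin n) F) *ᵥ v) c := by
  apply Subtype.ext
  apply matrix_ext_mulVec
  intro x
  rw [Submonoid.coe_mul, Submonoid.coe_mul]
  show ((A : Matrix (Fin n ⊕ Fin n) (Fin n ⊕ Fin n) F) * Cfsg.sympTransvection n v c *
      ((A⁻¹ : Matrix.symplecticGroup (Fin n) F) : Matrix (Fin n ⊕ Fin n) (Fin n ⊕ Fin n) F)) *ᵥ x =
    Cfsg.sympTransvection n ((A : Matrix (Fin n ⊕ Fin n) (Fin n ⊕ Fin n) F) *ᵥ v) c *ᵥ x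
  have h1 : Cfsg.sympForm n F
      (((A⁻¹ : Matrix.symplecticGroup (Fin n) F) : Matrix (Fin n ⊕ Fin n) (Fin n ⊕ Fin n) F) *ᵥ x)
      v = Cfsg.sympForm n F x ((A : Matrix (Fin n ⊕ Fin n) (Fin n ⊕ Fin n) F) *ᵥ v) := by
    have h := sp_form n A
      (((A⁻¹ : Matrix.symplecticGroup (Fin n) F) : Matrix (Fin n ⊕ Fin n) (Fin n ⊕ Fin n) F) *ᵥ x)
      v
    rw [sp_inv_mulVec] at h
    exact h.symm
  rw [← Matrix.mulVec_mulVec, ← Matrix.mulVec_mulVec, sympTransvection_mulVec,
    sympTransvection_mulVec, Matrix.mulVec_add, Matrix.mulVec_smul, sp_inv_mulVec, h1]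

/-- A nonzero vector pairs to `1` with some vector. -/
theorem exists_form_eq_one (n : ℕ) (v : Fin n ⊕ Fin n → F) (hv : v ≠ 0) :
    ∃ w : Fin n ⊕ Fin n → F, Cfsg.sympForm n F w v = 1 := by
  classical
  obtain ⟨j, hj⟩ : ∃ j, v j ≠ 0 := by
    by_contra h
    push Not at h
    exact hv (funext h)
  rcases j with i | i
  · refine ⟨(v (Sum.inl i))⁻¹ • fVec n F i, ?_⟩
    have h1 : Cfsg.sympForm n F (fVec n F i) v = v (Sum.inl i) := by
      rw [sympForm_eq_sum]
      simp [fVec, Pi.single_apply]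
    rw [sympForm_smul_left, h1, inv_mul_cancel₀ hj]
  · refine ⟨(-(v (Sum.inr i))⁻¹) • eVec n F i, ?_⟩
    have h1 : Cfsg.sympForm n F (eVec n F i) v = -v (Sum.inr i) := by
      rw [sympForm_eq_sum]
      simp [eVec, Pi.single_apply]
    rw [sympForm_smul_left, h1, neg_mul_neg, inv_mul_cancel₀ hj]

end

/-- SPL-G4. -/
theorem g4 : StG4.{u} := by
  intro F _ m N hN hroot
  have key : ∀ (v : Fin (m + 1) ⊕ Fin (m + 1) → F) (c : F), spTransv (m + 1) v c ∈ N := by
    intro v c
    by_cases hv : v = 0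
    · have h1 : spTransv (m + 1) v c = 1 := by
        apply Subtype.ext
        rw [hv]
        show Cfsg.sympTransvection (m + 1) (0 : Fin (m + 1) ⊕ Fin (m + 1) → F) c = 1
        unfold Cfsg.sympTransvection
        simp
      rw [h1]
      exact N.one_mem
    · obtain ⟨w, hw⟩ := exists_form_eq_one (m + 1) v hv
      have h0 : Cfsg.sympForm (m + 1) F (fVec (m + 1) F 0) (e0 F m) = 1 := by
        have := sympForm_f_e (F := F) (m + 1) 0 0
        rw [if_pos rfl] at this
        exact this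
      obtain ⟨A, -, -, hA⟩ := transv_pair (m + 1) ⊤ (fVec (m + 1) F 0) (e0 F m) w v
        Submodule.mem_top Submodule.mem_top Submodule.mem_top Submodule.mem_top h0 hw
      have h1 := conj_spTransv (m + 1) A (e0 F m) c
      rw [hA] at h1
      rw [← h1]
      exact hN.conj_mem _ (hroot c) A
  rw [eq_top_iff, ← closure_transvSet_top (F := F) (m + 1), Subgroup.closure_le]
  rintro B ⟨w, -, c, hB⟩
  have h1 : B = spTransv (m + 1) w c := Subtype.ext hB
  rw [h1]
  exact key w c

example : StG4.{u} := g4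

end Cfsg.Agent.H25.SpL
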