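import Mathlib
import Cfsg.Agent.H88.StNDefs
import Cfsg.Agent.H45.MDefs
import Cfsg.Agent.H49.SimpleForms
import Cfsg.Agent.H49.Eich2

set_option autoImplicit false

/-!
# S2549, piece CEN (helper25 for helper88)

An isometry of the minus-type form centralising `Ω` is block diagonal: it fixes the lines
`⟨e_i⟩`, `⟨f_i⟩` and the anisotropic plane.
-/

open Matrix Cfsg.Agent.H88.StN Cfsg.Agent.H49 Cfsg.Agent.H45.M

namespace Cfsg.Agent.H25.StN

variable {F : Type*} [Field F] {m : ℕ}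

/-- The basis vector `e_i`. -/
def vE (i : Fin m) : (Fin m ⊕ Fin m) ⊕ Fin 2 → F := tri (Pi.single i 1) 0 0

/-- The basis vector `f_i`. -/
def vF (i : Fin m) : (Fin m ⊕ Fin m) ⊕ Fin 2 → F := tri 0 (Pi.single i 1) 0

/-- The basis vector `z_j`. -/
def vW (j : Fin 2) : (Fin m ⊕ Fin m) ⊕ Fin 2 → F := tri (0 : Fin m → F) 0 (Pi.single j 1)

theorem vE_eq (i : Fin m) : (vE i : (Fin m ⊕ Fin m) ⊕ Fin 2 → F) = Pi.single (Sum.inl (Sum.inl i)) 1 := by
  funext k
  rcases k with (k | k) | k <;> simp [vE, tri, Pi.single_apply]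

theorem vF_eq (i : Fin m) : (vF i : (Fin m ⊕ Fin m) ⊕ Fin 2 → F) = Pi.single (Sum.inl (Sum.inr i)) 1 := by
  funext k
  rcases k with (k | k) | k <;> simp [vF, tri, Pi.single_apply]

theorem vW_eq (j : Fin 2) : (vW j : (Fin m ⊕ Fin m) ⊕ Fin 2 → F) = Pi.single (Sum.inr j) 1 := by
  funext k
  rcases k with (k | k) | k <;> simp [vW, tri, Pi.single_apply]

theorem Q_vE (a b : F) (i : Fin m) : QMin m F a b (vE i) = 0 := by
  rw [vE, QMin_tri, binQ_apply]
  simp

theorem Q_vF (a b : F) (i : Fin m) : QMin m F a b (vF i) = 0 := by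
  rw [vF, QMin_tri, binQ_apply]
  simp

theorem polar_right_vE (a b : F) (x y : Fin m → F) (z : Fin 2 → F) (i : Fin m) :
    QuadraticMap.polar (⇑(QMin m F a b)) (tri x y z) (vE i) = y i := by
  rw [vE, polar_tri]
  simp

theorem polar_right_vF (a b : F) (x y : Fin m → F) (z : Fin 2 → F) (i : Fin m) :
    QuadraticMap.polar (⇑(QMin m F a b)) (tri x y z) (vF i) = x i := by
  rw [vF, polar_tri]
  simp

theorem coord_E (a b : F) (v : (Fin m ⊕ Fin m) ⊕ Fin 2 → F) (i : Fin m) :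
    v (Sum.inl (Sum.inl i)) = QuadraticMap.polar (⇑(QMin m F a b)) v (vF i) := by
  obtain ⟨x, y, z, rfl⟩ := tri_eta v
  rw [polar_right_vF]
  rfl

theorem coord_F (a b : F) (v : (Fin m ⊕ Fin m) ⊕ Fin 2 → F) (i : Fin m) :
    v (Sum.inl (Sum.inr i)) = QuadraticMap.polar (⇑(QMin m F a b)) v (vE i) := by
  obtain ⟨x, y, z, rfl⟩ := tri_eta v
  rw [polar_right_vE]
  rfl

theorem act_single {ι : Type} [Fintype ι] [DecidableEq ι] {Qf : (ι → F) → F}
    (g : ↥(Cfsg.isometryGroup F Qf)) (x y : ι) :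
    act g (Pi.single y 1) x = ((g : Matrix.GeneralLinearGroup ι F) : Matrix ι ι F) x y := by
  unfold act
  simp [Matrix.mulVec, dotProduct, Pi.single_apply]

/-- An isometry commuting with `Ω` maps `u` into the span of `u, v` for singular orthogonal
`u, v` (in the presence of `x` with `B(u,x) = 0`, `B(v,x) = 1`). -/
theorem center_span [Fintype F] (hm : 3 ≤ m) (a b : F)
    (hab : ∀ z₁ z₂ : F, z₁ ^ 2 + a * z₁ * z₂ + b * z₂ ^ 2 = 0 → z₁ = 0 ∧ z₂ = 0)
    (z : ↥(Cfsg.isometryGroup F (⇑(QMin m F a b))))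
    (hz : ∀ g ∈ commutator ↥(Cfsg.isometryGroup F (⇑(QMin m F a b))), z * g = g * z)
    (u v x : (Fin m ⊕ Fin m) ⊕ Fin 2 → F) (hu : QMin m F a b u = 0) (hv : QMin m F a b v = 0)
    (huv : QuadraticMap.polar (⇑(QMin m F a b)) u v = 0)
    (hux : QuadraticMap.polar (⇑(QMin m F a b)) u x = 0)
    (hvx : QuadraticMap.polar (⇑(QMin m F a b)) v x = 1) :
    act z u = QuadraticMap.polar (⇑(QMin m F a b)) v (act z x) • u
      - QuadraticMap.polar (⇑(QMin m F a b)) u (act z x) • v := by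
  have hd : a ^ 2 - 4 * b ≠ 0 := disc_ne_zero_of_aniso a b hab
  have hQ := QMin_nondeg (F := F) m a b hd
  have h3 := hasTS3_QMin (F := F) m hm a b
  have hS := siegelG_mem_commutator (QMin m F a b) hQ h3 u v hu hv huv 1
  have h := hz _ hS
  have h1 := congrArg (fun g => act g x) h
  simp only [act_mul, act_siegelG, hux, hvx, zero_smul, one_smul, zero_sub] at h1
  rw [act_add, act_neg] at h1
  -- h1 : act z x + -act z u = act z x + (P • v - R • u)
  have h2 := add_left_cancel h1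
  rw [← neg_eq_iff_eq_neg.mpr h2.symm, neg_sub]

theorem vE_inl_inl (i k : Fin m) :
    (vE i : (Fin m ⊕ Fin m) ⊕ Fin 2 → F) (Sum.inl (Sum.inl k))
      = (Pi.single i 1 : Fin m → F) k := rfl

theorem vF_inl_inr (i k : Fin m) :
    (vF i : (Fin m ⊕ Fin m) ⊕ Fin 2 → F) (Sum.inl (Sum.inr k))
      = (Pi.single i 1 : Fin m → F) k := rfl

theorem center_blk_aux [Fintype F] (hm : 3 ≤ m) (a b : F)
    (hab : ∀ z₁ z₂ : F, z₁ ^ 2 + a * z₁ * z₂ + b * z₂ ^ 2 = 0 → z₁ = 0 ∧ z₂ = 0)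
    (z : ↥(Cfsg.isometryGroup F (⇑(QMin m F a b))))
    (hz : ∀ g ∈ commutator ↥(Cfsg.isometryGroup F (⇑(QMin m F a b))), z * g = g * z)
    (x y : (Fin m ⊕ Fin m) ⊕ Fin 2) (hxy : x ≠ y)
    (hcond : (∃ t, x = Sum.inl t) ∨ (∃ t, y = Sum.inl t)) :
    ((z : Matrix.GeneralLinearGroup ((Fin m ⊕ Fin m) ⊕ Fin 2) F) :
        Matrix ((Fin m ⊕ Fin m) ⊕ Fin 2) ((Fin m ⊕ Fin m) ⊕ Fin 2) F) x y = 0 := by
  classical
  -- auxiliary indices
  have hother : ∀ i : Fin m, ∃ j₁ j₂ : Fin m, j₁ ≠ i ∧ j₂ ≠ i ∧ j₁ ≠ j₂ := by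
    intro i
    have h0 : (0 : ℕ) < m := by omega
    have h1 : (1 : ℕ) < m := by omega
    have h2 : (2 : ℕ) < m := by omega
    by_cases hi0 : i.val = 0
    · refine ⟨⟨1, h1⟩, ⟨2, h2⟩, ?_, ?_, ?_⟩
      · intro h; rw [← h] at hi0; simp at hi0
      · intro h; rw [← h] at hi0; simp at hi0
      · intro h; simp [Fin.ext_iff] at h
    · by_cases hi1 : i.val = 1
      · refine ⟨⟨0, h0⟩, ⟨2, h2⟩, ?_, ?_, ?_⟩
        · intro h; rw [← h] at hi0; simp at hi0
        · intro h; rw [← h] at hi1; simp at hi1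
        · intro h; simp [Fin.ext_iff] at h
      · refine ⟨⟨0, h0⟩, ⟨1, h1⟩, ?_, ?_, ?_⟩
        · intro h; rw [← h] at hi0; simp at hi0
        · intro h; rw [← h] at hi1; simp at hi1
        · intro h; simp [Fin.ext_iff] at h
  -- (I) the lines `⟨e_i⟩`
  have hE : ∀ i : Fin m, ∃ α : F, α ≠ 0 ∧ act z (vE i) = α • vE i := by
    intro i
    obtain ⟨j₁, j₂, h1, h2, h12⟩ := hother i
    have hA := center_span hm a b hab z hz (vE i) (vE j₁) (vF j₁) (Q_vE a b i) (Q_vE a b j₁)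
      (by rw [vE, polar_right_vE]; rfl)
      (by rw [vE, polar_right_vF]; simp [h1])
      (by rw [vE, polar_right_vF]; simp)
    have hB := center_span hm a b hab z hz (vE i) (vE j₂) (vF j₂) (Q_vE a b i) (Q_vE a b j₂)
      (by rw [vE, polar_right_vE]; rfl)
      (by rw [vE, polar_right_vF]; simp [h2])
      (by rw [vE, polar_right_vF]; simp)
    have hcA : act z (vE i) (Sum.inl (Sum.inl j₁))
        = - QuadraticMap.polar (⇑(QMin m F a b)) (vE i) (act z (vF j₁)) := by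
      rw [hA]
      simp [vE_inl_inl, h1]
    have hcB : act z (vE i) (Sum.inl (Sum.inl j₁)) = 0 := by
      rw [hB]
      simp [vE_inl_inl, h1, h12]
    have hP : QuadraticMap.polar (⇑(QMin m F a b)) (vE i) (act z (vF j₁)) = 0 :=
      neg_eq_zero.mp (hcA.symm.trans hcB)
    rw [hP, zero_smul, sub_zero] at hA
    refine ⟨_, ?_, hA⟩
    intro h0
    rw [h0, zero_smul] at hA
    have hne : (vE i : (Fin m ⊕ Fin m) ⊕ Fin 2 → F) ≠ 0 := by
      intro h
      have := congrFun h (Sum.inl (Sum.inl i))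
      simp [vE_inl_inl] at this
    exact act_ne_zero z hne hA
  -- (II) the lines `⟨f_i⟩`
  have hF : ∀ i : Fin m, ∃ α : F, α ≠ 0 ∧ act z (vF i) = α • vF i := by
    intro i
    obtain ⟨j₁, j₂, h1, h2, h12⟩ := hother i
    have hA := center_span hm a b hab z hz (vF i) (vF j₁) (vE j₁) (Q_vF a b i) (Q_vF a b j₁)
      (by rw [vF, polar_right_vF]; rfl)
      (by rw [vF, polar_right_vE]; simp [h1])
      (by rw [vF, polar_right_vE]; simp)
    have hB := center_span hm a b hab z hz (vF i) (vF j₂) (vE j₂) (Q_vF a b i) (Q_vF a b j₂)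
      (by rw [vF, polar_right_vF]; rfl)
      (by rw [vF, polar_right_vE]; simp [h2])
      (by rw [vF, polar_right_vE]; simp)
    have hcA : act z (vF i) (Sum.inl (Sum.inr j₁))
        = - QuadraticMap.polar (⇑(QMin m F a b)) (vF i) (act z (vE j₁)) := by
      rw [hA]
      simp [vF_inl_inr, h1]
    have hcB : act z (vF i) (Sum.inl (Sum.inr j₁)) = 0 := by
      rw [hB]
      simp [vF_inl_inr, h1, h12]
    have hP : QuadraticMap.polar (⇑(QMin m F a b)) (vF i) (act z (vE j₁)) = 0 :=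
      neg_eq_zero.mp (hcA.symm.trans hcB)
    rw [hP, zero_smul, sub_zero] at hA
    refine ⟨_, ?_, hA⟩
    intro h0
    rw [h0, zero_smul] at hA
    have hne : (vF i : (Fin m ⊕ Fin m) ⊕ Fin 2 → F) ≠ 0 := by
      intro h
      have := congrFun h (Sum.inl (Sum.inr i))
      simp [vF_inl_inr] at this
    exact act_ne_zero z hne hA
  -- the matrix entries
  rw [← act_single z x y]
  rcases y with (i | i) | j
  · -- column `e_i`
    obtain ⟨α, -, hα⟩ := hE i
    rw [← vE_eq, hα, vE_eq]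
    simp [hxy]
  · obtain ⟨α, -, hα⟩ := hF i
    rw [← vF_eq, hα, vF_eq]
    simp [hxy]
  · -- column `z_j`: the row must be hyperbolic
    rcases x with (i | i) | j'
    · obtain ⟨μ, hμ, hμ'⟩ := hF i
      rw [coord_E a b (act z (Pi.single (Sum.inr j) 1)) i, ← vW_eq]
      have h1 := polar_act (QMin m F a b) z (vW j) (vF i)
      rw [hμ', QuadraticMap.polar_smul_right] at h1
      have h2 : QuadraticMap.polar (⇑(QMin m F a b)) (vW j : (Fin m ⊕ Fin m) ⊕ Fin 2 → F) (vF i)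
          = 0 := by
        rw [vW, polar_right_vF]; rfl
      rw [h2, smul_eq_mul] at h1
      rcases mul_eq_zero.mp h1 with h | h
      · exact absurd h hμ
      · exact h
    · obtain ⟨μ, hμ, hμ'⟩ := hE i
      rw [coord_F a b (act z (Pi.single (Sum.inr j) 1)) i, ← vW_eq]
      have h1 := polar_act (QMin m F a b) z (vW j) (vE i)
      rw [hμ', QuadraticMap.polar_smul_right] at h1
      have h2 : QuadraticMap.polar (⇑(QMin m F a b)) (vW j : (Fin m ⊕ Fin m) ⊕ Fin 2 → F) (vE i)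
          = 0 := by
        rw [vW, polar_right_vE]; rfl
      rw [h2, smul_eq_mul] at h1
      rcases mul_eq_zero.mp h1 with h | h
      · exact absurd h hμ
      · exact h
    · exfalso
      rcases hcond with ⟨t, ht⟩ | ⟨t, ht⟩
      · exact Sum.inr_ne_inl ht
      · exact Sum.inr_ne_inl ht

theorem ominus_center_blk [Fintype F] (m : ℕ) (hm : 3 ≤ m) (a b : F)
    (hab : ∀ z₁ z₂ : F, z₁ ^ 2 + a * z₁ * z₂ + b * z₂ ^ 2 = 0 → z₁ = 0 ∧ z₂ = 0)
    (z : OGm m F a b)
    (hz : ∀ g ∈ Cfsg.Omega F (Cfsg.quadFormMinus m F a b), z * g = g * z) : IsBlk z := by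
  intro c d hcd hcond
  obtain ⟨x, rfl⟩ := (idx m).surjective c
  obtain ⟨y, rfl⟩ := (idx m).surjective d
  rw [mat_idx]
  have hxy : x ≠ y := fun h => hcd (by rw [h])
  refine center_blk_aux hm a b hab z hz x y hxy ?_
  rcases x with t | j'
  · exact Or.inl ⟨t, rfl⟩
  · rcases y with t | j
    · exact Or.inr ⟨t, rfl⟩
    · exfalso
      have e1 : (idx m (Sum.inr j')).val = m + j'.val := rfl
      have e2 : (idx m (Sum.inr j)).val = m + j.val := rfl
      have := j'.isLt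
      have := j.isLt
      omega

end Cfsg.Agent.H25.StN

section Check
variable {F : Type*} [Field F]

example [Fintype F] (m : ℕ) (hm : 3 ≤ m) (a b : F) (hab : ∀ z₁ z₂ : F, z₁ ^ 2 + a * z₁ * z₂ + b * z₂ ^ 2 = 0 → z₁ = 0 ∧ z₂ = 0) (z : OGm m F a b) (hz : ∀ g ∈ Cfsg.Omega F (Cfsg.quadFormMinus m F a b), z * g = g * z) : IsBlk z :=
  Cfsg.Agent.H25.StN.ominus_center_blk m hm a b hab z hz

end Check
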