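import Mathlib
import Cfsg.Agent.H88.StNDefs
import Cfsg.Agent.H24.StNUni
import Cfsg.Agent.H25.StNCen
import Cfsg.Agent.H49.AutEich

set_option autoImplicit false
set_option linter.unusedVariables false
set_option linter.unusedSimpArgs false

/-!
# S2549, piece OMEGA (helper25 for helper88)

Unitriangular isometries of the minus-type form lie in `Ω`: such an isometry is a product of
Eichler transformations `E(e_k, w)`, which lie in `Ω` (H49 `eichG_mem_commutator`), in every
characteristic.
-/

open Matrix Cfsg.Agent.H88.StN Cfsg.Agent.H49 Cfsg.Agent.H45.M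

namespace Cfsg.Agent.H25.StN

variable {F : Type*} [Field F] {m : ℕ}

theorem idx_val_ee (i : Fin m) : (idx m (Sum.inl (Sum.inl i))).val = i.val := rfl

theorem idx_val_ff (i : Fin m) : (idx m (Sum.inl (Sum.inr i))).val = 2 * m + 1 - i.val := rfl

theorem idx_val_zz (j : Fin 2) : (idx m (Sum.inr j)).val = m + j.val := rfl

theorem polar_vE_vF (a b : F) (i j : Fin m) :
    QuadraticMap.polar (⇑(QMin m F a b)) (vE i) (vF j) = (Pi.single i 1 : Fin m → F) j := by
  rw [vE, polar_right_vF]

theorem polar_vF_vE (a b : F) (i j : Fin m) :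
    QuadraticMap.polar (⇑(QMin m F a b)) (vF i) (vE j) = (Pi.single i 1 : Fin m → F) j := by
  rw [vF, polar_right_vE]

theorem polar_vE_vE (a b : F) (i j : Fin m) :
    QuadraticMap.polar (⇑(QMin m F a b)) (vE i) (vE j) = 0 := by
  rw [vE, polar_right_vE]
  rfl

theorem polar_vF_vF (a b : F) (i j : Fin m) :
    QuadraticMap.polar (⇑(QMin m F a b)) (vF i) (vF j) = 0 := by
  rw [vF, polar_right_vF]
  rfl

theorem polar_vW_vF (a b : F) (j : Fin 2) (i : Fin m) :
    QuadraticMap.polar (⇑(QMin m F a b)) (vW j) (vF i) = 0 := by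
  rw [vW, polar_right_vF]
  rfl

theorem act_inv_of_fix {ι : Type} [Fintype ι] [DecidableEq ι] {Qf : (ι → F) → F}
    (E : ↥(Cfsg.isometryGroup F Qf)) (v : ι → F) (h : act E v = v) : act E⁻¹ v = v := by
  have h1 := act_inv_act E v
  rw [h] at h1
  exact h1

/-- The entries of a unitriangular isometry, in the natural coordinates. -/
theorem uni_entry (a b : F) (g : ↥(Cfsg.isometryGroup F (⇑(QMin m F a b))))
    (hg : @IsUniM m F _ a b g) :
    (∀ x y, idx m y < idx m x → act g (Pi.single y 1) x = 0) ∧
    (∀ x, act g (Pi.single x 1) x = 1) ∧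
    act g (Pi.single (Sum.inr 1) 1) (Sum.inr 0) = 0 := by
  have key : ∀ x y, act g (Pi.single y 1) x = @mat m F _ a b g (idx m x) (idx m y) := by
    intro x y
    rw [act_single]
    exact (@mat_idx m F _ a b g x y).symm
  refine ⟨fun x y h => ?_, fun x => ?_, ?_⟩
  · rw [key]
    exact hg.1.1 _ _ h
  · rw [key]
    exact hg.1.2 _
  · rw [key]
    exact hg.2

theorem uni_of_entry (a b : F) (g : ↥(Cfsg.isometryGroup F (⇑(QMin m F a b))))
    (h : (∀ x y, idx m y < idx m x → act g (Pi.single y 1) x = 0) ∧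
      (∀ x, act g (Pi.single x 1) x = 1) ∧
      act g (Pi.single (Sum.inr 1) 1) (Sum.inr 0) = 0) :
    @IsUniM m F _ a b g := by
  have key : ∀ x y, act g (Pi.single y 1) x = @mat m F _ a b g (idx m x) (idx m y) := by
    intro x y
    rw [act_single]
    exact (@mat_idx m F _ a b g x y).symm
  refine ⟨⟨fun i j hij => ?_, fun i => ?_⟩, ?_⟩
  · obtain ⟨x, rfl⟩ := (idx m).surjective i
    obtain ⟨y, rfl⟩ := (idx m).surjective j
    rw [← key]
    exact h.1 x y hij
  · obtain ⟨x, rfl⟩ := (idx m).surjective i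
    rw [← key]
    exact h.2.1 x
  · have h2 := h.2.2
    rw [key] at h2
    exact h2

/-- A unitriangular isometry fixing `f_i` for `i < k` fixes `e_k`. -/
theorem fixE_of (a b : F) (g : ↥(Cfsg.isometryGroup F (⇑(QMin m F a b))))
    (hg : @IsUniM m F _ a b g) (kk : Fin m)
    (hfix : ∀ i : Fin m, i.val < kk.val → act g (vF i) = vF i) :
    act g (vE kk) = vE kk := by
  obtain ⟨h1, h2, -⟩ := uni_entry a b g hg
  funext x
  rcases x with (i | i) | j
  · rcases lt_trichotomy i.val kk.val with hlt | heq | hgt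
    · rw [coord_E a b (act g (vE kk)) i]
      have h := polar_act (QMin m F a b) g (vE kk) (vF i)
      rw [hfix i hlt] at h
      rw [h, polar_vE_vF, vE_inl_inl]
    · have hik : i = kk := Fin.ext heq
      subst hik
      rw [vE_eq, h2]
      simp
    · have hne : i ≠ kk := by
        intro h
        rw [h] at hgt
        exact lt_irrefl _ hgt
      rw [vE_eq, h1 (Sum.inl (Sum.inl i)) (Sum.inl (Sum.inl kk))
        (by rw [Fin.lt_def, idx_val_ee, idx_val_ee]; exact hgt)]
      simp [hne]
  · rw [vE_eq, h1 (Sum.inl (Sum.inr i)) (Sum.inl (Sum.inl kk))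
      (by rw [Fin.lt_def, idx_val_ee, idx_val_ff]; have := i.isLt; have := kk.isLt; omega)]
    simp
  · rw [vE_eq, h1 (Sum.inr j) (Sum.inl (Sum.inl kk))
      (by rw [Fin.lt_def, idx_val_ee, idx_val_zz]; have := kk.isLt; omega)]
    simp

theorem uni_mem_aux [Fintype F] (hm : 3 ≤ m) (a b : F)
    (hab : ∀ z₁ z₂ : F, z₁ ^ 2 + a * z₁ * z₂ + b * z₂ ^ 2 = 0 → z₁ = 0 ∧ z₂ = 0) :
    ∀ (d k : ℕ), k + d = m → ∀ g : ↥(Cfsg.isometryGroup F (⇑(QMin m F a b))),
      @IsUniM m F _ a b g →
      (∀ i : Fin m, i.val < k → act g (vE i) = vE i ∧ act g (vF i) = vF i) →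
      g ∈ commutator ↥(Cfsg.isometryGroup F (⇑(QMin m F a b))) := by
  classical
  have hd : a ^ 2 - 4 * b ≠ 0 := disc_ne_zero_of_aniso a b hab
  have hQ := QMin_nondeg (F := F) m a b hd
  have h3 := hasTS3_QMin (F := F) m hm a b
  intro d
  induction d with
  | zero =>
    intro k hk g hg hfix
    obtain ⟨h1, h2, h0⟩ := uni_entry a b g hg
    have hE : ∀ i : Fin m, act g (vE i) = vE i :=
      fun i => (hfix i (by have := i.isLt; omega)).1
    have hF : ∀ i : Fin m, act g (vF i) = vF i :=
      fun i => (hfix i (by have := i.isLt; omega)).2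
    have hW : ∀ j : Fin 2, act g (vW j) = vW j := by
      intro j
      funext x
      rcases x with (i | i) | j'
      · rw [coord_E a b (act g (vW j)) i]
        have h := polar_act (QMin m F a b) g (vW j) (vF i)
        rw [hF i] at h
        rw [h, polar_vW_vF]
        rfl
      · rw [vW_eq, h1 (Sum.inl (Sum.inr i)) (Sum.inr j)
          (by rw [Fin.lt_def, idx_val_zz, idx_val_ff]; have := i.isLt; have := j.isLt; omega)]
        simp
      · rw [vW_eq]
        by_cases hjj : j' = j
        · subst hjj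
          rw [h2]
          simp
        · have hval : j'.val ≠ j.val := fun h => hjj (Fin.ext h)
          have hj := j.isLt
          have hj' := j'.isLt
          have hne' : (Sum.inr j' : (Fin m ⊕ Fin m) ⊕ Fin 2) ≠ Sum.inr j :=
            fun h => hjj (Sum.inr_injective h)
          rw [Pi.single_eq_of_ne hne' 1]
          rcases Nat.lt_or_ge j.val j'.val with hlt | hge
          · exact h1 (Sum.inr j') (Sum.inr j)
              (by rw [Fin.lt_def, idx_val_zz, idx_val_zz]; omega)
          · have e0 : j' = 0 := Fin.ext (by simp only [Fin.val_zero]; omega)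
            have e1 : j = 1 := Fin.ext (by simp only [Fin.val_one]; omega)
            rw [e0, e1]
            exact h0
    have hmat : ((g : Matrix.GeneralLinearGroup ((Fin m ⊕ Fin m) ⊕ Fin 2) F) :
        Matrix ((Fin m ⊕ Fin m) ⊕ Fin 2) ((Fin m ⊕ Fin m) ⊕ Fin 2) F) = 1 := by
      ext x y
      rw [← act_single g x y, Matrix.one_apply, ← Pi.single_apply]
      rcases y with (i | i) | j
      · rw [← vE_eq, hE]
      · rw [← vF_eq, hF]
      · rw [← vW_eq, hW]
    have hone : g = 1 := Subtype.ext (Units.ext hmat)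
    rw [hone]
    exact one_mem _
  | succ d ih =>
    intro k hk g hg hfix
    have hkm : k < m := by omega
    obtain ⟨kk, hkk⟩ : ∃ kk : Fin m, kk.val = k := ⟨⟨k, hkm⟩, rfl⟩
    obtain ⟨h1, h2, h0⟩ := uni_entry a b g hg
    have hEk : act g (vE kk) = vE kk :=
      fixE_of a b g hg kk (fun i hi => (hfix i (by omega)).2)
    obtain ⟨y, hy⟩ : ∃ y, y = act g (vF kk) := ⟨_, rfl⟩
    obtain ⟨c, hc⟩ : ∃ c : F, c = y (Sum.inl (Sum.inl kk)) := ⟨_, rfl⟩
    obtain ⟨w, hw⟩ : ∃ w, w = y - vF kk - c • vE kk := ⟨_, rfl⟩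
    have hxy : QuadraticMap.polar (⇑(QMin m F a b)) (vE kk) y = 1 := by
      have h := polar_act (QMin m F a b) g (vE kk) (vF kk)
      rw [hEk, ← hy] at h
      rw [h, polar_vE_vF]
      simp
    have hxw : QuadraticMap.polar (⇑(QMin m F a b)) (vE kk) w = 0 := by
      rw [hw, QuadraticMap.polar_sub_right, QuadraticMap.polar_sub_right,
        QuadraticMap.polar_smul_right, hxy, polar_vE_vF, polar_vE_vE]
      simp
    have hwx : QuadraticMap.polar (⇑(QMin m F a b)) w (vE kk) = 0 := by
      rw [QuadraticMap.polar_comm]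
      exact hxw
    have hwF : ∀ i : Fin m, i.val ≤ k → w (Sum.inl (Sum.inr i)) = 0 := by
      intro i hi
      rcases Nat.lt_or_eq_of_le hi with hlt | heq
      · have hne : kk ≠ i := by
          intro h
          rw [← h] at hlt
          omega
        have e1 : y (Sum.inl (Sum.inr i)) = 0 := by
          rw [hy, vF_eq]
          exact h1 (Sum.inl (Sum.inr i)) (Sum.inl (Sum.inr kk))
            (by rw [Fin.lt_def, idx_val_ff, idx_val_ff]; have := i.isLt; omega)
        have e2 : (vF kk : (Fin m ⊕ Fin m) ⊕ Fin 2 → F) (Sum.inl (Sum.inr i)) = 0 := by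
          rw [vF_inl_inr]
          simp [hne]
        have e3 : (vE kk : (Fin m ⊕ Fin m) ⊕ Fin 2 → F) (Sum.inl (Sum.inr i)) = 0 := rfl
        rw [hw]
        simp only [Pi.sub_apply, Pi.smul_apply, smul_eq_mul]
        rw [e1, e2, e3]
        ring
      · have hik : i = kk := Fin.ext (heq.trans hkk.symm)
        subst hik
        rw [coord_F a b w i]
        exact hwx
    have hwE : ∀ i : Fin m, i.val ≤ k → w (Sum.inl (Sum.inl i)) = 0 := by
      intro i hi
      rcases Nat.lt_or_eq_of_le hi with hlt | heq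
      · have hne : kk ≠ i := by
          intro h
          rw [← h] at hlt
          omega
        have e1 : y (Sum.inl (Sum.inl i)) = 0 := by
          rw [coord_E a b y i, hy]
          have h := polar_act (QMin m F a b) g (vF kk) (vF i)
          rw [(hfix i hlt).2] at h
          rw [h, polar_vF_vF]
        have e2 : (vF kk : (Fin m ⊕ Fin m) ⊕ Fin 2 → F) (Sum.inl (Sum.inl i)) = 0 := rfl
        have e3 : (vE kk : (Fin m ⊕ Fin m) ⊕ Fin 2 → F) (Sum.inl (Sum.inl i)) = 0 := by
          rw [vE_inl_inl]
          simp [hne]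
        rw [hw]
        simp only [Pi.sub_apply, Pi.smul_apply, smul_eq_mul]
        rw [e1, e2, e3]
        ring
      · have hik : i = kk := Fin.ext (heq.trans hkk.symm)
        subst hik
        have e2 : (vF i : (Fin m ⊕ Fin m) ⊕ Fin 2 → F) (Sum.inl (Sum.inl i)) = 0 := rfl
        have e3 : (vE i : (Fin m ⊕ Fin m) ⊕ Fin 2 → F) (Sum.inl (Sum.inl i)) = 1 := by
          rw [vE_inl_inl]
          simp
        rw [hw]
        simp only [Pi.sub_apply, Pi.smul_apply, smul_eq_mul]
        rw [e2, e3, ← hc]
        ring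
    have hwvF : QuadraticMap.polar (⇑(QMin m F a b)) w (vF kk) = 0 := by
      rw [← coord_E a b w kk]
      exact hwE kk (le_of_eq hkk)
    have hQw : QMin m F a b w = -c := by
      have hy0 : QMin m F a b y = 0 := by rw [hy, Q_act, Q_vF]
      have hyw : y = w + (vF kk + c • vE kk) := by
        rw [hw]
        abel
      rw [hyw, Q_add', Q_add', QuadraticMap.polar_add_right, QuadraticMap.polar_smul_right,
        QuadraticMap.polar_smul_right, QuadraticMap.map_smul, Q_vF, Q_vE, polar_vF_vE, hwx,
        hwvF] at hy0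
      simp only [Pi.single_eq_same, smul_eq_mul, mul_zero, mul_one, add_zero, zero_add] at hy0
      linear_combination hy0
    obtain ⟨E, hE⟩ : ∃ E, E = eichG (QMin m F a b) (vE kk) w (Q_vE a b kk) hxw := ⟨_, rfl⟩
    have hEmem : E ∈ commutator ↥(Cfsg.isometryGroup F (⇑(QMin m F a b))) := by
      rw [hE]
      exact eichG_mem_commutator (QMin m F a b) hQ h3 _ _ _ _
    have hEact : ∀ z, act E z = z + QuadraticMap.polar (⇑(QMin m F a b)) (vE kk) z • w
        - QuadraticMap.polar (⇑(QMin m F a b)) w z • vE kk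
        - (QMin m F a b w * QuadraticMap.polar (⇑(QMin m F a b)) (vE kk) z) • vE kk := by
      intro z
      rw [hE, act_eichG]
    have hEE : act E (vE kk) = vE kk := by
      rw [hEact, polar_vE_vE, hwx]
      simp
    have hEF : act E (vF kk) = y := by
      rw [hEact, polar_vE_vF, hwvF, hQw, hw]
      simp only [Pi.single_eq_same, one_smul, zero_smul, mul_one, sub_zero]
      module
    have hEi : ∀ i : Fin m, i.val < k → act E (vE i) = vE i ∧ act E (vF i) = vF i := by
      intro i hi
      have hne : kk ≠ i := by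
        intro h
        rw [← h] at hi
        omega
      constructor
      · rw [hEact, polar_vE_vE, ← coord_F a b w i, hwF i hi.le]
        simp
      · rw [hEact, polar_vE_vF, ← coord_E a b w i, hwE i hi.le]
        simp [hne]
    have hfixh : ∀ i : Fin m, i.val < k + 1 →
        act (E⁻¹ * g) (vE i) = vE i ∧ act (E⁻¹ * g) (vF i) = vF i := by
      intro i hi
      rcases Nat.lt_succ_iff_lt_or_eq.mp hi with hlt | heq
      · obtain ⟨e1, e2⟩ := hEi i hlt
        obtain ⟨g1, g2⟩ := hfix i hlt
        constructor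
        · rw [act_mul, g1]
          exact act_inv_of_fix E _ e1
        · rw [act_mul, g2]
          exact act_inv_of_fix E _ e2
      · have hik : i = kk := Fin.ext (heq.trans hkk.symm)
        subst hik
        constructor
        · rw [act_mul, hEk]
          exact act_inv_of_fix E _ hEE
        · rw [act_mul, ← hy, ← hEF, act_inv_act]
    have hp : ∀ v : (Fin m ⊕ Fin m) ⊕ Fin 2 → F,
        QuadraticMap.polar (⇑(QMin m F a b)) (vE kk) v = v (Sum.inl (Sum.inr kk)) := by
      intro v
      rw [QuadraticMap.polar_comm, ← coord_F a b v kk]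
    have hEU : @IsUniM m F _ a b E := by
      apply uni_of_entry
      refine ⟨?_, ?_, ?_⟩
      · intro x' y' hlt
        have hne : x' ≠ y' := by
          rintro rfl
          exact lt_irrefl _ hlt
        have t1 : (Pi.single y' 1 : (Fin m ⊕ Fin m) ⊕ Fin 2 → F) x' = 0 :=
          Pi.single_eq_of_ne hne 1
        have t2 : QuadraticMap.polar (⇑(QMin m F a b)) (vE kk) (Pi.single y' 1) * w x' = 0 := by
          by_cases hy' : y' = Sum.inl (Sum.inr kk)
          · subst hy'
            rcases x' with (i | i) | j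
            · exfalso
              rw [Fin.lt_def, idx_val_ff, idx_val_ee] at hlt
              have := i.isLt
              omega
            · rw [Fin.lt_def, idx_val_ff, idx_val_ff] at hlt
              have := i.isLt
              rw [hwF i (by omega), mul_zero]
            · exfalso
              rw [Fin.lt_def, idx_val_ff, idx_val_zz] at hlt
              have := j.isLt
              omega
          · rw [hp, Pi.single_eq_of_ne (Ne.symm hy') 1, zero_mul]
        have t3 : QuadraticMap.polar (⇑(QMin m F a b)) w (Pi.single y' 1) *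
            (vE kk : (Fin m ⊕ Fin m) ⊕ Fin 2 → F) x' = 0 := by
          by_cases hx' : x' = Sum.inl (Sum.inl kk)
          · subst hx'
            rcases y' with (i | i) | j
            · rw [Fin.lt_def, idx_val_ee, idx_val_ee] at hlt
              rw [← vE_eq, ← coord_F a b w i, hwF i (by omega), zero_mul]
            · exfalso
              rw [Fin.lt_def, idx_val_ff, idx_val_ee] at hlt
              have := i.isLt
              omega
            · exfalso
              rw [Fin.lt_def, idx_val_zz, idx_val_ee] at hlt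
              omega
          · rw [vE_eq, Pi.single_eq_of_ne hx' 1, mul_zero]
        have t4 : QuadraticMap.polar (⇑(QMin m F a b)) (vE kk) (Pi.single y' 1) *
            (vE kk : (Fin m ⊕ Fin m) ⊕ Fin 2 → F) x' = 0 := by
          by_cases hx' : x' = Sum.inl (Sum.inl kk)
          · by_cases hy' : y' = Sum.inl (Sum.inr kk)
            · exfalso
              subst hx' hy'
              rw [Fin.lt_def, idx_val_ff, idx_val_ee] at hlt
              omega
            · rw [hp, Pi.single_eq_of_ne (Ne.symm hy') 1, zero_mul]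
          · rw [vE_eq, Pi.single_eq_of_ne hx' 1, mul_zero]
        rw [hEact]
        simp only [Pi.add_apply, Pi.sub_apply, Pi.smul_apply, smul_eq_mul]
        rw [t1, t2, t3, mul_assoc, t4]
        ring
      · intro x'
        have t1 : (Pi.single x' 1 : (Fin m ⊕ Fin m) ⊕ Fin 2 → F) x' = 1 := Pi.single_eq_same x' 1
        have t2 : QuadraticMap.polar (⇑(QMin m F a b)) (vE kk) (Pi.single x' 1) * w x' = 0 := by
          by_cases hx' : x' = Sum.inl (Sum.inr kk)
          · subst hx'
            rw [hwF kk (le_of_eq hkk), mul_zero]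
          · rw [hp, Pi.single_eq_of_ne (Ne.symm hx') 1, zero_mul]
        have t3 : QuadraticMap.polar (⇑(QMin m F a b)) w (Pi.single x' 1) *
            (vE kk : (Fin m ⊕ Fin m) ⊕ Fin 2 → F) x' = 0 := by
          by_cases hx' : x' = Sum.inl (Sum.inl kk)
          · subst hx'
            rw [← vE_eq, hwx, zero_mul]
          · rw [vE_eq, Pi.single_eq_of_ne hx' 1, mul_zero]
        have t4 : QuadraticMap.polar (⇑(QMin m F a b)) (vE kk) (Pi.single x' 1) *
            (vE kk : (Fin m ⊕ Fin m) ⊕ Fin 2 → F) x' = 0 := by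
          by_cases hx' : x' = Sum.inl (Sum.inl kk)
          · subst hx'
            rw [hp, Pi.single_eq_of_ne (by simp) 1, zero_mul]
          · rw [vE_eq, Pi.single_eq_of_ne hx' 1, mul_zero]
        rw [hEact]
        simp only [Pi.add_apply, Pi.sub_apply, Pi.smul_apply, smul_eq_mul]
        rw [t1, t2, t3, mul_assoc, t4]
        ring
      · have t4 : (vE kk : (Fin m ⊕ Fin m) ⊕ Fin 2 → F) (Sum.inr 0) = 0 := rfl
        have t2 : QuadraticMap.polar (⇑(QMin m F a b)) (vE kk)
            (Pi.single (Sum.inr 1) 1) = 0 := by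
          rw [hp, Pi.single_eq_of_ne (by simp) 1]
        have t1 : (Pi.single (Sum.inr 1) 1 : (Fin m ⊕ Fin m) ⊕ Fin 2 → F) (Sum.inr 0) = 0 :=
          Pi.single_eq_of_ne (by simp) 1
        rw [hEact]
        simp only [Pi.add_apply, Pi.sub_apply, Pi.smul_apply, smul_eq_mul]
        rw [t1, t2, t4]
        ring
    have hU : @IsUniM m F _ a b (E⁻¹ * g) :=
      Cfsg.Agent.H24.StN.isUniM_mul m a b _ _ (Cfsg.Agent.H24.StN.isUniM_inv m a b E hEU) hg
    have hmem := ih (k + 1) (by omega) (E⁻¹ * g) hU hfixh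
    have hgE : g = E * (E⁻¹ * g) := by group
    rw [hgE]
    exact mul_mem hEmem hmem

/-- `S2549-OMEGA`: unitriangular isometries of the minus type form lie in `Ω`. -/
theorem ominus_uni_mem_omega [Fintype F] (m : ℕ) (hm : 3 ≤ m) (a b : F)
    (hab : ∀ z₁ z₂ : F, z₁ ^ 2 + a * z₁ * z₂ + b * z₂ ^ 2 = 0 → z₁ = 0 ∧ z₂ = 0)
    (g : OGm m F a b) (hg : IsUniM g) : g ∈ Cfsg.Omega F (Cfsg.quadFormMinus m F a b) :=
  uni_mem_aux hm a b hab m 0 (by omega) g hg (fun i hi => absurd hi (Nat.not_lt_zero _))

end Cfsg.Agent.H25.StN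

section Check
variable {F : Type*} [Field F]

example [Fintype F] (m : ℕ) (hm : 3 ≤ m) (a b : F) (hab : ∀ z₁ z₂ : F, z₁ ^ 2 + a * z₁ * z₂ + b * z₂ ^ 2 = 0 → z₁ = 0 ∧ z₂ = 0) (g : OGm m F a b) (hg : IsUniM g) : g ∈ Cfsg.Omega F (Cfsg.quadFormMinus m F a b) :=
  Cfsg.Agent.H25.StN.ominus_uni_mem_omega m hm a b hab g hg

end Check
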