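import Cfsg.Agent.H4.TnDefs
import Cfsg.Agent.H4.TnCol
import Cfsg.Agent.H82.Irr
import Cfsg.Agent.H4.PaQb

/-!
# TN-L1 (helper25, for helper4, S3805)

If `u ∈ ker χ₁` then `χ₁` is linear and trivial on `T`.
-/

set_option autoImplicit false

namespace Cfsg.Agent.H25.Tn

open Subgroup Cfsg Cfsg.Agent.H4 Cfsg.Agent.H4.Tn Cfsg.Agent.H82

universe u

theorem l1 (hV : StVals.{u}) (hC : StCent.{u}) (hR : StRT3.{u}) (hF : StFratt.{u}) :
    StL1.{u} := by
  intro G _ _ T a b u v cfg χ₁ χ₂ hdec hu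
  classical
  obtain ⟨haS, -, -, hbS, hinvS⟩ := hV G T a b u v cfg
  obtain ⟨hcb, -, -⟩ := hC G T a b u v cfg
  -- the kernel
  have huK : u ∈ irrKer χ₁ := (mem_irrKer χ₁ u).2 hu
  have hbK : b ∈ irrKer χ₁ := by
    have h1 : b * u * b⁻¹ ∈ irrKer χ₁ := (irrKer_normal χ₁).conj_mem u huK b
    have h2 : b * u * b⁻¹ * u⁻¹ ∈ irrKer χ₁ := mul_mem h1 (inv_mem huK)
    have h4 : u * b⁻¹ = b * u := by
      have := cfg.ub
      calc u * b⁻¹ = b * (b⁻¹ * u) * b⁻¹ := by group
        _ = b * (u * b) * b⁻¹ := by rw [← this]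
        _ = b * u := by group
    have h3 : b * u * b⁻¹ * u⁻¹ = b * b := by
      calc b * u * b⁻¹ * u⁻¹ = b * (u * b⁻¹) * u⁻¹ := by group
        _ = b * (b * u) * u⁻¹ := by rw [h4]
        _ = b * b := by group
    rw [h3] at h2
    have h5 : b = (b * b) * (b * b) := by
      have := cfg.b3
      calc b = b ^ 3 * b := by rw [this, one_mul]
        _ = (b * b) * (b * b) := by rw [pow_succ, pow_succ, pow_one, mul_assoc (b * b) b b]
    rw [h5]; exact mul_mem h2 h2
  have hb : χ₁.1 b = χ₁.1 1 := (mem_irrKer χ₁ b).1 hbK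
  obtain ⟨n, hn0, hn⟩ := irr_one_eq_natCast χ₁
  have hn' : χ₁.1 1 = (n : ℂ) := hn
  -- the decomposition at `b` and at `1`
  have h1S : (1 : G) ∉ S1G a b u := hinvS 1 (one_mul 1)
  have hdb := hdec b
  have hd1 := hdec 1
  rw [P1, Set.indicator_of_notMem hbS] at hdb
  rw [P1, Set.indicator_of_notMem h1S] at hd1
  have h2b : χ₂.1 b = (n : ℂ) + 1 := by
    rw [hb, hn'] at hdb; linear_combination -hdb
  have h21 : χ₂.1 1 = (n : ℂ) + 1 := by
    rw [hn'] at hd1; linear_combination -hd1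
  have hva : v * a * v⁻¹ = a⁻¹ := by rw [cfg.va]; group
  by_cases hn1 : n = 1
  · have h11 : χ₁.1 1 = 1 := by rw [hn', hn1]; simp
    refine ⟨h11, ?_, by rw [hb, h11]⟩
    have hmul := irr_linear_mul χ₁ h11
    have hne := irr_linear_ne_zero χ₁ h11 a
    have hconj : χ₁.1 (v * a * v⁻¹) = χ₁.1 a := irr_conj χ₁ a v
    have haa : a * a = a⁻¹ := by
      have := cfg.a3
      calc a * a = a ^ 3 * a⁻¹ := by rw [pow_succ, mul_inv_cancel_right, pow_two]
        _ = a⁻¹ := by rw [this, one_mul]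
    have h6 : χ₁.1 a * χ₁.1 a = χ₁.1 a := by
      rw [← hmul, haa, ← hva, hconj]
    exact mul_right_cancel₀ hne (by rw [h6, one_mul])
  · exfalso
    have hn2 : 2 ≤ n := by omega
    -- three distinct irreducible characters
    have ht1 : trivialIrr G ≠ χ₁ := by
      intro h
      have h' : (trivialIrr G).1 1 = χ₁.1 1 := by rw [h]
      rw [hn'] at h'
      have h'' : (1 : ℂ) = (n : ℂ) := h'
      have : (1 : ℕ) = n := by exact_mod_cast h''
      omega
    have ht2 : trivialIrr G ≠ χ₂ := by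
      intro h
      have h' : (trivialIrr G).1 1 = χ₂.1 1 := by rw [h]
      rw [h21] at h'
      have h'' : (1 : ℂ) = (n : ℂ) + 1 := h'
      have : (1 : ℕ) = n + 1 := by exact_mod_cast h''
      omega
    have h12 : χ₁ ≠ χ₂ := by
      intro h
      have h' : χ₁.1 1 = χ₂.1 1 := by rw [h]
      rw [hn', h21] at h'
      have : (n : ℕ) = n + 1 := by exact_mod_cast h'
      omega
    have hcol := col_le_three (trivialIrr G) χ₁ χ₂ ht1 ht2 h12 b
    rw [hcb, hb, hn', h2b] at hcol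
    have e1 : Complex.normSq ((trivialIrr G).1 b) = 1 := by
      show Complex.normSq (1 : ℂ) = 1
      simp
    have e2 : Complex.normSq (n : ℂ) = (n : ℝ) * n := Complex.normSq_natCast n
    have e3 : Complex.normSq ((n : ℂ) + 1) = ((n : ℝ) + 1) * ((n : ℝ) + 1) := by
      have : ((n : ℂ) + 1) = ((n + 1 : ℕ) : ℂ) := by push_cast; ring
      rw [this, Complex.normSq_natCast]; push_cast; ring
    rw [e1, e2, e3] at hcol
    have hcolN : 1 + n * n + (n + 1) * (n + 1) ≤ 18 := by exact_mod_cast hcol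
    have hn2' : n = 2 := by
      have : n ≤ 2 := by
        by_contra h
        have h3 : 3 ≤ n := by omega
        nlinarith
      omega
    subst hn2'
    -- values at `a`
    obtain ⟨n₀, n₁, hR1, hRa⟩ := hR G χ₁.1 (isCharacter_of_isIrrCharacter χ₁.2) a v cfg.a3 hva
    obtain ⟨m₀, m₁, hR1', hRa'⟩ := hR G χ₂.1 (isCharacter_of_isIrrCharacter χ₂.2) a v cfg.a3 hva
    rw [hn'] at hR1
    rw [h21] at hR1'
    have hN : n₀ + 2 * n₁ = 2 := by
      have : ((2 : ℕ) : ℂ) = ((n₀ + 2 * n₁ : ℕ) : ℂ) := by push_cast; exact hR1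
      exact_mod_cast this.symm
    have hM : m₀ + 2 * m₁ = 3 := by
      have : ((3 : ℕ) : ℂ) = ((m₀ + 2 * m₁ : ℕ) : ℂ) := by
        push_cast; rw [← hR1']; norm_num
      exact_mod_cast this.symm
    have hda := hdec a
    rw [P1, Set.indicator_of_mem haS, hRa, hRa'] at hda
    have hZ : (n₀ : ℤ) - n₁ - (m₀ - m₁) = 2 := by
      have : (((n₀ : ℤ) - n₁ - (m₀ - m₁) : ℤ) : ℂ) = ((2 : ℤ) : ℂ) := by
        push_cast; linear_combination hda
      exact_mod_cast this
    have hn0 : n₀ = 2 ∧ n₁ = 0 := by omega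
    have haK : a ∈ irrKer χ₁ := by
      rw [mem_irrKer, hRa, hn', hn0.1, hn0.2]; norm_num
    have hTK : T ≤ irrKer χ₁ := by
      intro t ht
      obtain ⟨i, j, rfl⟩ := cfg.Telts t ht
      exact mul_mem (pow_mem haK i) (pow_mem hbK j)
    have hfr := hF G T a b u v cfg (irrKer χ₁) (irrKer_normal χ₁) hTK huK
    -- counting
    have : Fintype G := Fintype.ofFinite G
    obtain ⟨S, hS⟩ : ∃ S : Finset G, S = Finset.univ.filter (fun g => g ∈ irrKer χ₁) := ⟨_, rfl⟩
    have hmemS : ∀ g, g ∈ S ↔ g ∈ irrKer χ₁ := by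
      intro g; rw [hS]; simp
    have hS1 : 1 ≤ S.card := Finset.card_pos.2 ⟨1, (hmemS 1).2 (one_mem _)⟩
    have hcov : (Finset.univ : Finset G) ⊆ S ∪ S.image (fun g => g * v⁻¹) := by
      intro g _
      rcases hfr g with h | h
      · exact Finset.mem_union_left _ ((hmemS g).2 h)
      · refine Finset.mem_union_right _ (Finset.mem_image.2 ⟨g * v, (hmemS _).2 h, ?_⟩)
        group
    have hle : Fintype.card G ≤ 2 * S.card := by
      have h1 := Finset.card_le_card hcov
      have h2 := Finset.card_union_le S (S.image (fun g => g * v⁻¹))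
      have h3 : (S.image (fun g => g * v⁻¹)).card ≤ S.card := Finset.card_image_le
      rw [Finset.card_univ] at h1
      omega
    have hnorm := irr_norm_sq χ₁
    have hnormR : ∑ g : G, Complex.normSq (χ₁.1 g) = (Fintype.card G : ℝ) := by
      have h3 : ((∑ g : G, Complex.normSq (χ₁.1 g) : ℝ) : ℂ) = (Fintype.card G : ℂ) := by
        rw [← Nat.card_eq_fintype_card, ← hnorm]
        push_cast
        refine Finset.sum_congr rfl fun g _ => ?_
        rw [Complex.mul_conj]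
      exact_mod_cast h3
    have hsub : ∑ g ∈ S, Complex.normSq (χ₁.1 g) ≤ ∑ g : G, Complex.normSq (χ₁.1 g) :=
      Finset.sum_le_sum_of_subset_of_nonneg (Finset.subset_univ S)
        (fun g _ _ => Complex.normSq_nonneg _)
    have hSsum : ∑ g ∈ S, Complex.normSq (χ₁.1 g) = 4 * (S.card : ℝ) := by
      have : ∀ g ∈ S, Complex.normSq (χ₁.1 g) = 4 := by
        intro g hg
        have := (mem_irrKer χ₁ g).1 ((hmemS g).1 hg)
        rw [this, hn']
        have : ((2 : ℕ) : ℂ) = ((2 : ℝ) : ℂ) := by push_cast; rfl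
        rw [this, Complex.normSq_ofReal]; norm_num
      rw [Finset.sum_congr rfl this, Finset.sum_const, nsmul_eq_mul]; ring
    rw [hSsum, hnormR] at hsub
    have hle' : (Fintype.card G : ℝ) ≤ 2 * (S.card : ℝ) := by exact_mod_cast hle
    have hS1' : (1 : ℝ) ≤ S.card := by exact_mod_cast hS1
    linarith

/-- Verbatim check. -/
example (hV : Cfsg.Agent.H4.Tn.StVals.{u}) (hC : Cfsg.Agent.H4.Tn.StCent.{u})
    (hR : Cfsg.Agent.H4.Tn.StRT3.{u}) (hF : Cfsg.Agent.H4.Tn.StFratt.{u}) :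
    Cfsg.Agent.H4.Tn.StL1.{u} := l1 hV hC hR hF

end Cfsg.Agent.H25.Tn
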