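import Cfsg.Agent.H25.TnCount

/-!
# TN-PAIRSGLOB (helper25, for helper4, S3805)

Pairs of conjugates of `x` with product in `S₁^G`: `36·#glob = |G|·#loc`.
-/

set_option autoImplicit false

namespace Cfsg.Agent.H25.Tn

open Subgroup Cfsg.Agent.H4.Tn

universe u

theorem pairsGlob (hS : StS1.{u}) (hTI : StTI.{u}) : StPairsGlob.{u} := by
  intro G _ _ T a b u v cfg x
  obtain ⟨-, hinv, -, -, -⟩ := hS G T a b u v cfg
  have hti := hTI G T a b u v cfg
  have hconj : ∀ y p : G, IsConj x (y * p * y⁻¹) ↔ IsConj x p := by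
    intro y p
    have h0 : IsConj p (y * p * y⁻¹) := isConj_iff.2 ⟨y, rfl⟩
    exact ⟨fun h => h.trans h0.symm, fun h => h.trans h0⟩
  have hprod : ∀ y p q : G, y * p * y⁻¹ * (y * q * y⁻¹) = y * (p * q) * y⁻¹ := by
    intro y p q; group
  have key := fibre_count (G := G) (Ω := G × G) (fun y p => (y * p.1 * y⁻¹, y * p.2 * y⁻¹))
      (fun p => by simp)
      (fun y z p => by simp [mul_assoc]) (normalizer (T : Set G))
      {p : G × G | IsConj x p.1 ∧ IsConj x p.2 ∧ p.1 * p.2 ∈ S1 a b u}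
      (fun n hn p hp => by
        obtain ⟨h1, h2, h3⟩ := hp
        refine ⟨(hconj n _).2 h1, (hconj n _).2 h2, ?_⟩
        show n * p.1 * n⁻¹ * (n * p.2 * n⁻¹) ∈ S1 a b u
        rw [hprod]
        exact hinv n hn _ h3)
      (fun p hp y hy => by
        obtain ⟨-, -, h3⟩ := hp
        obtain ⟨-, -, h3'⟩ := hy
        have h3'' : y * p.1 * y⁻¹ * (y * p.2 * y⁻¹) ∈ S1 a b u := h3'
        rw [hprod] at h3''
        exact hti _ h3 y h3'')
  have hcongr : Nat.card {p : G × G // IsConj x p.1 ∧ IsConj x p.2 ∧ p.1 * p.2 ∈ S1G a b u} =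
      Nat.card {p : G × G // ∃ y : G, (y * p.1 * y⁻¹, y * p.2 * y⁻¹) ∈
        {p : G × G | IsConj x p.1 ∧ IsConj x p.2 ∧ p.1 * p.2 ∈ S1 a b u}} := by
    apply Nat.card_congr
    apply Equiv.subtypeEquivRight
    intro p
    constructor
    · rintro ⟨h1, h2, y, hy⟩
      refine ⟨y, (hconj y _).2 h1, (hconj y _).2 h2, ?_⟩
      show y * p.1 * y⁻¹ * (y * p.2 * y⁻¹) ∈ S1 a b u
      rw [hprod]
      exact hy
    · rintro ⟨y, h1, h2, h3⟩
      refine ⟨(hconj y _).1 h1, (hconj y _).1 h2, y, ?_⟩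
      have h3' : y * p.1 * y⁻¹ * (y * p.2 * y⁻¹) ∈ S1 a b u := h3
      rw [hprod] at h3'
      exact h3'
  rw [hcongr]
  rw [cfg.cardN] at key
  have key' : Nat.card {p : G × G // ∃ y : G, (y * p.1 * y⁻¹, y * p.2 * y⁻¹) ∈
        {p : G × G | IsConj x p.1 ∧ IsConj x p.2 ∧ p.1 * p.2 ∈ S1 a b u}} * 36 =
      Nat.card G *
        Nat.card {p : G × G // IsConj x p.1 ∧ IsConj x p.2 ∧ p.1 * p.2 ∈ S1 a b u} := key
  rw [← key', mul_comm]

/-- Verbatim check. -/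
example (hS : Cfsg.Agent.H4.Tn.StS1.{u}) (hTI : Cfsg.Agent.H4.Tn.StTI.{u}) :
    Cfsg.Agent.H4.Tn.StPairsGlob.{u} := pairsGlob hS hTI

end Cfsg.Agent.H25.Tn
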