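import Mathlib
import Cfsg.Agent.H25.A4Rec
import Cfsg.Agent.H25.DQ
import Cfsg.Agent.H25.DihSub
import Cfsg.Agent.S3116

/-!
# helper25: groups with a normal Sylow 2-subgroup and cyclic quotient

If the Sylow 2-subgroup `S` is cyclic, or dihedral with self-centralizing four-subgroups, such a
group is cyclic, a dihedral 2-group, or `A₄`.
-/

set_option autoImplicit false

namespace Cfsg.Agent.H25

theorem commute_of_sq_odd {G : Type*} [Group G] {g t : G} (hgo : (orderOf g).Coprime 2)
    (ht : Commute (g ^ 2) t) : Commute g t := by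
  obtain ⟨k, hk⟩ : ∃ k, orderOf g + 1 = 2 * k := by
    have h1 : orderOf g % 2 = 1 := by
      rcases Nat.mod_two_eq_zero_or_one (orderOf g) with h | h
      · exfalso
        have h2 : 2 ∣ orderOf g := Nat.dvd_of_mod_eq_zero h
        have := Nat.Coprime.eq_one_of_dvd hgo.symm h2
        omega
      · exact h
    exact ⟨(orderOf g + 1) / 2, by omega⟩
  have h3 : g = (g ^ 2) ^ k := by
    rw [← pow_mul, ← hk, pow_succ, pow_orderOf_eq_one, one_mul]
  rw [h3]
  exact ht.pow_left k

theorem exists_conj_into_sylow {G : Type*} [Group G] [Finite G] (P : Sylow 2 G) (T : Subgroup G)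
    (hT : IsPGroup 2 T) : ∃ g : G, ∀ t ∈ T, g * t * g⁻¹ ∈ (P : Subgroup G) := by
  have : Fact (Nat.Prime 2) := ⟨Nat.prime_two⟩
  obtain ⟨Q, hQ⟩ := hT.exists_le_sylow
  obtain ⟨g, hg⟩ := MulAction.exists_smul_eq G Q P
  refine ⟨g, fun t ht => ?_⟩
  rw [← hg, Sylow.coe_subgroup_smul]
  exact Subgroup.smul_mem_pointwise_smul t (MulAut.conj g) (Q : Subgroup G) (hQ ht)

/-- With a normal Sylow 2-subgroup `S` and `H ⧸ S` cyclic, `H = S ⟨x⟩` with `x` of odd order. -/
theorem exists_odd_generator {H : Type*} [Group H] [Finite H] (S : Sylow 2 H)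
    [hSn : (S : Subgroup H).Normal] (hcyc : IsCyclic (H ⧸ (S : Subgroup H))) :
    ∃ x : H, (orderOf x).Coprime 2 ∧ ∀ h : H, ∃ i : ℤ, h * (x ^ i)⁻¹ ∈ (S : Subgroup H) := by
  have : Fact (Nat.Prime 2) := ⟨Nat.prime_two⟩
  obtain ⟨g, hg⟩ := hcyc.exists_generator
  obtain ⟨x₀, rfl⟩ := QuotientGroup.mk_surjective g
  obtain ⟨k, hk⟩ := IsPGroup.iff_card.mp S.isPGroup'
  have hm2 : ¬ 2 ∣ (S : Subgroup H).index := S.not_dvd_index
  obtain ⟨m, hm⟩ : ∃ m, m = (S : Subgroup H).index := ⟨_, rfl⟩
  rw [← hm] at hm2
  have hcop : Nat.Coprime m 2 := ((Nat.Prime.coprime_iff_not_dvd Nat.prime_two).mpr hm2).symm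
  have hcm : Nat.card H = 2 ^ k * m := by
    rw [← hk, hm]; exact ((S : Subgroup H).card_mul_index).symm
  refine ⟨x₀ ^ 2 ^ k, ?_, ?_⟩
  · have h1 : (x₀ ^ 2 ^ k) ^ m = 1 := by rw [← pow_mul, ← hcm]; exact pow_card_eq_one'
    exact Nat.Coprime.coprime_dvd_left (orderOf_dvd_of_pow_eq_one h1) hcop
  · intro h
    have ho : orderOf (QuotientGroup.mk x₀ : H ⧸ (S : Subgroup H)) ∣ m := by
      rw [hm]; exact orderOf_dvd_natCard _
    have hcop2 : Nat.Coprime (orderOf (QuotientGroup.mk x₀ : H ⧸ (S : Subgroup H))) (2 ^ k) :=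
      (Nat.Coprime.coprime_dvd_left ho hcop).pow_right k
    obtain ⟨a, ha⟩ : ∃ a : ℤ, (QuotientGroup.mk x₀ : H ⧸ (S : Subgroup H)) ^ (((2 ^ k : ℕ) : ℤ) * a)
        = QuotientGroup.mk x₀ := by
      obtain ⟨q, hq⟩ : ∃ q : H ⧸ (S : Subgroup H), q = QuotientGroup.mk x₀ := ⟨_, rfl⟩
      rw [← hq] at hcop2 ⊢
      have hb := Int.gcd_eq_gcd_ab (orderOf q) (2 ^ k : ℕ)
      rw [Int.gcd_natCast_natCast, hcop2.gcd_eq_one] at hb
      refine ⟨Int.gcdB (orderOf q) (2 ^ k : ℕ), ?_⟩
      have e1 : q ^ ((orderOf q : ℤ) * Int.gcdA (orderOf q) (2 ^ k : ℕ)) = 1 := by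
        rw [zpow_mul, zpow_natCast, pow_orderOf_eq_one, one_zpow]
      calc q ^ (((2 ^ k : ℕ) : ℤ) * Int.gcdB (orderOf q) (2 ^ k : ℕ))
          = q ^ ((orderOf q : ℤ) * Int.gcdA (orderOf q) (2 ^ k : ℕ))
              * q ^ (((2 ^ k : ℕ) : ℤ) * Int.gcdB (orderOf q) (2 ^ k : ℕ)) := by
            rw [e1, one_mul]
        _ = q ^ ((orderOf q : ℤ) * Int.gcdA (orderOf q) (2 ^ k : ℕ)
              + ((2 ^ k : ℕ) : ℤ) * Int.gcdB (orderOf q) (2 ^ k : ℕ)) := (zpow_add _ _ _).symm
        _ = q ^ ((1 : ℕ) : ℤ) := by rw [← hb]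
        _ = q := by simp
    obtain ⟨j, hj⟩ := Subgroup.mem_zpowers_iff.mp (hg (QuotientGroup.mk h))
    refine ⟨a * j, ?_⟩
    have h2 : (QuotientGroup.mk ((x₀ ^ 2 ^ k) ^ (a * j)) : H ⧸ (S : Subgroup H))
        = QuotientGroup.mk h := by
      rw [QuotientGroup.mk_zpow, QuotientGroup.mk_pow, ← zpow_natCast, ← zpow_mul, ← mul_assoc,
        zpow_mul, ha, hj]
    have h3 : ((x₀ ^ 2 ^ k) ^ (a * j))⁻¹ * h ∈ (S : Subgroup H) := QuotientGroup.eq.mp h2
    have h4 := hSn.conj_mem _ h3 ((x₀ ^ 2 ^ k) ^ (a * j))
    have h5 : (x₀ ^ 2 ^ k) ^ (a * j) * (((x₀ ^ 2 ^ k) ^ (a * j))⁻¹ * h) * ((x₀ ^ 2 ^ k) ^ (a * j))⁻¹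
        = h * ((x₀ ^ 2 ^ k) ^ (a * j))⁻¹ := by group
    rw [h5] at h4
    exact h4

theorem dih2_cases : ∀ d : DihedralGroup 2, d = 1 ∨ d = DihedralGroup.r 1 ∨
    d = DihedralGroup.sr 0 ∨ d = DihedralGroup.r 1 * DihedralGroup.sr 0 := by decide

theorem dih2_comm : ∀ a b : DihedralGroup 2, a * b = b * a := by decide

theorem dih2_sq : ∀ a : DihedralGroup 2, a ^ 2 = 1 := by decide

theorem dih2_r_ne : (DihedralGroup.r 1 : DihedralGroup 2) ≠ 1 := by decide

/-- A finite group with normal Sylow 2-subgroup `S` and cyclic quotient is cyclic, a dihedral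
2-group or `A₄`, provided `S` is cyclic, or dihedral with self-centralizing four-subgroups. -/
theorem two_by_cyclic {H : Type*} [Group H] [Finite H] (S : Sylow 2 H)
    [hSn : (S : Subgroup H).Normal] (hcyc : IsCyclic (H ⧸ (S : Subgroup H)))
    (hS : IsCyclic (S : Subgroup H) ∨
      ((∃ k : ℕ, 1 ≤ k ∧ Nonempty ((S : Subgroup H) ≃* DihedralGroup (2 ^ k))) ∧
        ∀ K : Subgroup H, K ≤ S → Nat.card K = 4 → (∀ a ∈ K, a ^ 2 = 1) →
          ∀ h : H, (∀ a ∈ K, h * a = a * h) → h ∈ K)) :
    IsCyclic H ∨ (∃ n : ℕ, Nonempty (H ≃* DihedralGroup (2 ^ n))) ∨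
      Nonempty (H ≃* alternatingGroup (Fin 4)) := by
  have : Fact (Nat.Prime 2) := ⟨Nat.prime_two⟩
  obtain ⟨x, hxo, hgen⟩ := exists_odd_generator S hcyc
  obtain ⟨kS, hkS⟩ := IsPGroup.iff_card.mp S.isPGroup'
  have h2odd : ∀ y : H, y ∈ (S : Subgroup H) → (orderOf y).Coprime 2 → y = 1 := by
    intro y hy ho
    have h1 : y ^ 2 ^ kS = 1 := by
      have h5 : (⟨y, hy⟩ : (S : Subgroup H)) ^ Nat.card (S : Subgroup H) = 1 := pow_card_eq_one'
      rw [hkS] at h5
      have := congrArg Subtype.val h5
      simpa using this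
    have d1 := orderOf_dvd_of_pow_eq_one h1
    have := Nat.Coprime.eq_one_of_dvd (ho.pow_right kS) d1
    exact orderOf_eq_one_iff.mp this
  have hxpow : ∀ j : ℕ, (orderOf (x ^ j)).Coprime 2 :=
    fun j => Nat.Coprime.coprime_dvd_left (orderOf_pow_dvd j) hxo
  by_cases hcent : ∀ s ∈ (S : Subgroup H), x * s = s * x
  · rcases hS with hSc | ⟨⟨k, hk, ⟨e⟩⟩, h3⟩
    · left
      obtain ⟨s₀, hs₀⟩ := hSc.exists_generator
      have hos : orderOf (s₀ : H) = Nat.card (S : Subgroup H) := by
        rw [Subgroup.orderOf_coe]; exact orderOf_eq_card_of_forall_mem_zpowers hs₀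
      have hcomm : Commute (s₀ : H) x := (hcent s₀ s₀.2).symm
      have hcop : (orderOf (s₀ : H)).Coprime (orderOf x) := by
        rw [hos, hkS]; exact (hxo.pow_right kS).symm
      have hord := hcomm.orderOf_mul_eq_mul_orderOf_of_coprime hcop
      have hle : Nat.card H ≤ Nat.card (S : Subgroup H) * orderOf x := by
        have hsurj : Function.Surjective
            (fun p : ↥(S : Subgroup H) × ↥(Subgroup.zpowers x) => (p.1 : H) * (p.2 : H)) := by
          intro h
          obtain ⟨i, hi⟩ := hgen h
          refine ⟨(⟨h * (x ^ i)⁻¹, hi⟩, ⟨x ^ i, Subgroup.zpow_mem_zpowers x i⟩), ?_⟩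
          simp
        have := Nat.card_le_card_of_surjective _ hsurj
        rw [Nat.card_prod, Nat.card_zpowers] at this
        exact this
      apply isCyclic_of_orderOf_eq_card ((s₀ : H) * x)
      apply le_antisymm (Nat.le_of_dvd Nat.card_pos (orderOf_dvd_natCard _))
      rw [hord, hos]; exact hle
    · right; left
      obtain ⟨K, hKS, hK4, hK2⟩ := exists_four_of_dihedral hk (S : Subgroup H) e
      have hxK := h3 K hKS hK4 hK2 x (fun a ha => hcent a (hKS ha))
      have hx1 : x = 1 := h2odd x (hKS hxK) hxo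
      have htop : (S : Subgroup H) = ⊤ := by
        rw [Subgroup.eq_top_iff']
        intro h
        obtain ⟨i, hi⟩ := hgen h
        rw [hx1, one_zpow, inv_one, mul_one] at hi
        exact hi
      exact ⟨k, ⟨(Subgroup.topEquiv.symm.trans (MulEquiv.subgroupCongr htop.symm)).trans e⟩⟩
  · have hA : ¬ IsPGroup 2 (MulAut (S : Subgroup H)) := by
      intro hP
      obtain ⟨j, hj⟩ := hP (MulAut.conjNormal x)
      have h1 : (MulAut.conjNormal x : MulAut (S : Subgroup H)) ^ orderOf x = 1 := by
        rw [← map_pow, pow_orderOf_eq_one, map_one]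
      have d1 : orderOf (MulAut.conjNormal x : MulAut (S : Subgroup H)) ∣ 2 ^ j :=
        orderOf_dvd_of_pow_eq_one hj
      have d2 : orderOf (MulAut.conjNormal x : MulAut (S : Subgroup H)) ∣ orderOf x :=
        orderOf_dvd_of_pow_eq_one h1
      have h2 := Nat.Coprime.eq_one_of_dvd (Nat.Coprime.coprime_dvd_left d2 (hxo.pow_right j)) d1
      have h3 : (MulAut.conjNormal x : MulAut (S : Subgroup H)) = 1 := orderOf_eq_one_iff.mp h2
      apply hcent
      intro s hs
      have h4 : x * s * x⁻¹ = s := by
        have := MulAut.conjNormal_apply (H := (S : Subgroup H)) x ⟨s, hs⟩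
        rw [h3] at this
        exact this.symm
      calc x * s = (x * s * x⁻¹) * x := by group
        _ = s * x := by rw [h4]
    rcases hS with hSc | ⟨⟨k, hk, ⟨e⟩⟩, h3⟩
    · exfalso; exact hA (isPGroup_mulAut_of_cyclic kS hkS)
    · by_cases hk2 : 2 ≤ k
      · exfalso
        apply hA
        apply Cfsg.Agent.S3116.result S.isPGroup'
        left
        refine ⟨2 ^ k, ?_, ⟨e⟩⟩
        calc 4 = 2 ^ 2 := by norm_num
          _ ≤ 2 ^ k := Nat.pow_le_pow_right (by norm_num) hk2
      · have hk1 : k = 1 := by omega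
        subst hk1
        right; right
        have e' : (S : Subgroup H) ≃* DihedralGroup 2 := e
        obtain ⟨φ, hφ⟩ : ∃ φ : DihedralGroup 2 →* H,
            φ = (S : Subgroup H).subtype.comp e'.symm.toMonoidHom := ⟨_, rfl⟩
        have hφinj : Function.Injective φ := by
          rw [hφ]; exact (Subgroup.subtype_injective _).comp e'.symm.injective
        have hφS : ∀ d, φ d ∈ (S : Subgroup H) := by
          intro d; rw [hφ]; exact (e'.symm d).2
        have hφsurj : ∀ s ∈ (S : Subgroup H), ∃ d, φ d = s := by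
          intro s hs
          refine ⟨e' ⟨s, hs⟩, ?_⟩
          rw [hφ]; simp
        obtain ⟨u, hu⟩ : ∃ u : H, u = φ (DihedralGroup.r 1) := ⟨_, rfl⟩
        obtain ⟨w, hw⟩ : ∃ w : H, w = φ (DihedralGroup.sr 0) := ⟨_, rfl⟩
        have huS : u ∈ (S : Subgroup H) := hu ▸ hφS _
        have hwS : w ∈ (S : Subgroup H) := hw ▸ hφS _
        have hall : ∀ s ∈ (S : Subgroup H), s = 1 ∨ s = u ∨ s = w ∨ s = u * w := by
          intro s hs
          obtain ⟨d, rfl⟩ := hφsurj s hs
          rcases dih2_cases d with h | h | h | h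
          · left; rw [h, map_one]
          · right; left; rw [h, hu]
          · right; right; left; rw [h, hw]
          · right; right; right; rw [h, map_mul, hu, hw]
        have hSsq : ∀ s ∈ (S : Subgroup H), s ^ 2 = 1 := by
          intro s hs
          obtain ⟨d, rfl⟩ := hφsurj s hs
          rw [← map_pow, dih2_sq, map_one]
        have hScomm : ∀ s ∈ (S : Subgroup H), ∀ t ∈ (S : Subgroup H), s * t = t * s := by
          intro s hs t ht
          obtain ⟨d, rfl⟩ := hφsurj s hs
          obtain ⟨d', rfl⟩ := hφsurj t ht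
          rw [← map_mul, ← map_mul, dih2_comm]
        have hu1 : u ≠ 1 := by
          rw [hu]
          intro h
          apply dih2_r_ne
          apply hφinj
          rw [h, map_one]
        have hu2 : u ^ 2 = 1 := hSsq u huS
        have hSinv : ∀ s ∈ (S : Subgroup H), s⁻¹ = s := by
          intro s hs
          apply inv_eq_of_mul_eq_one_right
          rw [← pow_two]; exact hSsq s hs
        have hconjS : ∀ s ∈ (S : Subgroup H), x * s * x⁻¹ ∈ (S : Subgroup H) :=
          fun s hs => hSn.conj_mem s hs x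
        have hcomm_of : ∀ t : H, x * t * x⁻¹ = t → Commute x t := by
          intro t ht
          unfold Commute SemiconjBy
          calc x * t = (x * t * x⁻¹) * x := by group
            _ = t * x := by rw [ht]
        have hfix_of : ∀ t : H, Commute x t → x * t * x⁻¹ = t := by
          intro t ht
          rw [ht.eq]; group
        have hsq_fix : ∀ t : H, x * (x * t * x⁻¹) * x⁻¹ = t → x * t * x⁻¹ = t := by
          intro t ht
          apply hfix_of
          apply commute_of_sq_odd hxo
          unfold Commute SemiconjBy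
          calc x ^ 2 * t = (x * (x * t * x⁻¹) * x⁻¹) * x ^ 2 := by rw [pow_two]; group
            _ = t * x ^ 2 := by rw [ht]
        -- `x` does not fix `u`
        have h1 : x * u * x⁻¹ ≠ u := by
          intro hfix
          apply hcent
          have hcu : Commute x u := hcomm_of u hfix
          have hcw : Commute x w := by
            apply hcomm_of
            rcases hall _ (hconjS w hwS) with h | h | h | h
            · have : w = x⁻¹ * (x * w * x⁻¹) * x := by group
              rw [this, h]; group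
            · exfalso
              have h' : x * w * x⁻¹ = x * u * x⁻¹ := by rw [h, hfix]
              have hwu : w = u := by
                have e1 : w = x⁻¹ * (x * w * x⁻¹) * x := by group
                rw [e1, h']; group
              rw [hwu, hu] at hw
              have := hφinj hw
              cases this
            · exact h
            · apply hsq_fix
              rw [h]
              calc x * (u * w) * x⁻¹ = (x * u * x⁻¹) * (x * w * x⁻¹) := by group
                _ = u * (u * w) := by rw [hfix, h]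
                _ = w := by rw [← mul_assoc, ← pow_two, hu2, one_mul]
          intro s hs
          rcases hall s hs with h | h | h | h
          · rw [h, mul_one, one_mul]
          · rw [h]; exact hcu.eq
          · rw [h]; exact hcw.eq
          · rw [h]; exact (hcu.mul_right hcw).eq
        obtain ⟨v, hv⟩ : ∃ v, v = x * u * x⁻¹ := ⟨_, rfl⟩
        have hvS : v ∈ (S : Subgroup H) := hv ▸ hconjS u huS
        have hv1 : v ≠ 1 := by
          intro h
          apply hu1
          have : u = x⁻¹ * (x * u * x⁻¹) * x := by group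
          rw [this, ← hv, h]; group
        have hvu : v ≠ u := hv ▸ h1
        have hv2 : v ^ 2 = 1 := hSsq v hvS
        have huv : u * v = v * u := hScomm u huS v hvS
        have hall' : ∀ s ∈ (S : Subgroup H), s = 1 ∨ s = u ∨ s = v ∨ s = u * v := by
          rcases hall v hvS with h | h | h | h
          · exact absurd h hv1
          · exact absurd h hvu
          · rw [h]; exact hall
          · have hw' : w = u * v := by rw [h, ← mul_assoc, ← pow_two, hu2, one_mul]
            intro s hs
            rcases hall s hs with h' | h' | h' | h'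
            · exact Or.inl h'
            · exact Or.inr (Or.inl h')
            · right; right; right; rw [h', hw']
            · right; right; left; rw [h', h]
        have hxv : x * v * x⁻¹ = u * v := by
          rcases hall' _ (hconjS v hvS) with h | h | h | h
          · exfalso
            apply hv1
            have : v = x⁻¹ * (x * v * x⁻¹) * x := by group
            rw [this, h]; group
          · exfalso
            apply h1
            apply hsq_fix
            rw [← hv, h]
          · exfalso
            apply h1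
            have h' : x * (x * u * x⁻¹) * x⁻¹ = x * u * x⁻¹ := by rw [← hv, h]
            have e1 : x * u * x⁻¹ = x⁻¹ * (x * (x * u * x⁻¹) * x⁻¹) * x := by group
            rw [e1, h']; group
          · exact h
        have hx3 : x ^ 3 = 1 := by
          have h3u : x ^ 3 * u * (x ^ 3)⁻¹ = u := by
            calc x ^ 3 * u * (x ^ 3)⁻¹ = x * (x * (x * u * x⁻¹) * x⁻¹) * x⁻¹ := by
                  rw [pow_succ, pow_succ, pow_one]; group
              _ = x * (u * v) * x⁻¹ := by rw [← hv, hxv]
              _ = (x * u * x⁻¹) * (x * v * x⁻¹) := by group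
              _ = v * (u * v) := by rw [← hv, hxv]
              _ = u := by rw [huv, ← mul_assoc, ← pow_two, hv2, one_mul]
          have h3v : x ^ 3 * v * (x ^ 3)⁻¹ = v := by
            calc x ^ 3 * v * (x ^ 3)⁻¹ = x * (x ^ 3 * u * (x ^ 3)⁻¹) * x⁻¹ := by
                  rw [hv, pow_succ, pow_succ, pow_one]; group
              _ = v := by rw [h3u, hv]
          have hc3u : x ^ 3 * u = u * x ^ 3 := by
            calc x ^ 3 * u = (x ^ 3 * u * (x ^ 3)⁻¹) * x ^ 3 := by group
              _ = u * x ^ 3 := by rw [h3u]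
          have hc3v : x ^ 3 * v = v * x ^ 3 := by
            calc x ^ 3 * v = (x ^ 3 * v * (x ^ 3)⁻¹) * x ^ 3 := by group
              _ = v * x ^ 3 := by rw [h3v]
          have hc4 : Nat.card (S : Subgroup H) = 4 := by
            rw [Nat.card_congr e'.toEquiv, DihedralGroup.nat_card]
          have hK := h3 (S : Subgroup H) le_rfl hc4 hSsq (x ^ 3) (by
            intro a ha
            rcases hall' a ha with h | h | h | h
            · rw [h, mul_one, one_mul]
            · rw [h]; exact hc3u
            · rw [h]; exact hc3v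
            · rw [h, ← mul_assoc, hc3u, mul_assoc, hc3v, mul_assoc])
          exact h2odd _ hK (hxpow 3)
        have hcard : Nat.card H = 12 := by
          have hc4 : Nat.card (S : Subgroup H) = 4 := by
            rw [Nat.card_congr e'.toEquiv, DihedralGroup.nat_card]
          have hxS : x ∉ (S : Subgroup H) := by
            intro hxS
            have hx1 := h2odd x hxS hxo
            apply hcent
            intro s _
            rw [hx1, one_mul, mul_one]
          have hq3 : (QuotientGroup.mk x : H ⧸ (S : Subgroup H)) ^ 3 = 1 := by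
            rw [← QuotientGroup.mk_pow, hx3]; rfl
          have hq1 : (QuotientGroup.mk x : H ⧸ (S : Subgroup H)) ≠ 1 := by
            intro h
            exact hxS ((QuotientGroup.eq_one_iff x).mp h)
          have hoq : orderOf (QuotientGroup.mk x : H ⧸ (S : Subgroup H)) = 3 := by
            have : Fact (Nat.Prime 3) := ⟨Nat.prime_three⟩
            exact orderOf_eq_prime hq3 hq1
          have hgenq : ∀ y : H ⧸ (S : Subgroup H), y ∈ Subgroup.zpowers
              (QuotientGroup.mk x : H ⧸ (S : Subgroup H)) := by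
            intro y
            obtain ⟨h, rfl⟩ := QuotientGroup.mk_surjective y
            obtain ⟨i, hi⟩ := hgen h
            rw [Subgroup.mem_zpowers_iff]
            refine ⟨i, ?_⟩
            rw [← QuotientGroup.mk_zpow, QuotientGroup.eq]
            have h4 := hSn.conj_mem _ hi (x ^ i)⁻¹
            have h5 : (x ^ i)⁻¹ * (h * (x ^ i)⁻¹) * (x ^ i)⁻¹⁻¹ = (x ^ i)⁻¹ * h := by group
            rw [h5] at h4
            exact h4
          have hidx : (S : Subgroup H).index = 3 := by
            rw [Subgroup.index, ← orderOf_eq_card_of_forall_mem_zpowers hgenq, hoq]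
          rw [← (S : Subgroup H).card_mul_index, hc4, hidx]
        exact a4_of_four_three hcard u v x hu2 hu1 hv.symm hxv hx3

end Cfsg.Agent.H25
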