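import Cfsg.Agent.H67.UmDefs
import Cfsg.Agent.H45.SingerU
import Cfsg.Agent.H17.GUBlock

/-!
# UM-SSE (piece of S2263): a unitary matrix of even size `n` and order divisible by `q ^ n - 1`
-/

set_option autoImplicit false
open Matrix Polynomial

namespace Cfsg.Agent.H25.Um

universe u

/-- UM-SSE. -/
theorem sse : Cfsg.Agent.H67.Um.StSSe.{u} := by
  intro F _ _ q n hF hn hev
  classical
  obtain ⟨e, he⟩ := hev
  have he1 : 1 ≤ e := by omega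
  obtain ⟨p, hp⟩ := CharP.exists F
  have hpp : p.Prime := CharP.char_is_prime F p
  have hfp : Fact p.Prime := ⟨hpp⟩
  obtain ⟨σ, hσdef⟩ : ∃ σ : F →+* F, σ = Cfsg.Agent.H17.frobHom hF := ⟨_, rfl⟩
  have hσq : ∀ x, σ x = x ^ q := by intro x; rw [hσdef]; rfl
  have hσ : ∀ a, σ (σ a) = a := by
    intro a; rw [hσdef]; exact Cfsg.Agent.H17.frobHom_invol hF a
  have hσne : σ ≠ RingHom.id F := by rw [hσdef]; exact Cfsg.Agent.H17.frobHom_ne_id hF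
  obtain ⟨h, hhm, hhirr, hhdeg, hh0, hsing⟩ :=
    Cfsg.Agent.H45.exists_singer_poly' (F := F) e he1
  obtain ⟨c, hc⟩ : ∃ c : F, c = σ (h.coeff 0) := ⟨_, rfl⟩
  have hc0 : c ≠ 0 := by rw [hc]; exact (map_ne_zero σ).mpr hh0
  obtain ⟨g, hg⟩ : ∃ g : F[X], g = C c⁻¹ * Cfsg.Agent.H45.dualPoly σ h := ⟨_, rfl⟩
  have hdd : (Cfsg.Agent.H45.dualPoly σ h).natDegree = e := by
    rw [Cfsg.Agent.H45.dualPoly_natDegree σ h hh0, hhdeg]
  have hdl : (Cfsg.Agent.H45.dualPoly σ h).leadingCoeff = c := by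
    rw [Cfsg.Agent.H45.dualPoly_leadingCoeff σ h hh0, hc]
  have hd0 : (Cfsg.Agent.H45.dualPoly σ h).coeff 0 = 1 := by
    rw [Cfsg.Agent.H45.dualPoly_coeff_zero, hhm.leadingCoeff, map_one]
  have hgm : g.Monic := by
    rw [hg, Monic, leadingCoeff_mul, leadingCoeff_C, hdl, inv_mul_cancel₀ hc0]
  have hgdeg : g.natDegree = e := by
    rw [hg, natDegree_C_mul (inv_ne_zero hc0), hdd]
  have hg0 : g.coeff 0 = c⁻¹ := by rw [hg, coeff_C_mul, hd0, mul_one]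
  obtain ⟨P, hP⟩ : ∃ P : F[X], P = h * g := ⟨_, rfl⟩
  have hPm : P.Monic := by rw [hP]; exact hhm.mul hgm
  have hPdeg : P.natDegree = n := by rw [hP, hhm.natDegree_mul hgm, hhdeg, hgdeg, he]
  have hP0 : P.coeff 0 ≠ 0 := by
    rw [hP, mul_coeff_zero, hg0]; exact mul_ne_zero hh0 (inv_ne_zero hc0)
  have hPd : Cfsg.Agent.H45.dualPoly σ P = C (σ c⁻¹ * c) * P := by
    rw [hP, Cfsg.Agent.H45.dualPoly_mul, hg, Cfsg.Agent.H45.dualPoly_mul,
      Cfsg.Agent.H45.dualPoly_C, Cfsg.Agent.H45.dualPoly_dualPoly hσ h hh0, C_mul]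
    have h1 : (C c * C c⁻¹ : F[X]) = 1 := by rw [← C_mul, mul_inv_cancel₀ hc0, C_1]
    calc Cfsg.Agent.H45.dualPoly σ h * (C (σ c⁻¹) * h)
        = C (σ c⁻¹) * (C c * C c⁻¹) * (h * Cfsg.Agent.H45.dualPoly σ h) := by rw [h1]; ring
      _ = C (σ c⁻¹) * C c * (h * (C c⁻¹ * Cfsg.Agent.H45.dualPoly σ h)) := by ring
  have hassoc : Associated P (Cfsg.Agent.H45.dualPoly σ P) :=
    Cfsg.Agent.H45.associated_dualPoly_of_eq σ P (σ c⁻¹ * c)
      (mul_ne_zero ((map_ne_zero σ).mpr (inv_ne_zero hc0)) hc0) hPd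
  have hreal := Cfsg.Agent.H45.exists_realizable (σ := σ) p hσ 1 (by rw [map_one, mul_one])
    (fun h => absurd h hσne) n P hPdeg hPm hP0 hassoc (fun h => absurd h hσne)
  obtain ⟨A, hApres, hA, k, hk, hAk⟩ :=
    Cfsg.Agent.H45.exists_su_of_realizable hF σ hσq p n P hreal hPdeg
  refine ⟨A, hApres, ?_⟩
  intro N hN
  have h1 := hsing (Fin n) A N (by rw [hA, hP]; exact dvd_mul_right h g) hN
  have e2 : Fintype.card F ^ e = q ^ n := by
    rw [hF, ← pow_mul, he]; congr 1; ring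
  rw [e2] at h1
  exact h1

example : ∀ (F : Type u) [Field F] [Fintype F] (q n : ℕ), Fintype.card F = q ^ 2 → 1 ≤ n →
    Even n →
    ∃ Z : Matrix (Fin n) (Fin n) F, Cfsg.Agent.H67.Um.IsU n q Z ∧
      ∀ N : ℕ, Z ^ N = 1 → q ^ n - 1 ∣ N := sse

end Cfsg.Agent.H25.Um
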