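import Cfsg.Agent.H67.UmDefs
import Cfsg.Agent.H45.SingerU
import Cfsg.Agent.H45.CycFactor
import Cfsg.Agent.H17.GUBlock

/-!
# UM-SSO (piece of S2263): a unitary matrix of odd size `n` and order divisible by `q ^ n + 1`
-/

set_option autoImplicit false
open Matrix Polynomial

namespace Cfsg.Agent.H25.Um

universe u

/-- An irreducible polynomial over the field with `q²` elements dividing `X^(q^n+1) - 1`, `n`
odd, is `σ`-self-dual (the converse of `Cfsg.Agent.H45.usd_dvd`). -/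
theorem usd_of_dvd {F : Type u} [Field F] [Fintype F] {q : ℕ} (hF : Fintype.card F = q ^ 2)
    (σ : F →+* F) (hσq : ∀ x, σ x = x ^ q) (h : F[X]) (hh : Irreducible h)
    (hh0 : h.coeff 0 ≠ 0) (n : ℕ) (hn : Odd n) (hdiv : h ∣ X ^ (q ^ n + 1) - 1) :
    h ∣ Cfsg.Agent.H45.dualPoly σ h := by
  classical
  have hfact : Fact (Irreducible h) := ⟨hh⟩
  obtain ⟨p, k, hp, hc, hqk⟩ := Cfsg.Agent.H7.exists_char_pow hF
  have hpfact : Fact p.Prime := ⟨hp⟩
  have hcK : CharP (AdjoinRoot h) p :=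
    charP_of_injective_algebraMap (algebraMap F (AdjoinRoot h)).injective p
  have hexp : ExpChar (AdjoinRoot h) p := ExpChar.prime hp
  obtain ⟨ψ, hψ⟩ : ∃ ψ : AdjoinRoot h →+* AdjoinRoot h, ∀ x, ψ x = x ^ (q ^ n) :=
    ⟨iterateFrobenius (AdjoinRoot h) p (k * n), fun x => by
      rw [iterateFrobenius_def, hqk, pow_mul]⟩
  obtain ⟨α, hα⟩ : ∃ α : AdjoinRoot h, α = AdjoinRoot.root h := ⟨_, rfl⟩
  have hvan : ∀ g : F[X], h ∣ g → aeval α g = 0 := by
    intro g hg
    rw [hα, AdjoinRoot.aeval_eq, AdjoinRoot.mk_eq_zero]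
    exact hg
  have hα0 : α ≠ 0 := by
    intro h0
    have h1 := hvan h dvd_rfl
    rw [h0, ← coeff_zero_eq_aeval_zero', map_eq_zero] at h1
    exact hh0 h1
  have hαN : α ^ (q ^ n + 1) = 1 := by
    have h1 := hvan _ hdiv
    rw [map_sub, map_pow, aeval_X, map_one, sub_eq_zero] at h1
    exact h1
  have hψα : ψ α = α⁻¹ := by
    rw [hψ]
    apply eq_inv_of_mul_eq_one_left
    rw [← pow_succ]; exact hαN
  have hψF : ψ.comp (algebraMap F (AdjoinRoot h)) = (algebraMap F (AdjoinRoot h)).comp σ := by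
    ext x
    rw [RingHom.comp_apply, RingHom.comp_apply, hψ, ← map_pow, hσq]
    congr 1
    obtain ⟨m, rfl⟩ := hn
    have h2 : ∀ m : ℕ, x ^ (q ^ (2 * m)) = x := by
      intro m
      induction m with
      | zero => simp
      | succ m ih =>
        have e : q ^ (2 * (m + 1)) = q ^ (2 * m) * q ^ 2 := by ring
        rw [e, pow_mul, ih, ← hF, FiniteField.pow_card]
    rw [pow_succ, pow_mul, h2]
  have h1 : eval₂ (algebraMap F (AdjoinRoot h)) α h = 0 := hvan h dvd_rfl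
  have h5 := congrArg ψ h1
  rw [hom_eval₂, map_zero, hψF, hψα] at h5
  have h4 : eval₂ (algebraMap F (AdjoinRoot h)) α⁻¹ (h.map σ) = 0 := by
    rw [eval₂_map]; exact h5
  let inst : Invertible α⁻¹ := ⟨α, mul_inv_cancel₀ hα0, inv_mul_cancel₀ hα0⟩
  have h2 : eval₂ (algebraMap F (AdjoinRoot h)) α (h.map σ).reverse = 0 :=
    (eval₂_reverse_eq_zero_iff (algebraMap F (AdjoinRoot h)) α⁻¹ (h.map σ)).mpr h4
  rw [← AdjoinRoot.mk_eq_zero, ← AdjoinRoot.aeval_eq, ← hα,
    Cfsg.Agent.H45.dualPoly_eq_reverse]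
  exact h2

/-- UM-SSO. -/
theorem sso : Cfsg.Agent.H67.Um.StSSo.{u} := by
  intro F _ _ q n hF hodd
  classical
  have hq2 : 2 ≤ q := Cfsg.Agent.H7.two_le_of_card_sq hF
  have hn1 : 1 ≤ n := by obtain ⟨m, rfl⟩ := hodd; omega
  obtain ⟨p, hp⟩ := CharP.exists F
  have hpp : p.Prime := CharP.char_is_prime F p
  have hfp : Fact p.Prime := ⟨hpp⟩
  obtain ⟨σ, hσdef⟩ : ∃ σ : F →+* F, σ = Cfsg.Agent.H17.frobHom hF := ⟨_, rfl⟩
  have hσq : ∀ x, σ x = x ^ q := by intro x; rw [hσdef]; rfl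
  have hσ : ∀ a, σ (σ a) = a := by
    intro a; rw [hσdef]; exact Cfsg.Agent.H17.frobHom_invol hF a
  have hσne : σ ≠ RingHom.id F := by rw [hσdef]; exact Cfsg.Agent.H17.frobHom_ne_id hF
  obtain ⟨N, hN⟩ : ∃ N : ℕ, N = q ^ n + 1 := ⟨_, rfl⟩
  have hqn : 2 ≤ q ^ n := by
    calc 2 ≤ q := hq2
      _ = q ^ 1 := (pow_one q).symm
      _ ≤ q ^ n := Nat.pow_le_pow_right (by omega) hn1
  have hN1 : 1 ≤ N := by rw [hN]; omega
  have hqF : ((q : ℕ) : F) = 0 := by
    have h1 : ((q : ℕ) : F) ^ 2 = 0 := by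
      rw [← Nat.cast_pow, ← hF, Nat.cast_card_eq_zero]
    exact (pow_eq_zero_iff (by norm_num)).mp h1
  have hNF : ((N : ℕ) : F) ≠ 0 := by
    rw [hN, Nat.cast_add, Nat.cast_pow, hqF, zero_pow (by omega), zero_add, Nat.cast_one]
    exact one_ne_zero
  have hcyc : ¬ IsUnit (cyclotomic N F) := by
    intro h
    have h1 := natDegree_eq_zero_of_isUnit h
    rw [natDegree_cyclotomic] at h1
    exact (Nat.totient_pos.mpr (by omega)).ne' h1
  obtain ⟨h, hhm, hhirr, hhdvd⟩ := exists_monic_irreducible_factor (cyclotomic N F) hcyc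
  obtain ⟨hdeg, hh0, hA, -, -⟩ := Cfsg.Agent.H45.cyc_factor N hN1 hNF h hhirr hhm hhdvd
  have hord : orderOf ((Fintype.card F : ℕ) : ZMod N) = n := by
    rw [hF, orderOf_eq_iff (by omega)]
    refine ⟨?_, ?_⟩
    · rw [Cfsg.Agent.H45.natCast_pow_eq_one_iff _ _ _ (Nat.one_le_pow _ _ (by omega))]
      refine ⟨q ^ n - 1, ?_⟩
      have e : (q ^ 2) ^ n = q ^ n * q ^ n := by
        rw [← pow_mul, mul_comm, pow_mul, pow_two]
      rw [e, hN]
      obtain ⟨t, ht⟩ : ∃ t, q ^ n = t + 1 := ⟨q ^ n - 1, by omega⟩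
      rw [ht]
      have e2 : (t + 1) * (t + 1) - 1 = (t + 1 + 1) * (t + 1 - 1) := by
        rw [Nat.add_sub_cancel]
        have : (t + 1) * (t + 1) = (t + 1 + 1) * t + 1 := by ring
        rw [this, Nat.add_sub_cancel]
      exact e2
    · intro j hjn hj0 hcon
      rw [Cfsg.Agent.H45.natCast_pow_eq_one_iff _ _ _ (Nat.one_le_pow _ _ (by omega)), ← pow_mul] at hcon
      have hj2 : 2 ≤ q ^ (2 * j) := by
        calc 2 ≤ q := hq2
          _ = q ^ 1 := (pow_one q).symm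
          _ ≤ q ^ (2 * j) := Nat.pow_le_pow_right (by omega) (by omega)
      obtain ⟨m, hm⟩ := hodd
      rcases Nat.lt_or_ge (2 * j) n with hlt | hge
      · have h1 : q ^ (2 * j) < q ^ n := Nat.pow_lt_pow_right (by omega) hlt
        have h2 := Nat.le_of_dvd (by omega) hcon
        rw [hN] at h2
        omega
      · obtain ⟨r, hr⟩ : ∃ r, 2 * j = r + n := ⟨2 * j - n, by omega⟩
        have hr0 : 0 < r := by omega
        have hrn : r < n := by omega
        have e : q ^ (2 * j) - 1 + (q ^ r + 1) = q ^ r * N := by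
          rw [hr, pow_add, hN]
          have h3 : 1 ≤ q ^ r * q ^ n := Nat.one_le_iff_ne_zero.mpr (by positivity)
          have : q ^ r * (q ^ n + 1) = q ^ r * q ^ n + q ^ r := by ring
          rw [this]
          omega
        have h4 : N ∣ q ^ (2 * j) - 1 + (q ^ r + 1) := by rw [e]; exact dvd_mul_left N _
        have h5 : N ∣ q ^ r + 1 := (Nat.dvd_add_right hcon).mp h4
        have h6 := Nat.le_of_dvd (by omega) h5
        have h7 : q ^ r < q ^ n := Nat.pow_lt_pow_right (by omega) hrn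
        rw [hN] at h6
        omega
  have hhdeg : h.natDegree = n := by rw [hdeg, hord]
  have hhX : h ∣ X ^ (q ^ n + 1) - 1 := by
    rw [← hN]; exact hhdvd.trans (cyclotomic.dvd_X_pow_sub_one N F)
  have hsd := usd_of_dvd hF σ hσq h hhirr hh0 n hodd hhX
  have hassoc : Associated h (Cfsg.Agent.H45.dualPoly σ h) :=
    associated_of_dvd_of_natDegree_le hsd (Cfsg.Agent.H45.dualPoly_ne_zero σ h hh0)
      (by rw [Cfsg.Agent.H45.dualPoly_natDegree σ h hh0])
  have hreal := Cfsg.Agent.H45.exists_realizable (σ := σ) p hσ 1 (by rw [map_one, mul_one])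
    (fun h => absurd h hσne) n h hhdeg hhm hh0 hassoc (fun h => absurd h hσne)
  obtain ⟨A, hApres, hAc, k, hk, hAk⟩ :=
    Cfsg.Agent.H45.exists_su_of_realizable hF σ hσq p n h hreal hhdeg
  refine ⟨A, hApres, ?_⟩
  intro M hM
  have h1 := hA (Fin n) A M (by rw [hAc]) hM
  rw [hN] at h1
  exact h1

example : ∀ (F : Type u) [Field F] [Fintype F] (q n : ℕ), Fintype.card F = q ^ 2 → Odd n →
    ∃ Z : Matrix (Fin n) (Fin n) F, Cfsg.Agent.H67.Um.IsU n q Z ∧
      ∀ N : ℕ, Z ^ N = 1 → q ^ n + 1 ∣ N := sso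

end Cfsg.Agent.H25.Um
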