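import Mathlib
import Cfsg.Agent.H44.WeilDefs

/-! helper25: piece WEIL-ALL of helper44's S2347 (part B): every element of `Sp` has an invertible
intertwiner (from the transvections, which generate `Sp`). -/

set_option autoImplicit false

namespace Cfsg.Agent.H25.Weil

open Matrix Module Cfsg.Agent.H17 Cfsg.Agent.H44.Weil

universe u

theorem allInt (hT : StTransvInt.{u}) : StAllInt.{u} := by
  intro F _ _ n h2 ψ hψ g
  have hg : g ∈ Subgroup.closure (transvSet n (⊤ : Submodule F (Fin n ⊕ Fin n → F))) := by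
    rw [closure_transvSet_top]
    exact Subgroup.mem_top g
  refine Subgroup.closure_induction
    (p := fun g _ => ∃ T : Module.End ℂ ((Fin n → F) → ℂ), IsUnit T ∧ IsInt n ψ g T)
    ?_ ?_ ?_ ?_ hg
  · rintro A ⟨w, -, c, hA⟩
    have hA' : A = spTransv n w c := Subtype.ext hA
    rw [hA']
    exact hT n h2 ψ hψ w c
  · refine ⟨1, isUnit_one, ?_⟩
    intro w
    rw [Submonoid.coe_one, Matrix.one_mulVec]
    rfl
  · rintro x y - - ⟨T₁, hu₁, h₁⟩ ⟨T₂, hu₂, h₂⟩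
    refine ⟨T₁ * T₂, hu₁.mul hu₂, ?_⟩
    intro w
    rw [sp_mul_mulVec]
    have e1 := h₂ w
    have e2 := h₁ ((y : Matrix (Fin n ⊕ Fin n) (Fin n ⊕ Fin n) F) *ᵥ w)
    calc (T₁ * T₂) ∘ₗ heis n ψ w = T₁ ∘ₗ (T₂ ∘ₗ heis n ψ w) := rfl
      _ = T₁ ∘ₗ (heis n ψ ((y : Matrix (Fin n ⊕ Fin n) (Fin n ⊕ Fin n) F) *ᵥ w) ∘ₗ T₂) := by
          rw [e1]
      _ = (T₁ ∘ₗ heis n ψ ((y : Matrix (Fin n ⊕ Fin n) (Fin n ⊕ Fin n) F) *ᵥ w)) ∘ₗ T₂ := rfl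
      _ = (heis n ψ ((x : Matrix (Fin n ⊕ Fin n) (Fin n ⊕ Fin n) F) *ᵥ
            ((y : Matrix (Fin n ⊕ Fin n) (Fin n ⊕ Fin n) F) *ᵥ w)) ∘ₗ T₁) ∘ₗ T₂ := by
          rw [e2]
      _ = heis n ψ ((x : Matrix (Fin n ⊕ Fin n) (Fin n ⊕ Fin n) F) *ᵥ
            ((y : Matrix (Fin n ⊕ Fin n) (Fin n ⊕ Fin n) F) *ᵥ w)) ∘ₗ (T₁ * T₂) := rfl
  · rintro x - ⟨T, hu, h⟩
    obtain ⟨U, rfl⟩ := hu
    refine ⟨((U⁻¹ : (Module.End ℂ ((Fin n → F) → ℂ))ˣ) : Module.End ℂ ((Fin n → F) → ℂ)),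
      Units.isUnit _, ?_⟩
    intro w
    have e1 := h (((x⁻¹ : Matrix.symplecticGroup (Fin n) F) :
      Matrix (Fin n ⊕ Fin n) (Fin n ⊕ Fin n) F) *ᵥ w)
    rw [sp_inv_mulVec] at e1
    have e1' : (U : Module.End ℂ ((Fin n → F) → ℂ)) *
        heis n ψ (((x⁻¹ : Matrix.symplecticGroup (Fin n) F) :
          Matrix (Fin n ⊕ Fin n) (Fin n ⊕ Fin n) F) *ᵥ w) =
        heis n ψ w * (U : Module.End ℂ ((Fin n → F) → ℂ)) := e1
    show ((U⁻¹ : (Module.End ℂ ((Fin n → F) → ℂ))ˣ) : Module.End ℂ ((Fin n → F) → ℂ)) *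
        heis n ψ w =
      heis n ψ (((x⁻¹ : Matrix.symplecticGroup (Fin n) F) :
          Matrix (Fin n ⊕ Fin n) (Fin n ⊕ Fin n) F) *ᵥ w) *
        ((U⁻¹ : (Module.End ℂ ((Fin n → F) → ℂ))ˣ) : Module.End ℂ ((Fin n → F) → ℂ))
    calc ((U⁻¹ : (Module.End ℂ ((Fin n → F) → ℂ))ˣ) : Module.End ℂ ((Fin n → F) → ℂ)) *
        heis n ψ w
        = ((U⁻¹ : (Module.End ℂ ((Fin n → F) → ℂ))ˣ) : Module.End ℂ ((Fin n → F) → ℂ)) *
            (heis n ψ w * (U : Module.End ℂ ((Fin n → F) → ℂ))) *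
            ((U⁻¹ : (Module.End ℂ ((Fin n → F) → ℂ))ˣ) : Module.End ℂ ((Fin n → F) → ℂ)) := by
          rw [mul_assoc, mul_assoc, Units.mul_inv, mul_one]
      _ = ((U⁻¹ : (Module.End ℂ ((Fin n → F) → ℂ))ˣ) : Module.End ℂ ((Fin n → F) → ℂ)) *
            ((U : Module.End ℂ ((Fin n → F) → ℂ)) *
              heis n ψ (((x⁻¹ : Matrix.symplecticGroup (Fin n) F) :
                Matrix (Fin n ⊕ Fin n) (Fin n ⊕ Fin n) F) *ᵥ w)) *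
            ((U⁻¹ : (Module.End ℂ ((Fin n → F) → ℂ))ˣ) : Module.End ℂ ((Fin n → F) → ℂ)) := by
          rw [e1']
      _ = heis n ψ (((x⁻¹ : Matrix.symplecticGroup (Fin n) F) :
              Matrix (Fin n ⊕ Fin n) (Fin n ⊕ Fin n) F) *ᵥ w) *
            ((U⁻¹ : (Module.End ℂ ((Fin n → F) → ℂ))ˣ) : Module.End ℂ ((Fin n → F) → ℂ)) := by
          rw [← mul_assoc, Units.inv_mul, one_mul]

example (hT : StTransvInt.{u}) : StAllInt.{u} := allInt hT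

end Cfsg.Agent.H25.Weil
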