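import Mathlib
import Cfsg.Agent.H44.WeilDefs

/-! helper25: piece WEIL-COMM of helper44's S2347 (part B): the commutant of the Schrödinger
operators consists of the scalars. -/

set_option autoImplicit false

namespace Cfsg.Agent.H25.Weil

open Matrix Module Cfsg.Agent.H17 Cfsg.Agent.H44.Weil

universe u

section

variable {F : Type u} [Field F] (n : ℕ)

/-- `heis (0, y)` is the multiplication by `ξ ↦ ψ (y · ξ)`. -/
theorem heis_mulop (ψ : AddChar F ℂ) (y : Fin n → F) (φ : (Fin n → F) → ℂ) (ξ : Fin n → F) :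
    heis n ψ (Sum.elim 0 y) φ ξ = ψ (y ⬝ᵥ ξ) * φ ξ := by
  rw [heis_apply]
  have hx : xpt n (Sum.elim (0 : Fin n → F) y) = 0 := rfl
  have hy : ypt n (Sum.elim (0 : Fin n → F) y) = y := rfl
  rw [hx, hy, zero_dotProduct, mul_zero, add_zero, add_zero]

/-- `heis (x, 0)` is the translation by `x`. -/
theorem heis_transl (ψ : AddChar F ℂ) (x : Fin n → F) (φ : (Fin n → F) → ℂ) (ξ : Fin n → F) :
    heis n ψ (Sum.elim x 0) φ ξ = φ (ξ + x) := by
  rw [heis_apply]
  have hx : xpt n (Sum.elim x (0 : Fin n → F)) = x := rfl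
  have hy : ypt n (Sum.elim x (0 : Fin n → F)) = 0 := rfl
  rw [hx, hy, zero_dotProduct, dotProduct_zero, mul_zero, add_zero, AddChar.map_zero_eq_one,
    one_mul]

end

theorem comm : StComm.{u} := by
  intro F _ _ n ψ hψ T hT
  classical
  have hψne : ∀ a : F, ψ a ≠ 0 := by
    intro a h0
    have h1 : ψ a * ψ (-a) = 1 := by
      rw [← AddChar.map_add_eq_mul, add_neg_cancel, AddChar.map_zero_eq_one]
    rw [h0, zero_mul] at h1
    exact zero_ne_one h1
  have hA : ∀ η ξ : Fin n → F, ξ ≠ η → T (Pi.single η 1) ξ = 0 := by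
    intro η ξ hne
    obtain ⟨i, hi⟩ := Function.ne_iff.mp hne
    have ha : ξ i - η i ≠ 0 := sub_ne_zero.mpr hi
    obtain ⟨b, hb⟩ : ∃ b, ψ ((ξ i - η i) * b) ≠ 1 := by
      have h1 := hψ ha
      by_contra hcon
      apply h1
      apply DFunLike.ext
      intro b
      rw [AddChar.mulShift_apply, AddChar.one_apply]
      by_contra hb
      exact hcon ⟨b, hb⟩
    have hcomm := congrArg (fun f => f (Pi.single η (1 : ℂ)) ξ)
      (hT (Sum.elim 0 (Pi.single i b)))
    simp only [LinearMap.comp_apply] at hcomm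
    rw [heis_mulop] at hcomm
    have hδ : heis n ψ (Sum.elim 0 (Pi.single i b)) (Pi.single η (1 : ℂ)) =
        ψ (b * η i) • Pi.single η (1 : ℂ) := by
      funext ζ
      rw [heis_mulop, Pi.smul_apply, smul_eq_mul, single_dotProduct]
      by_cases hζ : ζ = η
      · rw [hζ]
      · rw [Pi.single_eq_of_ne hζ, mul_zero, mul_zero]
    rw [hδ, map_smul, Pi.smul_apply, smul_eq_mul, single_dotProduct] at hcomm
    by_contra ht
    have h2 : ψ (b * η i) = ψ (b * ξ i) := mul_right_cancel₀ ht hcomm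
    apply hb
    have h3 : b * ξ i = b * η i + (ξ i - η i) * b := by ring
    rw [h3, AddChar.map_add_eq_mul] at h2
    have h4 : ψ (b * η i) * 1 = ψ (b * η i) * ψ ((ξ i - η i) * b) := by
      rw [mul_one]
      exact h2
    exact (mul_left_cancel₀ (hψne _) h4).symm
  have hB : ∀ η : Fin n → F,
      T (Pi.single η 1) = (T (Pi.single η 1) η) • Pi.single η (1 : ℂ) := by
    intro η
    funext ξ
    rw [Pi.smul_apply, smul_eq_mul]
    by_cases hξ : ξ = η
    · rw [hξ, Pi.single_eq_same, mul_one]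
    · rw [hA η ξ hξ, Pi.single_eq_of_ne hξ, mul_zero]
  have hC : ∀ η : Fin n → F, T (Pi.single η 1) η = T (Pi.single 0 1) 0 := by
    intro η
    have hcomm := congrArg (fun f => f (Pi.single η (1 : ℂ)) 0) (hT (Sum.elim η 0))
    simp only [LinearMap.comp_apply] at hcomm
    have hδ : heis n ψ (Sum.elim η 0) (Pi.single η (1 : ℂ)) = Pi.single 0 (1 : ℂ) := by
      funext ζ
      rw [heis_transl]
      by_cases hζ : ζ = 0
      · rw [hζ, zero_add, Pi.single_eq_same, Pi.single_eq_same]
      · rw [Pi.single_eq_of_ne hζ, Pi.single_eq_of_ne]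
        intro h
        apply hζ
        have h5 : ζ + η = 0 + η := by rw [h, zero_add]
        exact add_right_cancel h5
    rw [hδ, heis_transl, zero_add] at hcomm
    exact hcomm.symm
  refine ⟨T (Pi.single 0 1) 0, ?_⟩
  apply LinearMap.pi_ext
  intro η a
  have h1 : (Pi.single η a : (Fin n → F) → ℂ) = a • Pi.single η (1 : ℂ) := by
    rw [← Pi.single_smul, smul_eq_mul, mul_one]
  rw [h1, map_smul, map_smul, hB η, hC η]
  rfl

example : StComm.{u} := comm

end Cfsg.Agent.H25.Weil
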