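import Mathlib
import Cfsg.Agent.H44.WeilDefs

/-! helper25: piece WEIL-TRANSV of helper44's S2347 (part B): every symplectic transvection has
an invertible intertwiner, the Gauss-type sum `∑ s, ψ (-s²/(2c)) • heis (s • v)`. -/

set_option autoImplicit false

namespace Cfsg.Agent.H25.Weil

open Matrix Module Cfsg.Agent.H17 Cfsg.Agent.H44.Weil

universe u

theorem transvInt (hW : StWeyl.{u}) : StTransvInt.{u} := by
  intro F _ _ n h2 ψ hψ v c
  classical
  obtain ⟨h0, hmul⟩ := hW (F := F) n h2 ψ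
  by_cases hc : c = 0
  · subst hc
    refine ⟨1, isUnit_one, ?_⟩
    intro w
    rw [spTransv_mulVec, zero_mul, zero_smul, add_zero]
    rfl
  · have hvv : Cfsg.sympForm n F v v = 0 := sympForm_self n v
    have hline : ∀ s t : F, heis n ψ (s • v) * heis n ψ (t • v) = heis n ψ ((s + t) • v) := by
      intro s t
      show heis n ψ (s • v) ∘ₗ heis n ψ (t • v) = heis n ψ ((s + t) • v)
      rw [hmul, sympForm_smul_left, sympForm_smul_right, hvv, mul_zero, mul_zero, mul_zero,
        neg_zero, AddChar.map_zero_eq_one, one_smul, add_smul]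
    obtain ⟨a, ha⟩ : ∃ a : F → ℂ, ∀ s, a s = ψ (-((2 : F)⁻¹ * c⁻¹ * s * s)) :=
      ⟨_, fun _ => rfl⟩
    obtain ⟨b, hb⟩ : ∃ b : F → ℂ, ∀ s, b s = ψ ((2 : F)⁻¹ * c⁻¹ * s * s) := ⟨_, fun _ => rfl⟩
    obtain ⟨T, hTdef⟩ : ∃ T : Module.End ℂ ((Fin n → F) → ℂ),
        T = ∑ s : F, a s • heis n ψ (s • v) := ⟨_, rfl⟩
    obtain ⟨T', hT'def⟩ : ∃ T' : Module.End ℂ ((Fin n → F) → ℂ),
        T' = ((Fintype.card F : ℂ))⁻¹ • ∑ t : F, b t • heis n ψ (t • v) := ⟨_, rfl⟩
    have hcard : (Fintype.card F : ℂ) ≠ 0 := by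
      exact_mod_cast Fintype.card_ne_zero
    have hconv : ∀ u : F, ∑ s : F, a s * b (u - s) =
        if u = 0 then (Fintype.card F : ℂ) else 0 := by
      intro u
      have h3 : ∀ s : F, a s * b (u - s) =
          ψ ((2 : F)⁻¹ * c⁻¹ * u * u) * ψ (-(c⁻¹ * u) * s) := by
        intro s
        rw [ha, hb, ← AddChar.map_add_eq_mul, ← AddChar.map_add_eq_mul]
        congr 1
        field_simp
        ring
      simp_rw [h3, ← Finset.mul_sum]
      by_cases hu : u = 0
      · subst hu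
        simp
      · rw [if_neg hu]
        have hne : -(c⁻¹ * u) ≠ 0 := neg_ne_zero.mpr (mul_ne_zero (inv_ne_zero hc) hu)
        have h4 : ∑ s : F, ψ (-(c⁻¹ * u) * s) = 0 := by
          have h5 := AddChar.sum_eq_zero_of_ne_one (hψ hne)
          simpa [AddChar.mulShift_apply] using h5
        rw [h4, mul_zero]
    have hprod : T * T' = 1 := by
      rw [hTdef, hT'def, mul_smul_comm, Finset.sum_mul]
      have h1 : ∀ s : F, a s • heis n ψ (s • v) * ∑ t : F, b t • heis n ψ (t • v) =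
          ∑ u : F, (a s * b (u - s)) • heis n ψ (u • v) := by
        intro s
        rw [Finset.mul_sum]
        apply Fintype.sum_equiv (Equiv.addLeft s)
        intro t
        rw [smul_mul_smul_comm, hline, Equiv.coe_addLeft, add_sub_cancel_left]
      simp_rw [h1]
      rw [Finset.sum_comm]
      simp_rw [← Finset.sum_smul, hconv]
      rw [Finset.sum_eq_single 0]
      · rw [if_pos rfl, zero_smul, h0, smul_smul, inv_mul_cancel₀ hcard, one_smul]
        rfl
      · intro u _ hu
        rw [if_neg hu, zero_smul]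
      · intro h
        exact absurd (Finset.mem_univ _) h
    have hprod' : T' * T = 1 := mul_eq_one_comm.mp hprod
    refine ⟨T, ⟨⟨T, T', hprod, hprod'⟩, rfl⟩, ?_⟩
    intro w
    obtain ⟨κ, hκ⟩ : ∃ κ, κ = Cfsg.sympForm n F w v := ⟨_, rfl⟩
    rw [spTransv_mulVec, ← hκ]
    show T * heis n ψ w = heis n ψ (w + (c * κ) • v) * T
    rw [hTdef, Finset.sum_mul, Finset.mul_sum]
    symm
    apply Fintype.sum_equiv (Equiv.addRight (c * κ))
    intro s
    rw [Equiv.coe_addRight, mul_smul_comm, smul_mul_assoc]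
    show a s • (heis n ψ (w + (c * κ) • v) ∘ₗ heis n ψ (s • v)) =
      a (s + c * κ) • (heis n ψ ((s + c * κ) • v) ∘ₗ heis n ψ w)
    rw [hmul, hmul, smul_smul, smul_smul, ha, ha, ← AddChar.map_add_eq_mul,
      ← AddChar.map_add_eq_mul]
    have hX : w + (c * κ) • v + s • v = (s + c * κ) • v + w := by
      rw [add_smul]
      abel
    have hE : -((2 : F)⁻¹ * c⁻¹ * s * s) +
        -((2 : F)⁻¹ * Cfsg.sympForm n F (w + (c * κ) • v) (s • v)) =
        -((2 : F)⁻¹ * c⁻¹ * (s + c * κ) * (s + c * κ)) +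
        -((2 : F)⁻¹ * Cfsg.sympForm n F ((s + c * κ) • v) w) := by
      rw [sympForm_smul_right, sympForm_add_left, sympForm_smul_left, hvv, mul_zero, add_zero,
        sympForm_smul_left, sympForm_swap n v w, ← hκ]
      field_simp
      ring
    rw [hX, hE]

example (hW : StWeyl.{u}) : StTransvInt.{u} := transvInt hW

end Cfsg.Agent.H25.Weil
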