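import Mathlib
import Cfsg.Agent.H44.WeilDefs

/-! helper25: piece WEIL-WEYL of helper44's S2347 (part B): the Weyl relations of the
Schrödinger operators. -/

set_option autoImplicit false

namespace Cfsg.Agent.H25.Weil

open Matrix Module Cfsg.Agent.H17 Cfsg.Agent.H44.Weil

universe u

section

variable {F : Type u} [Field F] (n : ℕ)

theorem sympForm_xy (w w' : Fin n ⊕ Fin n → F) :
    Cfsg.sympForm n F w w' = ypt n w ⬝ᵥ xpt n w' - xpt n w ⬝ᵥ ypt n w' := by
  rw [sympForm_eq_sum, Finset.sum_sub_distrib]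
  rfl

theorem xpt_add (w w' : Fin n ⊕ Fin n → F) : xpt n (w + w') = xpt n w + xpt n w' := rfl

theorem ypt_add (w w' : Fin n ⊕ Fin n → F) : ypt n (w + w') = ypt n w + ypt n w' := rfl

theorem xpt_zero : xpt n (0 : Fin n ⊕ Fin n → F) = 0 := rfl

theorem ypt_zero : ypt n (0 : Fin n ⊕ Fin n → F) = 0 := rfl

end

theorem weyl : StWeyl.{u} := by
  intro F _ n h2 ψ
  constructor
  · apply LinearMap.ext
    intro φ
    funext ξ
    rw [heis_apply, xpt_zero, ypt_zero, zero_dotProduct, zero_dotProduct, mul_zero, add_zero,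
      AddChar.map_zero_eq_one, one_mul, add_zero, LinearMap.id_apply]
  · intro w w'
    apply LinearMap.ext
    intro φ
    funext ξ
    rw [LinearMap.comp_apply, heis_apply, heis_apply, LinearMap.smul_apply, Pi.smul_apply,
      heis_apply, smul_eq_mul, ← mul_assoc, ← mul_assoc, ← AddChar.map_add_eq_mul,
      ← AddChar.map_add_eq_mul]
    have hφ : ξ + xpt n w + xpt n w' = ξ + xpt n (w + w') := by rw [xpt_add, add_assoc]
    have hs : (2 : F) * 2⁻¹ = 1 := mul_inv_cancel₀ h2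
    have hexp : ypt n w ⬝ᵥ ξ + (2 : F)⁻¹ * (xpt n w ⬝ᵥ ypt n w) +
        (ypt n w' ⬝ᵥ (ξ + xpt n w) + (2 : F)⁻¹ * (xpt n w' ⬝ᵥ ypt n w')) =
        -((2 : F)⁻¹ * Cfsg.sympForm n F w w') +
        (ypt n (w + w') ⬝ᵥ ξ + (2 : F)⁻¹ * (xpt n (w + w') ⬝ᵥ ypt n (w + w'))) := by
      rw [sympForm_xy, xpt_add, ypt_add]
      simp only [add_dotProduct, dotProduct_add]
      rw [dotProduct_comm (ypt n w') (xpt n w), dotProduct_comm (ypt n w) (xpt n w')]
      linear_combination (-(xpt n w ⬝ᵥ ypt n w')) * hs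
    rw [hφ, hexp]

example : StWeyl.{u} := weyl

end Cfsg.Agent.H25.Weil
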