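import Cfsg.Agent.H72.ZasDefs
import Cfsg.Agent.H16.ZasSyl

/-!
# S0690 piece PN (for helper72's Zassenhaus project): proper normal subgroups have exponent 2

`stPn (h : StNoz) : StPn`.
-/

set_option autoImplicit false

namespace Cfsg.Agent.H25.Zas

open Cfsg.Agent.H72.Zas

open scoped Pointwise

universe u

/-- Elements of `Q₈`: `1`, the central involution, or of order 4. -/
theorem q8_cases : ∀ q : QuaternionGroup 2, q = 1 ∨
    q = QuaternionGroup.a 1 * QuaternionGroup.a 1 ∨ (¬ q ^ 2 = 1 ∧ q ^ 4 = 1) := by
  decide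

theorem q8_a_one : ¬ (QuaternionGroup.a 1 : QuaternionGroup 2) ^ 2 = 1 ∧
    (QuaternionGroup.a 1 : QuaternionGroup 2) ^ 4 = 1 := by
  decide

theorem q8_pow_four : ∀ q : QuaternionGroup 2, q ^ 4 = 1 := by
  decide

theorem orderOf_four_of_pow {G : Type u} [Group G] {x : G} (h2 : ¬ x ^ 2 = 1) (h4 : x ^ 4 = 1) :
    orderOf x = 4 := by
  have : Fact (Nat.Prime 2) := ⟨Nat.prime_two⟩
  have h := orderOf_eq_prime_pow (p := 2) (n := 1) (x := x) (by rw [pow_one]; exact h2)
    (by norm_num; exact h4)
  rw [h]; norm_num

theorem orderOf_conj_eq {G : Type u} [Group G] (c x : G) : orderOf (c * x * c⁻¹) = orderOf x := by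
  have := (MulAut.conj c).orderOf_eq x
  rwa [MulAut.conj_apply] at this

/-- Every Sylow 2-subgroup lies in a normal subgroup containing one of them. -/
theorem sylow_le_normal {G : Type u} [Group G] [Finite G] (S P : Sylow 2 G) (N : Subgroup G)
    (hN : N.Normal) (hSN : (S : Subgroup G) ≤ N) : (P : Subgroup G) ≤ N := by
  have : Fact (Nat.Prime 2) := ⟨Nat.prime_two⟩
  obtain ⟨c, hc⟩ := MulAction.exists_smul_eq G P S
  intro x hx
  have h1 : MulAut.conj c • x ∈ MulAut.conj c • (P : Subgroup G) :=
    Subgroup.smul_mem_pointwise_smul x _ _ hx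
  rw [← Sylow.coe_subgroup_smul, hc, MulAut.smul_def, MulAut.conj_apply] at h1
  have h2 := hN.conj_mem _ (hSN h1) c⁻¹
  have h3 : c⁻¹ * (c * x * c⁻¹) * c⁻¹⁻¹ = x := by group
  rwa [h3] at h2

/-- 2-elements have fourth power 1 when the Sylow 2-subgroups are `Q₈`. -/
theorem pow_four_of_two_elt {G : Type u} [Group G] [Finite G] (S : Sylow 2 G)
    (e : S ≃* QuaternionGroup 2) (x : G) (k : ℕ) (hx : x ^ (2 ^ k) = 1) : x ^ 4 = 1 := by
  have : Fact (Nat.Prime 2) := ⟨Nat.prime_two⟩
  have hp : IsPGroup 2 (Subgroup.zpowers x) := by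
    obtain ⟨j, -, hj⟩ := (Nat.dvd_prime_pow Nat.prime_two).mp (orderOf_dvd_of_pow_eq_one hx)
    exact IsPGroup.of_card (n := j) (by rw [Nat.card_zpowers, hj])
  obtain ⟨Q, hQ⟩ := hp.exists_le_sylow
  obtain ⟨c, hc⟩ := MulAction.exists_smul_eq G Q S
  have hxQ : x ∈ (Q : Subgroup G) := hQ (Subgroup.mem_zpowers x)
  have h1 : MulAut.conj c • x ∈ MulAut.conj c • (Q : Subgroup G) :=
    Subgroup.smul_mem_pointwise_smul x _ _ hxQ
  rw [← Sylow.coe_subgroup_smul, hc, MulAut.smul_def, MulAut.conj_apply] at h1
  have h2 : (⟨c * x * c⁻¹, h1⟩ : S) ^ 4 = 1 := by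
    apply e.injective
    rw [map_pow, map_one]
    exact q8_pow_four _
  have h3 : (c * x * c⁻¹) ^ 4 = 1 := by
    have := congrArg (fun y : S => (y : G)) h2
    simpa using this
  rw [conj_pow] at h3
  have h4 : x ^ 4 = c⁻¹ * (c * x ^ 4 * c⁻¹) * c := by group
  rw [h4, h3]; group

/-- **S0690-PN.** -/
theorem stPn (h : StNoz.{u}) : StPn.{u} := by
  intro G _ _ hZ hperf S ⟨e⟩ hC N hN hNtop g hg
  have : Fact (Nat.Prime 2) := ⟨Nat.prime_two⟩
  by_cases hA : ∃ v ∈ N, orderOf v = 4
  · exfalso
    obtain ⟨v, hvN, hv4⟩ := hA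
    -- all elements of order 4 are in N
    have h4 : ∀ w : G, orderOf w = 4 → w ∈ N := by
      intro w hw
      obtain ⟨c, hc⟩ := hC v w hv4 hw
      rw [← hc]
      exact hN.conj_mem v hvN c
    -- S ≤ N
    have hSN : (S : Subgroup G) ≤ N := by
      intro s hs
      have ht0 : ((e.symm (QuaternionGroup.a 1) : S) : G) ∈ N := by
        apply h4
        apply orderOf_four_of_pow
        · intro h2
          apply q8_a_one.1
          have h3 : (e.symm (QuaternionGroup.a 1) : S) ^ 2 = 1 := by
            apply Subtype.ext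
            simpa using h2
          have h5 := congrArg e h3
          rwa [map_pow, map_one, MulEquiv.apply_symm_apply] at h5
        · have h3 : (e.symm (QuaternionGroup.a 1) : S) ^ 4 = 1 := by
            apply e.injective
            rw [map_pow, map_one, MulEquiv.apply_symm_apply]
            exact q8_a_one.2
          have := congrArg (fun y : S => (y : G)) h3
          simpa using this
      rcases q8_cases (e ⟨s, hs⟩) with h1 | h1 | ⟨h1, h2⟩
      · have h3 : (⟨s, hs⟩ : S) = 1 := by
          apply e.injective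
          rw [h1, map_one]
        have := congrArg (fun y : S => (y : G)) h3
        simp only [Subgroup.coe_one] at this
        rw [this]; exact one_mem N
      · have h3 : (⟨s, hs⟩ : S) = e.symm (QuaternionGroup.a 1) * e.symm (QuaternionGroup.a 1) := by
          apply e.injective
          rw [h1, map_mul, MulEquiv.apply_symm_apply]
        have := congrArg (fun y : S => (y : G)) h3
        simp only [Subgroup.coe_mul] at this
        rw [this]; exact N.mul_mem ht0 ht0
      · apply h4
        apply orderOf_four_of_pow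
        · intro h3
          apply h1
          have h5 : (⟨s, hs⟩ : S) ^ 2 = 1 := by
            apply Subtype.ext
            simpa using h3
          rw [← map_pow, h5, map_one]
        · have h3 : (⟨s, hs⟩ : S) ^ 4 = 1 := by
            apply e.injective
            rw [map_pow, map_one]
            exact h2
          have := congrArg (fun y : S => (y : G)) h3
          simpa using this
    -- all Sylow subgroups of G ⧸ N are cyclic
    have : IsZGroup (G ⧸ N) := by
      refine ⟨fun p hp P => ?_⟩
      have : Fact p.Prime := ⟨hp⟩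
      obtain ⟨P₀, rfl⟩ := Sylow.mapSurjective_surjective (QuotientGroup.mk'_surjective N) p P
      rcases Cfsg.Agent.H16.Zas.part1 hZ p (P₀ : Subgroup G) P₀.isPGroup' with hc | ⟨h2, -⟩
      · have := hc
        exact isCyclic_of_surjective ((QuotientGroup.mk' N).subgroupMap (P₀ : Subgroup G))
          (MonoidHom.subgroupMap_surjective _ _)
      · subst h2
        have hP₀N : (P₀ : Subgroup G) ≤ N := sylow_le_normal S P₀ N hN hSN
        have hbot : (P₀ : Subgroup G).map (QuotientGroup.mk' N) = ⊥ := by
          rw [Subgroup.map_eq_bot_iff, QuotientGroup.ker_mk']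
          exact hP₀N
        have hss : Subsingleton ↥((P₀ : Subgroup G).map (QuotientGroup.mk' N)) := by
          rw [hbot]; infer_instance
        exact @isCyclic_of_subsingleton ↥((P₀ : Subgroup G).map (QuotientGroup.mk' N)) _ hss
    have : Nontrivial (G ⧸ N) := by
      by_contra hnn
      rw [not_nontrivial_iff_subsingleton] at hnn
      exact hNtop (QuotientGroup.subgroup_eq_top_of_subsingleton N hnn)
    have hlt := IsZGroup.commutator_lt (G := G ⧸ N)
    apply hlt.ne
    rw [commutator_def, ← Subgroup.map_top_of_surjective (QuotientGroup.mk' N)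
      (QuotientGroup.mk'_surjective N), ← Subgroup.map_commutator, ← commutator_def, hperf]
  · -- no element of order 4 in `N`
    push Not at hA
    have hsq : ∀ x ∈ N, ∀ k : ℕ, x ^ (2 ^ k) = 1 → x * x = 1 := by
      intro x hx k hk
      have h4 := pow_four_of_two_elt S e x k hk
      by_contra hne
      apply hA x hx
      exact orderOf_four_of_pow (by rw [pow_two]; exact hne) h4
    have hcen : ∀ x : G, x * x = 1 → ∀ c : G, c * x = x * c := by
      intro x hx c
      by_cases hx1 : x = 1
      · rw [hx1, mul_one, one_mul]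
      · have ho : orderOf x = 2 := orderOf_eq_prime (by rw [pow_two]; exact hx) hx1
        have ho' : orderOf (c * x * c⁻¹) = 2 := by rw [orderOf_conj_eq]; exact ho
        have h5 := hZ.invol _ _ ho' ho
        calc c * x = (c * x * c⁻¹) * c := by group
          _ = x * c := by rw [h5]
    -- a Sylow 2-subgroup of `N`
    obtain ⟨T⟩ : Nonempty (Sylow 2 N) := inferInstance
    have hT2 : ∀ t : N, t ∈ T → (t : G) * (t : G) = 1 := by
      intro t ht
      obtain ⟨k, hk⟩ := T.isPGroup' ⟨t, ht⟩
      apply hsq t t.2 k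
      have := congrArg (fun y : T => ((y : N) : G)) hk
      simpa using this
    have hTc : Subgroup.normalizer (T : Set N) ≤ Subgroup.centralizer (T : Set N) := by
      intro n _ t ht
      apply Subtype.ext
      simp only [Subgroup.coe_mul]
      exact (hcen (t : G) (hT2 t ht) (n : G)).symm
    have hKodd : ¬ 2 ∣ Nat.card (MonoidHom.transferSylow T hTc).ker :=
      MonoidHom.not_dvd_card_ker_transferSylow T hTc
    have hcompl : Subgroup.IsComplement' (MonoidHom.transferSylow T hTc).ker (T : Subgroup N) :=
      MonoidHom.ker_transferSylow_isComplement' T hTc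
    -- the kernel consists of the elements of odd order
    have hKchar : ∀ x : N, x ∈ (MonoidHom.transferSylow T hTc).ker ↔ Odd (orderOf x) := by
      intro x
      constructor
      · intro hx
        have h1 : orderOf (⟨x, hx⟩ : (MonoidHom.transferSylow T hTc).ker) ∣
            Nat.card (MonoidHom.transferSylow T hTc).ker := orderOf_dvd_natCard _
        have h2 : orderOf (⟨x, hx⟩ : (MonoidHom.transferSylow T hTc).ker) = orderOf x := by
          rw [← Subgroup.orderOf_coe]
        rw [h2] at h1
        rw [← Nat.not_even_iff_odd, even_iff_two_dvd]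
        intro h3
        exact hKodd (h3.trans h1)
      · intro hx
        rw [MonoidHom.mem_ker]
        have h1 : orderOf (MonoidHom.transferSylow T hTc x) ∣ orderOf x := orderOf_map_dvd _ x
        obtain ⟨k, hk⟩ := (IsPGroup.iff_orderOf.mp T.isPGroup') (MonoidHom.transferSylow T hTc x)
        have h2 : Odd (orderOf (MonoidHom.transferSylow T hTc x)) := hx.of_dvd_nat h1
        rw [hk] at h2
        have hk0 : k = 0 := by
          by_contra hk0
          have h3 : Even (2 ^ k) := Nat.even_pow.mpr ⟨even_two, hk0⟩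
          exact (Nat.not_even_iff_odd.mpr h2) h3
        rw [hk0, pow_zero] at hk
        exact orderOf_eq_one_iff.mp hk
    have hKn : ((MonoidHom.transferSylow T hTc).ker.map N.subtype).Normal := by
      constructor
      intro x hx c
      obtain ⟨x', hx', rfl⟩ := Subgroup.mem_map.mp hx
      refine Subgroup.mem_map.mpr ⟨⟨c * x' * c⁻¹, hN.conj_mem _ x'.2 c⟩, ?_, rfl⟩
      rw [hKchar] at hx' ⊢
      have h1 : orderOf (⟨c * x' * c⁻¹, hN.conj_mem _ x'.2 c⟩ : N) = orderOf x' := by
        rw [← Subgroup.orderOf_coe, ← Subgroup.orderOf_coe x']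
        exact orderOf_conj_eq c _
      rwa [h1]
    have hKodd' : Odd (Nat.card ((MonoidHom.transferSylow T hTc).ker.map N.subtype)) := by
      rw [Subgroup.card_map_of_injective N.subtype_injective]
      exact Nat.not_even_iff_odd.mp (fun h3 => hKodd (even_iff_two_dvd.mp h3))
    have hKbot := h G hZ hperf _ hKn hKodd'
    rw [Subgroup.map_eq_bot_iff_of_injective _ N.subtype_injective] at hKbot
    rw [hKbot] at hcompl
    have hTtop : (T : Subgroup N) = ⊤ := Subgroup.isComplement'_bot_left.mp hcompl
    have hgT : (⟨g, hg⟩ : N) ∈ (T : Subgroup N) := by rw [hTtop]; trivial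
    exact hT2 ⟨g, hg⟩ hgT

end Cfsg.Agent.H25.Zas
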