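import Cfsg.Agent.H72.ZasDefs

/-!
# S0690 pieces TYP1 and TYP2 (for helper72's Zassenhaus project)

`typ1 : StTyp1` and `typ2 : StTyp2`: the two "type" facts about the groups of the list
`Small5` (cyclic, dihedral, `A₄`, `S₄`, `A₅`).
-/

set_option autoImplicit false

namespace Cfsg.Agent.H25.Zas

open Cfsg.Agent.H72.Zas

universe u

/-- Basic consequences of a triple of involutions cyclically permuted by `x`. -/
theorem tri_basic {Q : Type u} [Group Q] {t s x : Q} (ht1 : t ≠ 1) (htt : t * t = 1)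
    (hst : s * t = t * s) (hxt : x * t * x⁻¹ = s) (hxs : x * s * x⁻¹ = t * s) :
    s ≠ 1 ∧ s * s = 1 ∧ x * (t * s) * x⁻¹ = t := by
  have hs1 : s ≠ 1 := by
    intro h
    apply ht1
    rw [h] at hxt
    have h2 : t = x⁻¹ * (x * t * x⁻¹) * x := by group
    rw [h2, hxt]; group
  have hss : s * s = 1 := by
    rw [← hxt]
    calc x * t * x⁻¹ * (x * t * x⁻¹) = x * (t * t) * x⁻¹ := by group
      _ = 1 := by rw [htt]; group
  refine ⟨hs1, hss, ?_⟩
  calc x * (t * s) * x⁻¹ = (x * t * x⁻¹) * (x * s * x⁻¹) := by group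
    _ = s * (t * s) := by rw [hxt, hxs]
    _ = t * (s * s) := by rw [← mul_assoc, hst, mul_assoc]
    _ = t := by rw [hss, mul_one]

/-- `x` commutes with none of `t`, `s`, `t * s`. -/
theorem tri_no_fix {Q : Type u} [Group Q] {t s x : Q} (ht1 : t ≠ 1) (htt : t * t = 1)
    (hst : s * t = t * s) (hxt : x * t * x⁻¹ = s) (hxs : x * s * x⁻¹ = t * s) :
    x * t ≠ t * x ∧ x * s ≠ s * x ∧ x * (t * s) ≠ (t * s) * x := by
  obtain ⟨hs1, hss, hxts⟩ := tri_basic ht1 htt hst hxt hxs
  have hB : x * s ≠ s * x := by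
    intro h
    apply ht1
    have h2 : x * s * x⁻¹ = s := by rw [h]; group
    rw [h2] at hxs
    -- s = t * s
    have h3 : t * s = 1 * s := by rw [one_mul]; exact hxs.symm
    exact mul_right_cancel h3
  refine ⟨?_, hB, ?_⟩
  · intro h
    have h2 : x * t * x⁻¹ = t := by rw [h]; group
    rw [h2] at hxt
    -- t = s
    apply hB
    rw [← hxt]; exact h
  · intro h
    apply hs1
    have h2 : x * (t * s) * x⁻¹ = t * s := by rw [h]; group
    rw [h2] at hxts
    have h3 : t * s = t * 1 := by rw [mul_one]; exact hxts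
    exact mul_left_cancel h3

/-- No such triple in a cyclic group. -/
theorem cyc_tri {Q : Type u} [Group Q] (hc : IsCyclic Q) {t s x : Q} (ht1 : t ≠ 1)
    (htt : t * t = 1) (hst : s * t = t * s) (hxt : x * t * x⁻¹ = s)
    (hxs : x * s * x⁻¹ = t * s) : False := by
  obtain ⟨h1, -, -⟩ := tri_no_fix ht1 htt hst hxt hxs
  obtain ⟨g, hg⟩ := hc.exists_generator
  obtain ⟨i, hi⟩ := Subgroup.mem_zpowers_iff.mp (hg x)
  obtain ⟨j, hj⟩ := Subgroup.mem_zpowers_iff.mp (hg t)
  apply h1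
  rw [← hi, ← hj, ← zpow_add, ← zpow_add, add_comm]

/-- No such triple in a dihedral group. -/
theorem dih_tri (k : ℕ) {t s x : DihedralGroup k} (ht1 : t ≠ 1) (htt : t * t = 1)
    (hst : s * t = t * s) (hxt : x * t * x⁻¹ = s) (hxs : x * s * x⁻¹ = t * s) : False := by
  obtain ⟨hs1, hss, hxts⟩ := tri_basic ht1 htt hst hxt hxs
  obtain ⟨h1, h2, h3⟩ := tri_no_fix ht1 htt hst hxt hxs
  have hrr : ∀ i j : ZMod k, DihedralGroup.r i * DihedralGroup.r j =
      DihedralGroup.r j * DihedralGroup.r i := by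
    intro i j
    rw [DihedralGroup.r_mul_r, DihedralGroup.r_mul_r, add_comm]
  cases x with
  | r i =>
    cases t with
    | r j => exact h1 (hrr i j)
    | sr j =>
      cases s with
      | r l => exact h2 (hrr i l)
      | sr l =>
        apply h3
        rw [DihedralGroup.sr_mul_sr]
        exact hrr i _
  | sr i =>
    have hxx : DihedralGroup.sr i * DihedralGroup.sr i = (1 : DihedralGroup k) :=
      DihedralGroup.sr_mul_self i
    have hinv : (DihedralGroup.sr i : DihedralGroup k)⁻¹ = DihedralGroup.sr i :=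
      inv_eq_of_mul_eq_one_left hxx
    rw [hinv] at hxt hxs
    apply hs1
    have h4 : t * s = t := by
      rw [← hxs, ← hxt]
      calc DihedralGroup.sr i * (DihedralGroup.sr i * t * DihedralGroup.sr i) * DihedralGroup.sr i
          = (DihedralGroup.sr i * DihedralGroup.sr i) * t *
            (DihedralGroup.sr i * DihedralGroup.sr i) := by group
        _ = t := by rw [hxx, one_mul, mul_one]
    have h5 : t * s = t * 1 := by rw [mul_one]; exact h4
    exact mul_left_cancel h5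

/-- Transport of a triple along a group isomorphism. -/
theorem tri_map {Q R : Type*} [Group Q] [Group R] (e : Q ≃* R) {t s x : Q} (ht1 : t ≠ 1)
    (htt : t * t = 1) (hst : s * t = t * s) (hxt : x * t * x⁻¹ = s)
    (hxs : x * s * x⁻¹ = t * s) :
    e t ≠ 1 ∧ e t * e t = 1 ∧ e s * e t = e t * e s ∧ e x * e t * (e x)⁻¹ = e s ∧
      e x * e s * (e x)⁻¹ = e t * e s := by
  refine ⟨?_, ?_, ?_, ?_, ?_⟩
  · intro h
    apply ht1
    apply e.injective
    rw [h, map_one]
  · rw [← map_mul, htt, map_one]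
  · rw [← map_mul, ← map_mul, hst]
  · rw [← hxt, map_mul, map_mul, map_inv]
  · have h0 : e (x * s * x⁻¹) = e (t * s) := by rw [hxs]
    rw [map_mul, map_mul, map_inv, map_mul] at h0
    exact h0

/-! ## The permutation cases -/

set_option maxRecDepth 100000 in
theorem d4 : ∀ g : Equiv.Perm (Fin 4), Equiv.Perm.sign g = 1 → g ^ 4 = 1 → g ^ 2 = 1 := by
  decide

set_option maxRecDepth 1000000 in
theorem d5 : ∀ g : Equiv.Perm (Fin 5), Equiv.Perm.sign g = 1 → g ^ 4 = 1 → g ^ 2 = 1 := by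
  decide

set_option maxRecDepth 100000 in
theorem c4 : ∀ t : Equiv.Perm (Fin 4), t ≠ 1 → t * t = 1 → Equiv.Perm.sign t = 1 →
    ∀ u : Equiv.Perm (Fin 4), u * t = t * u → u ^ 3 = 1 → u = 1 := by
  decide

set_option maxRecDepth 1000000 in
set_option maxHeartbeats 4000000 in
theorem c5 : ∀ t : Equiv.Perm (Fin 5), t ≠ 1 → t * t = 1 → Equiv.Perm.sign t = 1 →
    ∀ u : Equiv.Perm (Fin 5), u * t = t * u → u ^ 15 = 1 → u = 1 := by
  decide

theorem odd_pow4 (g : Equiv.Perm (Fin 4)) (h : Odd (orderOf g)) : g ^ 3 = 1 := by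
  have h1 : orderOf g ∣ 3 * 8 := by
    have h0 := orderOf_dvd_card (x := g)
    rw [Fintype.card_perm, Fintype.card_fin] at h0
    exact h0
  have h2 : Nat.Coprime (orderOf g) 8 := by
    have h3 : Nat.Coprime (orderOf g) 2 := Nat.coprime_two_right.mpr h
    exact Nat.Coprime.pow_right 3 h3
  exact orderOf_dvd_iff_pow_eq_one.mp (Nat.Coprime.dvd_of_dvd_mul_right h2 h1)

theorem odd_pow5 (g : Equiv.Perm (Fin 5)) (h : Odd (orderOf g)) : g ^ 15 = 1 := by
  have h1 : orderOf g ∣ 15 * 8 := by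
    have h0 := orderOf_dvd_card (x := g)
    rw [Fintype.card_perm, Fintype.card_fin] at h0
    exact h0
  have h2 : Nat.Coprime (orderOf g) 8 := by
    have h3 : Nat.Coprime (orderOf g) 2 := Nat.coprime_two_right.mpr h
    exact Nat.Coprime.pow_right 3 h3
  exact orderOf_dvd_iff_pow_eq_one.mp (Nat.Coprime.dvd_of_dvd_mul_right h2 h1)

/-- sign of a conjugate. -/
theorem hom_conj_units {Q : Type u} [Group Q] (φ : Q →* ℤˣ) (x y : Q) :
    φ (x * y * x⁻¹) = φ y := by
  rw [map_mul, map_mul, map_inv, mul_comm (φ x), mul_assoc, mul_inv_cancel, mul_one]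

/-- TYP1 for a group embedded in a symmetric group. -/
theorem perm_typ1 {Q : Type u} [Group Q] {m N : ℕ} (f : Q →* Equiv.Perm (Fin m))
    (hf : Function.Injective f)
    (hC : ∀ t : Equiv.Perm (Fin m), t ≠ 1 → t * t = 1 → Equiv.Perm.sign t = 1 →
      ∀ u : Equiv.Perm (Fin m), u * t = t * u → u ^ N = 1 → u = 1)
    (hN : ∀ g : Equiv.Perm (Fin m), Odd (orderOf g) → g ^ N = 1)
    {t s x u : Q} (ht1 : t ≠ 1) (htt : t * t = 1) (hxt : x * t * x⁻¹ = s)
    (hxs : x * s * x⁻¹ = t * s) (hu : Odd (orderOf u)) (hut : u * t = t * u) : u = 1 := by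
  have e1 : (Equiv.Perm.sign.comp f) s = (Equiv.Perm.sign.comp f) t := by
    rw [← hxt]; exact hom_conj_units _ x t
  have e2 : (Equiv.Perm.sign.comp f) (t * s) = (Equiv.Perm.sign.comp f) s := by
    rw [← hxs]; exact hom_conj_units _ x s
  have e3 : (Equiv.Perm.sign.comp f) t = 1 := by
    rw [map_mul, e1] at e2
    have e4 : (Equiv.Perm.sign.comp f) t * (Equiv.Perm.sign.comp f) t =
        (Equiv.Perm.sign.comp f) t * 1 := by rw [mul_one]; exact e2
    exact mul_left_cancel e4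
  apply hf
  rw [map_one]
  refine hC (f t) ?_ ?_ e3 (f u) ?_ ?_
  · intro h
    exact ht1 (hf (by rw [h, map_one]))
  · rw [← map_mul, htt, map_one]
  · rw [← map_mul, ← map_mul, hut]
  · apply hN
    rw [orderOf_injective f hf u]
    exact hu

/-- TYP2 for a group embedded in a symmetric group without even elements of order 4. -/
theorem perm_typ2 {Q : Type u} [Group Q] [Finite Q] {m : ℕ} (f : Q →* Equiv.Perm (Fin m))
    (hf : Function.Injective f)
    (hD : ∀ g : Equiv.Perm (Fin m), Equiv.Perm.sign g = 1 → g ^ 4 = 1 → g ^ 2 = 1)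
    {a b x₁ x₂ : Q} {n : ℕ} (ha : orderOf a = 2 * n) (hn : Even n)
    (h1 : x₁ * a ^ n * x₁⁻¹ = b) (h2 : x₂ * a ^ n * x₂⁻¹ = a * b) : False := by
  obtain ⟨k, rfl⟩ := hn
  have han : (Equiv.Perm.sign.comp f) (a ^ (k + k)) = 1 := by
    rw [map_pow, pow_add, ← mul_pow, Int.units_mul_self, one_pow]
  have hb : (Equiv.Perm.sign.comp f) b = 1 := by
    rw [← h1, hom_conj_units]; exact han
  have hab : (Equiv.Perm.sign.comp f) (a * b) = 1 := by
    rw [← h2, hom_conj_units]; exact han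
  have hφa : (Equiv.Perm.sign.comp f) a = 1 := by
    rw [map_mul, hb, mul_one] at hab; exact hab
  have h4 : a ^ (k * 4) = 1 := by
    have h5 : k * 4 = orderOf a := by rw [ha]; ring
    rw [h5]; exact pow_orderOf_eq_one a
  have key : f (a ^ k) ^ 2 = 1 := by
    apply hD
    · change (Equiv.Perm.sign.comp f) (a ^ k) = 1
      rw [map_pow, hφa, one_pow]
    · rw [← map_pow, ← pow_mul, h4, map_one]
  rw [← map_pow, ← pow_mul] at key
  have h6 : a ^ (k * 2) = 1 := hf (by rw [key, map_one])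
  have h7 : orderOf a ∣ k * 2 := orderOf_dvd_of_pow_eq_one h6
  have h8 : 0 < orderOf a := orderOf_pos a
  rw [ha] at h7 h8
  have h9 : 0 < k := by omega
  have h10 := Nat.le_of_dvd (by omega) h7
  omega

/-- **S0690-TYP1.** -/
theorem typ1 : StTyp1.{u} := by
  intro Q _ _ hQ t s x u ht1 htt hst hxt hxs hu hut
  rcases hQ with hc | ⟨k, ⟨e⟩⟩ | ⟨⟨e⟩⟩ | ⟨⟨e⟩⟩ | ⟨⟨e⟩⟩
  · exact (cyc_tri hc ht1 htt hst hxt hxs).elim
  · obtain ⟨g1, g2, g3, g4, g5⟩ := tri_map e ht1 htt hst hxt hxs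
    exact (dih_tri k g1 g2 g3 g4 g5).elim
  · exact perm_typ1 ((alternatingGroup (Fin 4)).subtype.comp e.toMonoidHom)
      (Subtype.coe_injective.comp e.injective) c4 odd_pow4 ht1 htt hxt hxs hu hut
  · exact perm_typ1 e.toMonoidHom e.injective c4 odd_pow4 ht1 htt hxt hxs hu hut
  · exact perm_typ1 ((alternatingGroup (Fin 5)).subtype.comp e.toMonoidHom)
      (Subtype.coe_injective.comp e.injective) c5 odd_pow5 ht1 htt hxt hxs hu hut

/-- **S0690-TYP2.** -/
theorem typ2 : StTyp2.{u} := by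
  intro Q _ _ hQ a b x₁ x₂ n ha hn hbb hba h1 h1' h2 h2'
  -- `t = a ^ n` is an involution commuting with `b`
  have hpos : 0 < orderOf a := orderOf_pos a
  have hn0 : 0 < n := by omega
  have ht1 : a ^ n ≠ 1 := by
    apply pow_ne_one_of_lt_orderOf (Nat.pos_iff_ne_zero.mp hn0)
    omega
  have htt : a ^ n * a ^ n = 1 := by
    rw [← pow_add]
    have h5 : n + n = orderOf a := by omega
    rw [h5]; exact pow_orderOf_eq_one a
  have hinv : (a ^ n)⁻¹ = a ^ n := inv_eq_of_mul_eq_one_left htt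
  have hbt : b * a ^ n = a ^ n * b := by
    have h3 : b * a ^ n * b⁻¹ = a ^ n := by
      have h4 : b * a ^ n * b⁻¹ = (b * a * b⁻¹) ^ n := by
        rw [conj_pow]
      rw [h4, hba, inv_pow, hinv]
    calc b * a ^ n = b * a ^ n * b⁻¹ * b := by group
      _ = a ^ n * b := by rw [h3]
  rcases hQ with hc | ⟨k, ⟨e⟩⟩ | ⟨⟨e⟩⟩ | ⟨⟨e⟩⟩ | ⟨⟨e⟩⟩
  · exact cyc_tri hc ht1 htt hbt h1 h1'
  · obtain ⟨g1, g2, g3, g4, g5⟩ := tri_map e ht1 htt hbt h1 h1'
    exact dih_tri k g1 g2 g3 g4 g5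
  · exact perm_typ2 ((alternatingGroup (Fin 4)).subtype.comp e.toMonoidHom)
      (Subtype.coe_injective.comp e.injective) d4 ha hn h1 h2
  · exact perm_typ2 e.toMonoidHom e.injective d4 ha hn h1 h2
  · exact perm_typ2 ((alternatingGroup (Fin 5)).subtype.comp e.toMonoidHom)
      (Subtype.coe_injective.comp e.injective) d5 ha hn h1 h2

end Cfsg.Agent.H25.Zas
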